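import Mathlib
import Cfsg.Agent.Lib.PGroups.AltGen2
import Cfsg.Agent.Lib.Small.Basic

/-!
Multiple transitivity from a prime cycle with two fixed points; even involutions; the degree `7`
case: a primitive group of even permutations of degree `7` with a `5`-cycle is `A₇`.
-/

set_option autoImplicit false
set_option linter.unusedSectionVars false
set_option linter.style.haveILetI false

namespace Cfsg.Agent.Lib.PGroups

open MulAction SubMulAction Subgroup Equiv.Perm
open scoped Pointwise

variable {Δ : Type*} [Fintype Δ] [DecidableEq Δ]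

/-- A primitive group containing a prime cycle with exactly two fixed points is `3`-transitive. -/
theorem isMultiplyPretransitive_three {G : Subgroup (Equiv.Perm Δ)} (hG : IsPreprimitive G Δ)
    {g : Equiv.Perm Δ} (hg : g ∈ G) (hgc : g.IsCycle) {p : ℕ} (hp : p.Prime)
    (hgp : g.support.card = p) (hcard : p + 2 = Fintype.card Δ) : IsMultiplyPretransitive G Δ 3 := by
  classical
  set s : Set Δ := (g.support : Set Δ)ᶜ with hs
  have hcs : s.ncard = 1 + 1 := by
    rw [hs, Cfsg.Agent.Lib.Perm.jc_ncard_compl, hgp]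
    omega
  have hp1 := hp.one_lt
  have hm' : 1 + 2 < Nat.card Δ := by
    rw [Nat.card_eq_fintype_card]
    omega
  have hpre : IsPretransitive (fixingSubgroup G s) (ofFixingSubgroup G s) :=
    isPretransitive_of_isCycle_mem hgc hg
  have hprim : IsPreprimitive (fixingSubgroup G s) (ofFixingSubgroup G s) := by
    apply IsPreprimitive.of_prime_card
    convert! hp
    rw [Nat.card_eq_fintype_card, Fintype.card_subtype, ← hgp]
    apply congr_arg
    ext x
    simp [SubMulAction.mem_ofFixingSubgroup_iff, hs]
  have hmp : IsMultiplyPreprimitive G Δ (1 + 2) := hG.isMultiplyPreprimitive hcs hm' hprim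
  exact hmp.isMultiplyPretransitive

/-- Triples can be moved to triples. -/
theorem exists_map_triple {G : Subgroup (Equiv.Perm Δ)} (ht : IsMultiplyPretransitive G Δ 3)
    {a b c a' b' c' : Δ} (hab : a ≠ b) (hac : a ≠ c) (hbc : b ≠ c) (hab' : a' ≠ b') (hac' : a' ≠ c')
    (hbc' : b' ≠ c') : ∃ g ∈ G, g a = a' ∧ g b = b' ∧ g c = c' := by
  let u : Fin 3 ↪ Δ := ⟨![a, b, c], by
    intro i j hij
    fin_cases i <;> fin_cases j <;> simp_all⟩
  let v : Fin 3 ↪ Δ := ⟨![a', b', c'], by
    intro i j hij
    fin_cases i <;> fin_cases j <;> simp_all⟩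
  obtain ⟨g, hg⟩ := ht.exists_smul_eq u v
  refine ⟨g, g.2, ?_, ?_, ?_⟩
  · exact congrArg (fun f : Fin 3 ↪ Δ => f 0) hg
  · exact congrArg (fun f : Fin 3 ↪ Δ => f 1) hg
  · exact congrArg (fun f : Fin 3 ↪ Δ => f 2) hg

/-- The support of an even involution has size divisible by `4`. -/
theorem four_dvd_support_of_even_involution {t : Equiv.Perm Δ} (ha : t ∈ alternatingGroup Δ)
    (ho : orderOf t = 2) : 4 ∣ t.support.card := by
  have hp : (orderOf t).Prime := by rw [ho]; exact Nat.prime_two
  obtain ⟨n, hn⟩ := cycleType_prime_order hp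
  have hsum : t.support.card = 2 * (n + 1) := by
    rw [← sum_cycleType, hn, Multiset.sum_replicate, ho]
    simp [mul_comm]
  have hsign : Equiv.Perm.sign t = 1 := ha
  rw [sign_of_cycleType, sum_cycleType, hn, hsum, Multiset.card_replicate] at hsign
  have h3 : 2 * (n + 1) + (n + 1) = 3 * (n + 1) := by ring
  rw [h3] at hsign
  have h4 : Even (3 * (n + 1)) := by
    by_contra hodd
    rw [Nat.not_even_iff_odd] at hodd
    rw [hodd.neg_one_pow] at hsign
    exact absurd hsign (by decide)
  have h5 : Even (n + 1) := by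
    rcases Nat.even_mul.mp h4 with h | h
    · exact absurd h (by decide)
    · exact h
  obtain ⟨k, hk⟩ := h5
  exact ⟨k, by rw [hsum, hk]; ring⟩

/-- Cardinality of the alternating group. -/
theorem two_mul_card_alt : 2 ≤ Fintype.card Δ →
    2 * Nat.card (alternatingGroup Δ) = (Fintype.card Δ).factorial := by
  intro h
  haveI : Nontrivial Δ := Fintype.one_lt_card_iff_nontrivial.mp h
  rw [two_mul_nat_card_alternatingGroup, Nat.card_perm, Nat.card_eq_fintype_card]

/-- Index of a proper subgroup in a simple alternating group. -/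
theorem factorial_le_index_factorial {G : Subgroup (Equiv.Perm Δ)} (hG : G ≤ alternatingGroup Δ)
    (hne : G ≠ alternatingGroup Δ) (h5 : 5 ≤ Fintype.card Δ) :
    (Fintype.card Δ).factorial ∣ (G.relIndex (alternatingGroup Δ)).factorial := by
  haveI hs : IsSimpleGroup (alternatingGroup Δ) :=
    alternatingGroup.isSimpleGroup (by rw [Nat.card_eq_fintype_card]; exact h5)
  have hH : G.subgroupOf (alternatingGroup Δ) ≠ ⊤ := by
    intro h
    apply hne
    exact le_antisymm hG (subgroupOf_eq_top.mp h)
  have hnc : ¬ IsMulCommutative (alternatingGroup Δ) := by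
    apply Cfsg.Agent.Lib.Small.not_comm_of_not_prime
    intro hpr
    have h2 := two_mul_card_alt (Δ := Δ) (by omega)
    have h3 : 4 ∣ (Fintype.card Δ).factorial := Nat.dvd_factorial (by norm_num) (by omega)
    have h4 : 3 ∣ (Fintype.card Δ).factorial := Nat.dvd_factorial (by norm_num) (by omega)
    rw [← h2] at h3 h4
    have h5 : 2 ∣ Nat.card (alternatingGroup Δ) := by omega
    have h6 : 3 ∣ Nat.card (alternatingGroup Δ) := by omega
    have h7 := (Nat.prime_dvd_prime_iff_eq Nat.prime_two hpr).mp h5
    have h8 := (Nat.prime_dvd_prime_iff_eq Nat.prime_three hpr).mp h6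
    omega
  have := Cfsg.Agent.Lib.Small.two_mul_card_dvd_factorial hnc _ hH
  rwa [two_mul_card_alt (by omega)] at this

/-- **Degree 7**. -/
theorem eq_alt_of_five_cycle_degree_seven (hd : Fintype.card Δ = 7) {G : Subgroup (Equiv.Perm Δ)}
    (hG : G ≤ alternatingGroup Δ) (hprim : IsPreprimitive G Δ) {X : Equiv.Perm Δ} (hXG : X ∈ G)
    (hXc : X.IsCycle) (hXs : X.support.card = 5) : G = alternatingGroup Δ := by
  classical
  by_contra hne
  have ht := isMultiplyPretransitive_three hprim hXG hXc Nat.prime_five hXs (by omega)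
  have hfac := factorial_le_index_factorial hG hne (by omega)
  rw [hd] at hfac
  set k := G.relIndex (alternatingGroup Δ) with hk
  have hk7 : 7 ≤ k := by
    by_contra hlt
    have hle : k ≤ 6 := by omega
    have h1 : k.factorial ≤ Nat.factorial 6 := Nat.factorial_le hle
    have h2 := Nat.le_of_dvd (Nat.factorial_pos _) hfac
    have h3 : Nat.factorial 7 = 5040 := rfl
    have h4 : Nat.factorial 6 = 720 := rfl
    omega
  have hcardalt : Nat.card (alternatingGroup Δ) = 2520 := by
    have := two_mul_card_alt (Δ := Δ) (by omega)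
    rw [hd] at this
    have h3 : Nat.factorial 7 = 5040 := rfl
    omega
  have hmul : Nat.card G * k = 2520 := by
    rw [← hcardalt, hk]
    have h1 := Subgroup.card_mul_index (G.subgroupOf (alternatingGroup Δ))
    rwa [Nat.card_congr (subgroupOfEquivOfLe hG).toEquiv] at h1
  -- The fixing subgroups of triples.
  have hfix : ∀ s : Set Δ, s.ncard = 3 → Nat.card (fixingSubgroup G s) = 1 := by
    intro s hs
    have h1 := IsMultiplyPretransitive.index_of_fixingSubgroup_eq (G := G) s (by rw [hs]; exact ht)
    rw [hs, Nat.card_eq_fintype_card, hd] at h1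
    have h2 : Nat.choose 7 3 * Nat.factorial 3 = 210 := by decide
    rw [h2] at h1
    have h3 := Subgroup.card_mul_index (fixingSubgroup G s)
    rw [h1] at h3
    have h4 : Nat.card (fixingSubgroup G s) * (210 * k) = 2520 := by
      rw [← mul_assoc, h3, hmul]
    have h5 : Nat.card (fixingSubgroup G s) * k = 12 := by
      have : 210 * (Nat.card (fixingSubgroup G s) * k) = 210 * 12 := by
        rw [← mul_assoc, mul_comm 210, mul_assoc]
        omega
      exact Nat.eq_of_mul_eq_mul_left (by norm_num) this
    have h6 : 0 < Nat.card (fixingSubgroup G s) := Nat.card_pos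
    by_contra hne1
    have h7 : 2 ≤ Nat.card (fixingSubgroup G s) := by omega
    have : 2 * 7 ≤ Nat.card (fixingSubgroup G s) * k := Nat.mul_le_mul h7 hk7
    omega
  -- An involution.
  obtain ⟨t₀, -, ht₀⟩ := Finset.exists_subset_card_eq (s := (Finset.univ : Finset Δ)) (n := 3)
    (by rw [Finset.card_univ, hd]; norm_num)
  have hcardG : Nat.card G = 210 := by
    have hs : ((t₀ : Finset Δ) : Set Δ).ncard = 3 := by rw [Set.ncard_coe_finset, ht₀]
    have h1 := IsMultiplyPretransitive.index_of_fixingSubgroup_eq (G := G) (t₀ : Set Δ)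
      (by rw [hs]; exact ht)
    rw [hs, Nat.card_eq_fintype_card, hd] at h1
    have h2 : Nat.choose 7 3 * Nat.factorial 3 = 210 := by decide
    rw [h2] at h1
    have h3 := Subgroup.card_mul_index (fixingSubgroup G (t₀ : Set Δ))
    rw [h1, hfix _ hs] at h3
    omega
  have h2G : 2 ∣ Nat.card G := by rw [hcardG]; norm_num
  haveI : Fact (Nat.Prime 2) := ⟨Nat.prime_two⟩
  obtain ⟨t, ht2⟩ := exists_prime_orderOf_dvd_card' 2 h2G
  have ht2' : orderOf (t : Equiv.Perm Δ) = 2 := by rwa [Subgroup.orderOf_coe]
  have h4 := four_dvd_support_of_even_involution (hG t.2) ht2'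
  have ht1 : (t : Equiv.Perm Δ) ≠ 1 := by
    intro h
    rw [h, orderOf_one] at ht2'
    omega
  have hsp : 0 < (t : Equiv.Perm Δ).support.card := by
    exact Nat.pos_of_ne_zero (fun h => ht1 (card_support_eq_zero.mp h))
  have hle : (t : Equiv.Perm Δ).support.card ≤ 7 := by
    rw [← hd]
    exact Finset.card_le_univ _
  have hs4 : (t : Equiv.Perm Δ).support.card = 4 := by omega
  have hs3 : (((t : Equiv.Perm Δ).support : Set Δ)ᶜ).ncard = 3 := by
    rw [Cfsg.Agent.Lib.Perm.jc_ncard_compl, hs4, hd]
  have hF := hfix _ hs3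
  have hmem : t ∈ fixingSubgroup G (((t : Equiv.Perm Δ).support : Set Δ)ᶜ) := by
    rw [mem_fixingSubgroup_iff]
    intro y hy
    have : y ∉ (t : Equiv.Perm Δ).support := hy
    exact notMem_support.mp this
  have hbot := Subgroup.eq_bot_of_card_eq _ hF
  rw [hbot, mem_bot] at hmem
  rw [hmem] at ht1
  exact ht1 rfl

end Cfsg.Agent.Lib.PGroups
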