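import Mathlib
import Cfsg.Agent.Lib.PGroups.AltGen3
import Cfsg.Agent.Lib.Classical.SmallIso

/-!
Degree `6`: a primitive group of even permutations of degree `6` with a `5`-cycle is `A₆` or
abstractly `A₅`.
-/

set_option autoImplicit false
set_option linter.unusedSectionVars false
set_option linter.style.haveILetI false

namespace Cfsg.Agent.Lib.PGroups

open MulAction Subgroup Equiv.Perm
open scoped Pointwise

variable {Δ : Type*} [Fintype Δ] [DecidableEq Δ]

/-- Nontrivial normal subgroups of primitive groups are transitive. -/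
theorem card_dvd_of_normal {G : Subgroup (Equiv.Perm Δ)} (hprim : IsPreprimitive G Δ) (a : Δ)
    (K : Subgroup ↥G) [K.Normal] (hK : K ≠ ⊥) : Fintype.card Δ ∣ Nat.card K := by
  classical
  haveI : IsQuasiPreprimitive ↥G Δ := IsPreprimitive.isQuasiPreprimitive
  have hfix : fixedPoints K Δ ≠ Set.univ := by
    intro h
    apply hK
    rw [eq_bot_iff]
    intro z hz
    rw [mem_bot]
    apply Subtype.ext
    ext w
    have hw : w ∈ fixedPoints K Δ := by rw [h]; trivial
    exact hw ⟨z, hz⟩
  haveI : IsPretransitive K Δ := IsQuasiPreprimitive.isPretransitive_of_normal hfix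
  have h := Subgroup.index_dvd_card (stabilizer K a)
  rw [MulAction.index_stabilizer, MulAction.orbit_eq_univ, Set.ncard_univ,
    Nat.card_eq_fintype_card] at h
  exact h

/-- The order 5 facts: an element commuting with the `5`-cycle is a power of it. -/
theorem mem_zpowers_of_commute_cycle {Y g : Equiv.Perm Δ} (hYc : Y.IsCycle)
    (hfix : ∀ w, Y w = w → g w = w) (hc : g * Y = Y * g) : g ∈ zpowers Y := by
  obtain ⟨i, hi⟩ := Cfsg.Agent.Lib.Perm.jc_commute_cycle hYc hc
  have : g = Y ^ i := by
    ext w
    by_cases hw : w ∈ Y.support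
    · exact hi w hw
    · have hw' : Y w = w := notMem_support.mp hw
      rw [hfix w hw', Equiv.Perm.zpow_apply_eq_self_of_apply_eq_self hw']
  rw [this]
  exact zpow_mem_zpowers _ _

/-- An order `5` element of a degree `6` group cannot commute with an involution with two fixed
points. -/
private theorem not_commute_five_of_two_fixed (hd : Fintype.card Δ = 6) {Y T : Equiv.Perm Δ}
    (hY : orderOf Y = 5) (hT : T.support.card = 4) (hc : Y * T = T * Y) : False := by
  classical
  have hYc : Y.IsCycle := isCycle_of_prime_order' (by rw [hY]; norm_num) (by rw [hY, hd]; norm_num)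
  have hYs : Y.support.card = 5 := by rw [← hYc.orderOf, hY]
  -- Fixed points of `T` are fixed by `Y`.
  have hinv : ∀ u, T u = u → T (Y u) = Y u := by
    intro u hu
    have := congrArg (fun f : Equiv.Perm Δ => f u) hc
    simp only [Equiv.Perm.mul_apply, hu] at this
    exact this.symm
  have hinvn : ∀ (n : ℕ) (u : Δ), T u = u → T ((Y ^ n) u) = (Y ^ n) u := by
    intro n
    induction n with
    | zero => intro u hu; simpa using hu
    | succ n ih =>
      intro u hu
      rw [pow_succ']
      exact hinv _ (ih u hu)
  have hfixY : ∀ u, T u = u → Y u = u := by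
    intro u hu
    by_contra hne
    let A : Finset Δ := (Finset.range 5).image (fun i => (Y ^ i) u)
    have hA : A.card = 5 := by
      rw [Finset.card_image_of_injOn, Finset.card_range]
      intro i hi j hj he
      exact pow_apply_injective_of_prime_order Nat.prime_five hY hne
        (Finset.mem_range.mp hi) (Finset.mem_range.mp hj) he
    have hsub : A ⊆ T.supportᶜ := by
      intro w hw
      obtain ⟨i, -, rfl⟩ := Finset.mem_image.mp hw
      rw [Finset.mem_compl, notMem_support]
      exact hinvn i u hu
    have h1 := Finset.card_le_card hsub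
    rw [Finset.card_compl, hT, hd, hA] at h1
    omega
  have hsub : T.supportᶜ ⊆ Y.supportᶜ := by
    intro w hw
    rw [Finset.mem_compl, notMem_support] at hw ⊢
    exact hfixY w hw
  have h1 := Finset.card_le_card hsub
  rw [Finset.card_compl, Finset.card_compl, hT, hYs, hd] at h1
  omega

theorem nonempty_alt_five_of_card_sixty (hd : Fintype.card Δ = 6) {G : Subgroup (Equiv.Perm Δ)}
    (hG : G ≤ alternatingGroup Δ) (hprim : IsPreprimitive G Δ) {Y : Equiv.Perm Δ} (hYG : Y ∈ G)
    (hYc : Y.IsCycle) (hYs : Y.support.card = 5) (hcard : Nat.card G = 60) :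
    Nonempty (G ≃* alternatingGroup (Fin 5)) := by
  classical
  haveI : Fact (Nat.Prime 2) := ⟨Nat.prime_two⟩
  haveI : Fact (Nat.Prime 5) := ⟨Nat.prime_five⟩
  obtain ⟨a⟩ : Nonempty Δ := by
    rw [← Fintype.card_pos_iff]
    omega
  have hYo : orderOf Y = 5 := by rw [hYc.orderOf, hYs]
  let y : ↥G := ⟨Y, hYG⟩
  have hyo : orderOf y = 5 := by rw [← Subgroup.orderOf_coe]; exact hYo
  obtain ⟨P⟩ : Nonempty (Sylow 2 ↥G) := inferInstance
  have hP4 : Nat.card (P : Subgroup ↥G) = 4 := by
    obtain ⟨k, hk⟩ := IsPGroup.iff_card.mp P.isPGroup'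
    have h1 := Subgroup.card_mul_index (P : Subgroup ↥G)
    rw [hk, hcard] at h1
    have h2 := P.not_dvd_index
    have hk3 : k < 3 := by
      by_contra hlt
      have h3 : 2 ^ 3 ∣ 2 ^ k := pow_dvd_pow 2 (by omega)
      have h4 : 2 ^ 3 ∣ 60 := h3.trans ⟨_, h1.symm⟩
      norm_num at h4
    interval_cases k
    · exfalso
      apply h2
      omega
    · exfalso
      apply h2
      omega
    · exact hk
  haveI hPcomm : IsMulCommutative ↥(P : Subgroup ↥G) :=
    IsPGroup.isMulCommutative_of_card_eq_prime_sq (p := 2) (by rw [hP4]; norm_num)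
  have hPab : ∀ a b : ↥(P : Subgroup ↥G), a * b = b * a := fun a b => mul_comm' a b
  obtain ⟨t₀, ht₀⟩ := exists_prime_orderOf_dvd_card' 2 (G := ↥(P : Subgroup ↥G)) (by rw [hP4]; norm_num)
  let t : ↥G := t₀
  have hto : orderOf t = 2 := by rw [show t = (t₀ : ↥G) from rfl, Subgroup.orderOf_coe]; exact ht₀
  have htp : t ∈ (P : Subgroup ↥G) := t₀.2
  let T : Equiv.Perm Δ := t
  have hTo : orderOf T = 2 := by rw [show T = (t : Equiv.Perm Δ) from rfl, Subgroup.orderOf_coe]; exact hto
  have hT1 : T ≠ 1 := by
    intro h
    rw [h, orderOf_one] at hTo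
    omega
  have hT4 : T.support.card = 4 := by
    have h4 : 4 ∣ T.support.card := four_dvd_support_of_even_involution (hG t.2) hTo
    have hsp : T.support.card ≠ 0 := fun h => hT1 (card_support_eq_zero.mp h)
    have hle : T.support.card ≤ 6 := by
      rw [← hd]
      exact Finset.card_le_univ _
    omega
  set B : Subgroup ↥G := normalizer ((P : Subgroup ↥G) : Set ↥G) with hB
  have h5 : ¬ 5 ∣ Nat.card B := by
    intro h
    obtain ⟨y', hy'⟩ := exists_prime_orderOf_dvd_card' 5 h
    have hy'1 : orderOf ((y' : ↥G)) = 5 := by rwa [Subgroup.orderOf_coe]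
    have hy'2 : orderOf (((y' : ↥G) : Equiv.Perm Δ)) = 5 := by rwa [Subgroup.orderOf_coe]
    have hc : (y' : ↥G) * t = t * (y' : ↥G) :=
      commute_of_normalizes_small Nat.prime_five hy'1
        (fun w hw => (mem_normalizer_iff.mp y'.2 w).mp hw) (by rw [hP4]; norm_num) htp
    exact not_commute_five_of_two_fixed hd hy'2 hT4 (congrArg Subtype.val hc)
  have hPB : (P : Subgroup ↥G) ≤ B := le_normalizer
  have hBd : Nat.card B ∣ 60 := by
    rw [← hcard]
    exact Subgroup.card_subgroup_dvd_card B
  have h4B : 4 ∣ Nat.card B := by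
    rw [← hP4]
    exact Subgroup.card_dvd_of_le hPB
  have hBc : Nat.card B = 4 ∨ Nat.card B = 12 := by
    obtain ⟨m, hm⟩ := h4B
    have hmd : m ∣ 15 := by
      rw [hm] at hBd
      exact Nat.dvd_of_mul_dvd_mul_left (by norm_num : 0 < 4) (by simpa using hBd)
    have hm15 : m ≤ 15 := Nat.le_of_dvd (by norm_num) hmd
    interval_cases m <;> omega
  rcases hBc with hB4 | hB12
  · -- `P` is self-normalizing: normal complement.
    exfalso
    have hBP : B = (P : Subgroup ↥G) := (Subgroup.eq_of_le_of_card_ge hPB (by rw [hP4, hB4])).symm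
    have hcomm : normalizer ((P : Subgroup ↥G) : Set ↥G) ≤ centralizer ((P : Subgroup ↥G) : Set ↥G) := by
      intro g hg
      have hgP : g ∈ (P : Subgroup ↥G) := by rw [← hBP]; exact hg
      rw [mem_centralizer_iff]
      intro w hw
      exact congrArg Subtype.val (hPab ⟨w, hw⟩ ⟨g, hgP⟩)
    let K : Subgroup ↥G := (MonoidHom.transferSylow P hcomm).ker
    have hK : K.IsComplement' (P : Subgroup ↥G) := MonoidHom.ker_transferSylow_isComplement' P hcomm
    haveI hKn : K.Normal := MonoidHom.normal_ker _
    have hcK : Nat.card K = 15 := by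
      have h1 := hK.card_mul_card
      rw [hP4, hcard] at h1
      omega
    have hne : K ≠ ⊥ := by
      intro h
      rw [h, Subgroup.card_bot] at hcK
      omega
    have := card_dvd_of_normal hprim a K hne
    rw [hd, hcK] at this
    norm_num at this
  · -- Index `5`.
    have hidx : B.index = 5 := by
      have h1 := Subgroup.card_mul_index B
      rw [hB12, hcard] at h1
      omega
    let φ : ↥G →* Equiv.Perm (↥G ⧸ B) := MulAction.toPermHom ↥G (↥G ⧸ B)
    have hφ : Function.Injective φ := by
      rw [← MonoidHom.ker_eq_bot_iff]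
      by_contra hne
      haveI hKn : (φ.ker).Normal := MonoidHom.normal_ker _
      have hKB : φ.ker ≤ B := by
        intro g hg
        have h1 : φ g (QuotientGroup.mk 1) = QuotientGroup.mk 1 := by
          rw [MonoidHom.mem_ker.mp hg]
          rfl
        have h2 : (QuotientGroup.mk (g * 1) : ↥G ⧸ B) = QuotientGroup.mk 1 := h1
        have h3 := QuotientGroup.eq.mp h2
        simpa using h3
      have h6 := card_dvd_of_normal hprim a φ.ker hne
      rw [hd] at h6
      have h7 : Nat.card φ.ker ∣ 12 := by
        rw [← hB12]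
        exact Subgroup.card_dvd_of_le hKB
      have h8 : ¬ 5 ∣ Nat.card φ.ker := fun h => h5 (h.trans (Subgroup.card_dvd_of_le hKB))
      have hkc : Nat.card φ.ker = 6 ∨ Nat.card φ.ker = 12 := by
        obtain ⟨m, hm⟩ := h6
        rw [hm] at h7
        have hm2 : m ∣ 2 := Nat.dvd_of_mul_dvd_mul_left (by norm_num : 0 < 6) (by simpa using h7)
        rcases (Nat.dvd_prime Nat.prime_two).mp hm2 with h | h
        · left; rw [hm, h]
        · right; rw [hm, h]
      have hnorm : ∀ w ∈ φ.ker, y * w * y⁻¹ ∈ φ.ker := fun w hw => hKn.conj_mem w hw y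
      have hfp : ∀ z ∈ φ.ker, y * z = z * y → z = 1 := by
        intro z hz hc
        -- `z` fixes the fixed point of `Y`, hence is a power of `y`.
        have hc' : (z : Equiv.Perm Δ) * Y = Y * z := (congrArg Subtype.val hc).symm
        have hfix : ∀ w, Y w = w → (z : Equiv.Perm Δ) w = w := by
          intro w hw
          by_contra hne'
          have h1 : Y ((z : Equiv.Perm Δ) w) = (z : Equiv.Perm Δ) w := by
            have := congrArg (fun f : Equiv.Perm Δ => f w) hc'
            simp only [Equiv.Perm.mul_apply, hw] at this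
            exact this.symm
          -- Two fixed points of the `5`-cycle.
          have hsub : ({w, (z : Equiv.Perm Δ) w} : Finset Δ) ⊆ Y.supportᶜ := by
            intro v hv
            simp only [Finset.mem_insert, Finset.mem_singleton] at hv
            rw [Finset.mem_compl, notMem_support]
            rcases hv with rfl | rfl
            · exact hw
            · exact h1
          have h2 := Finset.card_le_card hsub
          rw [Finset.card_pair (Ne.symm hne'), Finset.card_compl, hYs, hd] at h2
          omega
        have hmem := mem_zpowers_of_commute_cycle hYc hfix hc'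
        obtain ⟨i, hi⟩ := mem_zpowers_iff.mp hmem
        by_contra hz1
        have hz1' : (z : Equiv.Perm Δ) ≠ 1 := fun h => hz1 (Subtype.ext h)
        have hoz : orderOf (z : Equiv.Perm Δ) = 5 := by
          apply orderOf_eq_prime
          · rw [← hi, ← zpow_natCast, ← zpow_mul, mul_comm, zpow_mul, zpow_natCast, ← hYo,
              pow_orderOf_eq_one, one_zpow]
          · exact hz1'
        apply h8
        have hoz' : orderOf (⟨z, hz⟩ : φ.ker) = 5 := by
          rw [← Subgroup.orderOf_coe]
          show orderOf z = 5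
          rw [← Subgroup.orderOf_coe]
          exact hoz
        rw [← hoz']
        exact orderOf_dvd_natCard (⟨z, hz⟩ : φ.ker)
      rcases hkc with h6' | h12
      · have := card_ge_of_fpf_two Nat.prime_five hyo hnorm hfp Nat.prime_two Nat.prime_three
          (by norm_num) (by rw [h6']; norm_num) (by rw [h6']; norm_num)
        omega
      · have := card_modEq_one_of_fpf Nat.prime_five hyo hnorm hfp
        rw [h12] at this
        exact absurd this (by decide)
    have hqc : Nat.card (↥G ⧸ B) = 5 := hidx
    exact Cfsg.Agent.Lib.Classical.nonempty_mulEquiv_alt_of_injective 5 φ hφ hqc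
      (by rw [hcard]; rfl)

/-- **Degree 6**. -/
theorem eq_alt_or_alt_five_of_degree_six (hd : Fintype.card Δ = 6) {G : Subgroup (Equiv.Perm Δ)}
    (hG : G ≤ alternatingGroup Δ) (hprim : IsPreprimitive G Δ) {Y : Equiv.Perm Δ} (hYG : Y ∈ G)
    (hYc : Y.IsCycle) (hYs : Y.support.card = 5) :
    G = alternatingGroup Δ ∨ Nonempty (G ≃* alternatingGroup (Fin 5)) := by
  classical
  by_cases hne : G = alternatingGroup Δ
  · exact Or.inl hne
  right
  have hfac := factorial_le_index_factorial hG hne (by omega)
  rw [hd] at hfac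
  set k := G.relIndex (alternatingGroup Δ) with hk
  have hk6 : 6 ≤ k := by
    by_contra hlt
    have hle : k ≤ 5 := by omega
    have h1 : k.factorial ≤ Nat.factorial 5 := Nat.factorial_le hle
    have h2 := Nat.le_of_dvd (Nat.factorial_pos _) hfac
    have h3 : Nat.factorial 6 = 720 := rfl
    have h4 : Nat.factorial 5 = 120 := rfl
    omega
  have hcardalt : Nat.card (alternatingGroup Δ) = 360 := by
    have := two_mul_card_alt (Δ := Δ) (by omega)
    rw [hd] at this
    have h3 : Nat.factorial 6 = 720 := rfl
    omega
  have hmul : Nat.card G * k = 360 := by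
    rw [← hcardalt, hk]
    have h1 := Subgroup.card_mul_index (G.subgroupOf (alternatingGroup Δ))
    rwa [Nat.card_congr (subgroupOfEquivOfLe hG).toEquiv] at h1
  obtain ⟨a⟩ : Nonempty Δ := by
    rw [← Fintype.card_pos_iff]
    omega
  have hYo : orderOf Y = 5 := by rw [hYc.orderOf, hYs]
  let y : ↥G := ⟨Y, hYG⟩
  have hyo : orderOf y = 5 := by rw [← Subgroup.orderOf_coe]; exact hYo
  have h5G : 5 ∣ Nat.card G := by
    rw [← hyo]
    exact orderOf_dvd_natCard y
  have h6G : 6 ∣ Nat.card G := by
    have hb : (⊤ : Subgroup ↥G) ≠ ⊥ := by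
      intro h
      have : y = 1 := by
        have hm : y ∈ (⊤ : Subgroup ↥G) := trivial
        rw [h, mem_bot] at hm
        exact hm
      rw [this, orderOf_one] at hyo
      omega
    have := card_dvd_of_normal hprim a (⊤ : Subgroup ↥G) hb
    rwa [hd, Subgroup.card_top] at this
  have h30 : 30 ∣ Nat.card G := by
    have h56 : Nat.Coprime 5 6 := by norm_num
    have := Nat.Coprime.mul_dvd_of_dvd_of_dvd h56 h5G h6G
    simpa using this
  obtain ⟨f, hf⟩ := h30
  have hfk : f * k = 12 := by
    rw [hf] at hmul
    have : 30 * (f * k) = 30 * 12 := by rw [← mul_assoc]; omega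
    exact Nat.eq_of_mul_eq_mul_left (by norm_num) this
  have hf2 : f = 1 ∨ f = 2 := by
    have hfpos : 0 < f := by
      rcases Nat.eq_zero_or_pos f with h | h
      · rw [h] at hfk; omega
      · exact h
    have : f * 6 ≤ f * k := Nat.mul_le_mul_left f hk6
    omega
  rcases hf2 with rfl | rfl
  · -- Order 30.
    exfalso
    have hc30 : Nat.card G = 30 := by omega
    -- The point stabilizer is generated by `y`.
    obtain ⟨b, hb⟩ : ∃ b, Y b = b := by
      by_contra hall
      push Not at hall
      have : Y.support = Finset.univ := by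
        ext w
        simp [hall w]
      rw [this, Finset.card_univ, hd] at hYs
      omega
    have hstab : Nat.card (stabilizer ↥G b) = 5 := by
      haveI : IsPretransitive ↥G Δ := inferInstance
      have h := Subgroup.card_mul_index (stabilizer ↥G b)
      have e : Nat.card Δ = 6 := by rw [Nat.card_eq_fintype_card, hd]
      rw [MulAction.index_stabilizer, MulAction.orbit_eq_univ, Set.ncard_univ, e, hc30] at h
      omega
    have hyst : zpowers y ≤ stabilizer ↥G b := by
      rw [zpowers_le, mem_stabilizer_iff]
      exact hb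
    have hse : zpowers y = stabilizer ↥G b :=
      Subgroup.eq_of_le_of_card_ge hyst (by rw [hstab, Nat.card_zpowers, hyo])
    have hN : ∀ g : ↥G, (∀ w ∈ zpowers y, g * w * g⁻¹ ∈ zpowers y) → g ∈ zpowers y := by
      intro g hg
      rw [hse, mem_stabilizer_iff]
      have hn : g ∈ normalizer ((zpowers y : Subgroup ↥G) : Set ↥G) := mem_normalizer_of_conj_le' _ g hg
      have h1 : g⁻¹ * y * g ∈ zpowers y := by
        have := (mem_normalizer_iff''.mp hn y).mp (mem_zpowers y)
        exact this
      have h2 : (g⁻¹ * y * g) ∈ stabilizer ↥G b := by rw [← hse]; exact h1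
      rw [mem_stabilizer_iff] at h2
      have h3 : ((g : Equiv.Perm Δ)⁻¹ * Y * (g : Equiv.Perm Δ)) b = b := h2
      have h4 : Y ((g : Equiv.Perm Δ) b) = (g : Equiv.Perm Δ) b := by
        have : (g : Equiv.Perm Δ) (((g : Equiv.Perm Δ)⁻¹ * Y * (g : Equiv.Perm Δ)) b) = (g : Equiv.Perm Δ) b := by rw [h3]
        simpa [Equiv.Perm.mul_apply] using this
      -- `Y` has exactly one fixed point.
      by_contra hne'
      have hsub : ({b, (g : Equiv.Perm Δ) b} : Finset Δ) ⊆ Y.supportᶜ := by
        intro v hv
        simp only [Finset.mem_insert, Finset.mem_singleton] at hv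
        rw [Finset.mem_compl, notMem_support]
        rcases hv with rfl | rfl
        · exact hb
        · exact h4
      have h5 := Finset.card_le_card hsub
      have hne'' : (g : Equiv.Perm Δ) b ≠ b := hne'
      rw [Finset.card_pair (Ne.symm hne''), Finset.card_compl, hYs, hd] at h5
      omega
    obtain ⟨K, hKn, -, hKc, -, hfp⟩ := exists_normal_complement_of_self_normalizing Nat.prime_five hyo hN
    have hK6 : Nat.card K = 6 := by omega
    have := card_ge_of_fpf_two Nat.prime_five hyo (fun w hw => hKn.conj_mem w hw y) hfp Nat.prime_two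
      Nat.prime_three (by norm_num) (by rw [hK6]; norm_num) (by rw [hK6]; norm_num)
    omega
  · exact nonempty_alt_five_of_card_sixty hd hG hprim hYG hYc hYs (by omega)

end Cfsg.Agent.Lib.PGroups
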