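import Mathlib
import Cfsg.Agent.Lib.PGroups.AltGen3
import Cfsg.Agent.Lib.PGroups.CycSub2

/-!
An element of type `5²` in a `3`-transitive group of degree `13`: the group contains a `3`-cycle or
a `5`-cycle.
-/

set_option autoImplicit false
set_option linter.unusedSectionVars false
set_option linter.style.haveILetI false

namespace Cfsg.Agent.Lib.PGroups

open MulAction Subgroup Equiv.Perm
open scoped Pointwise

variable {Δ : Type*} [Fintype Δ] [DecidableEq Δ]

/-- Three points of the support of an element of order `5` moving at most `10` points: two lie on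
the same cycle. -/
theorem sameCycle_pigeonhole {T : Equiv.Perm Δ} (hT : orderOf T = 5) (hs : T.support.card ≤ 10)
    {u v w : Δ} (hu : u ∈ T.support) (hv : v ∈ T.support) (hw : w ∈ T.support) :
    SameCycle T u v ∨ SameCycle T v w ∨ SameCycle T u w := by
  classical
  by_contra hcon
  push Not at hcon
  obtain ⟨huv, hvw, huw⟩ := hcon
  let orb : Δ → Finset Δ := fun z => (Finset.range 5).image (fun i => (T ^ i) z)
  have hcard : ∀ z ∈ T.support, (orb z).card = 5 := by
    intro z hz
    rw [Finset.card_image_of_injOn, Finset.card_range]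
    intro i hi j hj he
    exact pow_apply_injective_of_prime_order Nat.prime_five hT (mem_support.mp hz)
      (Finset.mem_range.mp hi) (Finset.mem_range.mp hj) he
  have hsub : ∀ z ∈ T.support, orb z ⊆ T.support := by
    intro z hz y hy
    obtain ⟨i, -, rfl⟩ := Finset.mem_image.mp hy
    exact pow_apply_mem_support.mpr hz
  have hdisj : ∀ {z z' : Δ}, ¬ SameCycle T z z' → Disjoint (orb z) (orb z') := by
    intro z z' h
    rw [Finset.disjoint_left]
    intro y hy hy'
    obtain ⟨i, -, rfl⟩ := Finset.mem_image.mp hy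
    obtain ⟨j, -, hj⟩ := Finset.mem_image.mp hy'
    apply h
    have h1 : SameCycle T z ((T ^ i) z) := ⟨i, by simp⟩
    have h2 : SameCycle T z' ((T ^ i) z) := ⟨j, by simpa using hj⟩
    exact h1.trans h2.symm
  have h1 := Finset.card_union_of_disjoint (hdisj huv)
  have h2 : Disjoint (orb u ∪ orb v) (orb w) := by
    rw [Finset.disjoint_union_left]
    exact ⟨hdisj huw, hdisj hvw⟩
  have h3 := Finset.card_union_of_disjoint h2
  have h4 : orb u ∪ orb v ∪ orb w ⊆ T.support := by
    intro y hy
    rcases Finset.mem_union.mp hy with hy | hy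
    · rcases Finset.mem_union.mp hy with hy | hy
      · exact hsub u hu hy
      · exact hsub v hv hy
    · exact hsub w hw hy
  have h5 := Finset.card_le_card h4
  rw [hcard u hu] at h1
  rw [hcard v hv] at h1
  rw [hcard w hw] at h3
  omega

/-- Transport of the same cycle relation by a commuting permutation. -/
theorem sameCycle_apply_of_commute {T w : Equiv.Perm Δ} (hc : w * T = T * w) {u v : Δ}
    (h : SameCycle T u v) : SameCycle T (w u) (w v) := by
  obtain ⟨i, hi⟩ := h
  refine ⟨i, ?_⟩
  have hc' : Commute w (T ^ i) := Commute.zpow_right (show Commute w T from hc) i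
  have := congrArg (fun f : Equiv.Perm Δ => f u) hc'.eq
  simp only [Equiv.Perm.mul_apply] at this
  rw [← this, hi]

/-- An element commuting with `T` squares into the cycles of `T`. -/
theorem sameCycle_sq_of_commute {T w : Equiv.Perm Δ} (hT : orderOf T = 5)
    (hs : T.support.card ≤ 10) (hc : w * T = T * w) {z : Δ} (hz : z ∈ T.support) :
    SameCycle T z ((w ^ 2) z) := by
  have hmem : ∀ y ∈ T.support, w y ∈ T.support := by
    intro y hy
    rw [mem_support] at hy ⊢
    intro h
    apply hy
    apply w.injective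
    have := congrArg (fun f : Equiv.Perm Δ => f y) hc
    simp only [Equiv.Perm.mul_apply] at this
    rw [this, h]
  have h1 := hmem z hz
  have h2 := hmem _ h1
  have hsq : (w ^ 2) z = w (w z) := by rw [pow_two]; rfl
  rw [hsq]
  have hw' : w⁻¹ * T = T * w⁻¹ := by
    have : w⁻¹ * (w * T) * w⁻¹ = w⁻¹ * (T * w) * w⁻¹ := by rw [hc]
    simpa [mul_assoc] using this.symm
  rcases sameCycle_pigeonhole hT hs hz h1 h2 with h | h | h
  · exact h.trans (sameCycle_apply_of_commute hc h)
  · have h3 := sameCycle_apply_of_commute hw' h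
    have e1 : w⁻¹ (w z) = z := by simp
    have e2 : w⁻¹ (w (w z)) = w z := by simp
    rw [e1, e2] at h3
    exact h3.trans h
  · exact h

/-- `w^10` is trivial on the support of `T`. -/
theorem pow_ten_apply_of_commute {T w : Equiv.Perm Δ} (hT : orderOf T = 5)
    (hs : T.support.card ≤ 10) (hc : w * T = T * w) {z : Δ} (hz : z ∈ T.support) :
    (w ^ 10) z = z := by
  obtain ⟨i, hi⟩ := sameCycle_sq_of_commute hT hs hc hz
  have hc2 : Commute (w ^ 2) T := (show Commute w T from hc).pow_left 2
  have hpow : ∀ k : ℕ, ((w ^ 2) ^ k) z = (T ^ (i * k)) z := by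
    intro k
    induction k with
    | zero => simp
    | succ k ih =>
      rw [pow_succ', Equiv.Perm.mul_apply, ih]
      have hc3 : Commute (w ^ 2) (T ^ (i * k)) := hc2.zpow_right _
      have := congrArg (fun f : Equiv.Perm Δ => f z) hc3.eq
      simp only [Equiv.Perm.mul_apply] at this
      rw [this, ← hi, ← Equiv.Perm.mul_apply, ← zpow_add]
      congr 2
      push_cast
      ring
  have h5 := hpow 5
  have h6 : T ^ (i * (5 : ℕ)) = 1 := by
    rw [zpow_mul, zpow_natCast, ← zpow_natCast, ← zpow_mul, mul_comm, zpow_mul, zpow_natCast, ← hT,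
      pow_orderOf_eq_one, one_zpow]
  rw [h6] at h5
  rw [show (10 : ℕ) = 2 * 5 by norm_num, pow_mul, h5]
  rfl

/-- A `3`-cycle from an element normalizing `⟨T⟩` and cycling its three fixed points. -/
theorem isThreeCycle_of_normalizing {T n : Equiv.Perm Δ} (hT : orderOf T = 5)
    (hs : T.support.card ≤ 10) (hn : n * T * n⁻¹ ∈ zpowers T) {z₀ a b : Δ}
    (hF : ∀ w, T w = w → w = z₀ ∨ w = a ∨ w = b) (hTz : T z₀ = z₀) (hTa : T a = a) (hTb : T b = b)
    (h1 : n z₀ = a) (h2 : n a = b) (h3 : n b = z₀)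
    (ha : z₀ ≠ a) (hb : z₀ ≠ b) (hab : a ≠ b) : (n ^ 40).IsThreeCycle := by
  classical
  have hc4 : n ^ (5 - 1) * T = T * n ^ (5 - 1) := pow_pred_commute Nat.prime_five hT hn
  have hfix : ∀ z ∈ T.support, (n ^ 40) z = z := by
    intro z hz
    have := pow_ten_apply_of_commute hT hs hc4 hz
    rwa [← pow_mul] at this
  have h3p : (n ^ 3) z₀ = z₀ := by
    rw [pow_succ', pow_two]
    show n (n (n z₀)) = z₀
    rw [h1, h2, h3]
  have h3p' : (n ^ 3) a = a := by
    rw [pow_succ', pow_two]
    show n (n (n a)) = a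
    rw [h2, h3, h1]
  have h3p'' : (n ^ 3) b = b := by
    rw [pow_succ', pow_two]
    show n (n (n b)) = b
    rw [h3, h1, h2]
  have h39 : ∀ z, (n ^ 3) z = z → (n ^ 39) z = z := by
    intro z hz
    rw [show (39 : ℕ) = 3 * 13 by norm_num, pow_mul]
    exact Equiv.Perm.pow_apply_eq_self_of_apply_eq_self hz 13
  have h40 : ∀ z, (n ^ 3) z = z → (n ^ 40) z = n z := by
    intro z hz
    rw [show (40 : ℕ) = 39 + 1 by norm_num, pow_succ', Equiv.Perm.mul_apply, h39 z hz]
  have hc : n ^ 40 = Equiv.swap z₀ b * Equiv.swap z₀ a := by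
    ext w
    by_cases hw : T w = w
    · rcases hF w hw with rfl | rfl | rfl
      · rw [h40 _ h3p, h1, Equiv.Perm.mul_apply, Equiv.swap_apply_left,
          Equiv.swap_apply_of_ne_of_ne ha.symm hab]
      · rw [h40 _ h3p', h2, Equiv.Perm.mul_apply, Equiv.swap_apply_right, Equiv.swap_apply_left]
      · rw [h40 _ h3p'', h3, Equiv.Perm.mul_apply, Equiv.swap_apply_of_ne_of_ne hb.symm hab.symm,
          Equiv.swap_apply_right]
    · have hw' : w ∈ T.support := mem_support.mpr hw
      rw [hfix w hw']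
      have hw1 : w ≠ z₀ ∧ w ≠ a ∧ w ≠ b := by
        refine ⟨?_, ?_, ?_⟩
        · rintro rfl; exact hw hTz
        · rintro rfl; exact hw hTa
        · rintro rfl; exact hw hTb
      rw [Equiv.Perm.mul_apply, Equiv.swap_apply_of_ne_of_ne hw1.1 hw1.2.1,
        Equiv.swap_apply_of_ne_of_ne hw1.1 hw1.2.2]
  rw [hc]
  exact isThreeCycle_swap_mul_swap_same hb ha hab.symm

/-- A `5`-cycle from a `5`-element commuting with `T`, fixing the fixed points of `T`, not in `⟨T⟩`. -/
theorem exists_five_cycle_of_commute {T u : Equiv.Perm Δ} (hT : orderOf T = 5)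
    (hs : T.support.card = 10) (hc : u * T = T * u) (hfix : ∀ w, T w = w → u w = w)
    {e : ℕ} (huo : orderOf u = 5 ^ e) (hun : u ∉ zpowers T) :
    ∃ v : Equiv.Perm Δ, v ∈ closure ({u, T} : Set (Equiv.Perm Δ)) ∧ v.IsCycle ∧ v.support.card = 5 := by
  classical
  have hs' : T.support.card ≤ 10 := hs.le
  have hmem : ∀ y ∈ T.support, u y ∈ T.support := by
    intro y hy
    rw [mem_support] at hy ⊢
    intro h
    apply hy
    apply u.injective
    have := congrArg (fun f : Equiv.Perm Δ => f y) hc
    simp only [Equiv.Perm.mul_apply] at this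
    rw [this, h]
  -- `u` preserves the cycles of `T`.
  have hsame : ∀ z ∈ T.support, SameCycle T z (u z) := by
    intro z hz
    have hcop : Nat.Coprime 2 (orderOf u) := by
      rw [huo]
      exact Nat.Coprime.pow_right _ (by norm_num)
    obtain ⟨m, hm⟩ := exists_pow_eq_self_of_coprime hcop
    have hmem2 : ∀ (k : ℕ) (y : Δ), y ∈ T.support → ((u ^ 2) ^ k) y ∈ T.support := by
      intro k y hy
      induction k with
      | zero => simpa using hy
      | succ k ih =>
        rw [pow_succ', Equiv.Perm.mul_apply, pow_two, Equiv.Perm.mul_apply]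
        exact hmem _ (hmem _ ih)
    have hstep : ∀ k : ℕ, SameCycle T z (((u ^ 2) ^ k) z) := by
      intro k
      induction k with
      | zero => simpa using SameCycle.refl T z
      | succ k ih =>
        rw [pow_succ', Equiv.Perm.mul_apply]
        exact ih.trans (sameCycle_sq_of_commute hT hs' hc (hmem2 k z hz))
    have := hstep m
    rwa [hm] at this
  have hTne : T.support.Nonempty := by
    rw [← Finset.card_pos, hs]
    norm_num
  obtain ⟨z₁, hz₁⟩ := hTne
  -- The two cycles.
  let C : Δ → Finset Δ := fun z => (Finset.range 5).image (fun i => (T ^ i) z)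
  have hCcard : ∀ z, (C z).card ≤ 5 := fun z => by
    refine Finset.card_image_le.trans ?_
    simp
  have hmemC : ∀ z w, SameCycle T z w → w ∈ C z := by
    intro z w h
    obtain ⟨i, hi⟩ := h
    refine Finset.mem_image.mpr ⟨(i % 5).toNat, Finset.mem_range.mpr ?_, ?_⟩
    · have h1 : i % 5 < 5 := Int.emod_lt_of_pos _ (by norm_num)
      have h2 : 0 ≤ i % 5 := Int.emod_nonneg _ (by norm_num)
      omega
    · have h2 : 0 ≤ i % 5 := Int.emod_nonneg _ (by norm_num)
      have h3 : ((i % 5).toNat : ℤ) = i % 5 := Int.toNat_of_nonneg h2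
      have h4 : T ^ (i % 5).toNat = T ^ i := by
        rw [← zpow_natCast, h3]
        have h5 : T ^ (5 : ℤ) = 1 := by
          rw [show (5 : ℤ) = ((orderOf T : ℕ) : ℤ) by rw [hT]; norm_num, zpow_natCast,
            pow_orderOf_eq_one]
        conv_rhs => rw [← Int.emod_add_mul_ediv i 5, zpow_add, zpow_mul, h5, one_zpow, mul_one]
      rw [h4, hi]
  obtain ⟨z₂, hz₂, hz₂n⟩ : ∃ z₂ ∈ T.support, z₂ ∉ C z₁ := by
    by_contra hall
    push Not at hall
    have := Finset.card_le_card (fun w hw => hall w hw : T.support ⊆ C z₁)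
    have h5 := hCcard z₁
    omega
  have hz12 : ¬ SameCycle T z₁ z₂ := fun h => hz₂n (hmemC _ _ h)
  obtain ⟨i₁, hi₁⟩ := hsame z₁ hz₁
  obtain ⟨i₂, hi₂⟩ := hsame z₂ hz₂
  have hu1 : ∀ w, SameCycle T z₁ w → u w = (T ^ i₁) w := by
    rintro w ⟨k, rfl⟩
    have hc' : Commute u (T ^ k) := Commute.zpow_right (show Commute u T from hc) k
    have h1 := congrArg (fun f : Equiv.Perm Δ => f z₁) hc'.eq
    simp only [Equiv.Perm.mul_apply] at h1
    rw [h1, ← hi₁, ← Equiv.Perm.mul_apply, ← Equiv.Perm.mul_apply, ← zpow_add, ← zpow_add, add_comm]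
  have hu2 : ∀ w, SameCycle T z₂ w → u w = (T ^ i₂) w := by
    rintro w ⟨k, rfl⟩
    have hc' : Commute u (T ^ k) := Commute.zpow_right (show Commute u T from hc) k
    have h1 := congrArg (fun f : Equiv.Perm Δ => f z₂) hc'.eq
    simp only [Equiv.Perm.mul_apply] at h1
    rw [h1, ← hi₂, ← Equiv.Perm.mul_apply, ← Equiv.Perm.mul_apply, ← zpow_add, ← zpow_add, add_comm]
  -- Every point of the support lies on one of the two cycles.
  have hcover : ∀ w ∈ T.support, SameCycle T z₁ w ∨ SameCycle T z₂ w := by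
    intro w hw
    rcases sameCycle_pigeonhole hT hs' hz₁ hz₂ hw with h | h | h
    · exact absurd h hz12
    · exact Or.inr h
    · exact Or.inl h
  let v : Equiv.Perm Δ := u * (T ^ i₂)⁻¹
  have hvG : v ∈ closure ({u, T} : Set (Equiv.Perm Δ)) :=
    mul_mem (subset_closure (by simp)) (inv_mem (zpow_mem (subset_closure (by simp)) _))
  have hinv2 : ∀ w, SameCycle T z₂ w → SameCycle T z₂ ((T ^ i₂)⁻¹ w) := by
    intro w hw
    refine hw.trans ⟨-i₂, ?_⟩
    rw [zpow_neg]
  have hv2 : ∀ w, SameCycle T z₂ w → v w = w := by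
    intro w hw
    show u ((T ^ i₂)⁻¹ w) = w
    rw [hu2 _ (hinv2 w hw)]
    simp
  have hinv1 : ∀ w, SameCycle T z₁ w → SameCycle T z₁ ((T ^ i₂)⁻¹ w) := by
    intro w hw
    refine hw.trans ⟨-i₂, ?_⟩
    rw [zpow_neg]
  have hv1 : ∀ w, SameCycle T z₁ w → v w = (T ^ (i₁ - i₂)) w := by
    intro w hw
    show u ((T ^ i₂)⁻¹ w) = _
    rw [hu1 _ (hinv1 w hw), ← Equiv.Perm.mul_apply, ← zpow_neg, ← zpow_add, sub_eq_add_neg]
  have hv0 : ∀ w, T w = w → v w = w := by
    intro w hw
    show u ((T ^ i₂)⁻¹ w) = w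
    have h1 : (T ^ i₂)⁻¹ w = w := by
      rw [← zpow_neg]
      exact Equiv.Perm.zpow_apply_eq_self_of_apply_eq_self hw _
    rw [h1, hfix w hw]
  have hv1same : ∀ w, SameCycle T z₁ w → SameCycle T z₁ (v w) := by
    intro w hw
    rw [hv1 w hw]
    exact hw.trans ⟨i₁ - i₂, rfl⟩
  have hv5 : ∀ w, (v ^ 5) w = w := by
    have hvn1 : ∀ (n : ℕ) (w : Δ), SameCycle T z₁ w → (v ^ n) w = (T ^ ((i₁ - i₂) * n)) w := by
      intro n
      induction n with
      | zero => intro w _; simp
      | succ n ih =>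
        intro w hw
        rw [pow_succ, Equiv.Perm.mul_apply, ih _ (hv1same w hw), hv1 w hw,
          ← Equiv.Perm.mul_apply, ← zpow_add]
        congr 2
        push_cast
        ring
    intro w
    by_cases hw : T w = w
    · exact Equiv.Perm.pow_apply_eq_self_of_apply_eq_self (hv0 w hw) 5
    · rcases hcover w (mem_support.mpr hw) with h | h
      · rw [hvn1 5 w h]
        have h6 : T ^ ((i₁ - i₂) * (5 : ℕ)) = 1 := by
          rw [zpow_mul, zpow_natCast, ← zpow_natCast, ← zpow_mul, mul_comm, zpow_mul, zpow_natCast,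
            ← hT, pow_orderOf_eq_one, one_zpow]
        rw [h6]
        rfl
      · exact Equiv.Perm.pow_apply_eq_self_of_apply_eq_self (hv2 w h) 5
  have hv51 : v ^ 5 = 1 := by
    ext w
    exact hv5 w
  have hv1' : v ≠ 1 := by
    intro h
    apply hun
    have : u = T ^ i₂ := by
      have h2 : u * (T ^ i₂)⁻¹ = 1 := h
      exact mul_inv_eq_one.mp h2
    rw [this]
    exact zpow_mem_zpowers _ _
  haveI : Fact (Nat.Prime 5) := ⟨Nat.prime_five⟩
  have hvo : orderOf v = 5 := orderOf_eq_prime hv51 hv1'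
  -- The support of `v` lies on the first cycle.
  have hvsub : v.support ⊆ C z₁ := by
    intro w hw
    have hw' := mem_support.mp hw
    have hTw : T w ≠ w := fun h => hw' (hv0 w h)
    rcases hcover w (mem_support.mpr hTw) with h | h
    · exact hmemC _ _ h
    · exact absurd (hv2 w h) hw'
  have hvcard : v.support.card ≤ 5 := (Finset.card_le_card hvsub).trans (hCcard z₁)
  have hvpr : (orderOf v).Prime := by rw [hvo]; exact Nat.prime_five
  obtain ⟨n, hn⟩ := cycleType_prime_order hvpr
  have hsum : v.support.card = 5 * (n + 1) := by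
    rw [← sum_cycleType, hn, Multiset.sum_replicate, hvo]
    simp [mul_comm]
  have hn0 : n = 0 := by omega
  refine ⟨v, hvG, ?_, ?_⟩
  · rw [← card_cycleType_eq_one, hn, hn0]
    simp
  · rw [hsum, hn0]

end Cfsg.Agent.Lib.PGroups
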