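import Mathlib
import Cfsg.Agent.Lib.PGroups.AltGen5

/-!
Degree `13`: from an element of type `5²` to the alternating group; from a normalizing element of an
`11`-cycle to type `5²`.
-/

set_option autoImplicit false
set_option linter.unusedSectionVars false
set_option linter.style.haveILetI false

namespace Cfsg.Agent.Lib.PGroups

open MulAction Subgroup Equiv.Perm
open scoped Pointwise

variable {Δ : Type*} [Fintype Δ] [DecidableEq Δ]

/-- Type `5²` in degree `13` forces the alternating group. -/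
theorem alt_le_of_type_five_five (hd : Fintype.card Δ = 13) {G : Subgroup (Equiv.Perm Δ)}
    (hprim : IsPreprimitive G Δ) (ht : IsMultiplyPretransitive G Δ 3) {T : Equiv.Perm Δ}
    (hTG : T ∈ G) (hTo : orderOf T = 5) (hTs : T.support.card = 10) :
    alternatingGroup Δ ≤ G := by
  classical
  haveI : Fact (Nat.Prime 5) := ⟨Nat.prime_five⟩
  have hF3 : T.supportᶜ.card = 3 := by rw [Finset.card_compl, hTs, hd]
  obtain ⟨z₀, a, b, hza, hzb, hab, hFe⟩ := Finset.card_eq_three.mp hF3
  have hFmem : ∀ w, T w = w ↔ w = z₀ ∨ w = a ∨ w = b := by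
    intro w
    have h1 : w ∈ T.supportᶜ ↔ T w = w := by rw [Finset.mem_compl, notMem_support]
    rw [← h1, hFe]
    simp
  have hTz : T z₀ = z₀ := (hFmem _).mpr (Or.inl rfl)
  have hTa : T a = a := (hFmem _).mpr (Or.inr (Or.inl rfl))
  have hTb : T b = b := (hFmem _).mpr (Or.inr (Or.inr rfl))
  have hF : ∀ w, T w = w → w = z₀ ∨ w = a ∨ w = b := fun w => (hFmem w).mp
  let H₀ : Subgroup (Equiv.Perm Δ) :=
    { carrier := {g | g ∈ G ∧ ∀ w, T w = w → g w = w}
      one_mem' := ⟨G.one_mem, fun _ _ => rfl⟩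
      mul_mem' := by
        rintro g h ⟨hg, hg'⟩ ⟨hh, hh'⟩
        refine ⟨G.mul_mem hg hh, fun w hw => ?_⟩
        rw [Equiv.Perm.mul_apply, hh' w hw, hg' w hw]
      inv_mem' := by
        rintro g ⟨hg, hg'⟩
        refine ⟨G.inv_mem hg, fun w hw => ?_⟩
        rw [Equiv.Perm.inv_eq_iff_eq, hg' w hw] }
  have hH₀mem : ∀ g, g ∈ H₀ ↔ g ∈ G ∧ ∀ w, T w = w → g w = w := fun g => Iff.rfl
  let T₀ : ↥H₀ := ⟨T, hTG, fun w hw => hw⟩
  have hT₀o : orderOf T₀ = 5 := by
    rw [← Subgroup.orderOf_coe]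
    exact hTo
  have hpg : IsPGroup 5 (zpowers T₀) := isPGroup_zpowers_iff.mpr ⟨1, by rw [hT₀o, pow_one]⟩
  obtain ⟨S, hS⟩ := hpg.exists_le_sylow
  by_cases hSe : zpowers T₀ = (S : Subgroup ↥H₀)
  · -- `⟨T⟩` is Sylow in the fixer.
    obtain ⟨g, hg, hg1, hg2, hg3⟩ := exists_map_triple ht hza hzb hab hab hza.symm hzb.symm
    have hginv1 : g⁻¹ a = z₀ := by rw [Equiv.Perm.inv_eq_iff_eq, hg1]
    have hginv2 : g⁻¹ b = a := by rw [Equiv.Perm.inv_eq_iff_eq, hg2]
    have hginv3 : g⁻¹ z₀ = b := by rw [Equiv.Perm.inv_eq_iff_eq, hg3]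
    have hT'mem : g * T * g⁻¹ ∈ H₀ := by
      refine ⟨G.mul_mem (G.mul_mem hg hTG) (G.inv_mem hg), fun w hw => ?_⟩
      rcases hF w hw with rfl | rfl | rfl
      · rw [Equiv.Perm.mul_apply, Equiv.Perm.mul_apply, hginv3, hTb, hg3]
      · rw [Equiv.Perm.mul_apply, Equiv.Perm.mul_apply, hginv1, hTz, hg1]
      · rw [Equiv.Perm.mul_apply, Equiv.Perm.mul_apply, hginv2, hTa, hg2]
    let T'₀ : ↥H₀ := ⟨g * T * g⁻¹, hT'mem⟩
    have hT'₀o : orderOf T'₀ = 5 := by
      rw [← Subgroup.orderOf_coe]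
      show orderOf (g * T * g⁻¹) = 5
      rw [orderOf_conj_eq, hTo]
    have hA : IsPGroup 5 (zpowers T'₀) := isPGroup_zpowers_iff.mpr ⟨1, by rw [hT'₀o, pow_one]⟩
    obtain ⟨h, hh⟩ := sylow_conj' S hA
    have hh1 := hh T'₀ (mem_zpowers _)
    rw [← hSe] at hh1
    obtain ⟨i, hi⟩ := mem_zpowers_iff.mp hh1
    have hi' : T ^ i = (h : Equiv.Perm Δ)⁻¹ * (g * T * g⁻¹) * (h : Equiv.Perm Δ) := by
      have := congrArg (fun w : ↥H₀ => (w : Equiv.Perm Δ)) hi
      simpa using this
    let n : Equiv.Perm Δ := (h : Equiv.Perm Δ)⁻¹ * g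
    have hnG : n ∈ G := G.mul_mem (G.inv_mem h.2.1) hg
    have hnz : n * T * n⁻¹ ∈ zpowers T := by
      have e : n * T * n⁻¹ = T ^ i := by
        rw [hi']
        simp only [n]
        group
      rw [e]
      exact zpow_mem_zpowers _ _
    have hhf : ∀ w, T w = w → (h : Equiv.Perm Δ)⁻¹ w = w := by
      intro w hw
      rw [Equiv.Perm.inv_eq_iff_eq, h.2.2 w hw]
    have hn1 : n z₀ = a := by
      show (h : Equiv.Perm Δ)⁻¹ (g z₀) = a
      rw [hg1, hhf a hTa]
    have hn2 : n a = b := by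
      show (h : Equiv.Perm Δ)⁻¹ (g a) = b
      rw [hg2, hhf b hTb]
    have hn3 : n b = z₀ := by
      show (h : Equiv.Perm Δ)⁻¹ (g b) = z₀
      rw [hg3, hhf z₀ hTz]
    have h3 := isThreeCycle_of_normalizing hTo hTs.le hnz hF hTz hTa hTb hn1 hn2 hn3 hza hzb hab
    exact alternatingGroup_le_of_isPreprimitive_of_isThreeCycle_mem hprim h3 (G.pow_mem hnG 40)
  · -- A larger Sylow subgroup gives a `5`-cycle.
    have hlt : zpowers T₀ < (S : Subgroup ↥H₀) := lt_of_le_of_ne hS hSe
    obtain ⟨u₀, hu₀S, hu₀n, hu₀N⟩ := exists_mem_normalizer_of_lt S.isPGroup' hlt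
    have h4 : u₀ ^ (5 - 1) * T₀ = T₀ * u₀ ^ (5 - 1) :=
      pow_pred_commute Nat.prime_five hT₀o (hu₀N _ (mem_zpowers _))
    obtain ⟨e, he⟩ := exists_orderOf_of_mem_isPGroup S.isPGroup' hu₀S
    have hcop : Nat.Coprime (5 - 1) (orderOf u₀) := by
      rw [he]
      exact Nat.Coprime.pow_right _ (by norm_num)
    obtain ⟨m, hm⟩ := exists_pow_eq_self_of_coprime hcop
    have hcomm : u₀ * T₀ = T₀ * u₀ := by
      have h5 : Commute ((u₀ ^ (5 - 1)) ^ m) T₀ := Commute.pow_left h4 m
      rw [hm] at h5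
      exact h5
    let u : Equiv.Perm Δ := u₀
    have huo : orderOf u = 5 ^ e := by
      rw [show u = (u₀ : Equiv.Perm Δ) from rfl, Subgroup.orderOf_coe]
      exact he
    have huc : u * T = T * u := congrArg Subtype.val hcomm
    have hun : u ∉ zpowers T := by
      intro hmem
      obtain ⟨i, hi⟩ := mem_zpowers_iff.mp hmem
      apply hu₀n
      rw [mem_zpowers_iff]
      refine ⟨i, Subtype.ext ?_⟩
      simpa using hi
    obtain ⟨v, hvG, hvc, hvs⟩ := exists_five_cycle_of_commute hTo hTs huc u₀.2.2 huo hun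
    have hle : closure ({u, T} : Set (Equiv.Perm Δ)) ≤ G := by
      rw [closure_le]
      rintro w (rfl | rfl)
      · exact u₀.2.1
      · exact hTG
    exact Cfsg.Agent.Lib.Perm.jc_alternating_le hprim Nat.prime_five (by omega) hvc hvs (hle hvG)

/-- Equality of points on an `X`-orbit, in `ZMod`. -/
theorem pow_apply_eq_iff_zmod {X : Equiv.Perm Δ} {p : ℕ} [hp : Fact p.Prime] (hX : orderOf X = p)
    {z : Δ} (hz : X z ≠ z) (m n : ℕ) : (X ^ m) z = (X ^ n) z ↔ (m : ZMod p) = n := by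
  rw [ZMod.natCast_eq_natCast_iff']
  have h1 : X ^ m = X ^ (m % p) := by rw [← hX, pow_mod_orderOf]
  have h2 : X ^ n = X ^ (n % p) := by rw [← hX, pow_mod_orderOf]
  constructor
  · intro h
    rw [h1, h2] at h
    exact pow_apply_injective_of_prime_order hp.out hX hz (Nat.mod_lt _ hp.out.pos)
      (Nat.mod_lt _ hp.out.pos) h
  · intro h
    rw [h1, h2, h]

/-- From an element normalizing an `11`-cycle in degree `13`, fixing its two fixed points, not in the
cyclic group: an element of type `5²`. -/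
theorem exists_type_five_five (hd : Fintype.card Δ = 13) {G : Subgroup (Equiv.Perm Δ)}
    (hG : G ≤ alternatingGroup Δ) {X t : Equiv.Perm Δ} (hXG : X ∈ G) (hXc : X.IsCycle)
    (hXs : X.support.card = 11) {a b : Δ} (hab : a ≠ b) (hXF : ∀ w, X w = w ↔ w = a ∨ w = b)
    (htG : t ∈ G) (hta : t a = a) (htb : t b = b) (htN : t * X * t⁻¹ ∈ zpowers X)
    (htn : t ∉ zpowers X) : ∃ T ∈ G, orderOf T = 5 ∧ T.support.card = 10 := by
  classical
  haveI : Fact (Nat.Prime 11) := ⟨by norm_num⟩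
  have hXo : orderOf X = 11 := by rw [hXc.orderOf, hXs]
  have hXa : X a = a := (hXF a).mpr (Or.inl rfl)
  have hXb : X b = b := (hXF b).mpr (Or.inr rfl)
  have hsne : X.support.Nonempty := by
    rw [← Finset.card_pos, hXs]
    norm_num
  obtain ⟨z₀, hz₀⟩ := hsne
  have hXz : X z₀ ≠ z₀ := mem_support.mp hz₀
  -- Reduction to an element fixing `z₀`.
  have ht1 : X (t z₀) ≠ t z₀ := by
    intro h
    rcases (hXF _).mp h with h | h
    · rw [← hta] at h
      exact hXz ((hXF _).mpr (Or.inl (t.injective h)))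
    · rw [← htb] at h
      exact hXz ((hXF _).mpr (Or.inr (t.injective h)))
  obtain ⟨i, hi⟩ := hXc.exists_pow_eq hXz ht1
  let s : Equiv.Perm Δ := (X ^ i)⁻¹ * t
  have hsG : s ∈ G := G.mul_mem (G.inv_mem (G.pow_mem hXG i)) htG
  have hsz : s z₀ = z₀ := by
    show (X ^ i)⁻¹ (t z₀) = z₀
    rw [← hi]
    simp
  have hXpfix : ∀ (k : ℤ) (w : Δ), X w = w → (X ^ k) w = w := fun k w hw =>
    Equiv.Perm.zpow_apply_eq_self_of_apply_eq_self hw k
  have hsa : s a = a := by
    show (X ^ i)⁻¹ (t a) = a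
    rw [hta, Equiv.Perm.inv_eq_iff_eq]
    exact (Equiv.Perm.pow_apply_eq_self_of_apply_eq_self hXa i).symm
  have hsb : s b = b := by
    show (X ^ i)⁻¹ (t b) = b
    rw [htb, Equiv.Perm.inv_eq_iff_eq]
    exact (Equiv.Perm.pow_apply_eq_self_of_apply_eq_self hXb i).symm
  have hsn : s ∉ zpowers X := by
    intro h
    apply htn
    have : t = X ^ i * s := by simp [s]
    rw [this]
    exact mul_mem (pow_mem (mem_zpowers _) _) h
  obtain ⟨r, hr⟩ : ∃ r : ℕ, s * X * s⁻¹ = X ^ r := by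
    have h1 : s * X * s⁻¹ ∈ zpowers X := by
      have e : s * X * s⁻¹ = (X ^ i)⁻¹ * (t * X * t⁻¹) * X ^ i := by
        simp only [s]
        group
      rw [e]
      exact mul_mem (mul_mem (inv_mem (pow_mem (mem_zpowers _) _)) htN) (pow_mem (mem_zpowers _) _)
    obtain ⟨r, hr⟩ := (Submonoid.mem_powers_iff _ _).mp (mem_powers_iff_mem_zpowers.mpr h1)
    exact ⟨r, hr.symm⟩
  -- The action on the orbit of `z₀`.
  have hform : ∀ k i : ℕ, (s ^ k) ((X ^ i) z₀) = (X ^ (r ^ k * i)) z₀ := by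
    intro k i
    have h1 := conj_pow_of_conj_eq_pow hr k
    have h2 : s ^ k * X ^ i * (s ^ k)⁻¹ = X ^ (r ^ k * i) := by
      rw [← conj_pow, h1, pow_mul]
    have h3 : (s ^ k) z₀ = z₀ := Equiv.Perm.pow_apply_eq_self_of_apply_eq_self hsz k
    have h4 : s ^ k * X ^ i = X ^ (r ^ k * i) * s ^ k := by
      rw [← h2]
      group
    have h5 := congrArg (fun f : Equiv.Perm Δ => f z₀) h4
    simp only [Equiv.Perm.mul_apply, h3] at h5
    exact h5
  -- Points of the support.
  have hsupp : ∀ w, X w ≠ w → ∃ i : ℕ, (X ^ i) z₀ = w := fun w hw => hXc.exists_pow_eq hXz hw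
  -- If `r ^ k = 1` in `ZMod 11` then `s ^ k = 1`.
  have hone : ∀ k : ℕ, ((r : ZMod 11)) ^ k = 1 → s ^ k = 1 := by
    intro k hk
    ext w
    by_cases hw : X w = w
    · rcases (hXF w).mp hw with rfl | rfl
      · exact Equiv.Perm.pow_apply_eq_self_of_apply_eq_self hsa k
      · exact Equiv.Perm.pow_apply_eq_self_of_apply_eq_self hsb k
    · obtain ⟨i, rfl⟩ := hsupp w hw
      rw [hform]
      apply (pow_apply_eq_iff_zmod hXo hXz _ _).mpr
      push_cast
      rw [hk, one_mul]
  have hr0 : (r : ZMod 11) ≠ 0 := by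
    intro h
    have h1 : X ^ r = 1 := by
      rw [ZMod.natCast_eq_zero_iff] at h
      rw [← hXo] at h
      exact orderOf_dvd_iff_pow_eq_one.mp h
    rw [h1] at hr
    have h2 : X = 1 := by
      have : X = s⁻¹ * (s * X * s⁻¹) * s := by group
      rw [this, hr]
      group
    rw [h2, orderOf_one] at hXo
    omega
  have hr1 : (r : ZMod 11) ≠ 1 := by
    intro h
    have h1 := hone 1 (by rw [pow_one]; exact h)
    rw [pow_one] at h1
    exact hsn (h1 ▸ one_mem _)
  -- Support computation.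
  have hsupport : ∀ (k : ℕ), ((r : ZMod 11)) ^ k ≠ 1 → (s ^ k).support = X.support.erase z₀ := by
    intro k hk
    ext w
    rw [Finset.mem_erase, mem_support, mem_support]
    constructor
    · intro h
      have h1 : X w ≠ w := by
        intro h2
        apply h
        rcases (hXF w).mp h2 with rfl | rfl
        · exact Equiv.Perm.pow_apply_eq_self_of_apply_eq_self hsa k
        · exact Equiv.Perm.pow_apply_eq_self_of_apply_eq_self hsb k
      refine ⟨?_, h1⟩
      rintro rfl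
      exact h (Equiv.Perm.pow_apply_eq_self_of_apply_eq_self hsz k)
    · rintro ⟨h1, h2⟩ h3
      obtain ⟨i, rfl⟩ := hsupp w h2
      rw [hform] at h3
      have h4 := (pow_apply_eq_iff_zmod hXo hXz _ _).mp h3
      push_cast at h4
      have h5 : ((r : ZMod 11) ^ k - 1) * (i : ZMod 11) = 0 := by
        rw [sub_mul, h4, one_mul, sub_self]
      have h6 : (i : ZMod 11) = 0 := by
        rcases mul_eq_zero.mp h5 with h | h
        · exact absurd (sub_eq_zero.mp h) hk
        · exact h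
      apply h1
      have h7 := (pow_apply_eq_iff_zmod hXo hXz i 0).mpr (by simpa using h6)
      simpa using h7
  have hcard10 : (X.support.erase z₀).card = 10 := by
    rw [Finset.card_erase_of_mem hz₀, hXs]
  -- Fermat in `ZMod 11`.
  have hr5 : (r : ZMod 11) ^ 5 = 1 ∨ (r : ZMod 11) ^ 5 = -1 := by
    have h10 : (r : ZMod 11) ^ 10 = 1 := by
      have := ZMod.pow_card_sub_one_eq_one hr0
      simpa using this
    have h2 : ((r : ZMod 11) ^ 5 - 1) * ((r : ZMod 11) ^ 5 + 1) = 0 := by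
      have : ((r : ZMod 11) ^ 5 - 1) * ((r : ZMod 11) ^ 5 + 1) = (r : ZMod 11) ^ 10 - 1 := by ring
      rw [this, h10, sub_self]
    rcases mul_eq_zero.mp h2 with h | h
    · exact Or.inl (sub_eq_zero.mp h)
    · exact Or.inr (eq_neg_of_add_eq_zero_left h)
  rcases hr5 with h5 | h5
  · -- Order 5.
    refine ⟨s, hsG, ?_, ?_⟩
    · haveI : Fact (Nat.Prime 5) := ⟨Nat.prime_five⟩
      apply orderOf_eq_prime (hone 5 h5)
      intro h
      exact hsn (h ▸ one_mem _)
    · have h1 := hsupport 1 (by rw [pow_one]; exact hr1)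
      rw [pow_one] at h1
      rw [h1, hcard10]
  · -- An odd involution.
    exfalso
    have hne : ((r : ZMod 11)) ^ 5 ≠ 1 := by
      rw [h5]
      intro h
      have h2 : ((2 : ℕ) : ZMod 11) = 0 := by
        push_cast
        linear_combination -h
      rw [ZMod.natCast_eq_zero_iff] at h2
      norm_num at h2
    have h1 := hsupport 5 hne
    have h2 : orderOf (s ^ 5) = 2 := by
      haveI : Fact (Nat.Prime 2) := ⟨Nat.prime_two⟩
      apply orderOf_eq_prime
      · rw [← pow_mul]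
        apply hone
        rw [pow_mul, h5]
        ring
      · intro h
        rw [h] at h1
        rw [support_one] at h1
        have := congrArg Finset.card h1
        rw [hcard10] at this
        simp at this
    have h3 := four_dvd_support_of_even_involution (hG (G.pow_mem hsG 5)) h2
    rw [h1, hcard10] at h3
    omega

end Cfsg.Agent.Lib.PGroups
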