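import Mathlib
import Cfsg.Agent.Lib.PGroups.AltGen6

/-!
Degree `13`: a primitive group of even permutations containing an `11`-cycle contains `A₁₃`.
-/

set_option autoImplicit false
set_option linter.unusedSectionVars false
set_option linter.style.haveILetI false

namespace Cfsg.Agent.Lib.PGroups

open MulAction Subgroup Equiv.Perm
open scoped Pointwise

variable {Δ : Type*} [Fintype Δ] [DecidableEq Δ]

/-- **Degree 13**. -/
theorem alt_le_of_eleven_cycle (hd : Fintype.card Δ = 13) {G : Subgroup (Equiv.Perm Δ)}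
    (hG : G ≤ alternatingGroup Δ) (hprim : IsPreprimitive G Δ) {X : Equiv.Perm Δ} (hXG : X ∈ G)
    (hXc : X.IsCycle) (hXs : X.support.card = 11) : alternatingGroup Δ ≤ G := by
  classical
  have hp11 : Nat.Prime 11 := by norm_num
  haveI : Fact (Nat.Prime 11) := ⟨hp11⟩
  have hXo : orderOf X = 11 := by rw [hXc.orderOf, hXs]
  have ht := isMultiplyPretransitive_three hprim hXG hXc hp11 hXs (by omega)
  have hc2 : X.supportᶜ.card = 2 := by rw [Finset.card_compl, hXs, hd]
  obtain ⟨a, b, hab, hFe⟩ := Finset.card_eq_two.mp hc2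
  have hXF : ∀ w, X w = w ↔ w = a ∨ w = b := by
    intro w
    have h1 : w ∈ X.supportᶜ ↔ X w = w := by rw [Finset.mem_compl, notMem_support]
    rw [← h1, hFe]
    simp
  have hXa : X a = a := (hXF a).mpr (Or.inl rfl)
  have hXb : X b = b := (hXF b).mpr (Or.inr rfl)
  by_cases hB : ∃ t, t ∈ G ∧ t a = a ∧ t b = b ∧ t * X * t⁻¹ ∈ zpowers X ∧ t ∉ zpowers X
  · obtain ⟨t, htG, hta, htb, htN, htn⟩ := hB
    obtain ⟨T, hTG, hTo, hTs⟩ := exists_type_five_five hd hG hXG hXc hXs hab hXF htG hta htb htN htn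
    exact alt_le_of_type_five_five hd hprim ht hTG hTo hTs
  · exfalso
    push Not at hB
    let E : Subgroup (Equiv.Perm Δ) :=
      { carrier := {g | g ∈ G ∧ g a = a}
        one_mem' := ⟨G.one_mem, rfl⟩
        mul_mem' := by
          rintro g h ⟨hg, hg'⟩ ⟨hh, hh'⟩
          refine ⟨G.mul_mem hg hh, ?_⟩
          rw [Equiv.Perm.mul_apply, hh', hg']
        inv_mem' := by
          rintro g ⟨hg, hg'⟩
          refine ⟨G.inv_mem hg, ?_⟩
          rw [Equiv.Perm.inv_eq_iff_eq, hg'] }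
    let x : ↥E := ⟨X, hXG, hXa⟩
    have hxo : orderOf x = 11 := by
      rw [← Subgroup.orderOf_coe]
      exact hXo
    have hzpow : ∀ g : ↥E, (g : Equiv.Perm Δ) ∈ zpowers X → g ∈ zpowers x := by
      intro g hg
      obtain ⟨i, hi⟩ := mem_zpowers_iff.mp hg
      rw [mem_zpowers_iff]
      refine ⟨i, Subtype.ext ?_⟩
      simpa [x] using hi
    have hzpow' : ∀ g : ↥E, g ∈ zpowers x → (g : Equiv.Perm Δ) ∈ zpowers X := by
      intro g hg
      obtain ⟨i, rfl⟩ := mem_zpowers_iff.mp hg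
      rw [mem_zpowers_iff]
      exact ⟨i, by simp [x]⟩
    have hN : ∀ g : ↥E, (∀ w ∈ zpowers x, g * w * g⁻¹ ∈ zpowers x) → g ∈ zpowers x := by
      intro g hg
      apply hzpow
      have hg1 : (g : Equiv.Perm Δ) * X * (g : Equiv.Perm Δ)⁻¹ ∈ zpowers X :=
        hzpow' _ (hg x (mem_zpowers x))
      have hn : g ∈ normalizer ((zpowers x : Subgroup ↥E) : Set ↥E) := mem_normalizer_of_conj_le' _ g hg
      have hg2 : (g : Equiv.Perm Δ)⁻¹ * X * (g : Equiv.Perm Δ) ∈ zpowers X :=
        hzpow' _ ((mem_normalizer_iff''.mp hn x).mp (mem_zpowers x))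
      obtain ⟨k, hk⟩ := mem_zpowers_iff.mp hg2
      have h1 : X ((g : Equiv.Perm Δ) b) = (g : Equiv.Perm Δ) b := by
        have h2 : ((g : Equiv.Perm Δ)⁻¹ * X * (g : Equiv.Perm Δ)) b = b := by
          rw [← hk]
          exact Equiv.Perm.zpow_apply_eq_self_of_apply_eq_self hXb k
        have h3 : (g : Equiv.Perm Δ) (((g : Equiv.Perm Δ)⁻¹ * X * (g : Equiv.Perm Δ)) b) = (g : Equiv.Perm Δ) b := by
          rw [h2]
        simpa [Equiv.Perm.mul_apply] using h3
      have hgb : (g : Equiv.Perm Δ) b = b := by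
        rcases (hXF _).mp h1 with h | h
        · exfalso
          rw [← g.2.2] at h
          exact hab ((g : Equiv.Perm Δ).injective h).symm
        · exact h
      exact hB _ g.2.1 g.2.2 hgb hg1
    obtain ⟨K, hKn, hKbot, hKc, hKnd, hfp⟩ :=
      exists_normal_complement_of_self_normalizing hp11 hxo hN
    -- `K` acts semiregularly at `b`.
    let T' : Subgroup (Equiv.Perm Δ) := (K.map E.subtype) ⊓ stabilizer (Equiv.Perm Δ) b
    have hT'mem : ∀ g, g ∈ T' ↔ (∃ k ∈ K, (k : Equiv.Perm Δ) = g) ∧ g b = b := by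
      intro g
      rw [mem_inf, mem_stabilizer_iff]
      constructor
      · rintro ⟨⟨k, hk, rfl⟩, h2⟩
        exact ⟨⟨k, hk, rfl⟩, h2⟩
      · rintro ⟨⟨k, hk, rfl⟩, h2⟩
        exact ⟨⟨k, hk, rfl⟩, h2⟩
    have hT'conj : ∀ (n : ℕ), ∀ g ∈ T', X ^ n * g * (X ^ n)⁻¹ ∈ T' := by
      intro n g hg
      obtain ⟨⟨k, hk, rfl⟩, hgb⟩ := (hT'mem _).mp hg
      refine (hT'mem _).mpr ⟨⟨x ^ n * k * (x ^ n)⁻¹, hKn.conj_mem k hk _, ?_⟩, ?_⟩
      · simp [x]
      · have hXnb : (X ^ n) b = b := Equiv.Perm.pow_apply_eq_self_of_apply_eq_self hXb n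
        have hXnb' : (X ^ n)⁻¹ b = b := by rw [Equiv.Perm.inv_eq_iff_eq, hXnb]
        rw [Equiv.Perm.mul_apply, Equiv.Perm.mul_apply, hXnb', hgb, hXnb]
    have hT'K : ∀ g : ↥T', ∃ k ∈ K, (k : Equiv.Perm Δ) = g := fun g => ((hT'mem _).mp g.2).1
    have hT'fix : ∀ z ∈ X.support, ∀ g ∈ T', g z = z := by
      intro z hz
      set O : Set Δ := orbit ↥T' z with hO
      have hzO : z ∈ O := mem_orbit_self z
      have hBl : ∀ n : ℕ, ∀ u ∈ O, (X ^ n) u ∈ O → ∀ w ∈ O, (X ^ n) w ∈ O := by
        rintro n _ ⟨k₁, rfl⟩ ⟨k₂, hk₂⟩ _ ⟨k₃, rfl⟩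
        let g₁ : ↥T' := ⟨_, hT'conj n k₃ k₃.2⟩
        let g₂ : ↥T' := ⟨_, hT'conj n _ (inv_mem k₁.2)⟩
        refine ⟨g₁ * g₂ * k₂, ?_⟩
        have hk₂' : (k₂ : Equiv.Perm Δ) z = (X ^ n) ((k₁ : Equiv.Perm Δ) z) := hk₂
        show (X ^ n * (k₃ : Equiv.Perm Δ) * (X ^ n)⁻¹) ((X ^ n * (k₁ : Equiv.Perm Δ)⁻¹ * (X ^ n)⁻¹) ((k₂ : Equiv.Perm Δ) z)) =
          (X ^ n) ((k₃ : Equiv.Perm Δ) z)
        rw [hk₂']
        simp [Equiv.Perm.mul_apply]
      rcases translates_core hXc hp11 hXs O hBl hzO hz with h | h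
      · -- `T'` is transitive on the support: `11 ∣ |K|`.
        exfalso
        have hOsub : O ⊆ (X.support : Set Δ) := by
          rintro _ ⟨g, rfl⟩
          have hga : (g : Equiv.Perm Δ) a = a := by
            obtain ⟨k, -, hk⟩ := hT'K g
            rw [← hk]
            exact k.2.2
          have hgb : (g : Equiv.Perm Δ) b = b := ((hT'mem _).mp g.2).2
          show (g : Equiv.Perm Δ) z ∈ X.support
          rw [mem_support]
          intro h1
          have hzX : X z ≠ z := mem_support.mp hz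
          rcases (hXF _).mp h1 with h2 | h2
          · rw [← hga] at h2
            exact hzX ((hXF _).mpr (Or.inl ((g : Equiv.Perm Δ).injective h2)))
          · rw [← hgb] at h2
            exact hzX ((hXF _).mpr (Or.inr ((g : Equiv.Perm Δ).injective h2)))
        have hOe : O = (X.support : Set Δ) := Set.Subset.antisymm hOsub (fun u hu => h u hu)
        have h1 := Subgroup.index_dvd_card (stabilizer ↥T' z)
        rw [MulAction.index_stabilizer, ← hO, hOe, Set.ncard_coe_finset, hXs] at h1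
        apply hKnd
        refine h1.trans ?_
        have hle : T' ≤ K.map E.subtype := inf_le_left
        have h2 := Subgroup.card_dvd_of_le hle
        have h3 : Nat.card (K.map E.subtype) = Nat.card K :=
          Nat.card_congr (equivMapOfInjective K E.subtype E.subtype_injective).toEquiv.symm
        rwa [h3] at h2
      · intro g hg
        by_contra hne
        have h1 : 1 < O.ncard := (Set.one_lt_ncard (Set.toFinite O)).mpr
          ⟨z, hzO, g z, ⟨⟨g, hg⟩, rfl⟩, fun he => hne he.symm⟩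
        omega
    have hKb : ∀ k ∈ K, (k : Equiv.Perm Δ) b = b → k = 1 := by
      intro k hk hkb
      have hT : (k : Equiv.Perm Δ) ∈ T' := (hT'mem _).mpr ⟨⟨k, hk, rfl⟩, hkb⟩
      apply Subtype.ext
      ext w
      by_cases hw : X w = w
      · rcases (hXF w).mp hw with rfl | rfl
        · exact k.2.2
        · exact hkb
      · exact hT'fix w (mem_support.mpr hw) _ hT
    -- `|K| ≤ 12`.
    have hK12 : Nat.card K ≤ 12 := by
      let f : ↥K → {w : Δ // w ≠ a} := fun k => ⟨((k : ↥E) : Equiv.Perm Δ) b, by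
        intro h
        rw [← (k : ↥E).2.2] at h
        exact hab ((((k : ↥E) : Equiv.Perm Δ)).injective h).symm⟩
      have hf : Function.Injective f := by
        intro k₁ k₂ h
        have h1 : ((k₁ : ↥E) : Equiv.Perm Δ) b = ((k₂ : ↥E) : Equiv.Perm Δ) b :=
          congrArg Subtype.val h
        have h2 : (k₁⁻¹ * k₂ : ↥K) = 1 := by
          apply Subtype.ext
          apply hKb _ (k₁⁻¹ * k₂).2
          show ((k₁ : ↥E) : Equiv.Perm Δ)⁻¹ (((k₂ : ↥E) : Equiv.Perm Δ) b) = b
          rw [← h1]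
          simp
        have h3 : k₁ = k₂ := by
          have := mul_eq_one_iff_eq_inv.mp h2
          simpa using this
        exact h3
      have h1 := Nat.card_le_card_of_injective f hf
      have h2 : Nat.card {w : Δ // w ≠ a} = 12 := by
        rw [Nat.card_eq_fintype_card, Fintype.card_subtype]
        simp [Finset.filter_ne', hd]
      omega
    have hsne : X.support.Nonempty := by
      rw [← Finset.card_pos, hXs]
      norm_num
    obtain ⟨z₀, hz₀⟩ := hsne
    have hXz : X z₀ ≠ z₀ := mem_support.mp hz₀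
    have hz₀a : z₀ ≠ a := fun h => hXz ((hXF _).mpr (Or.inl h))
    have hz₀b : z₀ ≠ b := fun h => hXz ((hXF _).mpr (Or.inr h))
    have hKne : K ≠ ⊥ := by
      intro h
      obtain ⟨g, hg, hg1, hg2, -⟩ := exists_map_triple ht hab hz₀a.symm hz₀b.symm hz₀a.symm hab hz₀b
      let g' : ↥E := ⟨g, hg, hg1⟩
      have hcE : Nat.card E = 11 := by
        rw [← hKc, h, Subgroup.card_bot, one_mul]
      have htop : zpowers x = ⊤ := by
        apply Subgroup.eq_top_of_card_eq
        rw [Nat.card_zpowers, hxo, hcE]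
      have hm : g' ∈ zpowers x := by rw [htop]; trivial
      have hm' := hzpow' _ hm
      obtain ⟨i, hi⟩ := mem_zpowers_iff.mp hm'
      have : (g : Equiv.Perm Δ) b = b := by
        have e : g = X ^ i := hi.symm
        rw [e]
        exact Equiv.Perm.zpow_apply_eq_self_of_apply_eq_self hXb i
      rw [hg2] at this
      exact hz₀b this
    have hnorm : ∀ w ∈ K, x * w * x⁻¹ ∈ K := fun w hw => hKn.conj_mem w hw x
    have h12 := card_ge_of_fpf hp11 hxo hnorm hfp hKne
    have hK12' : Nat.card K = 12 := by omega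
    have := card_ge_of_fpf_two hp11 hxo hnorm hfp Nat.prime_two Nat.prime_three (by norm_num)
      (by rw [hK12']; norm_num) (by rw [hK12']; norm_num)
    omega

end Cfsg.Agent.Lib.PGroups
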