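import Mathlib

/-!
Two primes in `(n, 2n]` at distance at least `4`, following the proof of Bertrand's postulate.
-/

set_option autoImplicit false

namespace Cfsg.Agent.Lib.PGroups

section Real

open Real

theorem real_main_inequality_three {x : ℝ} (x_large : (2048 : ℝ) ≤ x) :
    x * (2 * x) * (2 * x) * (2 * x) ^ √(2 * x) * 4 ^ (2 * x / 3) ≤ 4 ^ x := by
  let f : ℝ → ℝ := fun x => log x + log x + log x + log 2 + log 2 + √(2 * x) * log (2 * x) - log 4 / 3 * x
  have hf' : ∀ x, 0 < x → 0 < x * (2 * x) * (2 * x) * (2 * x) ^ √(2 * x) / 4 ^ (x / 3) := fun x h =>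
    div_pos (mul_pos (mul_pos (mul_pos h (mul_pos two_pos h)) (mul_pos two_pos h))
      (rpow_pos_of_pos (mul_pos two_pos h) _))
      (rpow_pos_of_pos four_pos _)
  have hf : ∀ x, 0 < x → f x = log (x * (2 * x) * (2 * x) * (2 * x) ^ √(2 * x) / 4 ^ (x / 3)) := by
    intro x h5
    have h6 := mul_pos (zero_lt_two' ℝ) h5
    have h7 := rpow_pos_of_pos h6 (√(2 * x))
    rw [log_div (mul_pos (mul_pos (mul_pos h5 h6) h6) h7).ne' (rpow_pos_of_pos four_pos _).ne',
      log_mul (mul_pos (mul_pos h5 h6) h6).ne' h7.ne', log_mul (mul_pos h5 h6).ne' h6.ne',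
      log_mul h5.ne' h6.ne', log_mul two_ne_zero h5.ne',
      log_rpow h6, log_rpow zero_lt_four]
    simp only [f]
    ring
  have h5 : 0 < x := lt_of_lt_of_le (by norm_num1) x_large
  rw [← div_le_one (rpow_pos_of_pos four_pos x), ← div_div_eq_mul_div, ← rpow_sub four_pos, ←
    mul_div 2 x, mul_div_left_comm, ← mul_one_sub, (by norm_num1 : (1 : ℝ) - 2 / 3 = 1 / 3),
    mul_one_div, ← log_nonpos_iff (hf' x h5).le, ← hf x h5]
  have h : ConcaveOn ℝ (Set.Ioi 0.5) f := by
    apply ConcaveOn.sub
    · apply ConcaveOn.add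
      · apply ConcaveOn.add
        · apply ConcaveOn.add
          · apply ConcaveOn.add
            · apply ConcaveOn.add
              · exact strictConcaveOn_log_Ioi.concaveOn.subset
                  (Set.Ioi_subset_Ioi (by norm_num)) (convex_Ioi 0.5)
              · exact strictConcaveOn_log_Ioi.concaveOn.subset
                  (Set.Ioi_subset_Ioi (by norm_num)) (convex_Ioi 0.5)
            · exact strictConcaveOn_log_Ioi.concaveOn.subset
                (Set.Ioi_subset_Ioi (by norm_num)) (convex_Ioi 0.5)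
          · exact concaveOn_const _ (convex_Ioi 0.5)
        · exact concaveOn_const _ (convex_Ioi 0.5)
      convert!
        ((strictConcaveOn_sqrt_mul_log_Ioi.concaveOn.comp_linearMap ((2 : ℝ) • LinearMap.id)))
        using 1
      ext x
      simp only [Set.mem_Ioi, Set.mem_preimage, LinearMap.smul_apply,
        LinearMap.id_coe, id_eq, smul_eq_mul]
      rw [← mul_lt_mul_iff_right₀ (two_pos)]
      norm_num1
      rfl
    apply ConvexOn.smul
    · refine div_nonneg (log_nonneg (by norm_num1)) (by norm_num1)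
    · exact convexOn_id (convex_Ioi (0.5 : ℝ))
  suffices ∃ x1 x2, 0.5 < x1 ∧ x1 < x2 ∧ x2 ≤ x ∧ 0 ≤ f x1 ∧ f x2 ≤ 0 by
    obtain ⟨x1, x2, h1, h2, h0, h3, h4⟩ := this
    exact (h.right_le_of_le_left'' h1 ((h1.trans h2).trans_le h0) h2 h0 (h4.trans h3)).trans h4
  refine ⟨18, 2048, by norm_num1, by norm_num1, x_large, ?_, ?_⟩
  · have : √(2 * 18 : ℝ) = 6 := (sqrt_eq_iff_mul_self_eq_of_pos (by norm_num1)).mpr (by norm_num1)
    rw [hf _ (by norm_num1), log_nonneg_iff (by positivity), this, one_le_div (by norm_num1)]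
    norm_num1
  · have : √(2 * 2048) = 64 :=
      (sqrt_eq_iff_mul_self_eq_of_pos (by norm_num1)).mpr (by norm_num1)
    rw [hf _ (by norm_num1), log_nonpos_iff (hf' _ (by norm_num1)).le, this,
        div_le_one (by positivity)]
    have e0 : ((2 * 2048 : ℝ)) ^ (64 : ℝ) = (2 * 2048 : ℝ) ^ (64 : ℕ) := by
      rw [← rpow_natCast]; norm_num
    have e1 : ((2048 : ℝ) * (2 * 2048) * (2 * 2048) * (2 * 2048) ^ (64 : ℝ)) = (2 : ℝ) ^ (803 : ℝ) := by
      rw [e0, show (803 : ℝ) = ((803 : ℕ) : ℝ) by norm_num, rpow_natCast,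
        show (803 : ℕ) = 11 + 12 + 12 + 12 * 64 by norm_num, pow_add, pow_add, pow_add, pow_mul]
      norm_num
    have e2 : (4 : ℝ) ^ ((2048 : ℝ) / 3) = 2 ^ ((4096 : ℝ) / 3) := by
      rw [show (4 : ℝ) = 2 ^ (2 : ℝ) by norm_num, ← rpow_mul (by norm_num)]; norm_num
    rw [e1, e2]
    apply rpow_le_rpow_of_exponent_le
    · norm_num
    · norm_num

end Real

open Nat

theorem main_inequality_three {n : ℕ} (n_large : 2048 ≤ n) :
    n * (2 * n) * (2 * n) * (2 * n) ^ sqrt (2 * n) * 4 ^ (2 * n / 3) ≤ 4 ^ n := by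
  rw [← @cast_le ℝ]
  simp only [cast_mul, cast_pow, ← Real.rpow_natCast, cast_ofNat]
  refine _root_.trans ?_ (real_main_inequality_three (by exact_mod_cast n_large))
  gcongr
  · have n2_pos : 0 < 2 * n := by positivity
    exact mod_cast n2_pos
  · exact_mod_cast Real.nat_sqrt_le_real_sqrt
  · norm_num1
  · exact cast_div_le.trans (by norm_cast)

/-- If there are at most two primes in `(n, 2n]`, then the central binomial coefficient is small. -/
theorem centralBinom_le_of_two_primes (n : ℕ) (n_large : 2 < n) (P : Finset ℕ) (hcard : P.card ≤ 2)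
    (hP : ∀ p : ℕ, p.Prime → n < p → p ≤ 2 * n → p ∈ P) :
    centralBinom n ≤ ((2 * n) * (2 * n)) * ((2 * n) ^ sqrt (2 * n) * 4 ^ (2 * n / 3)) := by
  have n_pos : 0 < n := (Nat.zero_le _).trans_lt n_large
  have n2_pos : 1 ≤ 2 * n := mul_pos (zero_lt_two' ℕ) n_pos
  let S := {p ∈ Finset.range (2 * n / 3 + 1) | Nat.Prime p}
  let f x := x ^ n.centralBinom.factorization x
  have hS : ∏ x ∈ S, f x = ∏ x ∈ Finset.range (2 * n / 3 + 1), f x := by
    refine Finset.prod_filter_of_ne fun p _ h => ?_
    contrapose h; dsimp only [f]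
    rw [factorization_eq_zero_of_not_prime n.centralBinom h, _root_.pow_zero]
  have hsmall : ∏ x ∈ S, f x ≤ (2 * n) ^ sqrt (2 * n) * 4 ^ (2 * n / 3) := by
    rw [← Finset.prod_filter_mul_prod_filter_not S (· ≤ sqrt (2 * n))]
    apply mul_le_mul'
    · refine (Finset.prod_le_prod' fun p _ => (?_ : f p ≤ 2 * n)).trans ?_
      · exact pow_factorization_choose_le (mul_pos two_pos n_pos)
      have : (Finset.Icc 1 (sqrt (2 * n))).card = sqrt (2 * n) := by
        rw [card_Icc, Nat.add_sub_cancel]
      rw [Finset.prod_const]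
      refine pow_right_mono₀ n2_pos ((Finset.card_le_card fun x hx => ?_).trans this.le)
      obtain ⟨h1, h2⟩ := Finset.mem_filter.1 hx
      exact Finset.mem_Icc.mpr ⟨(Finset.mem_filter.1 h1).2.one_lt.le, h2⟩
    · refine le_trans ?_ (primorial_le_four_pow (2 * n / 3))
      refine (Finset.prod_le_prod' fun p hp => (?_ : f p ≤ p)).trans ?_
      · obtain ⟨h1, h2⟩ := Finset.mem_filter.1 hp
        refine (pow_right_mono₀ (Finset.mem_filter.1 h1).2.one_lt.le ?_).trans (pow_one p).le
        exact Nat.factorization_choose_le_one (sqrt_lt'.mp <| not_le.1 h2)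
      refine Finset.prod_le_prod_of_subset_of_one_le' (Finset.filter_subset _ _) ?_
      exact fun p hp _ => (Finset.mem_filter.1 hp).2.one_lt.le
  -- split the full product
  have hfull : centralBinom n = (∏ x ∈ Finset.range (2 * n / 3 + 1), f x) *
      ∏ x ∈ Finset.Ico (2 * n / 3 + 1) (2 * n + 1), f x := by
    conv_lhs => rw [← n.prod_pow_factorization_centralBinom]
    have hle : 2 * n / 3 + 1 ≤ 2 * n + 1 := by omega
    rw [Finset.range_eq_Ico, Finset.range_eq_Ico,
      ← Finset.prod_Ico_consecutive f (Nat.zero_le _) hle]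
  have hone : ∀ x ∈ Finset.Ico (2 * n / 3 + 1) (2 * n + 1), x ∉ P → f x = 1 := by
    intro x hx hnot
    rw [Finset.mem_Ico] at hx
    have h2x : 2 * n < 3 * x := by omega
    by_cases hp : x.Prime
    · have hle : x ≤ n := by
        by_contra hc
        exact hnot (hP x hp (by omega) (by omega))
      simp only [f]
      rw [factorization_centralBinom_of_two_mul_self_lt_three_mul n_large hle h2x, Nat.pow_zero]
    · simp only [f]
      rw [factorization_eq_zero_of_not_prime n.centralBinom hp, Nat.pow_zero]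
  have hlarge : ∏ x ∈ Finset.Ico (2 * n / 3 + 1) (2 * n + 1), f x ≤ (2 * n) * (2 * n) := by
    have h1 : ∏ x ∈ (Finset.Ico (2 * n / 3 + 1) (2 * n + 1)).filter (· ∈ P), f x =
        ∏ x ∈ Finset.Ico (2 * n / 3 + 1) (2 * n + 1), f x := by
      apply Finset.prod_subset (Finset.filter_subset _ _)
      intro x hx hx'
      apply hone x hx
      intro hxP
      exact hx' (Finset.mem_filter.mpr ⟨hx, hxP⟩)
    rw [← h1]
    refine (Finset.prod_le_prod' fun p _ => (?_ : f p ≤ 2 * n)).trans ?_
    · exact pow_factorization_choose_le (mul_pos two_pos n_pos)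
    · rw [Finset.prod_const, ← pow_two]
      apply pow_right_mono₀ n2_pos
      refine (Finset.card_le_card ?_).trans hcard
      intro x hx
      exact (Finset.mem_filter.mp hx).2
  rw [hfull, ← hS, mul_comm]
  exact Nat.mul_le_mul hlarge hsmall

theorem exists_primes_gap_eventually (n : ℕ) (h : 2048 ≤ n) :
    ∃ p q : ℕ, p.Prime ∧ q.Prime ∧ n < p ∧ p + 4 ≤ q ∧ q ≤ 2 * n := by
  classical
  by_contra hc
  push Not at hc
  -- The set of primes in `(n, 2n]`.
  let A : Finset ℕ := (Finset.Ioc n (2 * n)).filter Nat.Prime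
  have hAmem : ∀ p, p ∈ A ↔ p.Prime ∧ n < p ∧ p ≤ 2 * n := by
    intro p
    simp only [A, Finset.mem_filter, Finset.mem_Ioc]
    tauto
  have hAcard : A.card ≤ 2 := by
    by_cases hne : A.Nonempty
    · let p₀ := A.min' hne
      have hp₀ : p₀ ∈ A := Finset.min'_mem A hne
      obtain ⟨hp₀p, hp₀n, -⟩ := (hAmem p₀).mp hp₀
      have hsub : A ⊆ {p₀, p₀ + 2} := by
        intro r hr
        obtain ⟨hrp, hrn, hr2⟩ := (hAmem r).mp hr
        have h1 : p₀ ≤ r := Finset.min'_le A r hr
        have h2 : r < p₀ + 4 := by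
          by_contra h3
          have := hc p₀ r hp₀p hrp hp₀n (by omega)
          omega
        have hp₀odd : p₀ % 2 = 1 := by
          rcases hp₀p.eq_two_or_odd with h | h
          · omega
          · exact h
        have hrodd : r % 2 = 1 := by
          rcases hrp.eq_two_or_odd with h | h
          · omega
          · exact h
        simp only [Finset.mem_insert, Finset.mem_singleton]
        omega
      calc A.card ≤ ({p₀, p₀ + 2} : Finset ℕ).card := Finset.card_le_card hsub
        _ ≤ 2 := Finset.card_le_two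
    · rw [Finset.not_nonempty_iff_eq_empty.mp hne]
      simp
  have h1 := Nat.four_pow_lt_mul_centralBinom n (by omega)
  have h2 := centralBinom_le_of_two_primes n (by omega) A hAcard
    (fun p hp h1 h2 => (hAmem p).mpr ⟨hp, h1, h2⟩)
  have h3 := main_inequality_three h
  have h4 := Nat.mul_le_mul_left n h2
  have h5 : n * (((2 * n) * (2 * n)) * ((2 * n) ^ sqrt (2 * n) * 4 ^ (2 * n / 3))) =
      n * (2 * n) * (2 * n) * (2 * n) ^ sqrt (2 * n) * 4 ^ (2 * n / 3) := by ring
  omega

/-- For `m ≥ 17` there are primes `p, q` with `m < 2p`, `p + 4 ≤ q ≤ m`. -/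
theorem exists_primes_gap (m : ℕ) (h : 17 ≤ m) :
    ∃ p q : ℕ, p.Prime ∧ q.Prime ∧ m < 2 * p ∧ p + 4 ≤ q ∧ q ≤ m := by
  by_cases h1 : 4096 ≤ m
  · obtain ⟨p, q, hp, hq, h2, h3, h4⟩ := exists_primes_gap_eventually (m / 2) (by omega)
    exact ⟨p, q, hp, hq, by omega, h3, by omega⟩
  by_cases h2 : m < 22
  · exact ⟨11, 17, by norm_num, by norm_num, by omega, by norm_num, by omega⟩
  by_cases h3 : m < 26
  · exact ⟨13, 19, by norm_num, by norm_num, by omega, by norm_num, by omega⟩
  by_cases h4 : m < 34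
  · exact ⟨17, 23, by norm_num, by norm_num, by omega, by norm_num, by omega⟩
  by_cases h5 : m < 46
  · exact ⟨23, 29, by norm_num, by norm_num, by omega, by norm_num, by omega⟩
  by_cases h6 : m < 62
  · exact ⟨31, 37, by norm_num, by norm_num, by omega, by norm_num, by omega⟩
  by_cases h7 : m < 94
  · exact ⟨47, 53, by norm_num, by norm_num, by omega, by norm_num, by omega⟩
  by_cases h8 : m < 166
  · exact ⟨83, 89, by norm_num, by norm_num, by omega, by norm_num, by omega⟩
  by_cases h9 : m < 314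
  · exact ⟨157, 163, by norm_num, by norm_num, by omega, by norm_num, by omega⟩
  by_cases h10 : m < 614
  · exact ⟨307, 311, by norm_num, by norm_num, by omega, by norm_num, by omega⟩
  by_cases h11 : m < 1202
  · exact ⟨601, 607, by norm_num, by norm_num, by omega, by norm_num, by omega⟩
  by_cases h12 : m < 2386
  · exact ⟨1193, 1201, by norm_num, by norm_num, by omega, by norm_num, by omega⟩
  · exact ⟨2377, 2381, by norm_num, by norm_num, by omega, by norm_num, by omega⟩

end Cfsg.Agent.Lib.PGroups
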