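import Cfsg.Agent.S0035
import Cfsg.Agent.Lib.Char.TI
import Cfsg.Agent.Lib.PGroups.Subnormalizer2

/-!
# The Frobenius–Wielandt theorem

If `K` is normal in `X ≤ G` and no element of `X \ K` is conjugated into `X` by an element outside
`X`, then there is a normal subgroup `N` of `G` with `N ∩ X = K` and `|N| |X| = |G| |K|`.
-/

set_option autoImplicit false

namespace Cfsg.Agent.Lib.PGroups.FrobWielandt

open Cfsg Cfsg.Agent.Lib.Char Cfsg.Agent.S0035
open scoped ComplexConjugate Pointwise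

section chars

variable {G : Type*} [Group G] [Fintype G] {X : Subgroup G} [Fintype X]

theorem chiOf_irr_T (T : Set G) (hTI : ∀ g : G, g ∉ X → ∀ t ∈ T, g * t * g⁻¹ ∈ T → t = 1)
    {θ : X → ℂ} (hθ : IsIrrCharacter X θ) (hθT : ∀ x : X, (x : G) ∉ T → θ x = θ 1) :
    IsIrrCharacter G (chiOf X θ) := by
  classical
  obtain ⟨m, hm⟩ := IsCharacter.apply_one (IsIrrCharacter.isCharacter hθ)
  have hm0 : (θ 1) ≠ 0 := IsIrrCharacter.apply_one_ne_zero hθ
  have hmpos : 0 < m := by
    rcases Nat.eq_zero_or_pos m with h | h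
    · exfalso; apply hm0; rw [hm, h]; simp
    · exact h
  set oneH : X → ℂ := fun _ => (1 : ℂ) with honeH
  set oneG : G → ℂ := fun _ => (1 : ℂ) with honeG
  have hoH : IsIrrCharacter X oneH := isIrrCharacter_one
  have hoG : IsIrrCharacter G oneG := isIrrCharacter_one
  set θ₀ : X → ℂ := θ - (m : ℂ) • oneH with hθ₀
  have hdef : chiOf X θ = indFun X θ₀ + (m : ℂ) • oneG := by
    unfold chiOf
    rw [hm]
  have hcl₀ : IsClassFunction X θ₀ :=
    IsClassFunction.sub (IsCharacter.isClassFunction (IsIrrCharacter.isCharacter hθ))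
      (IsClassFunction.smul _ (IsCharacter.isClassFunction (IsIrrCharacter.isCharacter hoH)))
  have hθ₀1 : θ₀ 1 = 0 := by
    simp [hθ₀, hm, honeH]
  have hθ₀T : ∀ x : X, (x : G) ∉ T → θ₀ x = 0 := by
    intro x hx
    simp [hθ₀, honeH, hθT x hx, hm]
  have hgen : IsGeneralizedCharacter G (chiOf X θ) := by
    refine ⟨indFun X θ + m • oneG, m • indFun X oneH,
      IsCharacter.add (isCharacter_indFun X (IsIrrCharacter.isCharacter hθ)) (IsCharacter.nsmul (IsIrrCharacter.isCharacter hoG) m),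
      IsCharacter.nsmul (isCharacter_indFun X (IsIrrCharacter.isCharacter hoH)) m, ?_⟩
    rw [hdef, hθ₀, indFun_sub, indFun_smul, ← Nat.cast_smul_eq_nsmul ℂ m oneG,
      ← Nat.cast_smul_eq_nsmul ℂ m (indFun X oneH)]
    funext g
    simp only [Pi.add_apply, Pi.sub_apply, Pi.smul_apply, smul_eq_mul]
    ring
  have hI : classInner (indFun X θ₀) (indFun X θ₀) = classInner θ₀ θ₀ :=
    classInner_indFun_of_TI X T hTI θ₀ θ₀ hcl₀ hθ₀T hθ₀T hθ₀1
  have hIO : classInner (indFun X θ₀) oneG = classInner θ₀ oneH :=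
    classInner_indFun_left X θ₀ oneG (IsCharacter.isClassFunction (IsIrrCharacter.isCharacter hoG))
  have hOI : classInner oneG (indFun X θ₀) = conj (classInner θ₀ oneH) := by
    rw [classInner_conj_symm, hIO]
  have hOO : classInner oneG oneG = 1 := classInner_irr_self hoG
  have hoo : classInner oneH oneH = 1 := classInner_irr_self hoH
  have htt : classInner θ θ = 1 := classInner_irr_self hθ
  have hot : classInner oneH θ = conj (classInner θ oneH) := classInner_conj_symm _ _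
  have hconjm : (conj (m : ℂ)) = m := map_natCast _ _
  have h00 : classInner θ₀ θ₀ = 1 - m * classInner θ oneH - m * conj (classInner θ oneH) + m * m := by
    rw [hθ₀, classInner_sub_left, classInner_sub_right, classInner_sub_right, classInner_smul_right,
      classInner_smul_left, classInner_smul_left, classInner_smul_right, htt, hot, hoo, hconjm]
    ring
  have h0o : classInner θ₀ oneH = classInner θ oneH - m := by
    rw [hθ₀, classInner_sub_left, classInner_smul_left, hoo, mul_one]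
  have hnorm : classInner (chiOf X θ) (chiOf X θ) = 1 := by
    rw [hdef, classInner_add_left, classInner_add_right, classInner_add_right,
      classInner_smul_left, classInner_smul_left, classInner_smul_right, classInner_smul_right,
      hI, hIO, hOI, hOO, h00, h0o, hconjm, map_sub, hconjm]
    ring
  apply isIrrCharacter_of_norm_one hgen hnorm
  have hone : chiOf X θ 1 = m := by
    rw [hdef]
    simp [indFun_one, hθ₀1, honeG]
  rw [hone]
  simpa using hmpos

theorem chiOf_apply_of_vanish {θ : X → ℂ} {x : G}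
    (h : ∀ y : G, extendByZero X (θ - (θ 1) • (fun _ => (1 : ℂ))) (y⁻¹ * x * y) = 0) :
    chiOf X θ x = θ 1 := by
  unfold chiOf
  simp only [Pi.add_apply, Pi.smul_apply, smul_eq_mul, mul_one]
  rw [indFun_apply]
  simp [h]

theorem chiOf_coe_T (T : Set G) (hTI : ∀ g : G, g ∉ X → ∀ t ∈ T, g * t * g⁻¹ ∈ T → t = 1)
    {θ : X → ℂ} (hθ : IsClassFunction X θ) (hθT : ∀ x : X, (x : G) ∉ T → θ x = θ 1)
    (t : X) (htT : (t : G) ∈ T) (ht : t ≠ 1) : chiOf X θ t = θ t := by
  unfold chiOf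
  have hcl : IsClassFunction X (θ - (θ 1) • (fun _ => (1 : ℂ))) :=
    IsClassFunction.sub hθ (IsClassFunction.smul _ (fun _ _ => rfl))
  have h0 : ∀ x : X, (x : G) ∉ T → ((θ - (θ 1) • (fun _ => (1 : ℂ))) : X → ℂ) x = 0 := by
    intro x hx
    simp [hθT x hx]
  have h1 := indFun_eq_of_TI X T hTI _ hcl h0 t htT ht
  simp only [Pi.add_apply, Pi.smul_apply, smul_eq_mul, mul_one]
  rw [h1]
  simp

end chars

theorem frobenius_wielandt {G : Type*} [Group G] [Finite G] (X K : Subgroup G) (hKX : K ≤ X)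
    (hKn : (K.subgroupOf X).Normal)
    (hout : ∀ g : G, g ∉ X → ∀ t ∈ X, t ∉ K → g * t * g⁻¹ ∉ X) :
    ∃ N : Subgroup G, N.Normal ∧ (∀ x ∈ X, x ∈ N ↔ x ∈ K) ∧
      Nat.card N * Nat.card X = Nat.card G * Nat.card K := by
  classical
  let _ : Fintype G := Fintype.ofFinite G
  let _ : Fintype X := Fintype.ofFinite X
  set L : Subgroup X := K.subgroupOf X with hL
  haveI : L.Normal := hKn
  let _ : Fintype L := Fintype.ofFinite L
  let _ : Fintype (X ⧸ L) := Fintype.ofFinite _
  set T : Set G := {t | (t ∈ X ∧ t ∉ K) ∨ t = 1} with hT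
  have hTI : ∀ g : G, g ∉ X → ∀ t ∈ T, g * t * g⁻¹ ∈ T → t = 1 := by
    rintro g hg t (⟨htX, htK⟩ | rfl) ht
    · exfalso
      rcases ht with ⟨h1, _⟩ | h1
      · exact hout g hg t htX htK h1
      · have := hout g hg t htX htK
        rw [h1] at this
        exact this (one_mem _)
    · rfl
  have hmemK : ∀ x : X, (x : G) ∈ K ↔ (x : X ⧸ L) = 1 := by
    intro x
    rw [QuotientGroup.eq_one_iff]
    exact Subgroup.mem_subgroupOf.symm
  let θ : IrrCharacter (X ⧸ L) → X → ℂ := fun β => inflate L (β : X ⧸ L → ℂ)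
  have hθirr : ∀ β, IsIrrCharacter X (θ β) := fun β => isIrrCharacter_inflate L β.2
  have hθ1 : ∀ β, θ β 1 = (β : X ⧸ L → ℂ) 1 := fun β => rfl
  have hθK : ∀ β (x : X), (x : G) ∈ K → θ β x = θ β 1 := by
    intro β x hx
    show (β : X ⧸ L → ℂ) (x : X ⧸ L) = (β : X ⧸ L → ℂ) ((1 : X) : X ⧸ L)
    rw [(hmemK x).mp hx]
    rfl
  have hθT : ∀ β (x : X), (x : G) ∉ T → θ β x = θ β 1 := by
    intro β x hx
    apply hθK
    by_contra hxK
    exact hx (Or.inl ⟨x.2, hxK⟩)
  have hχirr : ∀ β, IsIrrCharacter G (chiOf X (θ β)) := fun β => chiOf_irr_T T hTI (hθirr β) (hθT β)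
  have hχ : ∀ β, IsCharacter G (chiOf X (θ β)) := fun β => IsIrrCharacter.isCharacter (hχirr β)
  let N : Subgroup G := ⨅ β : IrrCharacter (X ⧸ L), charKer (chiOf X (θ β))
  have hNn : N.Normal := by
    constructor
    intro n hn g
    rw [Subgroup.mem_iInf] at hn ⊢
    intro β
    exact (charKer_normal (hχ β)).conj_mem _ (hn β) g
  have hNmem : ∀ x, x ∈ N ↔ ∀ β, chiOf X (θ β) x = chiOf X (θ β) 1 := by
    intro x
    rw [Subgroup.mem_iInf]
    exact forall_congr' fun β => mem_charKer (hχ β)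
  -- elements with no conjugate in `X \ K` lie in `N`
  have hin : ∀ x : G, (∀ y : G, y⁻¹ * x * y ∈ X → y⁻¹ * x * y ∈ K) → x ∈ N := by
    intro x hx
    rw [hNmem]
    intro β
    rw [chiOf_one, chiOf_apply_of_vanish]
    intro y
    by_cases hyX : y⁻¹ * x * y ∈ X
    · rw [extendByZero_of_mem _ _ hyX]
      simp only [Pi.sub_apply, Pi.smul_apply, smul_eq_mul, mul_one]
      rw [hθK β ⟨_, hyX⟩ (hx y hyX)]
      simp
    · exact extendByZero_of_notMem _ _ hyX
  -- elements of `X \ K` are not in `N`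
  have hnotin : ∀ t ∈ X, t ∉ K → t ∉ N := by
    intro t htX htK htN
    have h1 := (hNmem t).mp htN
    have ht1 : (⟨t, htX⟩ : X) ≠ 1 := by
      intro h
      apply htK
      have : t = 1 := congrArg Subtype.val h
      rw [this]
      exact one_mem _
    have h2 : ∀ β : IrrCharacter (X ⧸ L), (β : X ⧸ L → ℂ) ((⟨t, htX⟩ : X) : X ⧸ L) = (β : X ⧸ L → ℂ) 1 := by
      intro β
      have h3 := h1 β
      rw [chiOf_one] at h3
      have h4 := chiOf_coe_T T hTI (IsCharacter.isClassFunction (IsIrrCharacter.isCharacter (hθirr β)))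
        (hθT β) ⟨t, htX⟩ (Or.inl ⟨htX, htK⟩) ht1
      have h5 : chiOf X (θ β) t = θ β ⟨t, htX⟩ := h4
      rw [h5] at h3
      exact h3
    have hne : (((⟨t, htX⟩ : X) : X ⧸ L)) ≠ 1 := fun h => htK ((hmemK ⟨t, htX⟩).mpr h)
    have h4 := sum_irr_degree_mul_apply (((⟨t, htX⟩ : X) : X ⧸ L))
    rw [if_neg hne] at h4
    have h5 := sum_irr_degree_mul_apply (1 : X ⧸ L)
    rw [if_pos rfl] at h5
    have h6 : ∑ χ : IrrCharacter (X ⧸ L), (χ : X ⧸ L → ℂ) 1 * (χ : X ⧸ L → ℂ) ((⟨t, htX⟩ : X) : X ⧸ L) =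
        ∑ χ : IrrCharacter (X ⧸ L), (χ : X ⧸ L → ℂ) 1 * (χ : X ⧸ L → ℂ) 1 :=
      Finset.sum_congr rfl fun χ _ => by rw [h2]
    rw [h6, h5] at h4
    exact (Nat.cast_ne_zero.2 Nat.card_pos.ne') h4
  have hKin : ∀ x ∈ K, x ∈ N := by
    intro x hx
    apply hin
    intro y hy
    by_contra hyK
    by_cases hyX : y ∈ X
    · apply hyK
      have := hKn.conj_mem ⟨x, hKX hx⟩ (Subgroup.mem_subgroupOf.mpr hx) ⟨y, hyX⟩⁻¹
      simpa using Subgroup.mem_subgroupOf.mp this
    · have := hout y hyX _ hy hyK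
      have e : y * (y⁻¹ * x * y) * y⁻¹ = x := by group
      rw [e] at this
      exact this (hKX hx)
  refine ⟨N, hNn, ?_, ?_⟩
  · intro x hx
    constructor
    · intro hxN
      by_contra hxK
      exact hnotin x hx hxK hxN
    · exact hKin x
  -- counting
  let W : Set G := (X : Set G) \ (K : Set G)
  have hWcard : Nat.card W + Nat.card K = Nat.card X := by
    have h1 : Nat.card W = ((X : Set G) \ (K : Set G)).ncard := rfl
    have h2 : ((X : Set G) \ (K : Set G)).ncard = (X : Set G).ncard - (K : Set G).ncard :=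
      Set.ncard_sdiff hKX
    have h3 : (X : Set G).ncard = Nat.card X := rfl
    have h4 : (K : Set G).ncard = Nat.card K := rfl
    have h5 : Nat.card K ≤ Nat.card X := Subgroup.card_le_of_le hKX
    omega
  let B : Set G := (N : Set G)ᶜ
  have hBcard : Nat.card B + Nat.card N = Nat.card G := by
    have h1 : Nat.card B = ((N : Set G)ᶜ).ncard := rfl
    have h2 : ((N : Set G)ᶜ).ncard = Nat.card G - (N : Set G).ncard := by
      rw [Set.ncard_compl]
    have h3 : (N : Set G).ncard = Nat.card N := rfl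
    have h5 : Nat.card N ≤ Nat.card G := Subgroup.card_le_card_group N
    omega
  have hmemB : ∀ (g : G) (t : W), g * t.1 * g⁻¹ ∈ B := by
    intro g t h
    have h1 : t.1 ∈ N := by
      have := hNn.conj_mem _ h g⁻¹
      simpa [mul_assoc] using this
    exact hnotin t.1 t.2.1 t.2.2 h1
  have hfib : Nat.card (G × W) = Nat.card B * Nat.card X := by
    refine Cfsg.Agent.Lib.PGroups.Subnormalizer.card_of_fibers
      (fun p : G × W => (⟨p.1 * p.2.1 * p.1⁻¹, hmemB p.1 p.2⟩ : B)) _ ?_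
    rintro ⟨x, hx⟩
    -- a base point in the fibre
    have hex : ∃ y : G, y⁻¹ * x * y ∈ X ∧ y⁻¹ * x * y ∉ K := by
      by_contra hcon
      push Not at hcon
      exact hx (hin x hcon)
    obtain ⟨g₀, ht₀X, ht₀K⟩ := hex
    set t₀ := g₀⁻¹ * x * g₀ with ht₀
    have hx₀ : x = g₀ * t₀ * g₀⁻¹ := by rw [ht₀]; group
    have hconjW : ∀ a ∈ X, a⁻¹ * t₀ * a ∈ X ∧ a⁻¹ * t₀ * a ∉ K := by
      intro a ha
      refine ⟨X.mul_mem (X.mul_mem (X.inv_mem ha) ht₀X) ha, ?_⟩
      intro h
      apply ht₀K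
      have := hKn.conj_mem ⟨_, X.mul_mem (X.mul_mem (X.inv_mem ha) ht₀X) ha⟩
        (Subgroup.mem_subgroupOf.mpr h) ⟨a, ha⟩
      have h2 := Subgroup.mem_subgroupOf.mp this
      have e : a * (a⁻¹ * t₀ * a) * a⁻¹ = t₀ := by group
      simpa [e] using h2
    refine Nat.card_congr ⟨fun p => ⟨g₀⁻¹ * p.1.1, ?_⟩, fun a => ⟨(g₀ * a.1, ⟨a.1⁻¹ * t₀ * a.1, hconjW a.1 a.2⟩), ?_⟩, ?_, ?_⟩
    · -- membership in `X`
      have h1 : p.1.1 * p.1.2.1 * p.1.1⁻¹ = x := congrArg Subtype.val p.2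
      by_contra hnot
      have h2 := hout _ hnot p.1.2.1 p.1.2.2.1 p.1.2.2.2
      apply h2
      have e : g₀⁻¹ * p.1.1 * p.1.2.1 * (g₀⁻¹ * p.1.1)⁻¹ = g₀⁻¹ * (p.1.1 * p.1.2.1 * p.1.1⁻¹) * g₀ := by group
      rw [e, h1]
      exact ht₀X
    · apply Subtype.ext
      simp only
      rw [hx₀]
      group
    · rintro ⟨⟨a, b⟩, hp⟩
      apply Subtype.ext
      apply Prod.ext
      · simp
      · apply Subtype.ext
        have h1 : a * b.1 * a⁻¹ = x := congrArg Subtype.val hp
        show (g₀⁻¹ * a)⁻¹ * t₀ * (g₀⁻¹ * a) = b.1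
        have e1 : (g₀⁻¹ * a)⁻¹ * t₀ * (g₀⁻¹ * a) = a⁻¹ * x * a := by
          rw [ht₀]; group
        rw [e1, ← h1]
        group
    · intro a
      apply Subtype.ext
      simp
  rw [Nat.card_prod] at hfib
  have hB : Nat.card B = Nat.card G - Nat.card N := by omega
  have hleN : Nat.card N ≤ Nat.card G := Subgroup.card_le_card_group N
  have hW : Nat.card W = Nat.card X - Nat.card K := by omega
  have hleK : Nat.card K ≤ Nat.card X := Subgroup.card_le_of_le hKX
  rw [hB, hW, Nat.mul_sub, Nat.sub_mul] at hfib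
  have h1 : Nat.card G * Nat.card K ≤ Nat.card G * Nat.card X := Nat.mul_le_mul_left _ hleK
  have h2 : Nat.card N * Nat.card X ≤ Nat.card G * Nat.card X := Nat.mul_le_mul_right _ hleN
  omega

end Cfsg.Agent.Lib.PGroups.FrobWielandt
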