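import Mathlib

/-!
# Averaging operators for commuting operators of order `p`

Linear algebra for the imprimitivity decomposition of irreducible modules of `p`-groups.
-/

set_option autoImplicit false

namespace Cfsg.Agent.Lib.PGroups.GLDer

open Module

section Core

variable {F V : Type*} [Field F] [AddCommGroup V] [Module F V] {p : ℕ} [hp : Fact p.Prime]

theorem pow_val_add {M : Type*} [Monoid M] {A : M} (hA : A ^ p = 1) (a b : ZMod p) :
    A ^ (a + b).val = A ^ a.val * A ^ b.val := by
  rw [ZMod.val_add, ← pow_add, ← pow_eq_pow_mod _ hA]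

theorem pow_val_mul {M : Type*} [Monoid M] {A : M} (hA : A ^ p = 1) (a b : ZMod p) :
    A ^ (a * b).val = (A ^ a.val) ^ b.val := by
  rw [ZMod.val_mul, ← pow_mul, ← pow_eq_pow_mod _ hA]

theorem pow_val_cast {M : Type*} [Monoid M] {A : M} (hA : A ^ p = 1) (n : ℕ) :
    A ^ ((n : ZMod p)).val = A ^ n := by
  rw [ZMod.val_natCast, ← pow_eq_pow_mod _ hA]

/-- The sum of the powers. -/
noncomputable def tr (p : ℕ) [Fact p.Prime] (A : End F V) : End F V :=
  ∑ k : ZMod p, A ^ k.val

theorem tr_pow {A : End F V} (hA : A ^ p = 1) {u : ZMod p} (hu : u ≠ 0) :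
    tr p (A ^ u.val) = tr p A := by
  unfold tr
  have h1 : ∀ k : ZMod p, (A ^ u.val) ^ k.val = A ^ (u * k).val := fun k => (pow_val_mul hA u k).symm
  simp_rw [h1]
  exact Equiv.sum_comp (Equiv.mulLeft₀ u hu) (fun k => A ^ k.val)

theorem mul_tr {A : End F V} (hA : A ^ p = 1) : A * tr p A = tr p A := by
  unfold tr
  rw [Finset.mul_sum]
  have h1 : ∀ k : ZMod p, A * A ^ k.val = A ^ (1 + k).val := by
    intro k
    rw [pow_val_add hA, ZMod.val_one, pow_one]
  simp_rw [h1]
  exact Equiv.sum_comp (Equiv.addLeft (1 : ZMod p)) (fun k => A ^ k.val)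

theorem card_zmod_cast : ((Fintype.card (ZMod p) : ℕ) : F) = (p : F) := by
  rw [ZMod.card]

/-- The averaging operator. -/
noncomputable def avg (p : ℕ) [Fact p.Prime] (A : End F V) : End F V :=
  ((p : F)⁻¹) • tr p A

theorem mul_avg {A : End F V} (hA : A ^ p = 1) : A * avg p A = avg p A := by
  unfold avg
  rw [mul_smul_comm, mul_tr hA]

theorem avg_apply_of_fix (hpF : (p : F) ≠ 0) {A : End F V} {v : V} (hv : A v = v) : avg p A v = v := by
  have h1 : ∀ n : ℕ, (A ^ n) v = v := by
    intro n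
    induction n with
    | zero => simp
    | succ n ih => rw [pow_succ, Module.End.mul_apply, hv, ih]
  unfold avg tr
  rw [LinearMap.smul_apply, LinearMap.sum_apply]
  simp_rw [h1]
  rw [Finset.sum_const, Finset.card_univ, ZMod.card, ← Nat.cast_smul_eq_nsmul F, smul_smul,
    inv_mul_cancel₀ hpF, one_smul]

theorem avg_apply_of_eq {A B : End F V} (hAB : Commute A B) (hB : tr p B = 0) {v : V}
    (hv : A v = B v) : avg p A v = 0 := by
  have h1 : ∀ n : ℕ, (A ^ n) v = (B ^ n) v := by
    intro n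
    induction n with
    | zero => simp
    | succ n ih =>
      rw [pow_succ, Module.End.mul_apply, hv, ← Module.End.mul_apply, ((hAB.pow_left n).eq),
        Module.End.mul_apply, ih, pow_succ', Module.End.mul_apply]
  unfold avg tr
  rw [LinearMap.smul_apply, LinearMap.sum_apply]
  simp_rw [h1]
  have h2 : ∑ k : ZMod p, (B ^ k.val) v = (tr p B) v := by
    unfold tr
    rw [LinearMap.sum_apply]
  rw [h2, hB]
  simp

/-- The averaging operators sum to the identity. -/
theorem sum_avg (hpF : (p : F) ≠ 0) {X Y : End F V} (hXY : Commute X Y) (hX : X ^ p = 1)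
    (htr : tr p X = 0) : ∑ j : ZMod p, avg p (X ^ j.val * Y) = 1 := by
  unfold avg tr
  rw [← Finset.smul_sum]
  have h1 : ∀ j k : ZMod p, (X ^ j.val * Y) ^ k.val = (X ^ k.val) ^ j.val * Y ^ k.val := by
    intro j k
    rw [((hXY.pow_left j.val).mul_pow k.val), ← pow_mul, ← pow_mul, mul_comm]
  simp_rw [h1]
  rw [Finset.sum_comm]
  have h2 : ∀ k : ZMod p, ∑ j : ZMod p, (X ^ k.val) ^ j.val * Y ^ k.val =
      (tr p (X ^ k.val)) * Y ^ k.val := by
    intro k
    unfold tr
    rw [Finset.sum_mul]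
  simp_rw [h2]
  rw [Finset.sum_eq_single (0 : ZMod p)]
  · have h3 : (0 : ZMod p).val = 0 := ZMod.val_zero
    rw [h3, pow_zero, pow_zero, mul_one]
    unfold tr
    simp only [one_pow]
    rw [Finset.sum_const, Finset.card_univ, ZMod.card, ← Nat.cast_smul_eq_nsmul F, smul_smul,
      inv_mul_cancel₀ hpF, one_smul]
  · intro k _ hk
    rw [tr_pow hX hk, htr, zero_mul]
  · intro h
    exact absurd (Finset.mem_univ _) h

end Core

end Cfsg.Agent.Lib.PGroups.GLDer
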