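import Cfsg.Prelude
import Cfsg.Agent.Lib.PGroups.GLDer1
import Cfsg.Agent.Lib.Struct.LinDerived
import Cfsg.Agent.Lib.Transfer.Rank
import Cfsg.Agent.Lib.Transfer.NormalAb
import Cfsg.Agent.Lib.PGroups.CycSub

/-!
# Derived length of `p`-subgroups of linear groups, `p` odd: the upper bound
-/

set_option autoImplicit false

namespace Cfsg.Agent.Lib.PGroups.GLDer

open Subgroup Module Cfsg.Agent.Lib.Struct.LinDerived
open scoped commutatorElement

universe u

/-- The bound on the derived length. -/
def ell (p e n : ℕ) : ℕ := if n < e then 0 else Nat.log p (n / e) + 1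

theorem ell_mono (p e : ℕ) : Monotone (ell p e) := by
  intro a b hab
  unfold ell
  by_cases ha : a < e
  · rw [if_pos ha]; exact Nat.zero_le _
  · rw [if_neg ha, if_neg (by omega)]
    exact Nat.add_le_add_right (Nat.log_mono_right (Nat.div_le_div_right hab)) 1

theorem ell_step {p e d n : ℕ} (hp : 1 < p) (he : 0 < e) (hn : n = p * d) (hen : e ≤ n) :
    ell p e d + 1 ≤ ell p e n := by
  unfold ell
  rw [if_neg (by omega : ¬ n < e)]
  by_cases hd : d < e
  · rw [if_pos hd]; omega
  · rw [if_neg hd]
    have h1 : 0 < d / e := Nat.div_pos (by omega) he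
    have h2 : (d / e) * p ≤ n / e := by
      rw [Nat.le_div_iff_mul_le he, hn]
      have h3 : d / e * e ≤ d := Nat.div_mul_le_self d e
      calc d / e * p * e = (d / e * e) * p := by ring
        _ ≤ d * p := Nat.mul_le_mul_right _ h3
        _ = p * d := by ring
    have h3 : Nat.log p ((d / e) * p) = Nat.log p (d / e) + 1 := Nat.log_mul_base hp (by omega)
    have h4 := Nat.log_mono_right (b := p) h2
    omega

/-- The commutator of two elements acting on `y` through central elements centralises `y`. -/
theorem comm_central_conj {P : Type*} [Group P] {g h y c c' : P} (hc : ∀ w : P, w * c = c * w)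
    (hc' : ∀ w : P, w * c' = c' * w) (hg : g * y * g⁻¹ = c * y) (hh : h * y * h⁻¹ = c' * y) :
    ⁅g, h⁆ * y = y * ⁅g, h⁆ := by
  have hg' : g * y = c * y * g := by rw [← hg]; group
  have hh' : h * y = c' * y * h := by rw [← hh]; group
  set w := ⁅g, h⁆ with hw
  have hgh : g * h = w * (h * g) := by rw [hw, commutatorElement_def]; group
  have e1 : (g * h) * y = c' * c * y * (g * h) := by
    calc (g * h) * y = g * (h * y) := by group
      _ = g * (c' * y * h) := by rw [hh']
      _ = (g * c') * y * h := by group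
      _ = (c' * g) * y * h := by rw [hc' g]
      _ = c' * (g * y) * h := by group
      _ = c' * (c * y * g) * h := by rw [hg']
      _ = c' * c * y * (g * h) := by group
  have e2 : (h * g) * y = c' * c * y * (h * g) := by
    calc (h * g) * y = h * (g * y) := by group
      _ = h * (c * y * g) := by rw [hg']
      _ = (h * c) * y * g := by group
      _ = (c * h) * y * g := by rw [hc h]
      _ = c * (h * y) * g := by group
      _ = c * (c' * y * h) * g := by rw [hh']
      _ = (c * c') * y * (h * g) := by group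
      _ = (c' * c) * y * (h * g) := by rw [(hc c').symm]
  have e3 : w * (c' * c * y) = (c' * c * y) * w := by
    have h1 : (w * (c' * c * y)) * (h * g) = ((c' * c * y) * w) * (h * g) := by
      calc (w * (c' * c * y)) * (h * g) = w * ((c' * c * y) * (h * g)) := by group
        _ = w * ((h * g) * y) := by rw [e2]
        _ = (w * (h * g)) * y := by group
        _ = (g * h) * y := by rw [← hgh]
        _ = c' * c * y * (g * h) := e1
        _ = c' * c * y * (w * (h * g)) := by rw [hgh]
        _ = ((c' * c * y) * w) * (h * g) := by group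
    exact mul_right_cancel h1
  have hcw : w * (c' * c) = (c' * c) * w := by
    calc w * (c' * c) = (w * c') * c := by group
      _ = (c' * w) * c := by rw [hc' w]
      _ = c' * (w * c) := by group
      _ = c' * (c * w) := by rw [hc w]
      _ = (c' * c) * w := by group
  apply mul_left_cancel (a := c' * c)
  calc c' * c * (w * y) = (c' * c * w) * y := by group
    _ = (w * (c' * c)) * y := by rw [hcw]
    _ = w * (c' * c * y) := by group
    _ = (c' * c * y) * w := e3
    _ = c' * c * (y * w) := by group

/-- The main step: faithful irreducible modules. -/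
theorem irr_step {F V P : Type u} [Field F] [Finite F] [AddCommGroup V] [Module F V] [Finite V]
    [Group P] [Finite P] {p : ℕ} [hp : Fact p.Prime] (hp2 : p ≠ 2) (hP : IsPGroup p P)
    (hpF : (p : F) ≠ 0) {e : ℕ} (he0 : 0 < e) (hbound : Nontrivial P → e ≤ finrank F V)
    (ρ : P →* (V →ₗ[F] V)) (hV : Nontrivial V) (hinj : Function.Injective ρ)
    (hirr : ∀ U : Submodule F V, (∀ g : P, ∀ u ∈ U, ρ g u ∈ U) → U = ⊥ ∨ U = ⊤)
    (IH : ∀ m < finrank F V, ∀ (V' P' : Type u) [AddCommGroup V'] [Module F V'] [Finite V'] [Group P']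
      [Finite P'], IsPGroup p P' → ∀ ρ' : P' →* (V' →ₗ[F] V'), finrank F V' = m →
      ∀ g ∈ derivedSeries P' (ell p e m), ρ' g = 1) :
    ∀ g ∈ derivedSeries P (ell p e (finrank F V)), g = 1 := by
  classical
  have hpp : p.Prime := hp.out
  haveI : Module.Finite F V := Module.Finite.of_finite
  by_cases hsub : Subsingleton P
  · intro g _
    exact Subsingleton.elim _ _
  rw [not_subsingleton_iff_nontrivial] at hsub
  have hen : e ≤ finrank F V := hbound hsub
  have hell1 : 1 ≤ ell p e (finrank F V) := by
    unfold ell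
    rw [if_neg (by omega)]
    omega
  by_cases hab : ∀ a b : P, a * b = b * a
  · intro g hg
    have h2 := derivedSeries_antitone (G := P) hell1 hg
    rw [derivedSeries_one] at h2
    have h3 : commutator P ≤ ⊥ := by
      rw [_root_.commutator_def, Subgroup.commutator_le]
      intro a _ b _
      rw [commutatorElement_def, hab a b]
      simp
    simpa using h3 h2
  have hnc : ¬ IsCyclic P := fun h => hab (fun a b => comm_of_isCyclic a b)
  obtain ⟨E, hEn, hEe, hEc⟩ := Cfsg.Agent.Lib.Transfer.exists_normal_elementary_sq hp2 hP hnc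
  haveI := hEn
  have hE1 : E ≠ ⊥ := by
    rintro rfl
    rw [Subgroup.card_bot] at hEc
    have := pow_pos hpp.pos 2
    have h2 : 1 < p ^ 2 := Nat.one_lt_pow (by norm_num) hpp.one_lt
    omega
  obtain ⟨x, hxE, hx1, hxc, hxp⟩ := Cfsg.Agent.Lib.Transfer.exists_central_of_normal hP hE1
  have hAn : (zpowers x).Normal := by
    refine ⟨fun w hw g => ?_⟩
    obtain ⟨i, rfl⟩ := mem_zpowers_iff.mp hw
    have h1 : Commute g (x ^ i) := ((show Commute g x from hxc g).zpow_right i)
    rw [h1.eq, mul_inv_cancel_right]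
    exact zpow_mem (mem_zpowers x) i
  haveI := hAn
  have hAE : zpowers x ≤ E := zpowers_le.mpr hxE
  have hxo : orderOf x = p := orderOf_eq_prime hxp hx1
  have hAne : zpowers x ≠ E := by
    intro he
    have h1 : Nat.card (zpowers x) = p := by rw [Nat.card_zpowers, hxo]
    rw [he, hEc] at h1
    have h2 : p < p ^ 2 := by
      rw [pow_two]
      exact lt_mul_of_one_lt_left hpp.pos hpp.one_lt
    omega
  obtain ⟨y, hyE, hyA, -, hyc⟩ := Cfsg.Agent.Lib.Transfer.exists_central_mod hP hAE hAne
  have hyp : y ^ p = 1 := hEe.2 y hyE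
  -- the operators
  set X := ρ x with hX
  set Y := ρ y with hY
  have hXY : Commute X Y := by
    rw [hX, hY]
    change ρ x * ρ y = ρ y * ρ x
    rw [← map_mul, ← map_mul, hxc y]
  have hXp : X ^ p = 1 := by rw [hX, ← map_pow, hxp, map_one]
  have hYp : Y ^ p = 1 := by rw [hY, ← map_pow, hyp, map_one]
  -- the fixed points of `x` vanish
  have htr : tr p X = 0 := by
    have hinv : ∀ g : P, ∀ u ∈ LinearMap.ker (X - 1), ρ g u ∈ LinearMap.ker (X - 1) := by
      intro g u hu
      rw [LinearMap.mem_ker, LinearMap.sub_apply, sub_eq_zero] at hu ⊢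
      have h1 : X (ρ g u) = ρ g (X u) := by
        rw [hX, ← Module.End.mul_apply, ← map_mul, ← hxc g, map_mul, Module.End.mul_apply]
      rw [h1, hu]
      simp
    rcases hirr _ hinv with hb | ht
    · ext v
      have h1 : tr p X v ∈ LinearMap.ker (X - 1) := by
        rw [LinearMap.mem_ker, LinearMap.sub_apply, sub_eq_zero]
        have := LinearMap.congr_fun (mul_tr hXp) v
        simpa using this
      rw [hb, Submodule.mem_bot] at h1
      simpa using h1
    · exfalso
      apply hx1
      apply hinj
      rw [map_one]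
      ext v
      have h1 : v ∈ LinearMap.ker (X - 1) := by rw [ht]; trivial
      rw [LinearMap.mem_ker, LinearMap.sub_apply, sub_eq_zero] at h1
      simpa using h1
  have hsum := sum_avg hpF hXY hXp htr
  -- the subspaces
  let Z : ZMod p → (V →ₗ[F] V) := fun j => X ^ j.val * Y
  have hZdef : ∀ j, Z j = X ^ j.val * Y := fun _ => rfl
  have hZρ : ∀ j, Z j = ρ (x ^ j.val * y) := by
    intro j
    rw [hZdef, map_mul, map_pow]
  have hZp : ∀ j, Z j ^ p = 1 := by
    intro j
    rw [hZdef, (hXY.pow_left j.val).mul_pow, ← pow_mul, mul_comm, pow_mul, hXp, one_pow, hYp, one_mul]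
  let U : ZMod p → Submodule F V := fun j => LinearMap.ker (Z j - 1)
  have hU : ∀ j v, v ∈ U j ↔ Z j v = v := by
    intro j v
    change v ∈ LinearMap.ker (Z j - 1) ↔ _
    rw [LinearMap.mem_ker, LinearMap.sub_apply, sub_eq_zero]
    rfl
  have havgU : ∀ j v, avg p (Z j) v ∈ U j := by
    intro j v
    rw [hU]
    have := LinearMap.congr_fun (mul_avg (hZp j)) v
    simpa using this
  have havgfix : ∀ j, ∀ v ∈ U j, avg p (Z j) v = v := by
    intro j v hv
    exact avg_apply_of_fix hpF ((hU j v).mp hv)
  have havg0 : ∀ i j, i ≠ j → ∀ v ∈ U i, avg p (Z j) v = 0 := by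
    intro i j hij v hv
    have hne : j - i ≠ 0 := sub_ne_zero.mpr hij.symm
    have hv' := (hU i v).mp hv
    apply avg_apply_of_eq (B := X ^ (j - i).val)
    · rw [hZdef]
      exact ((Commute.pow_pow_self X _ _).mul_left (hXY.symm.pow_right _))
    · rw [tr_pow hXp hne, htr]
    · have h1 : Z j = X ^ (j - i).val * Z i := by
        rw [hZdef, hZdef, ← mul_assoc, ← pow_val_add hXp, sub_add_cancel]
      rw [h1, Module.End.mul_apply, hv']
  have hdec : ∀ v : V, v = ∑ j : ZMod p, avg p (Z j) v := by
    intro v
    have h1 := LinearMap.congr_fun hsum v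
    rw [LinearMap.sum_apply] at h1
    exact h1.symm
  -- conjugation
  have hxpow : ∀ a b : ZMod p, x ^ (a + b).val = x ^ a.val * x ^ b.val := pow_val_add hxp
  have hxcp : ∀ (n : ℕ) (g : P), g * x ^ n = x ^ n * g :=
    fun n g => ((show Commute g x from hxc g).pow_right n).eq
  have hs : ∀ g : P, ∃ s : ZMod p, g * y * g⁻¹ = x ^ s.val * y := by
    intro g
    have h1 := hyc g
    obtain ⟨m, hm⟩ := (mem_powers_iff_mem_zpowers).mpr h1
    refine ⟨(m : ZMod p), ?_⟩
    rw [pow_val_cast hxp]
    have hm' : x ^ m = g * y * g⁻¹ * y⁻¹ := hm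
    rw [hm']
    group
  have hmove : ∀ (g : P) (s j : ZMod p), g * y * g⁻¹ = x ^ s.val * y → ∀ v ∈ U j, ρ g v ∈ U (j + s) := by
    intro g s j hgs v hv
    rw [hU, hZρ]
    have h1 : x ^ (j + s).val * y * g = g * (x ^ j.val * y) := by
      calc x ^ (j + s).val * y * g = x ^ j.val * (x ^ s.val * y) * g := by rw [hxpow]; group
        _ = x ^ j.val * (g * y * g⁻¹) * g := by rw [hgs]
        _ = (x ^ j.val * g) * y := by group
        _ = (g * x ^ j.val) * y := by rw [hxcp]
        _ = g * (x ^ j.val * y) := by group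
    rw [← Module.End.mul_apply, ← map_mul, h1, map_mul, Module.End.mul_apply, ← hZρ, (hU j v).mp hv]
  -- `y` is not central
  obtain ⟨g₀, s₀, hg₀, hs₀⟩ : ∃ (g₀ : P) (s₀ : ZMod p), g₀ * y * g₀⁻¹ = x ^ s₀.val * y ∧ s₀ ≠ 0 := by
    by_contra hcon
    push Not at hcon
    have hinvU : ∀ j, ∀ g : P, ∀ u ∈ U j, ρ g u ∈ U j := by
      intro j g u hu
      obtain ⟨s, hgs⟩ := hs g
      have hs0 := hcon g s hgs
      have := hmove g s j hgs u hu
      rwa [hs0, add_zero] at this
    have hbot : ∀ j, U j = ⊥ := by
      intro j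
      rcases hirr _ (hinvU j) with hb | ht
      · exact hb
      · exfalso
        have h1 : Z j = 1 := by
          ext v
          have h2 : v ∈ U j := by rw [ht]; trivial
          exact (hU j v).mp h2
        rw [hZρ, ← map_one ρ] at h1
        have h2 := hinj h1
        apply hyA
        have h3 : y = (x ^ j.val)⁻¹ := eq_inv_of_mul_eq_one_right h2
        rw [h3]
        exact inv_mem (pow_mem (mem_zpowers x) _)
    obtain ⟨v, hv⟩ := exists_ne (0 : V)
    apply hv
    rw [hdec v]
    apply Finset.sum_eq_zero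
    intro j _
    have := havgU j v
    rw [hbot j, Submodule.mem_bot] at this
    exact this
  -- dimensions
  have hρinj : ∀ g : P, Function.Injective (ρ g) := by
    intro g u v huv
    have := congrArg (ρ g⁻¹) huv
    rwa [rho_inv_apply', rho_inv_apply'] at this
  have hle : ∀ j, finrank F (U j) ≤ finrank F (U (j + s₀)) := by
    intro j
    let f : U j →ₗ[F] U (j + s₀) := (ρ g₀).restrict (fun v hv => hmove g₀ s₀ j hg₀ v hv)
    apply LinearMap.finrank_le_finrank_of_injective (f := f)
    intro a b hab
    apply Subtype.ext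
    apply hρinj g₀
    exact congrArg Subtype.val hab
  have hle' : ∀ (t : ℕ) (j : ZMod p), finrank F (U j) ≤ finrank F (U (j + t * s₀)) := by
    intro t
    induction t with
    | zero =>
      intro j
      have h2 : j + ((0 : ℕ) : ZMod p) * s₀ = j := by simp
      rw [h2]
    | succ t ih =>
      intro j
      refine (ih j).trans ?_
      have h1 := hle (j + t * s₀)
      have h2 : j + t * s₀ + s₀ = j + ((t + 1 : ℕ) : ZMod p) * s₀ := by
        push_cast; ring
      rwa [h2] at h1
  have hall : ∀ i j : ZMod p, finrank F (U i) ≤ finrank F (U j) := by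
    intro i j
    have h1 := hle' ((j - i) * s₀⁻¹).val i
    rw [ZMod.natCast_zmod_val, mul_assoc, inv_mul_cancel₀ hs₀, mul_one, add_sub_cancel] at h1
    exact h1
  set d := finrank F (U 0) with hd
  have hdj : ∀ j, finrank F (U j) = d := fun j => le_antisymm (hall j 0) (hall 0 j)
  let φ : V →ₗ[F] (∀ j, U j) :=
    LinearMap.pi (fun j => (avg p (Z j)).codRestrict (U j) (fun v => havgU j v))
  have hφ : ∀ v j, ((φ v j : U j) : V) = avg p (Z j) v := fun _ _ => rfl
  have hφb : Function.Bijective φ := by
    constructor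
    · rw [injective_iff_map_eq_zero]
      intro v hv
      rw [hdec v]
      apply Finset.sum_eq_zero
      intro j _
      have h1 : φ v j = 0 := by rw [hv]; rfl
      have h2 := congrArg Subtype.val h1
      rw [hφ] at h2
      exact h2
    · intro u
      refine ⟨∑ i, (u i : V), ?_⟩
      funext j
      apply Subtype.ext
      rw [hφ, map_sum, Finset.sum_eq_single j]
      · exact havgfix j _ (u j).2
      · intro i _ hij
        exact havg0 i j hij _ (u i).2
      · intro h
        exact absurd (Finset.mem_univ _) h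
  have hn : finrank F V = p * d := by
    rw [(LinearEquiv.ofBijective φ hφb).finrank_eq, Module.finrank_pi_fintype]
    simp_rw [hdj]
    rw [Finset.sum_const, Finset.card_univ, ZMod.card, smul_eq_mul]
  have hnpos : 0 < finrank F V := Module.finrank_pos
  have hdlt : d < finrank F V := by
    rw [hn] at hnpos ⊢
    have h1 : 0 < d := Nat.pos_of_mul_pos_left hnpos
    exact lt_mul_of_one_lt_left h1 hpp.one_lt
  -- the subgroup fixing each `U j`
  set M := centralizer ({y} : Set P) with hM
  have hcommM : commutator P ≤ M := by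
    rw [_root_.commutator_def, Subgroup.commutator_le]
    intro g _ h _
    rw [hM, mem_centralizer_singleton_iff]
    obtain ⟨s, hgs⟩ := hs g
    obtain ⟨s', hhs⟩ := hs h
    exact comm_central_conj (fun w => hxcp _ w) (fun w => hxcp _ w) hgs hhs
  have hMU : ∀ (g : M) (j : ZMod p), ∀ u ∈ U j, (ρ.comp M.subtype) g u ∈ U j := by
    intro g j u hu
    have hg : (g : P) * y = y * g := mem_centralizer_singleton_iff.mp g.2
    have h1 : (g : P) * y * (g : P)⁻¹ = x ^ (0 : ZMod p).val * y := by
      rw [ZMod.val_zero, pow_zero, one_mul, hg]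
      group
    have h2 := hmove g 0 j h1 u hu
    rwa [add_zero] at h2
  have hMP : IsPGroup p M := hP.to_subgroup M
  have hfix : ∀ w ∈ derivedSeries M (ell p e d), (w : P) = 1 := by
    intro w hw
    apply hinj
    rw [map_one]
    ext v
    have hj : ∀ j, ρ w (avg p (Z j) v) = avg p (Z j) v := by
      intro j
      have h1 := IH d hdlt (U j) M hMP
        (restrictRep (ρ.comp M.subtype) (U j) (fun g u hu => hMU g j u hu)) (hdj j) w hw
      have h2 := congrArg Subtype.val (LinearMap.congr_fun h1 ⟨_, havgU j v⟩)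
      exact h2
    calc ρ w v = ρ w (∑ j : ZMod p, avg p (Z j) v) := by rw [← hdec v]
      _ = ∑ j : ZMod p, avg p (Z j) v := by
        rw [map_sum]
        exact Finset.sum_congr rfl (fun j _ => hj j)
      _ = v := (hdec v).symm
      _ = (1 : V →ₗ[F] V) v := rfl
  intro g hg
  have h1 := derivedSeries_antitone (G := P) (ell_step hpp.one_lt he0 hn hen) hg
  obtain ⟨w, hw, rfl⟩ := derivedSeries_succ_le M hcommM _ h1
  exact hfix w hw

/-- The order of `q` modulo `p` divides the order of a general linear group only in large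
dimensions. -/
theorem order_le_of_dvd_card_GL {F : Type*} [Field F] [Fintype F] {q : ℕ} (hF : Fintype.card F = q)
    {p : ℕ} [hp : Fact p.Prime] (hpq : ¬ p ∣ q) (n : ℕ)
    (hd : p ∣ Nat.card (Matrix.GeneralLinearGroup (Fin n) F)) : orderOf (q : ZMod p) ≤ n := by
  have hpp : p.Prime := hp.out
  have hq0 : (q : ZMod p) ≠ 0 := by
    rwa [Ne, ZMod.natCast_eq_zero_iff]
  rw [Matrix.card_GL_field, hF] at hd
  obtain ⟨i, -, hi⟩ := (Prime.dvd_finsetProd_iff hpp.prime _).1 hd
  have hq1 : 0 < q := by
    rw [← hF]; exact Fintype.card_pos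
  have hle : q ^ (i : ℕ) ≤ q ^ n := Nat.pow_le_pow_right hq1 i.2.le
  have h1 : q ^ (i : ℕ) ≡ q ^ n [MOD p] := (Nat.modEq_iff_dvd' hle).2 hi
  have h2 := (ZMod.natCast_eq_natCast_iff _ _ _).2 h1
  push_cast at h2
  have hin : (i : ℕ) + (n - i) = n := by have := i.2; omega
  have h3 : (q : ZMod p) ^ (n - (i : ℕ)) = 1 := by
    have h4 : (q : ZMod p) ^ (i : ℕ) * (q : ZMod p) ^ (n - (i : ℕ)) = (q : ZMod p) ^ (i : ℕ) * 1 := by
      rw [← pow_add, hin, mul_one, h2]
    exact mul_left_cancel₀ (pow_ne_zero _ hq0) h4
  have h5 := orderOf_dvd_of_pow_eq_one h3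
  have h6 := Nat.le_of_dvd (by have := i.2; omega) h5
  omega

/-- A representation on a space with a basis gives a homomorphism to the general linear group. -/
noncomputable def toGL {F V P : Type*} [Field F] [AddCommGroup V] [Module F V] [Group P] {n : ℕ}
    (ρ : P →* (V →ₗ[F] V)) (b : Basis (Fin n) F V) : P →* Matrix.GeneralLinearGroup (Fin n) F :=
  (Units.map ((LinearMap.toMatrixAlgEquiv b : (V →ₗ[F] V) ≃ₐ[F] Matrix (Fin n) (Fin n) F) :
    (V →ₗ[F] V) →* Matrix (Fin n) (Fin n) F)).comp ρ.toHomUnits

theorem toGL_injective {F V P : Type*} [Field F] [AddCommGroup V] [Module F V] [Group P] {n : ℕ}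
    {ρ : P →* (V →ₗ[F] V)} (b : Basis (Fin n) F V) (hρ : Function.Injective ρ) :
    Function.Injective (toGL ρ b) := by
  intro a c hac
  apply hρ
  have h1 := congrArg (fun u : Matrix.GeneralLinearGroup (Fin n) F => (u : Matrix (Fin n) (Fin n) F)) hac
  exact (LinearMap.toMatrixAlgEquiv b).injective h1

/-- The upper bound for representations over finite fields. -/
theorem ub {F : Type u} [Field F] [Fintype F] {q : ℕ} (hF : Fintype.card F = q) {p : ℕ}
    [hp : Fact p.Prime] (hp2 : p ≠ 2) (hpq : ¬ p ∣ q) {e : ℕ} (he : e = orderOf (q : ZMod p)) (n : ℕ) :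
    ∀ (V P : Type u) [AddCommGroup V] [Module F V] [Finite V] [Group P] [Finite P],
      IsPGroup p P → ∀ ρ : P →* (V →ₗ[F] V), finrank F V = n →
      ∀ g ∈ derivedSeries P (ell p e n), ρ g = 1 := by
  classical
  have hpp := hp.out
  have hpF : (p : F) ≠ 0 := by
    intro h0
    apply hpq
    rw [← hF]
    have h1 : addOrderOf (1 : F) = p := by
      apply addOrderOf_eq_prime _ one_ne_zero
      rw [nsmul_one]
      exact h0
    rw [← h1, ← Nat.card_eq_fintype_card]
    exact addOrderOf_dvd_natCard _
  have hq0 : (q : ZMod p) ≠ 0 := by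
    rwa [Ne, ZMod.natCast_eq_zero_iff]
  have hepos : 0 < e := by
    rw [he, orderOf_pos_iff, isOfFinOrder_iff_pow_eq_one]
    exact ⟨p - 1, by have := hpp.two_le; omega, ZMod.pow_card_sub_one_eq_one hq0⟩
  induction n using Nat.strong_induction_on with
  | _ n IH =>
    intro V P _ _ _ _ _ hP ρ hn
    refine reduce hpF (ell p e) (ell_mono p e) n ?_ ?_ V P hP ρ hn
    · intro m hm V P _ _ _ _ _ hP ρ hr
      exact IH m hm V P hP ρ hr
    · intro V P _ _ _ _ _ hP ρ hr hV hinj hirr
      rw [← hr]
      refine irr_step hp2 hP hpF hepos ?_ ρ hV hinj hirr (by rw [hr]; exact IH)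
      intro hPt
      haveI : Module.Finite F V := Module.Finite.of_finite
      have hb := Module.finBasisOfFinrankEq F V rfl
      have hinj' := toGL_injective hb hinj
      have h1 : Nat.card P ∣ Nat.card (Matrix.GeneralLinearGroup (Fin (finrank F V)) F) :=
        Subgroup.card_dvd_of_injective _ hinj'
      have h2 : p ∣ Nat.card P := by
        obtain ⟨k, hk⟩ := IsPGroup.iff_card.1 hP
        rcases k with _ | k
        · rw [pow_zero] at hk
          exact absurd hk Finite.one_lt_card.ne'
        · rw [hk]; exact dvd_pow_self _ (by omega)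
      rw [he]
      exact order_le_of_dvd_card_GL hF hpq _ (h2.trans h1)

end Cfsg.Agent.Lib.PGroups.GLDer
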