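import Cfsg.Agent.Lib.PGroups.GLDer2
import Cfsg.Agent.Lib.Transfer.Frobenius

/-!
# Derived length of `p`-subgroups of linear groups: wreath products and the lower bound
-/

set_option autoImplicit false

namespace Cfsg.Agent.Lib.PGroups.GLDer

open Subgroup Module RegularWreathProduct
open scoped commutatorElement

universe u

section wreath

variable {D : Type*} [Group D] {p : ℕ} [hp : Fact p.Prime]

/-- Elements of the derived series of the wreath product lying over a given element of the
derived series of the base. -/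
theorem wr_derived (m : ℕ) : ∀ a ∈ derivedSeries D m,
    ∃ d ∈ derivedSeries (D ≀ᵣ Multiplicative (ZMod p)) (m + 1), d.right = 1 ∧ d.left 1 = a := by
  induction m with
  | zero =>
    intro a _
    classical
    let s : Multiplicative (ZMod p) := Multiplicative.ofAdd 1
    have hs1 : (1 : Multiplicative (ZMod p)) ≠ s⁻¹ := by
      intro he
      have h1 : s = 1 := by
        rw [← inv_inv s, ← he, inv_one]
      have h2 : (1 : ZMod p) = 0 := congrArg Multiplicative.toAdd h1
      exact one_ne_zero h2
    let b : D ≀ᵣ Multiplicative (ZMod p) := ⟨fun x => if x = s⁻¹ then a else 1, 1⟩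
    let σ : D ≀ᵣ Multiplicative (ZMod p) := ⟨1, s⟩
    refine ⟨⁅σ, b⁆, ?_, ?_, ?_⟩
    · rw [zero_add, derivedSeries_one, _root_.commutator_def]
      exact Subgroup.commutator_mem_commutator (mem_top _) (mem_top _)
    · rw [commutatorElement_def]
      simp [σ, b]
    · rw [commutatorElement_def]
      simp [σ, b, hs1]
  | succ m ih =>
    let A : Subgroup D :=
      { carrier := {a | ∃ d ∈ derivedSeries (D ≀ᵣ Multiplicative (ZMod p)) (m + 1 + 1),
          d.right = 1 ∧ d.left 1 = a}
        one_mem' := ⟨1, one_mem _, rfl, rfl⟩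
        mul_mem' := by
          rintro a b ⟨d, hd, hd1, hda⟩ ⟨c, hc, hc1, hcb⟩
          refine ⟨d * c, mul_mem hd hc, by simp [hd1, hc1], ?_⟩
          simp [hd1, hda, hcb]
        inv_mem' := by
          rintro a ⟨d, hd, hd1, hda⟩
          refine ⟨d⁻¹, inv_mem hd, by simp [hd1], ?_⟩
          simp [hd1, hda] }
    have hle : derivedSeries D (m + 1) ≤ A := by
      rw [derivedSeries_succ, Subgroup.commutator_le]
      intro a₁ ha₁ a₂ ha₂
      obtain ⟨d₁, hd₁, h₁, h₁'⟩ := ih a₁ ha₁
      obtain ⟨d₂, hd₂, h₂, h₂'⟩ := ih a₂ ha₂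
      refine ⟨⁅d₁, d₂⁆, ?_, ?_, ?_⟩
      · rw [derivedSeries_succ]
        exact Subgroup.commutator_mem_commutator hd₁ hd₂
      · rw [commutatorElement_def]
        simp [h₁, h₂]
      · rw [commutatorElement_def, commutatorElement_def]
        simp [h₁, h₂, h₁', h₂']
    exact fun a ha => hle ha

variable {F V : Type*} [Field F] [AddCommGroup V] [Module F V]

/-- The representation of the wreath product on functions. -/
def wrRep (ρ : D →* (V →ₗ[F] V)) :
    (D ≀ᵣ Multiplicative (ZMod p)) →* ((Multiplicative (ZMod p) → V) →ₗ[F] (Multiplicative (ZMod p) → V)) where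
  toFun a :=
    { toFun := fun f x => ρ (a.left x) (f (a.right⁻¹ * x))
      map_add' := fun f g => by
        funext x
        simp
      map_smul' := fun c f => by
        funext x
        simp }
  map_one' := by
    apply LinearMap.ext
    intro f
    funext x
    simp
  map_mul' a b := by
    apply LinearMap.ext
    intro f
    funext x
    simp [mul_assoc]

theorem wrRep_apply (ρ : D →* (V →ₗ[F] V)) (a : D ≀ᵣ Multiplicative (ZMod p))
    (f : Multiplicative (ZMod p) → V) (x : Multiplicative (ZMod p)) :
    wrRep ρ a f x = ρ (a.left x) (f (a.right⁻¹ * x)) := rfl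

theorem wrRep_injective [Nontrivial V] {ρ : D →* (V →ₗ[F] V)} (hρ : Function.Injective ρ) :
    Function.Injective (wrRep (p := p) ρ) := by
  classical
  rw [injective_iff_map_eq_one]
  intro a ha
  have hfix : ∀ (f : Multiplicative (ZMod p) → V) x, ρ (a.left x) (f (a.right⁻¹ * x)) = f x := by
    intro f x
    have h1 := congrFun (LinearMap.congr_fun ha f) x
    exact h1
  obtain ⟨v, hv⟩ := exists_ne (0 : V)
  have hright : a.right = 1 := by
    by_contra hne
    have h1 := hfix (fun x => if x = 1 then v else 0) 1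
    have h2 : a.right⁻¹ * 1 ≠ 1 := by
      rw [mul_one]
      exact fun he => hne (inv_eq_one.mp he)
    simp only [if_neg h2, map_zero, if_true] at h1
    exact hv h1.symm
  have hleft : ∀ x, a.left x = 1 := by
    intro x
    apply hρ
    rw [map_one]
    ext w
    have h1 := hfix (fun y => if y = x then w else 0) x
    rw [hright, inv_one, one_mul] at h1
    simpa using h1
  ext x
  · exact hleft x
  · exact hright

end wreath

/-- The natural representation of a subgroup of the general linear group. -/
noncomputable def natRep {F : Type*} [Field F] {n : ℕ} (P : Subgroup (Matrix.GeneralLinearGroup (Fin n) F)) :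
    ↥P →* ((Fin n → F) →ₗ[F] (Fin n → F)) where
  toFun g := Matrix.toLin' ((g : Matrix.GeneralLinearGroup (Fin n) F) : Matrix (Fin n) (Fin n) F)
  map_one' := by
    simp
    rfl
  map_mul' a b := by
    simp [Matrix.toLin'_mul]
    rfl

theorem natRep_injective {F : Type*} [Field F] {n : ℕ} (P : Subgroup (Matrix.GeneralLinearGroup (Fin n) F)) :
    Function.Injective (natRep P) := by
  intro a b hab
  apply Subtype.ext
  apply Units.ext
  exact Matrix.toLin'.injective hab

/-- Existence of faithful representations of large derived length. -/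
theorem exists_rep {F : Type u} [Field F] [Fintype F] {q : ℕ} (hF : Fintype.card F = q) {p : ℕ}
    [hp : Fact p.Prime] (hpq : ¬ p ∣ q) {e : ℕ} (he : e = orderOf (q : ZMod p)) (k : ℕ) :
    ∃ (T V : Type u) (_ : Group T) (_ : Finite T) (_ : AddCommGroup V) (_ : Module F V) (_ : Finite V)
      (ρ : T →* (V →ₗ[F] V)), IsPGroup p T ∧ Function.Injective ρ ∧ finrank F V = e * p ^ k ∧
        derivedSeries T k ≠ ⊥ := by
  classical
  have hpp := hp.out
  have hq0 : (q : ZMod p) ≠ 0 := by
    rwa [Ne, ZMod.natCast_eq_zero_iff]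
  have hepos : 0 < e := by
    rw [he, orderOf_pos_iff, isOfFinOrder_iff_pow_eq_one]
    exact ⟨p - 1, by have := hpp.two_le; omega, ZMod.pow_card_sub_one_eq_one hq0⟩
  induction k with
  | zero =>
    have hd : p ∣ Nat.card (Matrix.GeneralLinearGroup (Fin e) F) := by
      rw [Matrix.card_GL_field, hF]
      have h1 : p ∣ q ^ e - q ^ ((⟨0, hepos⟩ : Fin e) : ℕ) := by
        have hq1 : 0 < q := by
          rw [← hF]; exact Fintype.card_pos
        have h2 : 1 ≤ q ^ e := Nat.one_le_pow _ _ hq1
        simp only [pow_zero]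
        rw [← ZMod.natCast_eq_zero_iff, Nat.cast_sub h2]
        push_cast
        have h3 : (q : ZMod p) ^ e = 1 := by
          rw [he]; exact pow_orderOf_eq_one _
        rw [h3, sub_self]
      exact h1.trans (Finset.dvd_prod_of_mem _ (Finset.mem_univ _))
    obtain ⟨c, hc⟩ := exists_prime_orderOf_dvd_card' p hd
    refine ⟨zpowers c, Fin e → F, inferInstance, inferInstance, inferInstance, inferInstance,
      inferInstance, natRep (zpowers c), ?_, natRep_injective _, ?_, ?_⟩
    · exact isPGroup_zpowers_iff.mpr ⟨1, by rw [hc, pow_one]⟩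
    · rw [Module.finrank_fin_fun, pow_zero, mul_one]
    · rw [derivedSeries_zero]
      intro h
      have h1 : (⟨c, mem_zpowers c⟩ : zpowers c) ∈ (⊤ : Subgroup (zpowers c)) := mem_top _
      rw [h, mem_bot] at h1
      have h2 : c = 1 := congrArg Subtype.val h1
      rw [h2, orderOf_one] at hc
      exact hpp.one_lt.ne hc
  | succ k ih =>
    obtain ⟨T, V, _, _, _, _, _, ρ, hT, hρ, hV, hne⟩ := ih
    have hVpos : 0 < finrank F V := by
      rw [hV]
      exact Nat.mul_pos hepos (pow_pos hpp.pos k)
    haveI : Nontrivial V := Module.nontrivial_of_finrank_pos hVpos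
    refine ⟨T ≀ᵣ Multiplicative (ZMod p), Multiplicative (ZMod p) → V, inferInstance, inferInstance,
      inferInstance, inferInstance, inferInstance, wrRep ρ, ?_, wrRep_injective hρ, ?_, ?_⟩
    · obtain ⟨a, ha⟩ := IsPGroup.iff_card.1 hT
      apply IsPGroup.of_card (n := a * p + 1)
      have hQ : Nat.card (Multiplicative (ZMod p)) = p := by
        rw [Nat.card_eq_fintype_card]
        exact (Fintype.card_congr Multiplicative.toAdd).trans (ZMod.card p)
      rw [RegularWreathProduct.card, hQ, ha, pow_succ, pow_mul]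
    · haveI : Module.Finite F V := Module.Finite.of_finite
      rw [Module.finrank_pi_fintype]
      simp only [hV, Finset.sum_const, Finset.card_univ, smul_eq_mul]
      have hQ : Fintype.card (Multiplicative (ZMod p)) = p :=
        (Fintype.card_congr Multiplicative.toAdd).trans (ZMod.card p)
      rw [hQ, pow_succ]
      ring
    · obtain ⟨⟨a, ha⟩, ha1'⟩ := Subgroup.ne_bot_iff_exists_ne_one.mp hne
      have ha1 : a ≠ 1 := fun e => ha1' (Subtype.ext e)
      obtain ⟨d, hd, -, hda⟩ := wr_derived (p := p) k a ha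
      intro h
      rw [h, mem_bot] at hd
      apply ha1
      rw [← hda, hd]
      rfl

/-- The lower bound. -/
theorem lb {F : Type u} [Field F] [Fintype F] {q : ℕ} (hF : Fintype.card F = q) {p : ℕ}
    [hp : Fact p.Prime] (hpq : ¬ p ∣ q) {e : ℕ} (he : e = orderOf (q : ZMod p)) {n k : ℕ}
    (hk : e * p ^ k ≤ n) (P : Sylow p (Matrix.GeneralLinearGroup (Fin n) F)) :
    derivedSeries ↥(P : Subgroup (Matrix.GeneralLinearGroup (Fin n) F)) k ≠ ⊥ := by
  classical
  obtain ⟨T, V, _, _, _, _, _, ρ, hT, hρ, hV, hne⟩ := exists_rep hF hpq he k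
  haveI : Module.Finite F V := Module.Finite.of_finite
  let ρ' : T →* ((V × (Fin (n - e * p ^ k) → F)) →ₗ[F] (V × (Fin (n - e * p ^ k) → F))) :=
    { toFun := fun g => LinearMap.prodMap (ρ g) LinearMap.id
      map_one' := by
        apply LinearMap.ext
        rintro ⟨v, w⟩
        simp
      map_mul' := fun a b => by
        apply LinearMap.ext
        rintro ⟨v, w⟩
        simp }
  have hρ' : Function.Injective ρ' := by
    intro a b hab
    apply hρ
    ext v
    have h1 := congrArg Prod.fst (LinearMap.congr_fun hab (v, 0))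
    exact h1
  have hfr : finrank F (V × (Fin (n - e * p ^ k) → F)) = n := by
    rw [Module.finrank_prod, hV, Module.finrank_fin_fun]
    omega
  let b := Module.finBasisOfFinrankEq F (V × (Fin (n - e * p ^ k) → F)) hfr
  let ψ := toGL ρ' b
  have hψ : Function.Injective ψ := toGL_injective b hρ'
  have hrange : IsPGroup p ψ.range := by
    rw [MonoidHom.range_eq_map]
    exact (hT.to_subgroup ⊤).map ψ
  obtain ⟨S, hS⟩ := hrange.exists_le_sylow
  obtain ⟨g, hg⟩ := MulAction.exists_smul_eq (Matrix.GeneralLinearGroup (Fin n) F) S P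
  have hmem : ∀ t : T, g * ψ t * g⁻¹ ∈ (P : Subgroup (Matrix.GeneralLinearGroup (Fin n) F)) := by
    intro t
    rw [← hg]
    exact Cfsg.Agent.Lib.Transfer.conj_mem_smul_sylow (hS ⟨t, rfl⟩)
  let φ : T →* ↥(P : Subgroup (Matrix.GeneralLinearGroup (Fin n) F)) :=
    MonoidHom.codRestrict ((MulAut.conj g).toMonoidHom.comp ψ) _ hmem
  have hφ : Function.Injective φ := by
    intro a c hac
    apply hψ
    have h1 := congrArg Subtype.val hac
    exact (MulAut.conj g).injective h1
  intro hbot
  apply hne
  have h1 := map_derivedSeries_le_derivedSeries φ k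
  rw [hbot] at h1
  rw [eq_bot_iff]
  intro x hx
  have h2 := h1 ⟨x, hx, rfl⟩
  rw [mem_bot] at h2
  rw [mem_bot]
  exact hφ (by rw [h2, map_one])

/-- Both bounds. -/
theorem main_bounds {p : ℕ} [hp : Fact p.Prime] (hp2 : p ≠ 2) {F : Type u} [Field F] [Fintype F] {q : ℕ}
    (hq : Fintype.card F = q) (hpq : ¬ p ∣ q) {n : ℕ} (hn : orderOf (q : ZMod p) ≤ n)
    (P : Sylow p (Matrix.GeneralLinearGroup (Fin n) F)) :
    derivedSeries ↥(P : Subgroup (Matrix.GeneralLinearGroup (Fin n) F))
        (Nat.log p (n / orderOf (q : ZMod p)) + 1) = ⊥ ∧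
      derivedSeries ↥(P : Subgroup (Matrix.GeneralLinearGroup (Fin n) F))
        (Nat.log p (n / orderOf (q : ZMod p))) ≠ ⊥ := by
  have hpp := hp.out
  have hq0 : (q : ZMod p) ≠ 0 := by
    rwa [Ne, ZMod.natCast_eq_zero_iff]
  have hepos : 0 < orderOf (q : ZMod p) := by
    rw [orderOf_pos_iff, isOfFinOrder_iff_pow_eq_one]
    exact ⟨p - 1, by have := hpp.two_le; omega, ZMod.pow_card_sub_one_eq_one hq0⟩
  constructor
  · have h1 := ub hq hp2 hpq rfl n (Fin n → F) ↥(P : Subgroup (Matrix.GeneralLinearGroup (Fin n) F)) P.2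
      (natRep (P : Subgroup (Matrix.GeneralLinearGroup (Fin n) F))) (Module.finrank_fin_fun F)
    have h2 : ell p (orderOf (q : ZMod p)) n = Nat.log p (n / orderOf (q : ZMod p)) + 1 := by
      unfold ell
      rw [if_neg (by omega)]
    rw [h2] at h1
    rw [eq_bot_iff]
    intro g hg
    rw [mem_bot]
    apply natRep_injective (P : Subgroup (Matrix.GeneralLinearGroup (Fin n) F))
    rw [h1 g hg, map_one]
  · apply lb hq hpq rfl
    have h1 : n / orderOf (q : ZMod p) ≠ 0 := (Nat.div_pos hn hepos).ne'
    have h2 := Nat.pow_log_le_self p h1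
    calc orderOf (q : ZMod p) * p ^ Nat.log p (n / orderOf (q : ZMod p))
        ≤ orderOf (q : ZMod p) * (n / orderOf (q : ZMod p)) := Nat.mul_le_mul_left _ h2
      _ ≤ n := Nat.mul_div_le _ _

end Cfsg.Agent.Lib.PGroups.GLDer
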