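import Cfsg.Agent.S0035
import Cfsg.Agent.Lib.Coprime.Sylow
import Cfsg.Agent.Lib.PGroups.Subnormalizer

/-!
# Subgroups containing every proper invariant subgroup

If `B` is a subgroup of the finite group `A`, fixed elementwise by a family of automorphisms, and
every proper invariant subgroup of `A` lies in `B`, then `B` is normal in `A`.  The proof reduces
to the case of a Frobenius complement and uses the characteristic Frobenius kernel.
-/

set_option autoImplicit false

namespace Cfsg.Agent.Lib.PGroups.InvNormal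

open Subgroup Cfsg Cfsg.Agent.Lib.Coprime Cfsg.Agent.Lib.Basic
open scoped Pointwise

universe u

theorem malnormal_of_normalizer_le {A : Type u} [Group A] [Finite A] (B : Subgroup A)
    (hN : ∀ S : Subgroup A, S ≤ B → S ≠ ⊥ → normalizer (S : Set A) ≤ B) :
    ∀ x : A, x ∉ B → B ⊓ (MulAut.conj x • B) = ⊥ := by
  intro x₀ hx₀
  by_contra hne
  have hne1 : Nat.card ↥(B ⊓ (MulAut.conj x₀ • B)) ≠ 1 := by
    intro h
    exact hne (Subgroup.eq_bot_of_card_eq _ h)
  obtain ⟨r, hr, hrd⟩ := Nat.exists_prime_and_dvd hne1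
  haveI : Fact r.Prime := ⟨hr⟩
  obtain ⟨y, hy⟩ := exists_prime_orderOf_dvd_card' r hrd
  let F : Set (Subgroup A) := {Q | IsPGroup r Q ∧ Q ≠ ⊥ ∧ ∃ x : A, x ∉ B ∧ Q ≤ B ⊓ (MulAut.conj x • B)}
  have hF : (zpowers (y : A)) ∈ F := by
    refine ⟨IsPGroup.of_card (n := 1) ?_, ?_, x₀, hx₀, ?_⟩
    · rw [Nat.card_zpowers, pow_one, ← hy]
      exact Subgroup.orderOf_coe y
    · intro h
      have h1 : orderOf (y : A) = 1 := by
        rw [← Nat.card_zpowers, h, Subgroup.card_bot]
      rw [Subgroup.orderOf_coe, hy] at h1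
      exact hr.one_lt.ne' h1
    · rw [zpowers_le]
      exact y.2
  obtain ⟨Q, -, hQmax⟩ := (Set.toFinite F).exists_le_maximal hF
  obtain ⟨hQp, hQ1, x, hx, hQle⟩ := hQmax.prop
  have hQB : Q ≤ B := hQle.trans inf_le_left
  have hconjmem : ∀ (w : A) (S : Subgroup A), w ∈ MulAut.conj x • S ↔ x⁻¹ * w * x ∈ S := by
    intro w S
    exact mem_conj_smul
  have hQx : ∀ w ∈ Q, x⁻¹ * w * x ∈ B := fun w hw => (hconjmem w B).mp (hQle hw).2
  -- the conjugate of `Q` in `B`
  set Q' : Subgroup A := Q.map (MulAut.conj x⁻¹).toMonoidHom with hQ'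
  have hmemQ' : ∀ w, w ∈ Q' ↔ x * w * x⁻¹ ∈ Q := by
    intro w
    constructor
    · rintro ⟨v, hv, rfl⟩
      have e : x * (MulAut.conj x⁻¹).toMonoidHom v * x⁻¹ = v := by simp [mul_assoc]
      rw [e]
      exact hv
    · intro h
      exact ⟨x * w * x⁻¹, h, by simp [mul_assoc]⟩
  have hQ'B : Q' ≤ B := by
    rintro _ ⟨v, hv, rfl⟩
    have := hQx v hv
    simpa using this
  have hQ'1 : Q' ≠ ⊥ := by
    intro h
    apply hQ1
    rw [eq_bot_iff]
    intro w hw
    have h1 : x⁻¹ * w * x ∈ Q' := (hmemQ' _).mpr (by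
      have e : x * (x⁻¹ * w * x) * x⁻¹ = w := by group
      rw [e]; exact hw)
    rw [h, Subgroup.mem_bot] at h1
    rw [Subgroup.mem_bot]
    have e : w = x * (x⁻¹ * w * x) * x⁻¹ := by group
    rw [e, h1]
    simp
  have hNQ : normalizer (Q : Set A) ≤ B := hN Q hQB hQ1
  have hNQ' : normalizer (Q' : Set A) ≤ B := hN Q' hQ'B hQ'1
  have hNQx : ∀ n ∈ normalizer (Q : Set A), x⁻¹ * n * x ∈ B := by
    intro n hn
    apply hNQ'
    rw [mem_normalizer_iff]
    intro w
    rw [hmemQ', hmemQ']
    have e : x * (x⁻¹ * n * x * w * (x⁻¹ * n * x)⁻¹) * x⁻¹ = n * (x * w * x⁻¹) * n⁻¹ := by group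
    rw [e]
    exact mem_normalizer_iff.mp hn _
  -- a relative Sylow subgroup of `B` containing `Q`
  have hact : CoprimeAction (⊥ : Subgroup A) B :=
    ⟨bot_le, by simp, Or.inl (by
      haveI : Subsingleton (⊥ : Subgroup A) := inferInstance
      infer_instance)⟩
  obtain ⟨T, hT, -, hQT⟩ := hact.exists_invariant_sylow_ge hQB hQp (by exact bot_le)
  have hQTeq : Q = T := by
    by_contra hneT
    have hlt : Q < T := lt_of_le_of_ne hQT hneT
    obtain ⟨b, hbT, hbQ, hbN⟩ := Cfsg.Agent.Lib.PGroups.Subnormalizer.growth r hlt hT.isP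
    have hmem : T ⊓ normalizer (Q : Set A) ∈ F := by
      refine ⟨hT.isP.to_le inf_le_left, ?_, x, hx, ?_⟩
      · intro h
        apply hQ1
        rw [eq_bot_iff]
        have : Q ≤ T ⊓ normalizer (Q : Set A) := le_inf hQT le_normalizer
        rwa [h] at this
      · refine le_inf (inf_le_left.trans hT.le) ?_
        intro w hw
        exact (hconjmem w B).mpr (hNQx w (Subgroup.mem_inf.mp hw).2)
    have hQle' : Q ≤ T ⊓ normalizer (Q : Set A) := le_inf hQT le_normalizer
    exact hbQ (hQmax.le_of_ge hmem hQle' (Subgroup.mem_inf.mpr ⟨hbT, hbN⟩))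
  have hQS : IsSylowOf r Q B := hQTeq ▸ hT
  have hcardQ' : Nat.card Q' = Nat.card Q := card_conj_map _ _
  have hQ'S : IsSylowOf r Q' B := by
    refine ⟨hQ'B, hQp.map _, ?_⟩
    have h1 := card_mul_relIndex hQ'B
    have h2 := card_mul_relIndex hQS.le
    have hpos : 0 < Nat.card Q := Nat.card_pos
    rw [hcardQ'] at h1
    have h3 : Q'.relIndex B = Q.relIndex B := Nat.eq_of_mul_eq_mul_left hpos (by rw [h1, h2])
    rw [h3]
    exact hQS.not_dvd
  obtain ⟨b, hbB, hb⟩ := hQS.exists_conj hQ'S
  -- `x b` normalizes `Q`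
  have hxb : x * b ∈ normalizer (Q : Set A) := by
    apply mem_normalizer_of_conj_le'
    intro w hw
    have h1 : b * w * b⁻¹ ∈ Q' := by
      rw [hb]
      exact ⟨w, hw, by simp⟩
    have h2 := (hmemQ' _).mp h1
    have e : x * b * w * (x * b)⁻¹ = x * (b * w * b⁻¹) * x⁻¹ := by group
    rw [e]
    exact h2
  have h3 := hNQ hxb
  apply hx
  have e : x = x * b * b⁻¹ := by group
  rw [e]
  exact B.mul_mem h3 (B.inv_mem hbB)

theorem normal_of_invariant {ι : Type*} (n : ℕ) : ∀ (A : Type u) [Group A] [Finite A]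
    (B : Subgroup A) (φ : ι → A ≃* A), Nat.card A = n → (∀ i, ∀ b ∈ B, φ i b = b) →
    (∀ C : Subgroup A, (∀ i, ∀ c, c ∈ C ↔ φ i c ∈ C) → C = ⊤ ∨ C ≤ B) → B.Normal := by
  induction' n using Nat.strong_induction_on with n IH
  intro A _ _ B φ hcard hfix hinv
  have hφB : ∀ i y, φ i y ∈ B ↔ y ∈ B := by
    intro i y
    constructor
    · intro h
      have h1 := hfix i _ h
      have h2 : φ i y = y := (φ i).injective h1
      rwa [h2] at h
    · intro h
      rw [hfix i y h]
      exact h
  set Z := B.normalCore with hZ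
  have hZmem : ∀ c, c ∈ Z ↔ ∀ g : A, g * c * g⁻¹ ∈ B := fun c => Iff.rfl
  have hZinv : ∀ i c, c ∈ Z ↔ φ i c ∈ Z := by
    intro i c
    rw [hZmem, hZmem]
    constructor
    · intro h g
      obtain ⟨g', rfl⟩ := (φ i).surjective g
      have e : φ i g' * φ i c * (φ i g')⁻¹ = φ i (g' * c * g'⁻¹) := by simp
      rw [e, hφB]
      exact h g'
    · intro h g
      have h1 := h (φ i g)
      have e : φ i g * φ i c * (φ i g)⁻¹ = φ i (g * c * g⁻¹) := by simp
      rw [e, hφB] at h1
      exact h1
  by_cases hZ1 : Z = ⊥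
  · -- trivial core
    by_cases hB1 : B = ⊥
    · rw [hB1]; infer_instance
    by_cases hB2 : B = ⊤
    · rw [hB2]; infer_instance
    exfalso
    have hN : ∀ S : Subgroup A, S ≤ B → S ≠ ⊥ → normalizer (S : Set A) ≤ B := by
      intro S hSB hS1
      have hSinv : ∀ i y, y ∈ S ↔ φ i y ∈ S := by
        intro i y
        constructor
        · intro h
          rw [hfix i y (hSB h)]
          exact h
        · intro h
          have h1 := hfix i _ (hSB h)
          have h2 : φ i y = y := (φ i).injective h1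
          rwa [h2] at h
      have hNinv : ∀ i c, c ∈ normalizer (S : Set A) ↔ φ i c ∈ normalizer (S : Set A) := by
        intro i c
        rw [mem_normalizer_iff, mem_normalizer_iff]
        constructor
        · intro h w
          obtain ⟨w', rfl⟩ := (φ i).surjective w
          have e : φ i c * φ i w' * (φ i c)⁻¹ = φ i (c * w' * c⁻¹) := by simp
          rw [e, ← hSinv, ← hSinv]
          exact h w'
        · intro h w
          have h1 := h (φ i w)
          have e : φ i c * φ i w * (φ i c)⁻¹ = φ i (c * w * c⁻¹) := by simp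
          rw [e, ← hSinv, ← hSinv] at h1
          exact h1
      rcases hinv (normalizer (S : Set A)) hNinv with h | h
      · exfalso
        apply hS1
        haveI : S.Normal := normalizer_eq_top_iff.mp h
        have : S ≤ Z := normal_le_normalCore.mpr hSB
        rw [hZ1] at this
        exact le_bot_iff.mp this
      · exact h
    have hmal := malnormal_of_normalizer_le B hN
    have hFrob : IsFrobeniusComplement B := ⟨hB1, hB2, hmal⟩
    obtain ⟨M, hMset, hMn, hMc⟩ := Cfsg.Agent.S0035.result B hFrob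
    have hMmem : ∀ c, c ∈ M ↔ (c = 1 ∨ ∀ g : A, g⁻¹ * c * g ∉ B) := by
      intro c
      have h1 : c ∈ M ↔ c ∈ (M : Set A) := Iff.rfl
      rw [h1, hMset]
      show (c = 1 ∨ ∀ g : A, c ∉ MulAut.conj g • B) ↔ _
      simp only [mem_conj_smul]
    have hMinv : ∀ i c, c ∈ M ↔ φ i c ∈ M := by
      intro i c
      rw [hMmem, hMmem]
      constructor
      · rintro (rfl | h)
        · left
          simp
        · right
          intro g
          obtain ⟨g', rfl⟩ := (φ i).surjective g
          have e : (φ i g')⁻¹ * φ i c * φ i g' = φ i (g'⁻¹ * c * g') := by simp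
          rw [e, hφB]
          exact h g'
      · rintro (h | h)
        · left
          exact (map_eq_one_iff (φ i) (φ i).injective).mp h
        · right
          intro g
          have h1 := h (φ i g)
          have e : (φ i g)⁻¹ * φ i c * φ i g = φ i (g⁻¹ * c * g) := by simp
          rw [e, hφB] at h1
          exact h1
    have hcardMB := hMc.card_mul_card
    rcases hinv M hMinv with h | h
    · apply hB1
      rw [h, Subgroup.card_top] at hcardMB
      have hpos : 0 < Nat.card A := Nat.card_pos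
      apply Subgroup.eq_bot_of_card_eq
      exact Nat.eq_of_mul_eq_mul_left hpos (by rw [hcardMB, mul_one])
    · apply hB2
      have hM1 : M = ⊥ := by
        rw [eq_bot_iff]
        intro w hw
        have := hMc.disjoint
        exact Subgroup.disjoint_def.mp this hw (h hw)
      rw [hM1, Subgroup.card_bot, one_mul] at hcardMB
      exact Subgroup.eq_top_of_card_eq _ hcardMB
  · -- nontrivial core: pass to the quotient
    haveI hZn : Z.Normal := normalCore_normal B
    have hZle : Z ≤ B := normalCore_le B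
    have hmap : ∀ i, Z.map (φ i).toMonoidHom = Z := by
      intro i
      ext w
      constructor
      · rintro ⟨v, hv, rfl⟩
        exact (hZinv i v).mp hv
      · intro hw
        obtain ⟨v, rfl⟩ := (φ i).surjective w
        exact ⟨v, (hZinv i v).mpr hw, rfl⟩
    let φ' : ι → (A ⧸ Z) ≃* (A ⧸ Z) := fun i => QuotientGroup.congr Z Z (φ i) (hmap i)
    have hφ'mk : ∀ i (a : A), φ' i (a : A ⧸ Z) = (φ i a : A ⧸ Z) := fun i a => rfl
    have hlt : Nat.card (A ⧸ Z) < n := by
      have h1 := Subgroup.card_eq_card_quotient_mul_card_subgroup Z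
      have h2 : 1 < Nat.card Z := by
        have h3 : Nat.card Z ≠ 1 := fun h => hZ1 (Subgroup.eq_bot_of_card_eq _ h)
        have h4 : 0 < Nat.card Z := Nat.card_pos
        omega
      have h5 : 0 < Nat.card (A ⧸ Z) := Nat.card_pos
      rw [← hcard, h1]
      exact lt_mul_of_one_lt_right h5 h2
    have hres := IH _ hlt (A ⧸ Z) (B.map (QuotientGroup.mk' Z)) φ' rfl ?_ ?_
    · have h1 : B = (B.map (QuotientGroup.mk' Z)).comap (QuotientGroup.mk' Z) := by
        rw [Subgroup.comap_map_eq_self]
        rw [QuotientGroup.ker_mk']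
        exact hZle
      rw [h1]
      exact hres.comap _
    · rintro i _ ⟨b, hb, rfl⟩
      show φ' i (b : A ⧸ Z) = (b : A ⧸ Z)
      rw [hφ'mk, hfix i b hb]
    · intro C hC
      have hCinv : ∀ i c, c ∈ C.comap (QuotientGroup.mk' Z) ↔ φ i c ∈ C.comap (QuotientGroup.mk' Z) := by
        intro i c
        have := hC i (c : A ⧸ Z)
        rw [hφ'mk] at this
        exact this
      rcases hinv (C.comap (QuotientGroup.mk' Z)) hCinv with h | h
      · left
        rw [eq_top_iff]
        intro q _
        obtain ⟨a, rfl⟩ := QuotientGroup.mk'_surjective Z q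
        have : a ∈ C.comap (QuotientGroup.mk' Z) := by rw [h]; exact mem_top a
        exact this
      · right
        intro q hq
        obtain ⟨a, rfl⟩ := QuotientGroup.mk'_surjective Z q
        exact ⟨a, h hq, rfl⟩

end Cfsg.Agent.Lib.PGroups.InvNormal
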