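import Cfsg.Agent.Lib.PGroups.Wielandt
import Cfsg.Agent.Lib.Transfer.IndexP
import Cfsg.Agent.Lib.OddLocal.UniqueP2

/-!
Counting subgroups of `p`-groups modulo `p²` (towards the Kulakoff–Berkovich theorem):
the number of maximal subgroups over a subgroup, and Hall's recursion.
-/

set_option autoImplicit false
set_option linter.style.haveILetI false

namespace Cfsg.Agent.Lib.PGroups.Kul

open Subgroup Finset

universe u

variable {p : ℕ} [hpf : Fact p.Prime]

section Hom

variable {R : Type*} [Group R] [Finite R]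

theorem card_Cp : Nat.card (Multiplicative (ZMod p)) = p := by
  rw [Nat.card_congr Multiplicative.toAdd, Nat.card_zmod]

theorem pow_Cp (a : Multiplicative (ZMod p)) : a ^ p = 1 := by
  have := pow_card_eq_one' (x := a)
  rwa [card_Cp] at this

instance instFiniteHomCp : Finite (R →* Multiplicative (ZMod p)) :=
  Finite.of_injective (fun f => (f : R → Multiplicative (ZMod p))) DFunLike.coe_injective

theorem isPGroup_homCp : IsPGroup p (R →* Multiplicative (ZMod p)) := by
  intro φ
  refine ⟨1, ?_⟩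
  rw [pow_one]
  apply MonoidHom.ext
  intro x
  show (φ x) ^ p = 1
  rw [pow_Cp]

/-- homs trivial on `V`. -/
def homK (p : ℕ) [Fact p.Prime] (V : Subgroup R) : Subgroup (R →* Multiplicative (ZMod p)) where
  carrier := {φ | V ≤ φ.ker}
  mul_mem' := by
    intro a b ha hb x hx
    have h1 : a x = 1 := ha hx
    have h2 : b x = 1 := hb hx
    rw [MonoidHom.mem_ker, MonoidHom.mul_apply, h1, h2, one_mul]
  one_mem' := by
    intro x _
    rw [MonoidHom.mem_ker, MonoidHom.one_apply]
  inv_mem' := by
    intro a ha x hx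
    have h1 : a x = 1 := ha hx
    rw [MonoidHom.mem_ker, MonoidHom.inv_apply, h1, inv_one]

theorem mem_homK {V : Subgroup R} {φ : R →* Multiplicative (ZMod p)} : φ ∈ homK p V ↔ V ≤ φ.ker := Iff.rfl

theorem exists_hom_ker_eq' (hR : IsPGroup p R) {M : Subgroup R} (hM : M.index = p) :
    ∃ φ : R →* Multiplicative (ZMod p), φ.ker = M := by
  have hp : p.Prime := hpf.out
  have hco : IsCoatom M := Cfsg.Agent.Lib.Transfer.isCoatom_of_index_prime (by rw [hM]; exact hp)
  obtain ⟨hn, -⟩ := Cfsg.Agent.Lib.Transfer.normal_and_index_of_isCoatom hR hco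
  haveI := hn
  have hcard : Nat.card (R ⧸ M) = p := by rw [← Subgroup.index_eq_card, hM]
  let e : (R ⧸ M) ≃* Multiplicative (ZMod p) := mulEquivOfPrimeCardEq hcard card_Cp
  refine ⟨(e.toMonoidHom).comp (QuotientGroup.mk' M), ?_⟩
  ext x
  rw [MonoidHom.mem_ker, MonoidHom.comp_apply]
  simp only [MulEquiv.toMonoidHom_eq_coe, MonoidHom.coe_coe, map_eq_one_iff _ e.injective,
    QuotientGroup.mk'_apply, QuotientGroup.eq_one_iff]

theorem index_ker_eq' {φ : R →* Multiplicative (ZMod p)} (hφ : φ ≠ 1) : φ.ker.index = p := by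
  have hp : p.Prime := hpf.out
  rw [Subgroup.index_ker]
  have hd : Nat.card φ.range ∣ p := by
    have := Subgroup.card_subgroup_dvd_card φ.range
    rwa [card_Cp] at this
  rcases (Nat.dvd_prime hp).mp hd with h | h
  · exfalso
    have := Subgroup.card_eq_one.mp h
    apply hφ
    rw [MonoidHom.range_eq_bot_iff] at this
    exact this
  · exact h

theorem index_ker_dvd (φ : R →* Multiplicative (ZMod p)) : φ.ker.index ∣ p := by
  by_cases h : φ = 1
  · subst h
    have : (1 : R →* Multiplicative (ZMod p)).ker = ⊤ := by ext x; simp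
    rw [this, Subgroup.index_top]
    exact one_dvd _
  · rw [index_ker_eq' h]

theorem card_homK_of_index (hR : IsPGroup p R) {M : Subgroup R} (hM : M.index = p) :
    Nat.card (homK p M) = p := by
  have hp : p.Prime := hpf.out
  obtain ⟨φ₀, hφ₀⟩ := exists_hom_ker_eq' hR hM
  have hco : IsCoatom M := Cfsg.Agent.Lib.Transfer.isCoatom_of_index_prime (by rw [hM]; exact hp)
  obtain ⟨y, -, hy⟩ : ∃ y, y ∈ (⊤ : Subgroup R) ∧ y ∉ M := SetLike.exists_of_lt hco.lt_top
  have hinj : Function.Injective (fun φ : homK p M => (φ : R →* Multiplicative (ZMod p)) y) := by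
    intro φ ψ h
    have hh : ((φ : R →* Multiplicative (ZMod p)) / ψ).ker = ⊤ := by
      apply hco.2
      refine lt_of_le_of_ne ?_ ?_
      · intro x hx
        have h1 : (φ : R →* Multiplicative (ZMod p)) x = 1 := φ.2 hx
        have h2 : (ψ : R →* Multiplicative (ZMod p)) x = 1 := ψ.2 hx
        rw [MonoidHom.mem_ker, MonoidHom.div_apply, h1, h2, div_one]
      · intro heq
        apply hy
        rw [heq, MonoidHom.mem_ker, MonoidHom.div_apply]
        exact div_eq_one.mpr h
    apply Subtype.ext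
    apply MonoidHom.ext
    intro x
    have h3 : x ∈ ((φ : R →* Multiplicative (ZMod p)) / ψ).ker := by rw [hh]; trivial
    rw [MonoidHom.mem_ker, MonoidHom.div_apply] at h3
    exact div_eq_one.mp h3
  have hle : Nat.card (homK p M) ≤ p := by
    have := Nat.card_le_card_of_injective _ hinj
    rwa [card_Cp] at this
  have hP : IsPGroup p (homK p M) := isPGroup_homCp.to_subgroup _
  obtain ⟨e, he⟩ := IsPGroup.iff_card.mp hP
  have hne : e ≠ 0 := by
    rintro rfl
    rw [pow_zero] at he
    have hbot := Subgroup.card_eq_one.mp he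
    have hm : φ₀ ∈ homK p M := hφ₀.ge
    rw [hbot, Subgroup.mem_bot] at hm
    rw [hm] at hφ₀
    have : M = ⊤ := by
      rw [← hφ₀]
      ext x; simp
    rw [this, Subgroup.index_top] at hM
    exact hp.one_lt.ne hM
  have h2 : p ∣ Nat.card (homK p M) := by
    rw [he]
    exact dvd_pow_self p hne
  exact le_antisymm hle (Nat.le_of_dvd Nat.card_pos h2)

/-- Number of maximal subgroups above `V`. -/
noncomputable def maxCount (p : ℕ) (V : Subgroup R) : ℕ := Nat.card {M : Subgroup R // M.index = p ∧ V ≤ M}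

theorem maxCount_formula (hR : IsPGroup p R) (V : Subgroup R) (hV : V ≠ ⊤) :
    maxCount p V * (p - 1) + 1 = Nat.card (homK p V) := by
  classical
  haveI := Fintype.ofFinite (R →* Multiplicative (ZMod p))
  haveI := Fintype.ofFinite (Subgroup R)
  have hp : p.Prime := hpf.out
  set 𝓗 := univ.filter (fun M : Subgroup R => M.index = p ∧ V ≤ M) with h𝓗
  have hmc : maxCount p V = 𝓗.card := Nat.subtype_card _ (by simp [h𝓗])
  let S : Subgroup R → Finset (R →* Multiplicative (ZMod p)) :=
    fun W => univ.filter (fun φ : R →* Multiplicative (ZMod p) => W ≤ φ.ker ∧ φ ≠ 1)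
  have h1 : ∀ W : Subgroup R, Nat.card (homK p W) = (S W).card + 1 := by
    intro W
    have h2 : Nat.card (homK p W) =
        (insert (1 : R →* Multiplicative (ZMod p)) (S W)).card := by
      apply Nat.subtype_card
      intro φ
      simp only [S, Finset.mem_insert, Finset.mem_filter, Finset.mem_univ, true_and]
      constructor
      · rintro (rfl | h)
        · exact (homK p W).one_mem
        · exact h.1
      · intro h
        by_cases hφ : φ = 1
        · exact Or.inl hφ
        · exact Or.inr ⟨h, hφ⟩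
    rw [h2, Finset.card_insert_of_notMem]
    simp [S]
  have hpart : (S V).card = ∑ M ∈ 𝓗, (S M).card := by
    rw [Finset.card_eq_sum_card_fiberwise (f := fun φ => φ.ker) (t := 𝓗)]
    · apply Finset.sum_congr rfl
      intro M hM
      have hMi : M.index = p := (Finset.mem_filter.mp hM).2.1
      have hVM : V ≤ M := (Finset.mem_filter.mp hM).2.2
      congr 1
      ext φ
      simp only [S, Finset.mem_filter, Finset.mem_univ, true_and]
      constructor
      · rintro ⟨⟨-, h2⟩, h3⟩
        exact ⟨h3.ge, h2⟩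
      · rintro ⟨h1, h2⟩
        refine ⟨⟨le_trans hVM h1, h2⟩, ?_⟩
        have hco : IsCoatom M := Cfsg.Agent.Lib.Transfer.isCoatom_of_index_prime (by rw [hMi]; exact hp)
        rcases (hco.le_iff.mp h1) with h | h
        · exfalso
          apply h2
          apply MonoidHom.ext
          intro x
          have : x ∈ φ.ker := by rw [h]; trivial
          simpa using this
        · exact h
    · intro φ hφ
      have hφ' := (Finset.mem_filter.mp hφ).2
      exact Finset.mem_filter.mpr ⟨Finset.mem_univ _, index_ker_eq' hφ'.2, hφ'.1⟩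
  have hSM : ∀ M ∈ 𝓗, (S M).card = p - 1 := by
    intro M hM
    have hMi : M.index = p := (Finset.mem_filter.mp hM).2.1
    have h3 := h1 M
    rw [card_homK_of_index hR hMi] at h3
    omega
  rw [h1 V, hpart, Finset.sum_congr rfl hSM, Finset.sum_const, smul_eq_mul, hmc]

theorem maxCount_pos (hR : IsPGroup p R) (V : Subgroup R) (hV : V ≠ ⊤) : 1 ≤ maxCount p V := by
  classical
  haveI := Fintype.ofFinite (Subgroup R)
  rcases eq_top_or_exists_le_coatom V with h | ⟨M, hM, hVM⟩
  · exact absurd h hV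
  · obtain ⟨-, hi⟩ := Cfsg.Agent.Lib.Transfer.normal_and_index_of_isCoatom hR hM
    have hne : Nonempty {M : Subgroup R // M.index = p ∧ V ≤ M} := ⟨⟨M, hi, hVM⟩⟩
    exact Nat.succ_le_of_lt Nat.card_pos

/-- Dichotomy. -/
theorem maxCount_cases (hR : IsPGroup p R) (V : Subgroup R) (hV : V ≠ ⊤) :
    (maxCount p V = 1 ∧ Nat.card (homK p V) = p) ∨
      (maxCount p V ≡ 1 + p [MOD p ^ 2] ∧ p ^ 2 ∣ Nat.card (homK p V)) := by
  have hp : p.Prime := hpf.out
  have h1 := maxCount_formula hR V hV
  have hpos := maxCount_pos hR V hV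
  have hP : IsPGroup p (homK p V) := isPGroup_homCp.to_subgroup _
  obtain ⟨e, he⟩ := IsPGroup.iff_card.mp hP
  have hp2 := hp.two_le
  have hmul : 1 ≤ maxCount p V * (p - 1) := Nat.mul_pos (by omega) (by omega)
  rcases e with _ | _ | e
  · rw [he] at h1
    simp at h1
    omega
  · left
    rw [he] at h1 ⊢
    simp only [zero_add, pow_one] at h1 ⊢
    refine ⟨?_, trivial⟩
    have h2 : maxCount p V * (p - 1) = 1 * (p - 1) := by omega
    exact Nat.eq_of_mul_eq_mul_right (by omega) h2
  · right
    have hd : p ^ 2 ∣ Nat.card (homK p V) := by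
      rw [he]
      exact pow_dvd_pow p (by omega)
    refine ⟨?_, hd⟩
    -- cancel `p - 1`
    have hcop : Nat.Coprime (p ^ 2) (p - 1) := by
      apply Nat.Coprime.pow_left
      have := (Nat.coprime_self_sub_right (m := 1) (n := p) hp.one_lt.le).mpr (Nat.coprime_one_right p)
      exact this
    have h3 : maxCount p V * (p - 1) ≡ (1 + p) * (p - 1) [MOD p ^ 2] := by
      have h4 : (1 + p) * (p - 1) + 1 = p ^ 2 := by
        obtain ⟨q, rfl⟩ : ∃ q, p = q + 1 := ⟨p - 1, by omega⟩
        simp only [Nat.add_sub_cancel]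
        ring
      have h5 : maxCount p V * (p - 1) + 1 ≡ 0 [MOD p ^ 2] := by
        rw [h1]
        exact (Nat.modEq_zero_iff_dvd).mpr hd
      have h6 : (1 + p) * (p - 1) + 1 ≡ 0 [MOD p ^ 2] := by
        rw [h4]
        exact (Nat.modEq_zero_iff_dvd).mpr dvd_rfl
      exact Nat.ModEq.add_right_cancel' 1 (h5.trans h6.symm)
    exact Nat.ModEq.cancel_right_of_coprime (by rwa [Nat.coprime_iff_gcd_eq_one] at hcop) h3

/-- A unique maximal subgroup forces cyclicity. -/
theorem isCyclic_of_maxCount (hR : IsPGroup p R) [Nontrivial R] (h : maxCount p (⊥ : Subgroup R) = 1) : IsCyclic R := by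
  classical
  have hp : p.Prime := hpf.out
  unfold maxCount at h
  obtain ⟨huniq', hne'⟩ := Nat.card_eq_one_iff_unique.mp h
  obtain ⟨⟨M₀, hM₀, h00⟩⟩ := hne'
  have huniq : ∀ b : {M : Subgroup R // M.index = p ∧ (⊥ : Subgroup R) ≤ M}, b = ⟨M₀, hM₀, h00⟩ :=
    fun b => Subsingleton.elim _ _
  have hM₀t : M₀ ≠ ⊤ := by
    rintro rfl
    rw [Subgroup.index_top] at hM₀
    exact hp.one_lt.ne hM₀
  obtain ⟨x, -, hx⟩ : ∃ x, x ∈ (⊤ : Subgroup R) ∧ x ∉ M₀ := SetLike.exists_of_lt (lt_top_iff_ne_top.mpr hM₀t)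
  refine ⟨x, ?_⟩
  by_contra hne
  have hnt : zpowers x ≠ ⊤ := by
    intro ht
    apply hne
    intro g
    have : g ∈ zpowers x := by rw [ht]; trivial
    exact this
  rcases eq_top_or_exists_le_coatom (zpowers x) with h1 | ⟨M, hM, hVM⟩
  · exact hnt h1
  · obtain ⟨-, hi⟩ := Cfsg.Agent.Lib.Transfer.normal_and_index_of_isCoatom hR hM
    have h2 := huniq ⟨M, hi, bot_le⟩
    have h3 : M = M₀ := congrArg Subtype.val h2
    apply hx
    rw [← h3]
    exact hVM (mem_zpowers x)

end Hom

/-- Subgroups of a subgroup. -/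
theorem card_subgroups_sub {X : Type*} [Group X] [Finite X] (K : Subgroup X) (n : ℕ) :
    Nat.card {H : Subgroup K // Nat.card H = n} = Nat.card {H : Subgroup X // H ≤ K ∧ Nat.card H = n} := by
  apply Nat.card_congr
  refine
    { toFun := fun H => ⟨H.1.map K.subtype, Subgroup.map_subtype_le _, ?_⟩
      invFun := fun H => ⟨H.1.subgroupOf K, ?_⟩
      left_inv := ?_
      right_inv := ?_ }
  · rw [Subgroup.card_map_of_injective K.subtype_injective]
    exact H.2
  · have : Nat.card (H.1.subgroupOf K) = Nat.card ((H.1.subgroupOf K).map K.subtype) :=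
      (Subgroup.card_map_of_injective K.subtype_injective).symm
    rw [this, Subgroup.map_subgroupOf_eq_of_le H.2.1]
    exact H.2.2
  · intro H
    apply Subtype.ext
    exact Subgroup.comap_map_eq_self_of_injective K.subtype_injective _
  · intro H
    apply Subtype.ext
    exact Subgroup.map_subgroupOf_eq_of_le H.2.1


/-- Number of subgroups of order `n`. -/
noncomputable abbrev sc (n : ℕ) (X : Type*) [Group X] : ℕ := Nat.card {H : Subgroup X // Nat.card H = n}

/-- Subgroups of index `p`. -/
noncomputable def maxSet (p : ℕ) (X : Type*) [Group X] [Finite X] : Finset (Subgroup X) :=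
  (Set.toFinite {M : Subgroup X | M.index = p}).toFinset

theorem mem_maxSet {X : Type*} [Group X] [Finite X] {M : Subgroup X} : M ∈ maxSet p X ↔ M.index = p := by
  simp [maxSet]

/-- Subgroups of order `n`. -/
noncomputable def subS (n : ℕ) (X : Type*) [Group X] [Finite X] : Finset (Subgroup X) :=
  (Set.toFinite {H : Subgroup X | Nat.card H = n}).toFinset

theorem mem_subS {X : Type*} [Group X] [Finite X] {n : ℕ} {H : Subgroup X} : H ∈ subS n X ↔ Nat.card H = n := by
  simp [subS]

theorem sc_eq_card {X : Type*} [Group X] [Finite X] (n : ℕ) : sc n X = (subS n X).card :=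
  Nat.subtype_card _ (fun H => mem_subS)

open Classical in
theorem sc_sub_eq_card {X : Type*} [Group X] [Finite X] (K : Subgroup X) (n : ℕ) :
    sc n K = ((subS n X).filter (fun H => H ≤ K)).card := by
  rw [sc, card_subgroups_sub]
  apply Nat.subtype_card
  intro H
  simp only [Finset.mem_filter, mem_subS]
  tauto

open Classical in
theorem maxCount_eq_card {X : Type*} [Group X] [Finite X] (V : Subgroup X) :
    maxCount p V = ((maxSet p X).filter (fun M => V ≤ M)).card := by
  apply Nat.subtype_card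
  intro H
  simp only [Finset.mem_filter, mem_maxSet]

theorem sc_maxSet_eq {X : Type*} [Group X] [Finite X] {m : ℕ} (hX : Nat.card X = p ^ (m + 1)) :
    sc (p ^ m) X = (maxSet p X).card := by
  classical
  have hp : p.Prime := hpf.out
  rw [sc_eq_card]
  refine congrArg Finset.card (Finset.ext (fun H => ?_))
  rw [mem_subS, mem_maxSet]
  have h1 := Subgroup.card_mul_index H
  rw [hX, pow_succ] at h1
  have hpos : 0 < p ^ m := pow_pos hp.pos m
  constructor
  · intro h
    rw [h] at h1
    exact Nat.eq_of_mul_eq_mul_left hpos h1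
  · intro h
    rw [h] at h1
    exact Nat.eq_of_mul_eq_mul_right hp.pos h1

theorem maxSet_card_eq {X : Type*} [Group X] [Finite X] : (maxSet p X).card = maxCount p (⊥ : Subgroup X) := by
  classical
  rw [maxCount_eq_card]
  rw [Finset.filter_true_of_mem (fun M _ => bot_le)]

/-- The number of maximal subgroups of a noncyclic `p`-group. -/
theorem maxSet_card_modEq {X : Type*} [Group X] [Finite X] (hR : IsPGroup p X) (hnc : ¬ IsCyclic X) :
    (maxSet p X).card ≡ 1 + p [MOD p ^ 2] ∧ p ^ 2 ∣ Nat.card (X →* Multiplicative (ZMod p)) := by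
  classical
  have hntriv : Nontrivial X := by
    by_contra h
    rw [not_nontrivial_iff_subsingleton] at h
    exact hnc inferInstance
  have hbot : (⊥ : Subgroup X) ≠ ⊤ := bot_ne_top
  have htopeq : Nat.card (homK p (⊥ : Subgroup X)) = Nat.card (X →* Multiplicative (ZMod p)) := by
    apply Nat.card_congr
    exact (Subgroup.topEquiv (G := X →* Multiplicative (ZMod p))).toEquiv.symm.trans
      (Equiv.subtypeEquivRight (fun φ => by
        simp [mem_homK])) |>.symm
  rcases maxCount_cases hR (⊥ : Subgroup X) hbot with ⟨h1, -⟩ | ⟨h1, h2⟩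
  · exact absurd (isCyclic_of_maxCount hR h1) hnc
  · rw [maxSet_card_eq]
    rw [htopeq] at h2
    exact ⟨h1, h2⟩

/-- The top layer. -/
theorem sc_top_modEq {X : Type*} [Group X] [Finite X] {m : ℕ} (hX : Nat.card X = p ^ (m + 1)) (hnc : ¬ IsCyclic X) :
    sc (p ^ m) X ≡ 1 + p [MOD p ^ 2] := by
  rw [sc_maxSet_eq hX]
  exact (maxSet_card_modEq (IsPGroup.of_card hX) hnc).1

/-- Cyclic groups have one subgroup of each order. -/
theorem sc_cyclic {X : Type*} [Group X] [Finite X] [IsCyclic X] {m k : ℕ} (hX : Nat.card X = p ^ m) (hk : k ≤ m) :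
    sc (p ^ k) X = 1 := by
  have hP : IsPGroup p X := IsPGroup.of_card hX
  obtain ⟨H, hH⟩ := Sylow.exists_subgroup_card_pow_prime (G := X) p (n := k)
    (by rw [hX]; exact pow_dvd_pow p hk)
  rw [sc, Nat.card_eq_one_iff_unique]
  refine ⟨⟨?_⟩, ⟨⟨H, hH⟩⟩⟩
  rintro ⟨A, hA⟩ ⟨B, hB⟩
  apply Subtype.ext
  show A = B
  have hc : Nat.card A = Nat.card B := hA.trans hB.symm
  rcases Cfsg.Agent.Lib.OddLocal.le_total_of_isCyclic_isPGroup hP A B with h | h
  · exact Subgroup.eq_of_le_of_card_ge h hc.ge
  · exact (Subgroup.eq_of_le_of_card_ge h hc.le).symm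

section Y

variable {R : Type*} [Group R] [Finite R]

/-- A subgroup of order `p²` of the dual is the annihilator of a subgroup of index at most `p²`. -/
theorem exists_ann_of_card_sq (Y : Subgroup (R →* Multiplicative (ZMod p))) (hY : Nat.card Y = p ^ 2) :
    ∃ K : Subgroup R, K.index ≤ p ^ 2 ∧ ∀ A : Subgroup R, Y ≤ homK p A ↔ A ≤ K := by
  classical
  have hp : p.Prime := hpf.out
  have hsq : ∀ φ : R →* Multiplicative (ZMod p), φ ^ p = 1 := by
    intro φ
    apply MonoidHom.ext
    intro x
    show (φ x) ^ p = 1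
    rw [pow_Cp]
  have hcz : ∀ φ : R →* Multiplicative (ZMod p), Nat.card (zpowers φ) ≤ p := by
    intro φ
    rw [Nat.card_zpowers]
    exact orderOf_le_of_pow_eq_one hp.pos (hsq φ)
  -- a nontrivial element
  obtain ⟨φ, hφY, hφ1⟩ : ∃ φ ∈ Y, φ ≠ 1 := by
    by_contra hcon
    push_neg at hcon
    have : Y = ⊥ := (Subgroup.eq_bot_iff_forall Y).mpr hcon
    rw [this, Subgroup.card_bot] at hY
    have := Nat.one_lt_pow (n := 2) (by norm_num) hp.one_lt
    omega
  have hzφ : Nat.card (zpowers φ) = p := by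
    rw [Nat.card_zpowers]
    exact orderOf_eq_prime (hsq φ) hφ1
  obtain ⟨ψ, hψY, hψφ⟩ : ∃ ψ ∈ Y, ψ ∉ zpowers φ := by
    by_contra hcon
    push_neg at hcon
    have hle : Y ≤ zpowers φ := hcon
    have := Subgroup.card_le_of_le hle
    rw [hY, hzφ] at this
    have h3 : p * p ≤ p * 1 := by nlinarith
    have := Nat.le_of_mul_le_mul_left h3 hp.pos
    have := hp.one_lt
    omega
  let L : Subgroup (R →* Multiplicative (ZMod p)) := closure {φ, ψ}
  have hLY : L ≤ Y := by
    rw [Subgroup.closure_le]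
    intro x hx
    rcases hx with rfl | rfl
    · exact hφY
    · exact hψY
  have hφL : φ ∈ L := subset_closure (by simp)
  have hψL : ψ ∈ L := subset_closure (by simp)
  have hzL : zpowers φ < L := by
    refine lt_of_le_of_ne (by rw [Subgroup.zpowers_le]; exact hφL) ?_
    intro h
    apply hψφ
    rw [h]
    exact hψL
  have hYL : L = Y := by
    apply Subgroup.eq_of_le_of_card_ge hLY
    rw [hY]
    have hd : Nat.card L ∣ p ^ 2 := by
      rw [← hY]
      exact Subgroup.card_dvd_of_le hLY
    obtain ⟨i, hi, hiL⟩ := (Nat.dvd_prime_pow hp).mp hd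
    have hlt : Nat.card (zpowers φ) < Nat.card L := lt_of_le_of_ne (Subgroup.card_le_of_le hzL.le) (fun h => hzL.ne (Subgroup.eq_of_le_of_card_ge hzL.le h.ge))
    rw [hzφ, hiL] at hlt
    have : 2 ≤ i := by
      by_contra hh
      have : i = 0 ∨ i = 1 := by omega
      rcases this with rfl | rfl
      · simp at hlt
        have := hp.pos
        omega
      · simp at hlt
    rw [hiL]
    exact Nat.pow_le_pow_right hp.pos this
  refine ⟨φ.ker ⊓ ψ.ker, ?_, ?_⟩
  · have h1 := Subgroup.index_inf_le (H := φ.ker) (K := ψ.ker)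
    have h2 : φ.ker.index ≤ p := Nat.le_of_dvd hp.pos (index_ker_dvd φ)
    have h3 : ψ.ker.index ≤ p := Nat.le_of_dvd hp.pos (index_ker_dvd ψ)
    calc _ ≤ _ := h1
      _ ≤ p * p := Nat.mul_le_mul h2 h3
      _ = p ^ 2 := (sq p).symm
  · intro A
    constructor
    · intro h
      exact le_inf (h hφY) (h hψY)
    · intro h
      rw [← hYL, Subgroup.closure_le]
      intro x hx
      rcases hx with rfl | rfl
      · exact le_trans h inf_le_left
      · exact le_trans h inf_le_right

end Y

/-- Hall's recursion modulo `p²`. -/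
theorem sum_maxSet_modEq {G : Type*} [Group G] [Finite G] {m k : ℕ} (hG : Nat.card G = p ^ m) (hnc : ¬ IsCyclic G)
    (hk : k + 2 ≤ m) :
    ∑ M ∈ maxSet p G, sc (p ^ k) M ≡ sc (p ^ k) G + p [MOD p ^ 2] := by
  classical
  have hp : p.Prime := hpf.out
  have hP : IsPGroup p G := IsPGroup.of_card hG
  let W := G →* Multiplicative (ZMod p)
  let S := subS (p ^ k) G
  -- bipartite count
  have h1 : ∑ M ∈ maxSet p G, sc (p ^ k) M = ∑ A ∈ S, maxCount p A := by
    have := Finset.sum_card_bipartiteAbove_eq_sum_card_bipartiteBelow (s := maxSet p G) (t := S)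
      (fun (M : Subgroup G) (A : Subgroup G) => A ≤ M)
    simp only [Finset.bipartiteAbove, Finset.bipartiteBelow] at this
    calc ∑ M ∈ maxSet p G, sc (p ^ k) M = _ := Finset.sum_congr rfl (fun M _ => sc_sub_eq_card M _)
      _ = _ := this
      _ = _ := Finset.sum_congr rfl (fun A _ => (maxCount_eq_card A).symm)
  -- every `A` has proper order
  have hne : ∀ A ∈ S, A ≠ ⊤ := by
    intro A hA htop
    have h2 : Nat.card A = p ^ k := mem_subS.mp hA
    rw [htop, Subgroup.card_top, hG] at h2
    have := Nat.pow_right_injective hp.two_le h2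
    omega
  let u : Subgroup G → ℕ := fun A => if p ^ 2 ∣ Nat.card (homK p A) then 1 else 0
  have h2 : ∀ A ∈ S, maxCount p A ≡ 1 + p * u A [MOD p ^ 2] := by
    intro A hA
    rcases maxCount_cases hP A (hne A hA) with ⟨h3, h4⟩ | ⟨h3, h4⟩
    · have h5 : ¬ p ^ 2 ∣ Nat.card (homK p A) := by
        rw [h4]
        intro h6
        have := Nat.le_of_dvd hp.pos h6
        have h7 : p * p ≤ p * 1 := by nlinarith
        have := Nat.le_of_mul_le_mul_left h7 hp.pos
        have := hp.one_lt
        omega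
      simp only [u, h5, if_false, h3, mul_zero, add_zero]
      exact Nat.ModEq.refl _
    · simp only [u, h4, if_true, mul_one]
      exact h3
  -- the dual count
  let 𝒴 := subS (p ^ 2) W
  have h𝒴 : 𝒴.card ≡ 1 [MOD p] := by
    have hdiv : p ^ 2 ∣ Nat.card W := (maxSet_card_modEq hP hnc).2
    have := Cfsg.Agent.Lib.PGroups.card_subgroups_modEq (p := p) (β := 2) hp hdiv
    rw [← sc_eq_card]
    exact this
  let n : Subgroup G → ℕ := fun A => (𝒴.filter (fun Y => Y ≤ homK p A)).card
  have h3 : ∀ A, n A ≡ u A [MOD p] := by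
    intro A
    by_cases hd : p ^ 2 ∣ Nat.card (homK p A)
    · simp only [u, hd, if_true]
      have : n A = sc (p ^ 2) (homK p A) := (sc_sub_eq_card (homK p A) (p ^ 2)).symm
      rw [this]
      exact Cfsg.Agent.Lib.PGroups.card_subgroups_modEq (p := p) (β := 2) hp hd
    · simp only [u, hd, if_false]
      have : n A = 0 := by
        rw [Finset.card_eq_zero, Finset.filter_eq_empty_iff]
        intro Y hY hle
        apply hd
        rw [← (mem_subS.mp hY)]
        exact Subgroup.card_dvd_of_le hle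
      rw [this]
  have h4 : ∑ A ∈ S, n A = ∑ Y ∈ 𝒴, (S.filter (fun A => Y ≤ homK p A)).card := by
    have := Finset.sum_card_bipartiteAbove_eq_sum_card_bipartiteBelow (s := S) (t := 𝒴)
      (fun (A : Subgroup G) (Y : Subgroup W) => Y ≤ homK p A)
    simp only [Finset.bipartiteAbove, Finset.bipartiteBelow] at this
    exact this
  have h5 : ∀ Y ∈ 𝒴, (S.filter (fun A => Y ≤ homK p A)).card ≡ 1 [MOD p] := by
    intro Y hY
    obtain ⟨K, hKi, hK⟩ := exists_ann_of_card_sq Y (mem_subS.mp hY)
    have h6 : (S.filter (fun A => Y ≤ homK p A)).card = sc (p ^ k) K := by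
      rw [sc_sub_eq_card]
      refine congrArg Finset.card (Finset.ext (fun A => ?_))
      simp only [Finset.mem_filter, hK]
      exact Iff.rfl
    rw [h6]
    apply Cfsg.Agent.Lib.PGroups.card_subgroups_modEq (p := p) (β := k) hp
    have h7 := Subgroup.card_mul_index K
    rw [hG] at h7
    have h8 : K.index ∣ p ^ m := ⟨_, by rw [mul_comm]; exact h7.symm⟩
    obtain ⟨i, hi, hiK⟩ := (Nat.dvd_prime_pow hp).mp h8
    have hi2 : i ≤ 2 := by
      rw [hiK] at hKi
      exact (Nat.pow_le_pow_iff_right hp.one_lt).mp hKi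
    have h9 : Nat.card K = p ^ (m - i) := by
      rw [hiK] at h7
      have : p ^ m = p ^ (m - i) * p ^ i := by
        rw [← pow_add]
        congr 1
        omega
      rw [this] at h7
      exact Nat.eq_of_mul_eq_mul_right (pow_pos hp.pos _) h7
    rw [h9]
    exact pow_dvd_pow p (by omega)
  have h6 : ∑ A ∈ S, u A ≡ 1 [MOD p] := by
    calc ∑ A ∈ S, u A ≡ ∑ A ∈ S, n A [MOD p] := (Nat.ModEq.sum (fun A _ => h3 A)).symm
      _ = ∑ Y ∈ 𝒴, (S.filter (fun A => Y ≤ homK p A)).card := h4
      _ ≡ ∑ Y ∈ 𝒴, 1 [MOD p] := Nat.ModEq.sum h5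
      _ = 𝒴.card := by simp
      _ ≡ 1 [MOD p] := h𝒴
  rw [h1]
  have h7 : ∑ A ∈ S, maxCount p A ≡ ∑ A ∈ S, (1 + p * u A) [MOD p ^ 2] := Nat.ModEq.sum h2
  have h8 : ∑ A ∈ S, (1 + p * u A) = S.card + p * ∑ A ∈ S, u A := by
    rw [Finset.sum_add_distrib, Finset.mul_sum]
    simp
  rw [h8] at h7
  have h9 : p * ∑ A ∈ S, u A ≡ p * 1 [MOD p ^ 2] := by
    have := Nat.ModEq.mul_left' p h6
    rwa [← sq] at this
  rw [mul_one] at h9
  rw [sc_eq_card]
  exact h7.trans (Nat.ModEq.add_left _ h9)

end Cfsg.Agent.Lib.PGroups.Kul
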