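import Cfsg.Agent.Lib.PGroups.Cyclic

/-! Normalizers of cyclic subgroups. -/

set_option autoImplicit false

namespace Cfsg.Agent.Lib.PGroups

open Subgroup

variable {G : Type*} [Group G]

theorem mem_normalizer_zpowers_iff [Finite G] {u y : G} :
    u ∈ normalizer ((zpowers y : Subgroup G) : Set G) ↔ u * y * u⁻¹ ∈ zpowers y := by
  constructor
  · intro h
    exact (mem_normalizer_iff.mp h y).mp (mem_zpowers y)
  · intro h
    apply mem_normalizer_of_conj_le'
    intro w hw
    obtain ⟨k, rfl⟩ := mem_zpowers_iff.mp hw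
    rw [← conj_zpow]
    exact zpow_mem h k

/-- An element of odd order normalizing a cyclic 2-group centralizes it. -/
theorem commute_of_odd_of_normalizes [Finite G] {a c : G} (ha : Odd (orderOf a)) {n : ℕ}
    (hc : orderOf c = 2 ^ n) (hac : a * c * a⁻¹ ∈ zpowers c) : Commute a c := by
  have : Fact (Nat.Prime 2) := ⟨Nat.prime_two⟩
  rcases Nat.eq_zero_or_pos n with rfl | hn
  · have : c = 1 := orderOf_eq_one_iff.mp (by simpa using hc)
    rw [this]; exact Commute.one_right a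
  obtain ⟨m, rfl⟩ : ∃ m, n = m + 1 := ⟨n - 1, by omega⟩
  have hcop : (orderOf a).Coprime 2 := Nat.coprime_two_right.mpr ha
  -- the involution
  have hy : orderOf (c ^ 2 ^ m) = 2 := by
    rw [orderOf_pow' c (by positivity), hc, pow_succ]
    have : (2 ^ m * 2).gcd (2 ^ m) = 2 ^ m := Nat.gcd_eq_right (Dvd.intro _ rfl)
    rw [this]
    exact Nat.mul_div_cancel_left _ (by positivity)
  have hy1 : c ^ 2 ^ m ≠ 1 := by
    intro h
    rw [h, orderOf_one] at hy
    omega
  obtain ⟨k, hk⟩ := mem_zpowers_iff.mp hac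
  have hcm : Commute a (c ^ 2 ^ m) := by
    have h1 : a * c ^ 2 ^ m * a⁻¹ = (c ^ 2 ^ m) ^ k := by
      rw [← conj_pow, ← hk, ← zpow_natCast, ← zpow_mul, ← zpow_natCast, ← zpow_mul, mul_comm]
    have h2 : (c ^ 2 ^ m) ^ 2 = 1 := by
      have := pow_orderOf_eq_one (c ^ 2 ^ m)
      rwa [hy] at this
    have h3 : a * c ^ 2 ^ m * a⁻¹ = c ^ 2 ^ m := by
      rw [h1]
      rcases Int.even_or_odd k with ⟨t, ht⟩ | ⟨t, ht⟩
      · exfalso
        have h4 : (c ^ 2 ^ m) ^ k = 1 := by
          rw [ht, ← two_mul, zpow_mul, zpow_ofNat, h2, one_zpow]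
        rw [h4] at h1
        apply hy1
        have : c ^ 2 ^ m = a⁻¹ * (a * c ^ 2 ^ m * a⁻¹) * a := by group
        rw [this, h1]; group
      · rw [ht, zpow_add, zpow_mul, zpow_ofNat, h2, one_zpow, one_mul, zpow_one]
    exact mul_inv_eq_iff_eq_mul.mp h3
  exact commute_of_cyclic_of_fix (pow_orderOf_eq_one a) hcop (m + 1) c (c ^ 2 ^ m) hc hac
    (npow_mem_zpowers c _) hy1 hcm

end Cfsg.Agent.Lib.PGroups
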