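import Mathlib
import Cfsg.Agent.Lib.Basic.CoprimeAction2

/-! Fixed points of a `p`-group acting on a `p'`-group: a product inequality over a coset. -/

set_option autoImplicit false

namespace Cfsg.Agent.Lib.PGroups.PElem

open Subgroup Cfsg.Agent.Lib.Basic
open scoped commutatorElement

universe u

section act

variable {T R : Type*} [Group T] [Group R]

/-- Fixed points of a subgroup under an action by automorphisms. -/
def fixS (φ : T →* MulAut R) (B : Subgroup T) : Subgroup R where
  carrier := {r | ∀ t ∈ B, φ t r = r}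
  mul_mem' := fun {a b} ha hb t ht => by rw [map_mul, ha t ht, hb t ht]
  one_mem' := fun t _ => map_one _
  inv_mem' := fun {a} ha t ht => by rw [map_inv, ha t ht]

theorem mem_fixS {φ : T →* MulAut R} {B : Subgroup T} {r : R} :
    r ∈ fixS φ B ↔ ∀ t ∈ B, φ t r = r := Iff.rfl

/-- Stabiliser of a point. -/
def stabS (φ : T →* MulAut R) (r : R) : Subgroup T where
  carrier := {t | φ t r = r}
  mul_mem' := fun {a b} ha hb => by
    show φ (a * b) r = r
    rw [map_mul, MulAut.mul_apply]
    rw [show φ b r = r from hb, show φ a r = r from ha]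
  one_mem' := by
    show φ 1 r = r
    simp
  inv_mem' := fun {a} ha => by
    show φ a⁻¹ r = r
    have ha' : φ a r = r := ha
    rw [map_inv, MulAut.inv_apply, MulEquiv.symm_apply_eq, ha']

theorem mem_stabS {φ : T →* MulAut R} {t : T} {r : R} : t ∈ stabS φ r ↔ φ t r = r := Iff.rfl

theorem mem_fixS_iff_le {φ : T →* MulAut R} {B : Subgroup T} {r : R} :
    r ∈ fixS φ B ↔ B ≤ stabS φ r := Iff.rfl

theorem mem_fixS_zpowers {φ : T →* MulAut R} {g : T} {r : R} :
    r ∈ fixS φ (zpowers g) ↔ φ g r = r := by
  rw [mem_fixS_iff_le, Subgroup.zpowers_le, mem_stabS]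

theorem fixS_anti (φ : T →* MulAut R) {A B : Subgroup T} (h : A ≤ B) : fixS φ B ≤ fixS φ A :=
  fun _ hr t ht => hr t (h ht)

/-- The product inequality. -/
def Star (p : ℕ) (φ : T →* MulAut R) (Q : Subgroup T) [Fintype Q] (x : T) : Prop :=
  (∏ q : Q, Nat.card (fixS φ (zpowers (x * (q : T))))) ^ p * Nat.card (fixS φ Q) ^ Nat.card Q ≤
    Nat.card R ^ Nat.card Q * Nat.card (fixS φ ⊤) ^ (p * Nat.card Q)

theorem star_arith {ι : Type*} [Fintype ι] (a b : ι → ℕ) (aQ bQ aT bT aR bR N p : ℕ)
    (h1 : (∏ i, a i) ^ p * aQ ^ N ≤ aR ^ N * aT ^ (p * N))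
    (h2 : (∏ i, b i) ^ p * bQ ^ N ≤ bR ^ N * bT ^ (p * N)) :
    (∏ i, (a i * b i)) ^ p * (aQ * bQ) ^ N ≤ (aR * bR) ^ N * (aT * bT) ^ (p * N) := by
  rw [Finset.prod_mul_distrib]
  calc ((∏ i, a i) * ∏ i, b i) ^ p * (aQ * bQ) ^ N
      = ((∏ i, a i) ^ p * aQ ^ N) * ((∏ i, b i) ^ p * bQ ^ N) := by
        rw [mul_pow, mul_pow]; ring
    _ ≤ (aR ^ N * aT ^ (p * N)) * (bR ^ N * bT ^ (p * N)) := Nat.mul_le_mul h1 h2
    _ = (aR * bR) ^ N * (aT * bT) ^ (p * N) := by
        rw [mul_pow, mul_pow]; ring

/-- Independence of the fixed points along a coset of a central element of order `p`. -/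
theorem prod_fix_le [Finite T] [Finite R] (hcomm : ∀ a b : R, a * b = b * a)
    (φ : T →* MulAut R) (p : ℕ) [hp : Fact p.Prime]
    (hcop : (Nat.card T).Coprime (Nat.card R)) (y z : T) (hc : ∀ m, Commute (φ z) (φ m))
    (hz : ∀ i : ℤ, ¬ (p : ℤ) ∣ i → ∀ w, φ (z ^ i) w = w → w = 1) :
    ∏ j : Fin p, Nat.card (fixS φ (zpowers (y * z ^ (j : ℕ)))) ≤ Nat.card R := by
  classical
  letI : CommGroup R := { ‹Group R› with mul_comm := hcomm }
  -- the norm map
  set o := Nat.card T with ho
  have key : ∀ h : Fin p → R, (∀ j : Fin p, h j ∈ fixS φ (zpowers (y * z ^ (j : ℕ)))) →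
      ∏ j, h j = 1 → ∀ k, h k = 1 := by
    intro h hh hprod k
    set a : MulAut R := φ (y * z ^ (k : ℕ)) with ha
    -- apply the norm to the product
    have h1 : ∏ i ∈ Finset.range o, (a ^ i) (∏ j, h j) = 1 := by
      rw [hprod]; simp
    have h2 : ∏ i ∈ Finset.range o, (a ^ i) (∏ j, h j) =
        ∏ j, ∏ i ∈ Finset.range o, (a ^ i) (h j) := by
      rw [Finset.prod_comm]
      exact Finset.prod_congr rfl fun i _ => map_prod (a ^ i) _ _
    have h3 : ∀ j, j ≠ k → ∏ i ∈ Finset.range o, (a ^ i) (h j) = 1 := by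
      intro j hjk
      have hfj : φ (y * z ^ (j : ℕ)) (h j) = h j := mem_fixS_zpowers.mp (hh j)
      set e : ℤ := (k : ℤ) - (j : ℤ) with he
      set b : MulAut R := φ (z ^ e) with hb
      set c : MulAut R := φ (y * z ^ (j : ℕ)) with hcdef
      have hac : a = c * b := by
        rw [ha, hcdef, hb, ← map_mul]
        congr 1
        rw [mul_assoc]
        congr 1
        rw [he, ← zpow_natCast, ← zpow_natCast, ← zpow_add]
        congr 1
        ring
      have hbc : Commute b c := by
        rw [hb, map_zpow]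
        exact (hc _).zpow_left e
      have hai : ∀ i : ℕ, (a ^ i) (h j) = (b ^ i) (h j) := by
        intro i
        rw [hac, (hbc.symm).mul_pow, ((hbc.pow_pow i i).eq).symm, MulAut.mul_apply]
        have : (c ^ i) (h j) = h j := by
          induction i with
          | zero => simp
          | succ n ih =>
            rw [pow_succ, MulAut.mul_apply, show c (h j) = h j from hfj, ih]
        rw [this]
      simp_rw [hai]
      set v := ∏ i ∈ Finset.range o, (b ^ i) (h j) with hv
      -- `b` fixes `v`
      have hbo : b ^ o = 1 := by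
        rw [hb, ← map_pow, ← zpow_natCast, ← zpow_mul, mul_comm, zpow_mul, zpow_natCast,
          ho, pow_card_eq_one', one_zpow, map_one]
      have hbv : b v = v := by
        have s1 := Finset.prod_range_succ (fun i => (b ^ i) (h j)) o
        have s2 := Finset.prod_range_succ' (fun i => (b ^ i) (h j)) o
        simp only [hbo, pow_zero] at s1 s2
        have s3 : ∏ i ∈ Finset.range o, (b ^ (i + 1)) (h j) = ∏ i ∈ Finset.range o, (b ^ i) (h j) := by
          have : (∏ i ∈ Finset.range o, (b ^ (i + 1)) (h j)) * (1 : MulAut R) (h j) =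
              (∏ i ∈ Finset.range o, (b ^ i) (h j)) * (1 : MulAut R) (h j) := by
            rw [← s2, s1]
          exact mul_right_cancel this
        rw [hv, map_prod]
        rw [← s3]
        refine Finset.prod_congr rfl fun i _ => ?_
        rw [pow_succ', MulAut.mul_apply]
      have hpe : ¬ (p : ℤ) ∣ e := by
        intro hd
        apply hjk
        have hk := k.2
        have hj := j.2
        apply Fin.ext
        rw [he] at hd
        obtain ⟨t, ht⟩ := hd
        have hp0 : (0 : ℤ) < p := by exact_mod_cast hp.out.pos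
        have hk' : (k : ℤ) < p := by exact_mod_cast hk
        have hj' : (j : ℤ) < p := by exact_mod_cast hj
        have hk0 : (0 : ℤ) ≤ k := by positivity
        have hj0 : (0 : ℤ) ≤ j := by positivity
        have : t = 0 := by
          by_contra ht0
          rcases lt_or_gt_of_ne ht0 with h | h
          · have : (p : ℤ) * t ≤ p * (-1) := by
              apply mul_le_mul_of_nonneg_left _ hp0.le
              omega
            omega
          · have : (p : ℤ) * 1 ≤ p * t := by
              apply mul_le_mul_of_nonneg_left _ hp0.le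
              omega
            omega
        subst this
        omega
      exact hz e hpe v hbv
    have h4 : ∏ i ∈ Finset.range o, (a ^ i) (h k) = h k ^ o := by
      have hfk : a (h k) = h k := mem_fixS_zpowers.mp (hh k)
      have : ∀ i : ℕ, (a ^ i) (h k) = h k := by
        intro i
        induction i with
        | zero => simp
        | succ n ih => rw [pow_succ, MulAut.mul_apply, hfk, ih]
      simp_rw [this]
      simp
    have h5 : h k ^ o = 1 := by
      rw [← h4]
      rw [h2] at h1
      rw [← h1]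
      exact (Finset.prod_eq_single k (fun j _ hjk => h3 j hjk) (by simp)).symm
    have h6 : orderOf (h k) ∣ o := orderOf_dvd_of_pow_eq_one h5
    have h7 : orderOf (h k) ∣ Nat.card R := orderOf_dvd_natCard _
    exact orderOf_eq_one_iff.mp (Nat.eq_one_of_dvd_coprimes hcop h6 h7)
  -- injectivity of the product map
  let Φ : (∀ j : Fin p, fixS φ (zpowers (y * z ^ (j : ℕ)))) → R := fun g => ∏ j, (g j : R)
  have hΦ : Function.Injective Φ := by
    intro g g' hgg
    funext k
    apply Subtype.ext
    have h8 := key (fun j : Fin p => (g j : R) * (g' j : R)⁻¹)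
      (fun j : Fin p => (fixS φ _).mul_mem (g j).2 ((fixS φ _).inv_mem (g' j).2))
      (by
        rw [Finset.prod_mul_distrib, Finset.prod_inv_distrib]
        have : (∏ j, (g j : R)) = ∏ j, (g' j : R) := hgg
        rw [this]
        exact mul_inv_cancel _) k
    exact mul_inv_eq_one.mp h8
  have hcard := Nat.card_le_card_of_injective Φ hΦ
  rwa [Nat.card_pi] at hcard

/-- The minimal case: a commutative module with no proper invariant subgroup. -/
theorem star_minimal {W : Type*} [Group W] [Finite W] [Finite T] {p : ℕ} [hp : Fact p.Prime]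
    (hT : IsPGroup p T) (hcomm : ∀ a b : W, a * b = b * a) (hcop : (Nat.card W).Coprime p)
    (φ : T →* MulAut W)
    (hmin : ∀ U : Subgroup W, (∀ t, ∀ u ∈ U, φ t u ∈ U) → U = ⊥ ∨ U = ⊤)
    (Q : Subgroup T) [hQn : Q.Normal] [Fintype Q] (x : T) (hQx : Q ⊔ zpowers x = ⊤) :
    Star p φ Q x := by
  classical
  have hcT : (Nat.card T).Coprime (Nat.card W) := by
    obtain ⟨n, hn⟩ := IsPGroup.iff_card.mp hT
    rw [hn]
    exact (Nat.Coprime.symm hcop).pow_left n
  by_cases hQ : Q ≤ φ.ker
  · -- trivial action of `Q`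
    have h1 : ∀ q : Q, fixS φ (zpowers (x * (q : T))) = fixS φ ⊤ := by
      intro q
      apply le_antisymm
      · intro r hr t _
        have h2 : φ (q : T) = 1 := hQ q.2
        have h3 : φ x r = r := by
          have := mem_fixS_zpowers.mp hr
          rwa [map_mul, h2, mul_one] at this
        have h4 : Q ⊔ zpowers x ≤ stabS φ r := by
          refine sup_le (fun q' hq' => ?_) (Subgroup.zpowers_le.mpr h3)
          have h5 : φ q' = 1 := hQ hq'
          rw [mem_stabS, h5]; rfl
        rw [hQx] at h4
        exact h4 (mem_top t)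
      · exact fixS_anti φ le_top
    have h2 : fixS φ Q = ⊤ := by
      rw [eq_top_iff]
      intro r _ t ht
      have h5 : φ t = 1 := hQ ht
      rw [h5]; rfl
    unfold Star
    simp_rw [h1]
    rw [h2, Finset.prod_const, Finset.card_univ, ← Nat.card_eq_fintype_card, Subgroup.card_top]
    apply le_of_eq
    rw [← pow_mul, mul_comm (Nat.card Q) p]
    ring
  · -- nontrivial action of `Q`
    have hfixQ : fixS φ Q = ⊥ := by
      refine (hmin _ ?_).resolve_right ?_
      · intro t u hu q hq
        have h3 : t⁻¹ * q * t ∈ Q := by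
          have := hQn.conj_mem q hq t⁻¹
          simpa using this
        have h4 := hu _ h3
        have h5 : φ q (φ t u) = φ t (φ (t⁻¹ * q * t) u) := by
          simp only [map_mul, map_inv, MulAut.mul_apply]
          simp
        rw [h5, h4]
      · intro htop
        apply hQ
        intro q hq
        rw [MonoidHom.mem_ker]
        ext w
        have : w ∈ fixS φ Q := by rw [htop]; trivial
        exact this q hq
    have hfixT : fixS φ ⊤ = ⊥ := by
      rw [eq_bot_iff, ← hfixQ]
      exact fixS_anti φ le_top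
    -- a central element modulo the kernel of order `p`
    obtain ⟨z₀, hz₀Q, hz₀k, hz₀c⟩ := exists_central_mod_of_isPGroup hT φ.ker Q hQ
    have hc₀ : ∀ m, Commute (φ z₀) (φ m) := by
      intro m
      have h3 : φ ⁅z₀, m⁆ = 1 := hz₀c m
      rw [map_commutatorElement] at h3
      exact commutatorElement_eq_one_iff_commute.mp h3
    obtain ⟨n, hn⟩ := (IsPGroup.iff_orderOf.mp hT) z₀
    have hex : ∃ a : ℕ, z₀ ^ p ^ a ∈ φ.ker := ⟨n, by rw [← hn, pow_orderOf_eq_one]; exact one_mem _⟩
    have hfind := Nat.find_spec hex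
    have hfind0 : Nat.find hex ≠ 0 := by
      intro h0
      rw [h0, pow_zero, pow_one] at hfind
      exact hz₀k hfind
    obtain ⟨a, ha⟩ := Nat.exists_eq_succ_of_ne_zero hfind0
    have hamin : z₀ ^ p ^ a ∉ φ.ker := Nat.find_min hex (by omega)
    set z := z₀ ^ p ^ a with hzdef
    have hzQ : z ∈ Q := Q.pow_mem hz₀Q _
    have hzp : z ^ p ∈ φ.ker := by
      rw [ha] at hfind
      rw [hzdef, ← pow_mul, ← pow_succ]
      exact hfind
    have hc : ∀ m, Commute (φ z) (φ m) := by
      intro m
      rw [hzdef, map_pow]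
      exact (hc₀ m).pow_left _
    have hz : ∀ i : ℤ, ¬ (p : ℤ) ∣ i → ∀ w, φ (z ^ i) w = w → w = 1 := by
      intro i hi w hw
      have hne : fixS φ (zpowers (z ^ i)) ≠ ⊤ := by
        intro htop
        have h3 : z ^ i ∈ φ.ker := by
          rw [MonoidHom.mem_ker]
          ext w'
          have : w' ∈ fixS φ (zpowers (z ^ i)) := by rw [htop]; trivial
          exact mem_fixS_zpowers.mp this
        have hcopi : IsCoprime i (p : ℤ) := by
          have hpi : Prime (p : ℤ) := Nat.prime_iff_prime_int.mp hp.out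
          exact ((Prime.coprime_iff_not_dvd hpi).mpr hi).symm
        obtain ⟨s, t, hst⟩ := hcopi
        apply hamin
        have h4 : z = (z ^ i) ^ s * (z ^ p) ^ t := by
          rw [← zpow_mul, ← zpow_natCast, ← zpow_mul, ← zpow_add]
          have : i * s + (p : ℤ) * t = 1 := by linarith
          rw [this, zpow_one]
        rw [h4]
        exact mul_mem (zpow_mem h3 _) (zpow_mem hzp _)
      have hb := (hmin (fixS φ (zpowers (z ^ i))) ?_).resolve_right hne
      · have : w ∈ fixS φ (zpowers (z ^ i)) := mem_fixS_zpowers.mpr hw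
        rw [hb] at this
        exact this
      · intro t u hu
        rw [mem_fixS_zpowers] at hu ⊢
        have hci : Commute (φ (z ^ i)) (φ t) := by
          rw [map_zpow]
          exact (hc t).zpow_left i
        have h5 : φ (z ^ i) (φ t u) = φ t (φ (z ^ i) u) := by
          rw [← MulAut.mul_apply, hci.eq, MulAut.mul_apply]
        rw [h5, hu]
    -- the product
    have hprod : ∀ q : Q, ∏ j : Fin p, Nat.card (fixS φ (zpowers ((x * (q : T)) * z ^ (j : ℕ)))) ≤
        Nat.card W := fun q => prod_fix_le hcomm φ p hcT _ z hc hz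
    have hshift : ∀ j : Fin p, ∏ q : Q, Nat.card (fixS φ (zpowers ((x * (q : T)) * z ^ (j : ℕ)))) =
        ∏ q : Q, Nat.card (fixS φ (zpowers (x * (q : T)))) := by
      intro j
      have hzj : z ^ (j : ℕ) ∈ Q := Q.pow_mem hzQ _
      refine Fintype.prod_equiv (Equiv.mulRight (⟨z ^ (j : ℕ), hzj⟩ : Q)) _ _ fun q => ?_
      simp [mul_assoc]
    have hmain : (∏ q : Q, Nat.card (fixS φ (zpowers (x * (q : T))))) ^ p ≤
        Nat.card W ^ Nat.card Q := by
      calc (∏ q : Q, Nat.card (fixS φ (zpowers (x * (q : T))))) ^ p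
          = ∏ j : Fin p, ∏ q : Q, Nat.card (fixS φ (zpowers ((x * (q : T)) * z ^ (j : ℕ)))) := by
            simp_rw [hshift]
            simp
        _ = ∏ q : Q, ∏ j : Fin p, Nat.card (fixS φ (zpowers ((x * (q : T)) * z ^ (j : ℕ)))) :=
            Finset.prod_comm
        _ ≤ ∏ _q : Q, Nat.card W := Finset.prod_le_prod' fun q _ => hprod q
        _ = Nat.card W ^ Nat.card Q := by
            simp [Nat.card_eq_fintype_card]
    unfold Star
    rw [hfixQ, hfixT, Subgroup.card_bot]
    simpa using hmain

section quot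

variable (φ : T →* MulAut R)

theorem map_act_eq (W : Subgroup R) (hW : ∀ t, ∀ u ∈ W, φ t u ∈ W) (t : T) :
    W.map (φ t).toMonoidHom = W := by
  apply le_antisymm
  · rintro _ ⟨u, hu, rfl⟩
    exact hW t u hu
  · intro u hu
    refine ⟨φ t⁻¹ u, hW t⁻¹ u hu, ?_⟩
    show φ t (φ t⁻¹ u) = u
    rw [← MulAut.mul_apply, ← map_mul, mul_inv_cancel, map_one]
    rfl

/-- The induced action on a quotient. -/
noncomputable def quotAct (W : Subgroup R) [W.Normal] (hW : ∀ t, ∀ u ∈ W, φ t u ∈ W) :
    T →* MulAut (R ⧸ W) :=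
  MonoidHom.mk' (fun t => QuotientGroup.congr W W (φ t) (map_act_eq φ W hW t)) (by
    intro a b
    ext c
    induction c using QuotientGroup.induction_on with
    | H r =>
      show ((φ (a * b) r : R) : R ⧸ W) = ((φ a (φ b r) : R) : R ⧸ W)
      rw [map_mul, MulAut.mul_apply])

theorem quotAct_mk (W : Subgroup R) [W.Normal] (hW : ∀ t, ∀ u ∈ W, φ t u ∈ W) (t : T) (r : R) :
    quotAct φ W hW t (r : R ⧸ W) = ((φ t r : R) : R ⧸ W) := rfl

/-- The restricted action on an invariant subgroup. -/
def resAct (U : Subgroup R) (hU : ∀ t, ∀ u ∈ U, φ t u ∈ U) : T →* MulAut U :=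
  MonoidHom.mk' (fun t =>
    { toFun := fun u => ⟨φ t u, hU t u u.2⟩
      invFun := fun u => ⟨φ t⁻¹ u, hU t⁻¹ u u.2⟩
      left_inv := fun u => Subtype.ext (by
        show φ t⁻¹ (φ t u) = u
        rw [← MulAut.mul_apply, ← map_mul, inv_mul_cancel, map_one]; rfl)
      right_inv := fun u => Subtype.ext (by
        show φ t (φ t⁻¹ u) = u
        rw [← MulAut.mul_apply, ← map_mul, mul_inv_cancel, map_one]; rfl)
      map_mul' := fun a b => Subtype.ext (by
        show φ t ((a : R) * b) = φ t a * φ t b
        rw [map_mul]) }) (by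
    intro a b
    ext u
    show φ (a * b) u = φ a (φ b u)
    rw [map_mul, MulAut.mul_apply])

theorem resAct_apply (U : Subgroup R) (hU : ∀ t, ∀ u ∈ U, φ t u ∈ U) (t : T) (u : U) :
    ((resAct φ U hU t u : U) : R) = φ t u := rfl

theorem card_fixS_resAct (U : Subgroup R) (hU : ∀ t, ∀ u ∈ U, φ t u ∈ U) (B : Subgroup T) :
    Nat.card (fixS (resAct φ U hU) B) = Nat.card (fixS φ B ⊓ U : Subgroup R) := by
  refine Nat.card_congr
    { toFun := fun u => ⟨(u : U), ⟨fun t ht => congrArg Subtype.val (u.2 t ht), (u : U).2⟩⟩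
      invFun := fun r => ⟨⟨r, r.2.2⟩, fun t ht => Subtype.ext (r.2.1 t ht)⟩
      left_inv := fun u => by rfl
      right_inv := fun r => by rfl }

end quot

/-- The size of a subgroup in terms of its image and its intersection with the kernel. -/
theorem card_eq_map_mul_inf {Q : Type*} [Group Q] [Finite R] (f : R →* Q) (H : Subgroup R) :
    Nat.card H = Nat.card (H.map f) * Nat.card (H ⊓ f.ker : Subgroup R) := by
  have h1 := Subgroup.card_mul_index (f.comp H.subtype).ker
  rw [Subgroup.index_ker, MonoidHom.range_comp, Subgroup.range_subtype] at h1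
  have h2 : Nat.card (f.comp H.subtype).ker = Nat.card (H ⊓ f.ker : Subgroup R) := by
    refine Nat.card_congr
      { toFun := fun u => ⟨u.1, ⟨u.1.2, ?_⟩⟩
        invFun := fun r => ⟨⟨r, r.2.1⟩, ?_⟩
        left_inv := fun u => by rfl
        right_inv := fun r => by rfl }
    · have := u.2
      rw [MonoidHom.mem_ker] at this
      exact MonoidHom.mem_ker.mpr this
    · have : (r : R) ∈ f.ker := r.2.2
      rw [MonoidHom.mem_ker] at this
      exact MonoidHom.mem_ker.mpr this
  rw [← h1, h2, mul_comm]

/-- Fixed points lift through a quotient by a coprime invariant normal subgroup. -/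
theorem map_fixS_eq [Finite T] [Finite R] {p : ℕ} [hp : Fact p.Prime] (hT : IsPGroup p T)
    (φ : T →* MulAut R) (W : Subgroup R) [hWn : W.Normal] (hW : ∀ t, ∀ u ∈ W, φ t u ∈ W)
    (hcop : (Nat.card W).Coprime p) (B : Subgroup T) :
    (fixS φ B).map (QuotientGroup.mk' W) = fixS (quotAct φ W hW) B := by
  apply le_antisymm
  · rintro _ ⟨r, hr, rfl⟩ t ht
    show quotAct φ W hW t (r : R ⧸ W) = (r : R ⧸ W)
    rw [quotAct_mk, hr t ht]
  · intro c hc
    obtain ⟨r, rfl⟩ := QuotientGroup.mk_surjective c
    -- the coset of `r`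
    have hinv : ∀ t ∈ B, ∀ g : R, ((g : R ⧸ W) = (r : R ⧸ W)) → ((φ t g : R) : R ⧸ W) = (r : R ⧸ W) := by
      intro t ht g hg
      rw [← quotAct_mk φ W hW, hg]
      exact hc t ht
    letI : MulAction B {g : R // (g : R ⧸ W) = (r : R ⧸ W)} :=
      { smul := fun t g => ⟨φ (t : T) g, hinv t t.2 g g.2⟩
        one_smul := fun g => Subtype.ext (by
          show φ ((1 : B) : T) g = g
          simp)
        mul_smul := fun a b g => Subtype.ext (by
          show φ ((a * b : B) : T) g = φ (a : T) (φ (b : T) g)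
          simp [MulAut.mul_apply]) }
    have hcard : Nat.card {g : R // (g : R ⧸ W) = (r : R ⧸ W)} = Nat.card W := by
      refine Nat.card_congr
        { toFun := fun g => ⟨r⁻¹ * g, QuotientGroup.eq.mp g.2.symm⟩
          invFun := fun u => ⟨r * u, ?_⟩
          left_inv := fun g => by simp
          right_inv := fun u => by simp }
      exact (QuotientGroup.eq.mpr (by simp)).symm
    have hB : IsPGroup p B := hT.to_subgroup B
    have hnd : ¬ p ∣ Nat.card {g : R // (g : R ⧸ W) = (r : R ⧸ W)} := by
      rw [hcard]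
      intro hd
      have : p ∣ 1 := by
        rw [← Nat.Coprime.gcd_eq_one hcop]
        exact Nat.dvd_gcd hd dvd_rfl
      exact hp.out.one_lt.ne' (Nat.dvd_one.mp this)
    obtain ⟨g, hg⟩ := hB.nonempty_fixed_point_of_prime_not_dvd_card _ hnd
    refine ⟨g.1, fun t ht => ?_, g.2⟩
    have := hg ⟨t, ht⟩
    exact congrArg Subtype.val this

/-- The multiplicativity of the fixed point counts. -/
theorem card_fixS_mul [Finite T] [Finite R] {p : ℕ} [hp : Fact p.Prime] (hT : IsPGroup p T)
    (φ : T →* MulAut R) (W : Subgroup R) [hWn : W.Normal] (hW : ∀ t, ∀ u ∈ W, φ t u ∈ W)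
    (hcop : (Nat.card W).Coprime p) (B : Subgroup T) :
    Nat.card (fixS φ B) = Nat.card (fixS (resAct φ W hW) B) * Nat.card (fixS (quotAct φ W hW) B) := by
  rw [card_eq_map_mul_inf (QuotientGroup.mk' W) (fixS φ B), map_fixS_eq hT φ W hW hcop B,
    card_fixS_resAct, QuotientGroup.ker_mk', mul_comm]

/-- The inequality for an action on an `r`-group. -/
theorem star_rgroup [Finite T] {p r : ℕ} [hp : Fact p.Prime] [hr : Fact r.Prime] (hT : IsPGroup p T)
    (Q : Subgroup T) [hQn : Q.Normal] [Fintype Q] (x : T) (hQx : Q ⊔ zpowers x = ⊤) :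
    ∀ (n : ℕ) (R : Type u) [Group R] [Finite R], IsPGroup r R → (Nat.card R).Coprime p →
      ∀ φ : T →* MulAut R, Nat.card R = n → Star p φ Q x := by
  intro n
  induction n using Nat.strong_induction_on with
  | _ n ih =>
    intro R _ _ hR hcop φ hn
    classical
    by_cases htriv : Subsingleton R
    · have h1 : ∀ S : Subgroup R, Nat.card S = 1 := fun S => Nat.card_of_subsingleton (1 : S)
      have h0 : Nat.card R = 1 := Nat.card_of_subsingleton (1 : R)
      unfold Star
      simp [h1, h0]
    rw [not_subsingleton_iff_nontrivial] at htriv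
    -- a minimal invariant central subgroup
    let S : Set (Subgroup R) := {U | U ≠ ⊥ ∧ U ≤ center R ∧ ∀ t, ∀ u ∈ U, φ t u ∈ U}
    have hSne : S.Nonempty := by
      refine ⟨center R, ?_, le_rfl, ?_⟩
      · haveI := hR.center_nontrivial
        exact (Subgroup.nontrivial_iff_ne_bot _).mp this
      · intro t u hu
        rw [Subgroup.mem_center_iff] at hu ⊢
        intro g
        have h2 := hu (φ t⁻¹ g)
        have h3 := congrArg (φ t) h2
        simp only [map_mul] at h3
        have h4 : φ t (φ t⁻¹ g) = g := by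
          rw [← MulAut.mul_apply, ← map_mul, mul_inv_cancel, map_one]; rfl
        rwa [h4] at h3
    obtain ⟨W, ⟨hW1, hW2, hW3⟩, hWmin⟩ := (Set.toFinite S).exists_minimal hSne
    haveI hWn : W.Normal := ⟨fun u hu g => by
      have h5 := Subgroup.mem_center_iff.mp (hW2 hu) g
      rw [h5]
      simpa using hu⟩
    have hcopW : (Nat.card W).Coprime p :=
      Nat.Coprime.coprime_dvd_left (Subgroup.card_subgroup_dvd_card W) hcop
    have hcommW : ∀ a b : W, a * b = b * a := by
      intro a b
      apply Subtype.ext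
      exact (Subgroup.mem_center_iff.mp (hW2 a.2) b).symm
    -- the minimal case
    have hs1 : Star p (resAct φ W hW3) Q x := by
      refine star_minimal hT hcommW hcopW _ ?_ Q x hQx
      intro U hU
      by_cases hUb : U = ⊥
      · exact Or.inl hUb
      right
      have hU' : U.map W.subtype ∈ S := by
        refine ⟨?_, ?_, ?_⟩
        · intro h
          apply hUb
          exact (Subgroup.map_eq_bot_iff_of_injective _ W.subtype_injective).mp h
        · exact (Subgroup.map_subtype_le U).trans hW2
        · rintro t _ ⟨u, hu, rfl⟩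
          exact ⟨_, hU t u hu, rfl⟩
      have h6 := hWmin hU' (Subgroup.map_subtype_le U)
      rw [eq_top_iff]
      intro u _
      obtain ⟨u', hu', hu2⟩ := h6 u.2
      have : u' = u := Subtype.ext hu2
      rwa [this] at hu'
    -- the quotient
    have hlt : Nat.card (R ⧸ W) < n := by
      have h1 := Subgroup.card_eq_card_quotient_mul_card_subgroup W
      have h2 : 1 < Nat.card W := (Subgroup.one_lt_card_iff_ne_bot W).mpr hW1
      rw [← hn, h1]
      exact lt_mul_of_one_lt_right Nat.card_pos h2
    have hs2 : Star p (quotAct φ W hW3) Q x := by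
      refine ih _ hlt (R ⧸ W) (hR.to_quotient W) ?_ _ rfl
      exact Nat.Coprime.coprime_dvd_left (Subgroup.card_quotient_dvd_card W) hcop
    -- multiply
    unfold Star at hs1 hs2 ⊢
    have h7 := star_arith _ _ _ _ _ _ _ _ _ _ hs1 hs2
    simp only [← card_fixS_mul hT φ W hW3 hcopW] at h7
    have h8 : Nat.card W * Nat.card (R ⧸ W) = Nat.card R := by
      rw [Subgroup.card_eq_card_quotient_mul_card_subgroup W]
      ring
    rwa [h8] at h7

end act

end Cfsg.Agent.Lib.PGroups.PElem
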