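import Mathlib
import Cfsg.Agent.Lib.Basic.Glauberman
import Cfsg.Agent.Lib.PGroups.Parts
import Cfsg.Agent.Lib.PGroups.PElem1

/-! The product inequality for a `p`-group acting by conjugation on a `p'`-subgroup. -/

set_option autoImplicit false

namespace Cfsg.Agent.Lib.PGroups.PElem

open Subgroup Cfsg.Agent.Lib.Basic Cfsg.Agent.Lib.PGroups

open scoped Pointwise

universe u

variable {G : Type u} [Group G]

/-- For an invariant Sylow subgroup, the fixed points form a Sylow subgroup of the fixed points. -/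
theorem sylow_part [Finite G] {K A : Subgroup G} {r : ℕ} [hr : Fact r.Prime]
    (hAK : A ≤ normalizer (K : Set G)) (hcop : (Nat.card A).Coprime (Nat.card K))
    (hsolv : Group.IsSolvable A) (R₀ : Sylow r K)
    (hR₀ : A ≤ normalizer (((R₀ : Subgroup K).map K.subtype : Subgroup G) : Set G)) :
    Nat.card ↥(((R₀ : Subgroup K).map K.subtype : Subgroup G) ⊓ centralizer (A : Set G)) =
      r ^ (Nat.card ↥(K ⊓ centralizer (A : Set G))).factorization r := by
  classical
  set R' : Subgroup G := (R₀ : Subgroup K).map K.subtype with hR'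
  set H : Subgroup G := K ⊓ centralizer (A : Set G) with hH
  set S : Subgroup G := R' ⊓ centralizer (A : Set G) with hS
  have hR'K : R' ≤ K := Subgroup.map_subtype_le _
  have hSH : S ≤ H := inf_le_inf_right _ hR'K
  have hR'r : IsPGroup r R' := R₀.2.map K.subtype
  have hSr : IsPGroup r S := hR'r.to_le inf_le_left
  have hS' : IsPGroup r (S.subgroupOf H) := hSr.comap_subtype
  obtain ⟨S₂, hS₂⟩ := hS'.exists_le_sylow
  set S₁ : Subgroup G := (S₂ : Subgroup H).map H.subtype with hS₁
  have hcard₁ : Nat.card S₁ = r ^ (Nat.card H).factorization r := by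
    rw [← S₂.card_eq_multiplicity]
    exact Subgroup.card_map_of_injective H.subtype_injective
  have hSS₁ : S ≤ S₁ := by
    intro g hg
    exact ⟨⟨g, hSH hg⟩, hS₂ hg, rfl⟩
  have hS₁H : S₁ ≤ H := Subgroup.map_subtype_le _
  have hS₁r : IsPGroup r S₁ := S₂.2.map _
  have hAS₁ : A ≤ normalizer (S₁ : Set G) := by
    intro a ha
    refine mem_normalizer_of_forall_commute fun z hz => ?_
    exact (Subgroup.mem_centralizer_iff.mp (hS₁H hz).2 a ha)
  obtain ⟨R₁, hS₁R₁, hR₁⟩ :=
    exists_invariant_sylow_ge hAK hcop (Or.inl hsolv) r S₁ (hS₁H.trans inf_le_left) hS₁r hAS₁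
  obtain ⟨c, hc, hcR⟩ := invariant_sylow_conj hAK hcop (Or.inl hsolv) r R₀ R₁ hR₀ hR₁
  have hle : Nat.card S₁ ≤ Nat.card S := by
    have hmem : ∀ g : S₁, (c : G)⁻¹ * (g : G) * (c : G) ∈ S := by
      intro g
      refine ⟨?_, ?_⟩
      · obtain ⟨k, hk, hkg⟩ := hS₁R₁ g.2
        have hk' : k ∈ ((MulAut.conj c • R₀ : Sylow r K) : Subgroup K) := by
          rw [hcR]; exact hk
        have hk2 : (MulAut.conj c)⁻¹ • k ∈ (R₀ : Subgroup K) :=
          mem_pointwise_smul_iff_inv_smul_mem.mp hk'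
        refine ⟨_, hk2, ?_⟩
        show (((MulAut.conj c)⁻¹ • k : K) : G) = _
        have : (MulAut.conj c)⁻¹ • k = c⁻¹ * k * c := by
          rw [← map_inv]
          simp [MulAut.smul_def, MulAut.conj_apply]
        rw [this]
        show ((c : G)⁻¹ * (k : G) * (c : G)) = _
        have hkg' : (k : G) = g := hkg
        rw [hkg']
      · have hg : (g : G) ∈ centralizer (A : Set G) := (hS₁H g.2).2
        show (c : G)⁻¹ * (g : G) * (c : G) ∈ centralizer (A : Set G)
        exact mul_mem (mul_mem (inv_mem hc) hg) hc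
    refine Nat.card_le_card_of_injective (fun g => ⟨_, hmem g⟩) ?_
    intro g g' h
    apply Subtype.ext
    have := congrArg Subtype.val h
    simpa using this
  have hge : Nat.card S ≤ Nat.card S₁ := Subgroup.card_le_of_le hSS₁
  rw [← hcard₁]
  exact le_antisymm hge hle

theorem centralizer_zpowers_eq (y : G) :
    centralizer (zpowers y : Set G) = centralizer {y} := by
  rw [Subgroup.zpowers_eq_closure, Subgroup.centralizer_closure]

/-- Conjugation action of a subgroup. -/
def conjAct (TT : Subgroup G) : TT →* MulAut G := MulAut.conj.comp TT.subtype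

theorem conjAct_apply (TT : Subgroup G) (t : TT) (g : G) : conjAct TT t g = t * g * (t : G)⁻¹ := rfl

theorem fixS_conjAct (TT : Subgroup G) (B : Subgroup TT) :
    fixS (conjAct TT) B = centralizer (B.map TT.subtype : Set G) := by
  ext r
  rw [mem_fixS, Subgroup.mem_centralizer_iff]
  constructor
  · rintro h _ ⟨t, ht, rfl⟩
    have := h t ht
    rw [conjAct_apply] at this
    exact (mul_inv_eq_iff_eq_mul.mp this)
  · intro h t ht
    rw [conjAct_apply]
    exact mul_inv_eq_iff_eq_mul.mpr (h _ ⟨t, ht, rfl⟩)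

/-- **The key inequality.** -/
theorem key_ambient [Finite G] {p : ℕ} [hp : Fact p.Prime] (K Q : Subgroup G) (x : G) [Fintype Q]
    (hK : (Nat.card K).Coprime p) (hT : IsPGroup p ↥(Q ⊔ zpowers x))
    (hKn : Q ⊔ zpowers x ≤ normalizer (K : Set G)) (hQx : x ∈ normalizer (Q : Set G)) :
    (∏ s : Q, Nat.card ↥(K ⊓ centralizer {x * (s : G)})) ^ p *
        Nat.card ↥(K ⊓ centralizer (Q : Set G)) ^ Nat.card Q ∣
      Nat.card K ^ Nat.card Q *
        Nat.card ↥(K ⊓ centralizer ((Q ⊔ zpowers x : Subgroup G) : Set G)) ^ (p * Nat.card Q) := by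
  classical
  set TT : Subgroup G := Q ⊔ zpowers x with hTT
  have hQT : Q ≤ TT := le_sup_left
  have hxT : x ∈ TT := (le_sup_right : zpowers x ≤ TT) (mem_zpowers x)
  have hcopT : ∀ A : Subgroup G, A ≤ TT → (Nat.card A).Coprime (Nat.card K) := by
    intro A hA
    obtain ⟨n, hn⟩ := IsPGroup.iff_card.mp (hT.to_le hA)
    rw [hn]
    exact (hK.symm).pow_left n
  have hsolvT : ∀ A : Subgroup G, A ≤ TT → Group.IsSolvable A := by
    intro A hA
    haveI := (hT.to_le hA).isNilpotent
    infer_instance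
  have hpos : ∀ A : Subgroup G, Nat.card A ≠ 0 := fun A => Nat.card_pos.ne'
  have hL : (∏ s : Q, Nat.card ↥(K ⊓ centralizer {x * (s : G)})) ^ p *
        Nat.card ↥(K ⊓ centralizer (Q : Set G)) ^ Nat.card Q ≠ 0 := by
    refine mul_ne_zero (pow_ne_zero _ (Finset.prod_ne_zero_iff.mpr fun _ _ => hpos _))
      (pow_ne_zero _ (hpos _))
  have hR : Nat.card K ^ Nat.card Q *
        Nat.card ↥(K ⊓ centralizer (TT : Set G)) ^ (p * Nat.card Q) ≠ 0 :=
    mul_ne_zero (pow_ne_zero _ (hpos _)) (pow_ne_zero _ (hpos _))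
  refine (Nat.factorization_prime_le_iff_dvd hL hR).mp fun r hr => ?_
  haveI : Fact r.Prime := ⟨hr⟩
  obtain ⟨R₀, hR₀⟩ := exists_invariant_sylow hKn (hcopT TT le_rfl) (Or.inl (hsolvT TT le_rfl)) r
  set R' : Subgroup G := (R₀ : Subgroup K).map K.subtype with hR'
  have hpart : ∀ A : Subgroup G, A ≤ TT → Nat.card ↥(R' ⊓ centralizer (A : Set G)) =
      r ^ (Nat.card ↥(K ⊓ centralizer (A : Set G))).factorization r := fun A hA =>
    sylow_part (hA.trans hKn) (hcopT A hA) (hsolvT A hA) R₀ (hA.trans hR₀)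
  have hcardR' : Nat.card R' = r ^ (Nat.card K).factorization r := by
    rw [← R₀.card_eq_multiplicity]
    exact Subgroup.card_map_of_injective K.subtype_injective
  -- the abstract inequality
  have hinv : ∀ t, ∀ u ∈ R', conjAct TT t u ∈ R' := by
    intro t u hu
    exact (Subgroup.mem_normalizer_iff.mp (hR₀ t.2) u).mp hu
  have hR'r : IsPGroup r R' := R₀.2.map K.subtype
  have hR'c : (Nat.card R').Coprime p :=
    Nat.Coprime.coprime_dvd_left (Subgroup.card_dvd_of_le (Subgroup.map_subtype_le _)) hK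
  set Q_T : Subgroup TT := Q.subgroupOf TT with hQ_T
  set x_T : TT := ⟨x, hxT⟩ with hx_T
  haveI hQn : Q_T.Normal := by
    rw [hQ_T, normal_subgroupOf_iff_le_normalizer hQT]
    refine sup_le Subgroup.le_normalizer ?_
    exact (Subgroup.zpowers_le.mpr hQx)
  have hQx' : Q_T ⊔ zpowers x_T = ⊤ := by
    rw [eq_top_iff]
    intro t _
    have h1 : Q ⊔ zpowers x ≤ (Q_T ⊔ zpowers x_T).map TT.subtype := by
      refine sup_le (fun q hq => ?_) (Subgroup.zpowers_le.mpr ?_)
      · exact ⟨⟨q, hQT hq⟩, (le_sup_left : Q_T ≤ _) hq, rfl⟩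
      · exact ⟨x_T, (le_sup_right : zpowers x_T ≤ _) (mem_zpowers _), rfl⟩
    obtain ⟨t', ht', ht2⟩ := h1 t.2
    have : t' = t := Subtype.ext ht2
    rwa [← this]
  haveI : Fintype Q_T := Fintype.ofFinite _
  have hstar : Star p (resAct (conjAct TT) R' hinv) Q_T x_T :=
    star_rgroup hT Q_T x_T hQx' _ R' hR'r hR'c _ rfl
  unfold Star at hstar
  have hNQ : Nat.card Q_T = Nat.card Q := Nat.card_congr (subgroupOfEquivOfLe hQT).toEquiv
  simp only [card_fixS_resAct, fixS_conjAct] at hstar
  rw [hNQ] at hstar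
  -- rewrite the products
  have hmapz : ∀ q : Q_T, ((zpowers (x_T * (q : TT))).map TT.subtype) = zpowers (x * (q : G)) := by
    intro q
    rw [MonoidHom.map_zpowers]
    rfl
  have hmapQ : Q_T.map TT.subtype = Q := by
    rw [hQ_T, Subgroup.subgroupOf_map_subtype]
    exact inf_eq_left.mpr hQT
  have hmapT : (⊤ : Subgroup TT).map TT.subtype = TT := by
    rw [← MonoidHom.range_eq_map, Subgroup.range_subtype]
  simp only [hmapz, hmapQ, hmapT] at hstar
  -- the reindexing
  have hreidx : ∏ q : Q_T, Nat.card ↥(centralizer (zpowers (x * ((q : TT) : G)) : Set G) ⊓ R') =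
      ∏ s : Q, Nat.card ↥(centralizer (zpowers (x * (s : G)) : Set G) ⊓ R') := by
    refine Fintype.prod_equiv (subgroupOfEquivOfLe hQT).toEquiv _ _ fun q => ?_
    rfl
  rw [hreidx] at hstar
  -- exponents
  have hzT : ∀ s : Q, zpowers (x * (s : G)) ≤ TT := fun s =>
    Subgroup.zpowers_le.mpr (mul_mem hxT (hQT s.2))
  have hE : ∀ s : Q, Nat.card ↥(centralizer (zpowers (x * (s : G)) : Set G) ⊓ R') =
      r ^ (Nat.card ↥(K ⊓ centralizer {x * (s : G)})).factorization r := by
    intro s
    rw [inf_comm, hpart _ (hzT s), centralizer_zpowers_eq]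
  simp_rw [hE] at hstar
  rw [inf_comm (centralizer (Q : Set G)), inf_comm (centralizer (TT : Set G)),
    hpart Q hQT, hpart TT le_rfl, hcardR'] at hstar
  rw [Finset.prod_pow_eq_pow_sum, ← pow_mul, ← pow_mul, ← pow_mul, ← pow_mul, ← pow_add, ← pow_add,
    Nat.pow_le_pow_iff_right hr.one_lt] at hstar
  -- valuations
  rw [Nat.factorization_mul (pow_ne_zero _ (Finset.prod_ne_zero_iff.mpr fun _ _ => hpos _))
      (pow_ne_zero _ (hpos _)),
    Nat.factorization_mul (pow_ne_zero _ (hpos _)) (pow_ne_zero _ (hpos _))]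
  simp only [Nat.factorization_pow, Finsupp.add_apply, Finsupp.smul_apply, smul_eq_mul]
  rw [Nat.factorization_prod fun _ _ => hpos _, Finsupp.finsetSum_apply]
  linarith

end Cfsg.Agent.Lib.PGroups.PElem
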