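import Mathlib
import Cfsg.Agent.Lib.PGroups.Coset
import Cfsg.Agent.Lib.PGroups.PElem2

/-! Counting `p`-elements: the cosets of a normal `p'`-subgroup and a normaliser. -/

set_option autoImplicit false

namespace Cfsg.Agent.Lib.PGroups.PElem

open Subgroup Cfsg.Agent.Lib.Basic Cfsg.Agent.Lib.PGroups

universe u

/-- `g` is a `p`-element. -/
abbrev PE (p : ℕ) {H : Type*} [Monoid H] (g : H) : Prop := ∃ k : ℕ, orderOf g = p ^ k

/-- The `p`-elements in a coset of a normal `p'`-subgroup form one orbit. -/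
theorem card_pe_coset {H : Type*} [Group H] [Finite H] {p : ℕ} [hp : Fact p.Prime] (N : Subgroup H)
    [hN' : N.Normal] (hN : (Nat.card N).Coprime p) (y : H) (hy : PE p y) :
    Nat.card {g : H // PE p g ∧ y⁻¹ * g ∈ N} * Nat.card ↥(N ⊓ centralizer {y}) = Nat.card N := by
  classical
  letI : MulAction N H := MulAction.compHom H (MulAut.conj.comp N.subtype : N →* MulAut H)
  have hsmul : ∀ (n : N) (g : H), n • g = (n : H) * g * (n : H)⁻¹ := fun n g => rfl
  have hset : MulAction.orbit N y = {g | PE p g ∧ y⁻¹ * g ∈ N} := by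
    ext g
    constructor
    · rintro ⟨n, rfl⟩
      show PE p (n • y) ∧ y⁻¹ * (n • y) ∈ N
      rw [hsmul]
      refine ⟨?_, ?_⟩
      · obtain ⟨k, hk⟩ := hy
        exact ⟨k, by rw [orderOf_conj_eq, hk]⟩
      · have h1 : y⁻¹ * ((n : H) * y * (n : H)⁻¹) = (y⁻¹ * (n : H) * y) * (n : H)⁻¹ := by group
        rw [h1]
        refine N.mul_mem ?_ (N.inv_mem n.2)
        have := hN'.conj_mem n n.2 y⁻¹
        simpa using this
    · rintro ⟨h1, h2⟩
      obtain ⟨n, hn, hg⟩ := conj_of_pElement_coset N hN hy h1 h2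
      exact ⟨⟨n, hn⟩, by rw [hg]; rfl⟩
  have h1 : Nat.card (MulAction.orbit N y) * Nat.card (MulAction.stabilizer N y) = Nat.card N := by
    have h2 := Subgroup.card_mul_index (MulAction.stabilizer N y)
    rw [MulAction.index_stabilizer, ← Nat.card_coe_set_eq] at h2
    rw [mul_comm]
    exact h2
  have h3 : Nat.card (MulAction.stabilizer N y) = Nat.card ↥(N ⊓ centralizer {y}) := by
    refine Nat.card_congr
      { toFun := fun n => ⟨n.1, ⟨n.1.2, ?_⟩⟩
        invFun := fun u => ⟨⟨u, u.2.1⟩, ?_⟩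
        left_inv := fun _ => rfl
        right_inv := fun _ => rfl }
    · have h4 : (n : N) • y = y := n.2
      rw [hsmul] at h4
      exact mem_centralizer_singleton_iff.mpr (mul_inv_eq_iff_eq_mul.mp h4)
    · have h5 : (u : H) ∈ centralizer {y} := u.2.2
      have h4 := mem_centralizer_singleton_iff.mp h5
      show (⟨u, u.2.1⟩ : N) • y = y
      rw [hsmul]
      exact mul_inv_eq_iff_eq_mul.mpr h4
  rw [← h3, ← h1, hset]
  rfl

/-- The double counting identity. -/
theorem sum_weights {G : Type*} [Group G] [Fintype G] [DecidableEq G] {p : ℕ} (L K : Subgroup G) [hKn : K.Normal]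
    [Fintype L] [DecidablePred (· ∈ K)] [DecidablePred (PE p : G → Prop)] [DecidablePred (PE p : L → Prop)]
    (hex : ∀ g : G, PE p g → ∃ y : L, PE p y ∧ (y : G)⁻¹ * g ∈ K) :
    ((Finset.univ.filter (PE p : G → Prop)).card : ℝ) =
      ∑ y ∈ Finset.univ.filter (PE p : L → Prop),
        (((Finset.univ.filter (PE p : G → Prop)).filter fun g => (y : G)⁻¹ * g ∈ K).card : ℝ) /
        (((Finset.univ.filter (PE p : L → Prop)).filter fun y' : L => (y : G)⁻¹ * (y' : G) ∈ K).card : ℝ) := by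
  set S := Finset.univ.filter (PE p : G → Prop) with hS
  set SL := Finset.univ.filter (PE p : L → Prop) with hSL
  let b : L → ℝ := fun y => ((SL.filter fun y' : L => (y : G)⁻¹ * (y' : G) ∈ K).card : ℝ)
  have h1 : ∀ y ∈ SL, ((S.filter fun g => (y : G)⁻¹ * g ∈ K).card : ℝ) / b y =
      ∑ g ∈ S, if (y : G)⁻¹ * g ∈ K then (b y)⁻¹ else 0 := by
    intro y _
    rw [← Finset.sum_filter, Finset.sum_const, nsmul_eq_mul, div_eq_mul_inv]
  rw [Finset.sum_congr rfl h1, Finset.sum_comm]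
  rw [Finset.card_eq_sum_ones, Nat.cast_sum, Nat.cast_one]
  refine Finset.sum_congr rfl fun g hg => ?_
  rw [← Finset.sum_filter]
  set F := SL.filter fun y : L => (y : G)⁻¹ * g ∈ K with hF
  have hFb : ∀ y ∈ F, b y = (F.card : ℝ) := by
    intro y hy
    show ((SL.filter fun y' : L => (y : G)⁻¹ * (y' : G) ∈ K).card : ℝ) = _
    congr 2
    have hy2 : (y : G)⁻¹ * g ∈ K := (Finset.mem_filter.mp hy).2
    ext y'
    simp only [hF, Finset.mem_filter]
    refine and_congr_right fun _ => ?_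
    constructor
    · intro h
      have : (y' : G)⁻¹ * g = ((y : G)⁻¹ * (y' : G))⁻¹ * ((y : G)⁻¹ * g) := by group
      rw [this]
      exact K.mul_mem (K.inv_mem h) hy2
    · intro h
      have : (y : G)⁻¹ * (y' : G) = ((y : G)⁻¹ * g) * ((y' : G)⁻¹ * g)⁻¹ := by group
      rw [this]
      exact K.mul_mem hy2 (K.inv_mem h)
  have hFne : F.Nonempty := by
    obtain ⟨y, hy, hyg⟩ := hex g (Finset.mem_filter.mp hg).2
    exact ⟨y, Finset.mem_filter.mpr ⟨Finset.mem_filter.mpr ⟨Finset.mem_univ _, hy⟩, hyg⟩⟩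
  rw [Finset.sum_congr rfl fun y hy => by rw [hFb y hy], Finset.sum_const, nsmul_eq_mul]
  have : (F.card : ℝ) ≠ 0 := by
    exact_mod_cast (Finset.card_pos.mpr hFne).ne'
  field_simp

/-- AM-GM packaged. -/
theorem real_avg {ι : Type*} [Fintype ι] [Nonempty ι] (c : ι → ℝ) (k d e : ℝ) (p : ℕ) (hp : 0 < p)
    (hc : ∀ i, 0 < c i) (hk : 0 < k) (hd : 0 < d) (he : 0 < e)
    (h : (∏ i, c i) ^ p * d ^ Fintype.card ι ≤ k ^ Fintype.card ι * e ^ (p * Fintype.card ι)) :
    (Fintype.card ι : ℝ) * (k / d) ^ (((p : ℝ) - 1) / p) ≤ ∑ i, (k / c i) / (d / e) := by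
  set N := Fintype.card ι with hN
  have hNpos : 0 < N := Fintype.card_pos
  have hNR : (0 : ℝ) < N := by exact_mod_cast hNpos
  set r : ι → ℝ := fun i => (k / c i) / (d / e) with hr
  have hrpos : ∀ i, 0 < r i := fun i => div_pos (div_pos hk (hc i)) (div_pos hd he)
  have hMpos' : 0 < k / d := div_pos hk hd
  generalize hM' : k / d = M at hMpos' ⊢
  have hM : M = k / d := hM'.symm
  have hMpos : 0 < M := hMpos'
  set A := (∑ i, r i) / N with hA
  have hApos : 0 < A := div_pos (Finset.sum_pos (fun i _ => hrpos i) Finset.univ_nonempty) hNR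
  -- AM-GM
  have hgm : ∏ i, r i ≤ A ^ N := by
    have h1 := Real.geom_mean_le_arith_mean Finset.univ (fun _ => (1 : ℝ)) r (fun _ _ => zero_le_one)
      (by rw [Finset.sum_const, Finset.card_univ, nsmul_eq_mul, mul_one]; exact hNR)
      (fun i _ => (hrpos i).le)
    simp only [Real.rpow_one, Finset.sum_const, Finset.card_univ, nsmul_eq_mul, mul_one, one_mul] at h1
    have h2 : 0 ≤ ∏ i, r i := Finset.prod_nonneg fun i _ => (hrpos i).le
    have h3 : (∏ i, r i) = ((∏ i, r i) ^ ((N : ℝ)⁻¹)) ^ N := by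
      rw [Real.rpow_inv_natCast_pow h2 hNpos.ne']
    rw [h3]
    exact pow_le_pow_left₀ (Real.rpow_nonneg h2 _) h1 N
  -- the product estimate
  have hprodpos : 0 < ∏ i, c i := Finset.prod_pos fun i _ => hc i
  have hprod : (∏ i, r i) = M ^ N * e ^ N / ∏ i, c i := by
    have : ∀ i, r i = (M * e) / c i := by
      intro i
      simp only [hr, hM]
      have := (hc i).ne'
      field_simp
    simp_rw [this]
    rw [Finset.prod_div_distrib, Finset.prod_const, Finset.card_univ, mul_pow]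
  have hlow : M ^ ((p - 1) * N) ≤ (∏ i, r i) ^ p := by
    rw [hprod, div_pow (M ^ N * e ^ N) (∏ i, c i) p, le_div_iff₀ (pow_pos hprodpos p)]
    have hp1 : p = (p - 1) + 1 := by omega
    have h4 : M ^ ((p - 1) * N) * (∏ i, c i) ^ p * (k ^ N) =
        M ^ ((p - 1) * N) * k ^ N * ((∏ i, c i) ^ p) := by ring
    have h5 : (M ^ N * e ^ N) ^ p = M ^ (N * p) * e ^ (p * N) := by
      rw [mul_pow, ← pow_mul, ← pow_mul, mul_comm N p]
    rw [h5]
    have h6 : M ^ (N * p) = M ^ ((p - 1) * N) * M ^ N := by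
      rw [← pow_add]
      congr 1
      conv_lhs => rw [hp1]
      ring_nf
    rw [h6]
    have h7 : d ^ N = k ^ N / M ^ N := by
      rw [hM, div_pow, div_div_cancel₀ (pow_ne_zero _ hk.ne')]
    rw [h7] at h
    have hMN : 0 < M ^ N := pow_pos hMpos N
    have h8 : (∏ i, c i) ^ p * (k ^ N / M ^ N) = (∏ i, c i) ^ p * k ^ N / M ^ N := by ring
    rw [h8, div_le_iff₀ hMN] at h
    have hk' : 0 < k ^ N := pow_pos hk N
    have hX : 0 < M ^ ((p - 1) * N) := pow_pos hMpos _
    have h9 : (∏ i, c i) ^ p ≤ M ^ N * e ^ (p * N) := by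
      have : (∏ i, c i) ^ p * k ^ N ≤ (M ^ N * e ^ (p * N)) * k ^ N := by
        calc _ ≤ k ^ N * e ^ (p * N) * M ^ N := h
          _ = _ := by ring
      exact le_of_mul_le_mul_right this hk'
    calc M ^ ((p - 1) * N) * (∏ i, c i) ^ p ≤ M ^ ((p - 1) * N) * (M ^ N * e ^ (p * N)) :=
          mul_le_mul_of_nonneg_left h9 hX.le
      _ = _ := by ring
  -- conclude
  set μ := M ^ (((p : ℝ) - 1) / p) with hμ
  have hμpos : 0 < μ := Real.rpow_pos_of_pos hMpos _
  have hμp : μ ^ p = M ^ (p - 1) := by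
    rw [hμ, ← Real.rpow_natCast, ← Real.rpow_mul hMpos.le, ← Real.rpow_natCast]
    congr 1
    have hp0 : (p : ℝ) ≠ 0 := by exact_mod_cast hp.ne'
    rw [Nat.cast_sub (by omega : 1 ≤ p)]
    field_simp
    simp
  have hμA : μ ≤ A := by
    have h10 : μ ^ (p * N) ≤ A ^ (p * N) := by
      calc μ ^ (p * N) = (μ ^ p) ^ N := pow_mul _ _ _
        _ = M ^ ((p - 1) * N) := by rw [hμp, pow_mul]
        _ ≤ (∏ i, r i) ^ p := hlow
        _ ≤ (A ^ N) ^ p := pow_le_pow_left₀ (Finset.prod_nonneg fun i _ => (hrpos i).le) hgm p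
        _ = A ^ (p * N) := by rw [← pow_mul, mul_comm]
    exact (pow_le_pow_iff_left₀ hμpos.le hApos.le (mul_pos hp hNpos).ne').mp h10
  have : (N : ℝ) * μ ≤ N * A := mul_le_mul_of_nonneg_left hμA hNR.le
  have h11 : (N : ℝ) * A = ∑ i, r i := by
    rw [hA]; field_simp
  rwa [h11] at this

end Cfsg.Agent.Lib.PGroups.PElem
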