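import Mathlib
import Cfsg.Agent.Lib.PGroups.PElem3

/-! The number of `p`-elements compared with that of a Frattini normaliser. -/

set_option autoImplicit false

namespace Cfsg.Agent.Lib.PGroups.PElem

open Subgroup Cfsg.Agent.Lib.Basic Cfsg.Agent.Lib.PGroups

universe u

theorem mu_pow (M : ℝ) (hM : 0 < M) (p : ℕ) (hp : 0 < p) :
    (M ^ (((p : ℝ) - 1) / p)) ^ p = M ^ (p - 1) := by
  rw [← Real.rpow_natCast, ← Real.rpow_mul hM.le, ← Real.rpow_natCast]
  congr 1
  have hp0 : (p : ℝ) ≠ 0 := by exact_mod_cast hp.ne'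
  rw [Nat.cast_sub (by omega : 1 ≤ p)]
  field_simp
  simp

/-- The count of `p`-elements compared with a Frattini normaliser. -/
theorem count_main {G : Type u} [Group G] [Finite G] {p : ℕ} [hp : Fact p.Prime]
    (K Q : Subgroup G) [hKn : K.Normal] (hK : (Nat.card K).Coprime p) (hQ : IsPGroup p Q)
    (htop : normalizer (Q : Set G) ⊔ K = ⊤) (m : ℕ)
    (hm : Nat.card K = Nat.card ↥(K ⊓ normalizer (Q : Set G)) * m) :
    Nat.card {y : normalizer (Q : Set G) // PE p y} ^ p * m ^ (p - 1) ≤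
      Nat.card {g : G // PE p g} ^ p := by
  classical
  set L : Subgroup G := normalizer (Q : Set G) with hL
  set D : Subgroup G := K ⊓ L with hD
  letI : Fintype G := Fintype.ofFinite G
  letI : Fintype L := Fintype.ofFinite L
  letI : Fintype Q := Fintype.ofFinite Q
  have hQL : Q ≤ L := Subgroup.le_normalizer
  -- basic facts
  have hdisj : ∀ q ∈ Q, q ∈ K → q = 1 := by
    intro q hq hqK
    obtain ⟨k, hk⟩ := hQ ⟨q, hq⟩
    have hk' : q ^ p ^ k = 1 := by
      have := congrArg Subtype.val hk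
      simpa using this
    exact eq_one_of_mem_of_pow_eq_one hK hqK hk'
  have hDC : ∀ d ∈ D, ∀ q ∈ Q, d * q = q * d := by
    intro d hd q hq
    have hw : d * q * d⁻¹ * q⁻¹ = 1 := by
      apply hdisj
      · refine Q.mul_mem ?_ (Q.inv_mem hq)
        exact (Subgroup.mem_normalizer_iff.mp hd.2 q).mp hq
      · have h1 : d * q * d⁻¹ * q⁻¹ = d * (q * d⁻¹ * q⁻¹) := by group
        rw [h1]
        exact K.mul_mem hd.1 (hKn.conj_mem _ (K.inv_mem hd.1) q)
    have := mul_inv_eq_one.mp hw
    exact mul_inv_eq_iff_eq_mul.mp this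
  have hKCQ : K ⊓ centralizer (Q : Set G) = D := by
    apply le_antisymm
    · refine inf_le_inf_left _ ?_
      intro c hc
      exact mem_normalizer_of_forall_commute fun z hz => by
        exact (Subgroup.mem_centralizer_iff.mp hc z hz).symm
    · refine le_inf inf_le_left ?_
      intro d hd
      rw [Subgroup.mem_centralizer_iff]
      intro q hq
      exact (hDC d hd q hq).symm
  have hcentD : ∀ (y : G) (s : Q), D ⊓ centralizer {y * (s : G)} = D ⊓ centralizer {y} := by
    intro y s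
    ext d
    simp only [Subgroup.mem_inf, mem_centralizer_singleton_iff]
    refine and_congr_right fun hd => ?_
    have hds := hDC d hd s s.2
    constructor
    · intro h
      have h2 : d * y * s = y * d * s := by
        calc d * y * s = d * (y * s) := mul_assoc _ _ _
          _ = y * s * d := h
          _ = y * (s * d) := mul_assoc _ _ _
          _ = y * (d * s) := by rw [hds]
          _ = y * d * s := (mul_assoc _ _ _).symm
      exact mul_right_cancel h2
    · intro h
      calc d * (y * s) = d * y * s := (mul_assoc _ _ _).symm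
        _ = y * d * s := by rw [h]
        _ = y * (d * s) := mul_assoc _ _ _
        _ = y * (s * d) := by rw [hds]
        _ = y * s * d := (mul_assoc _ _ _).symm
  have hcentT : ∀ y : G, K ⊓ centralizer ((Q ⊔ zpowers y : Subgroup G) : Set G) = D ⊓ centralizer {y} := by
    intro y
    rw [← hKCQ]
    apply le_antisymm
    · intro u hu
      refine ⟨⟨hu.1, ?_⟩, ?_⟩
      · exact Subgroup.centralizer_le (le_sup_left : Q ≤ Q ⊔ zpowers y) hu.2
      · show u ∈ centralizer {y}
        rw [mem_centralizer_singleton_iff]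
        exact (Subgroup.mem_centralizer_iff.mp hu.2 y
          ((le_sup_right : zpowers y ≤ Q ⊔ zpowers y) (mem_zpowers y))).symm
    · intro u hu
      refine ⟨hu.1.1, ?_⟩
      have h1 : Q ⊔ zpowers y ≤ centralizer {u} := by
        refine sup_le ?_ (Subgroup.zpowers_le.mpr ?_)
        · intro q hq
          rw [mem_centralizer_singleton_iff]
          exact Subgroup.mem_centralizer_iff.mp hu.1.2 q hq
        · rw [mem_centralizer_singleton_iff]
          exact (mem_centralizer_singleton_iff.mp hu.2).symm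
      show u ∈ centralizer ((Q ⊔ zpowers y : Subgroup G) : Set G)
      rw [Subgroup.mem_centralizer_iff]
      intro h hh
      exact mem_centralizer_singleton_iff.mp (h1 hh)
  -- lifting `p`-elements to `L`
  have hex : ∀ g : G, PE p g → ∃ y : L, PE p y ∧ (y : G)⁻¹ * g ∈ K := by
    intro g hg
    let f : L →* G ⧸ K := (QuotientGroup.mk' K).comp L.subtype
    have hf : Function.Surjective f := by
      intro c
      obtain ⟨g', rfl⟩ := QuotientGroup.mk_surjective c
      have hg' : g' ∈ ((L ⊔ K : Subgroup G) : Set G) := by rw [htop]; trivial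
      rw [Subgroup.mul_normal] at hg'
      obtain ⟨l, hl, k, hk, rfl⟩ := Set.mem_mul.mp hg'
      refine ⟨⟨l, hl⟩, ?_⟩
      show ((l : G) : G ⧸ K) = ((l * k : G) : G ⧸ K)
      rw [QuotientGroup.eq]
      simpa using hk
    have hy : ∃ k : ℕ, orderOf ((g : G) : G ⧸ K) = p ^ k := by
      obtain ⟨k, hk⟩ := hg
      have h1 : orderOf ((g : G) : G ⧸ K) ∣ p ^ k := by
        rw [← hk]
        exact orderOf_map_dvd (QuotientGroup.mk' K) g
      obtain ⟨j, -, hj⟩ := (Nat.dvd_prime_pow hp.out).mp h1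
      exact ⟨j, hj⟩
    obtain ⟨y, hy1, hy2⟩ := exists_pElement_lift f hf hy
    refine ⟨y, hy2, ?_⟩
    have h2 : ((y : G) : G ⧸ K) = ((g : G) : G ⧸ K) := hy1
    exact QuotientGroup.eq.mp h2
  -- the sum identity
  have hsum := sum_weights (p := p) L K hex
  set S := Finset.univ.filter (PE p : G → Prop) with hS
  set SL := Finset.univ.filter (PE p : L → Prop) with hSL
  have hcardS : Nat.card {g : G // PE p g} = S.card := by
    rw [Nat.card_eq_fintype_card, Fintype.card_subtype]
  have hcardSL : Nat.card {y : L // PE p y} = SL.card := by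
    rw [Nat.card_eq_fintype_card, Fintype.card_subtype]
  rw [hcardS, hcardSL]
  have hpe_coe : ∀ y : L, PE p y ↔ PE p (y : G) := by
    intro y
    simp only [PE, Subgroup.orderOf_coe]
  have hKL : (K.subgroupOf L).Normal := inferInstance
  have hcardKL : Nat.card (K.subgroupOf L) = Nat.card D := by
    refine Nat.card_congr
      { toFun := fun u => ⟨u.1, ⟨u.2, u.1.2⟩⟩
        invFun := fun u => ⟨⟨u, u.2.2⟩, u.2.1⟩
        left_inv := fun _ => rfl
        right_inv := fun _ => rfl }
  have hDK : D ≤ K := inf_le_left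
  have hcopKL : (Nat.card (K.subgroupOf L)).Coprime p := by
    rw [hcardKL]
    exact Nat.Coprime.coprime_dvd_left (Subgroup.card_dvd_of_le hDK) hK
  -- numerator and denominator
  let W : L → ℝ := fun y => ((Nat.card K : ℝ) / (Nat.card ↥(K ⊓ centralizer {(y : G)}) : ℝ)) /
    ((Nat.card D : ℝ) / (Nat.card ↥(D ⊓ centralizer {(y : G)}) : ℝ))
  have hpos : ∀ A : Subgroup G, (0 : ℝ) < Nat.card A := fun A => by exact_mod_cast Nat.card_pos
  have hW : ∀ y ∈ SL, ((S.filter fun g => (y : G)⁻¹ * g ∈ K).card : ℝ) /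
      ((SL.filter fun y' : L => (y : G)⁻¹ * (y' : G) ∈ K).card : ℝ) = W y := by
    intro y hy
    have hyL : PE p y := (Finset.mem_filter.mp hy).2
    have hyG : PE p (y : G) := (hpe_coe y).mp hyL
    have h1 := card_pe_coset K hK (y : G) hyG
    have h2 := card_pe_coset (K.subgroupOf L) hcopKL y hyL
    have h3 : Nat.card {g : G // PE p g ∧ (y : G)⁻¹ * g ∈ K} = (S.filter fun g => (y : G)⁻¹ * g ∈ K).card := by
      rw [Nat.card_eq_fintype_card, Fintype.card_subtype, hS, Finset.filter_filter]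
    have h4 : Nat.card {g : L // PE p g ∧ y⁻¹ * g ∈ K.subgroupOf L} =
        (SL.filter fun y' : L => (y : G)⁻¹ * (y' : G) ∈ K).card := by
      rw [Nat.card_eq_fintype_card, Fintype.card_subtype, hSL, Finset.filter_filter]
      congr 1
    have h5 : Nat.card ↥(K.subgroupOf L ⊓ centralizer {y}) = Nat.card ↥(D ⊓ centralizer {(y : G)}) := by
      refine Nat.card_congr
        { toFun := fun u => ⟨u.1, ⟨⟨u.2.1, u.1.2⟩, ?_⟩⟩
          invFun := fun u => ⟨⟨u, u.2.1.2⟩, ⟨u.2.1.1, ?_⟩⟩
          left_inv := fun _ => rfl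
          right_inv := fun _ => rfl }
      · have h6 : (u : L) ∈ centralizer {y} := u.2.2
        have h7 := mem_centralizer_singleton_iff.mp h6
        exact mem_centralizer_singleton_iff.mpr (congrArg Subtype.val h7)
      · have h6 : (u : G) ∈ centralizer {(y : G)} := u.2.2
        have h7 := mem_centralizer_singleton_iff.mp h6
        exact mem_centralizer_singleton_iff.mpr (Subtype.ext h7)
    rw [h3] at h1
    rw [h4, h5, hcardKL] at h2
    show _ = ((Nat.card K : ℝ) / (Nat.card ↥(K ⊓ centralizer {(y : G)}) : ℝ)) /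
      ((Nat.card D : ℝ) / (Nat.card ↥(D ⊓ centralizer {(y : G)}) : ℝ))
    rw [← h1, ← h2]
    push_cast
    have h8 := hpos (K ⊓ centralizer {(y : G)})
    have h9 := hpos (D ⊓ centralizer {(y : G)})
    field_simp
  rw [Finset.sum_congr rfl hW] at hsum
  -- closure under `Q`
  have hclosed : ∀ (y : L) (s : Q), PE p y → PE p (y * (⟨s, hQL s.2⟩ : L)) := by
    intro y s hy
    rw [hpe_coe]
    have hyG : PE p (y : G) := (hpe_coe y).mp hy
    have hz : IsPGroup p (zpowers (y : G)) := isPGroup_zpowers_iff.mpr hyG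
    have hsup : IsPGroup p ↥(zpowers (y : G) ⊔ Q) :=
      hz.to_sup_of_normal_right' hQ (Subgroup.zpowers_le.mpr y.2)
    have hmem : (y : G) * (s : G) ∈ zpowers (y : G) ⊔ Q :=
      mul_mem ((le_sup_left : zpowers (y : G) ≤ _) (mem_zpowers _))
        ((le_sup_right : Q ≤ _) s.2)
    obtain ⟨k, hk⟩ := (IsPGroup.iff_orderOf.mp hsup) ⟨_, hmem⟩
    refine ⟨k, ?_⟩
    rw [← hk, Subgroup.orderOf_mk]
    rfl
  have hshift : ∀ s : Q, ∑ y ∈ SL, W (y * (⟨s, hQL s.2⟩ : L)) = ∑ y ∈ SL, W y := by
    intro s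
    refine Finset.sum_equiv (Equiv.mulRight (⟨s, hQL s.2⟩ : L)) ?_ fun y _ => rfl
    intro y
    simp only [hSL, Finset.mem_filter, Finset.mem_univ, true_and, Equiv.coe_mulRight]
    constructor
    · exact hclosed y s
    · intro h
      have h2 := hclosed _ (⟨(s : G)⁻¹, Q.inv_mem s.2⟩ : Q) h
      have h3 : y * (⟨s, hQL s.2⟩ : L) * (⟨((⟨(s : G)⁻¹, Q.inv_mem s.2⟩ : Q) : G), hQL (Q.inv_mem s.2)⟩ : L) = y := by
        apply Subtype.ext
        simp
      rwa [h3] at h2
  -- the average over a coset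
  set N := Fintype.card Q with hN
  have hNcard : Nat.card Q = N := Nat.card_eq_fintype_card
  have hNpos : 0 < N := Fintype.card_pos
  have hNR : (0 : ℝ) < N := by exact_mod_cast hNpos
  have hmpos : 0 < m := by
    rcases Nat.eq_zero_or_pos m with h0 | h0
    · rw [h0, mul_zero] at hm
      exact absurd hm Nat.card_pos.ne'
    · exact h0
  have hmR : (0 : ℝ) < m := by exact_mod_cast hmpos
  have hMeq : (Nat.card K : ℝ) / (Nat.card D : ℝ) = m := by
    rw [hm]
    push_cast
    have := hpos D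
    field_simp
  set μ : ℝ := (m : ℝ) ^ (((p : ℝ) - 1) / p) with hμ
  have hμpos : 0 < μ := Real.rpow_pos_of_pos hmR _
  have havg : ∀ y ∈ SL, (N : ℝ) * μ ≤ ∑ s : Q, W (y * (⟨s, hQL s.2⟩ : L)) := by
    intro y hy
    have hyL : PE p y := (Finset.mem_filter.mp hy).2
    have hyG : PE p (y : G) := (hpe_coe y).mp hyL
    have hz : IsPGroup p (zpowers (y : G)) := isPGroup_zpowers_iff.mpr hyG
    have hsup : IsPGroup p ↥(zpowers (y : G) ⊔ Q) :=
      hz.to_sup_of_normal_right' hQ (Subgroup.zpowers_le.mpr y.2)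
    have hsup' : IsPGroup p ↥(Q ⊔ zpowers (y : G)) := by rwa [sup_comm]
    have hkey := key_ambient K Q (y : G) hK hsup'
      (by
        intro t _
        exact Subgroup.mem_normalizer_iff.mpr fun h => by
          constructor
          · intro hh; exact hKn.conj_mem h hh t
          · intro hh
            have := hKn.conj_mem _ hh t⁻¹
            simpa [mul_assoc] using this)
      y.2
    rw [hKCQ, hcentT (y : G), hNcard] at hkey
    have hle := Nat.le_of_dvd (Nat.pos_of_ne_zero (mul_ne_zero (pow_ne_zero _ Nat.card_pos.ne')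
      (pow_ne_zero _ Nat.card_pos.ne'))) hkey
    have hleR : (∏ s : Q, (Nat.card ↥(K ⊓ centralizer {(y : G) * (s : G)}) : ℝ)) ^ p *
        (Nat.card D : ℝ) ^ N ≤ (Nat.card K : ℝ) ^ N *
        (Nat.card ↥(D ⊓ centralizer {(y : G)}) : ℝ) ^ (p * N) := by
      exact_mod_cast hle
    have hav := real_avg (fun s : Q => (Nat.card ↥(K ⊓ centralizer {(y : G) * (s : G)}) : ℝ))
      (Nat.card K : ℝ) (Nat.card D : ℝ) (Nat.card ↥(D ⊓ centralizer {(y : G)}) : ℝ) p
      hp.out.pos (fun s => hpos _) (hpos K) (hpos D) (hpos _) hleR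
    rw [hMeq] at hav
    refine hav.trans (le_of_eq ?_)
    refine Finset.sum_congr rfl fun s _ => ?_
    show _ = ((Nat.card K : ℝ) / (Nat.card ↥(K ⊓ centralizer {(y : G) * (s : G)}) : ℝ)) /
      ((Nat.card D : ℝ) / (Nat.card ↥(D ⊓ centralizer {(y : G) * (s : G)}) : ℝ))
    rw [hcentD (y : G) s]
  -- sum up
  have hmain : (SL.card : ℝ) * μ ≤ S.card := by
    have h1 : (N : ℝ) * (S.card : ℝ) = ∑ s : Q, ∑ y ∈ SL, W (y * (⟨s, hQL s.2⟩ : L)) := by
      simp_rw [hshift]
      rw [hsum, Finset.sum_const, Finset.card_univ, nsmul_eq_mul]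
    have h2 : ∑ s : Q, ∑ y ∈ SL, W (y * (⟨s, hQL s.2⟩ : L)) =
        ∑ y ∈ SL, ∑ s : Q, W (y * (⟨s, hQL s.2⟩ : L)) := Finset.sum_comm
    have h3 : ∑ y ∈ SL, ((N : ℝ) * μ) ≤ ∑ y ∈ SL, ∑ s : Q, W (y * (⟨s, hQL s.2⟩ : L)) :=
      Finset.sum_le_sum havg
    rw [Finset.sum_const, nsmul_eq_mul, ← h2, ← h1] at h3
    have h4 : (N : ℝ) * ((SL.card : ℝ) * μ) ≤ (N : ℝ) * S.card := by
      calc (N : ℝ) * ((SL.card : ℝ) * μ) = (SL.card : ℝ) * ((N : ℝ) * μ) := by ring
        _ ≤ _ := h3
    exact le_of_mul_le_mul_left h4 hNR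
  have hfin : ((SL.card : ℝ) ^ p) * (m : ℝ) ^ (p - 1) ≤ (S.card : ℝ) ^ p := by
    rw [← mu_pow (m : ℝ) hmR p hp.out.pos, ← mul_pow]
    exact pow_le_pow_left₀ (mul_nonneg (Nat.cast_nonneg _) hμpos.le) hmain p
  exact_mod_cast hfin

end Cfsg.Agent.Lib.PGroups.PElem
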