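import Cfsg.Agent.Lib.PGroups.Parts

/-!
# Conjugacy classes of `π`-elements
-/

set_option autoImplicit false

universe u

namespace Cfsg.Agent.Lib.PGroups

open Subgroup

/-- The conjugacy classes of `π`-elements. -/
abbrev PiCl (π : Set ℕ) (G : Type*) [Group G] :=
  {C : ConjClasses G // ∀ q : ℕ, q.Prime → (∃ g : G, ConjClasses.mk g = C ∧ q ∣ orderOf g) → q ∈ π}

theorem piCl_mk_iff {π : Set ℕ} {G : Type*} [Group G] [Finite G] (g : G) :
    (∀ q : ℕ, q.Prime → (∃ g' : G, ConjClasses.mk g' = ConjClasses.mk g ∧ q ∣ orderOf g') → q ∈ π) ↔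
      ∀ q : ℕ, q.Prime → q ∣ orderOf g → q ∈ π := by
  constructor
  · intro h q hq hd
    exact h q hq ⟨g, rfl, hd⟩
  · rintro h q hq ⟨g', he, hd⟩
    apply h q hq
    have hc : IsConj g' g := ConjClasses.mk_eq_mk_iff_isConj.mp he
    obtain ⟨c, rfl⟩ := isConj_iff.mp hc
    rwa [orderOf_conj_eq]

/-- Bound on the number of classes of `π`-elements. -/
theorem card_piCl_le : ∀ (m : ℕ), 0 < m → ∀ (G : Type u) [Group G] [Finite G] (π : Set ℕ),
    (∀ q ∈ π, q.Prime → q ^ (Nat.card G).factorization q ∣ m) → Nat.card (PiCl π G) ≤ m := by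
  intro m
  induction m using Nat.strong_induction_on with
  | _ m ih =>
  intro hm G _ _ π hπ
  classical
  have hN : Nat.card G ≠ 0 := Nat.card_pos.ne'
  by_cases hex : ∃ p ∈ π, p.Prime ∧ p ∣ Nat.card G
  · obtain ⟨p, hpπ, hp, hpG⟩ := hex
    haveI : Fact p.Prime := ⟨hp⟩
    set a := (Nat.card G).factorization p with ha
    have hapos : 0 < a := hp.factorization_pos_of_dvd hN hpG
    obtain ⟨m', hm'⟩ := hπ p hpπ hp
    have hm'pos : 0 < m' := by
      rcases Nat.eq_zero_or_pos m' with h | h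
      · rw [h, mul_zero] at hm'; omega
      · exact h
    have hpa : 1 < p ^ a := Nat.one_lt_pow hapos.ne' hp.one_lt
    have hm'lt : m' < m := by
      rw [hm']
      nlinarith
    set π' : Set ℕ := π \ {p} with hπ'
    obtain ⟨P⟩ : Nonempty (Sylow p G) := inferInstance
    have hPcard : Nat.card P = p ^ a := Sylow.card_eq_multiplicity P
    haveI : Fintype P := Fintype.ofFinite P
    have hbound : ∀ u : P, Nat.card (PiCl π' (centralizer ({(u : G)} : Set G))) ≤ m' := by
      intro u
      apply ih m' hm'lt hm'pos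
      intro q hq hqp
      have hq1 : q ∈ π := hq.1
      have hq2 : q ≠ p := hq.2
      have h1 : Nat.card (centralizer ({(u : G)} : Set G)) ∣ Nat.card G := Subgroup.card_subgroup_dvd_card _
      have h2 : (Nat.card (centralizer ({(u : G)} : Set G))).factorization q ≤ (Nat.card G).factorization q :=
        (Nat.factorization_le_iff_dvd Nat.card_pos.ne' hN).mpr h1 q
      refine (pow_dvd_pow q h2).trans ?_
      have h3 := hπ q hq1 hqp
      rw [hm'] at h3
      have hcop : (q ^ (Nat.card G).factorization q).Coprime (p ^ a) :=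
        Nat.Coprime.pow _ _ ((Nat.coprime_primes hqp hp).mpr hq2)
      exact hcop.dvd_of_dvd_mul_left h3
    let f : (Σ u : P, PiCl π' (centralizer ({(u : G)} : Set G))) → ConjClasses G := fun s =>
      ConjClasses.mk ((s.1 : G) * ((Quotient.out s.2.1 : centralizer ({(s.1 : G)} : Set G)) : G))
    have key : ∀ c : PiCl π G, ∃ s, f s = c.1 := by
      rintro ⟨c, hc⟩
      obtain ⟨g, rfl⟩ := ConjClasses.mk_surjective c
      have hg := (piCl_mk_iff g).mp hc
      obtain ⟨a₀, b₀, e, hcomm, ⟨k, hk⟩, hb, -, hbz⟩ := exists_pPart p g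
      obtain ⟨Q, hQ⟩ := (isPGroup_zpowers_iff.mpr ⟨k, hk⟩).exists_le_sylow
      obtain ⟨t, ht⟩ := MulAction.exists_smul_eq G Q P
      set u₀ := t * a₀ * t⁻¹ with hu₀
      set v₀ := t * b₀ * t⁻¹ with hv₀
      have hu₀P : u₀ ∈ (P : Subgroup G) := by
        rw [← ht, Sylow.coe_subgroup_smul, Subgroup.mem_smul_pointwise_iff_exists]
        exact ⟨a₀, hQ (mem_zpowers a₀), by simp [MulAut.smul_def, MulAut.conj_apply, hu₀]⟩
      have hcomm' : u₀ * v₀ = v₀ * u₀ := by
        have : a₀ * b₀ = b₀ * a₀ := hcomm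
        calc u₀ * v₀ = t * (a₀ * b₀) * t⁻¹ := by rw [hu₀, hv₀]; group
          _ = t * (b₀ * a₀) * t⁻¹ := by rw [this]
          _ = v₀ * u₀ := by rw [hu₀, hv₀]; group
      have hv₀C : v₀ ∈ centralizer ({u₀} : Set G) := mem_centralizer_singleton_iff.mpr hcomm'.symm
      let U : P := ⟨u₀, hu₀P⟩
      let V : centralizer ({(U : G)} : Set G) := ⟨v₀, hv₀C⟩
      have hVπ : ∀ q : ℕ, q.Prime → q ∣ orderOf V → q ∈ π' := by
        intro q hq hd
        rw [Subgroup.orderOf_mk, hv₀, orderOf_conj_eq] at hd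
        refine ⟨hg q hq (hd.trans (orderOf_dvd_of_mem_zpowers hbz)), ?_⟩
        intro hqp
        rw [Set.mem_singleton_iff] at hqp
        exact hb (hqp ▸ hd)
      refine ⟨⟨U, ⟨ConjClasses.mk V, (piCl_mk_iff V).mpr hVπ⟩⟩, ?_⟩
      show ConjClasses.mk ((U : G) * ((Quotient.out (ConjClasses.mk V) : centralizer ({(U : G)} : Set G)) : G)) = _
      have h1 : ConjClasses.mk (Quotient.out (ConjClasses.mk V)) = ConjClasses.mk V := Quotient.out_eq _
      have h2 := ConjClasses.mk_eq_mk_iff_isConj.mp h1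
      obtain ⟨d, hd⟩ := isConj_iff.mp h2
      rw [ConjClasses.mk_eq_mk_iff_isConj]
      set w := (Quotient.out (ConjClasses.mk V) : centralizer ({(U : G)} : Set G)) with hw
      have hd' : (d : G) * (w : G) * (d : G)⁻¹ = v₀ := congrArg Subtype.val hd
      have hdU : (d : G) * u₀ = u₀ * (d : G) := mem_centralizer_singleton_iff.mp d.2
      have h3 : u₀ * (w : G) = (d : G)⁻¹ * (u₀ * v₀) * (d : G) := by
        rw [← hd']
        have h4 : (d : G)⁻¹ * u₀ = u₀ * (d : G)⁻¹ := by
          have := congrArg (fun z => (d : G)⁻¹ * z * (d : G)⁻¹) hdU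
          simpa [mul_assoc] using this.symm
        calc u₀ * (w : G) = u₀ * (d : G)⁻¹ * ((d : G) * (w : G) * (d : G)⁻¹) * (d : G) := by group
          _ = (d : G)⁻¹ * u₀ * ((d : G) * (w : G) * (d : G)⁻¹) * (d : G) := by rw [h4]
          _ = _ := by group
      have h5 : u₀ * v₀ = t * g * t⁻¹ := by
        rw [hu₀, hv₀, e]; group
      show IsConj (u₀ * (w : G)) g
      rw [h3, h5, isConj_iff]
      exact ⟨t⁻¹ * (d : G), by group⟩
    choose F hF using key
    have hinj : Function.Injective F := by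
      intro c c' h
      apply Subtype.ext
      rw [← hF c, ← hF c', h]
    calc Nat.card (PiCl π G) ≤ Nat.card (Σ u : P, PiCl π' (centralizer ({(u : G)} : Set G))) :=
          Nat.card_le_card_of_injective F hinj
      _ = ∑ u : P, Nat.card (PiCl π' (centralizer ({(u : G)} : Set G))) := Nat.card_sigma
      _ ≤ ∑ _u : P, m' := Finset.sum_le_sum (fun u _ => hbound u)
      _ = m := by
        rw [Finset.sum_const, Finset.card_univ, smul_eq_mul, ← Nat.card_eq_fintype_card, hPcard, hm']
  · push Not at hex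
    have hsub : Subsingleton (PiCl π G) := by
      have hone : ∀ c : PiCl π G, c.1 = ConjClasses.mk 1 := by
        rintro ⟨c, hc⟩
        obtain ⟨g, rfl⟩ := ConjClasses.mk_surjective c
        have hg := (piCl_mk_iff g).mp hc
        have h1 : orderOf g = 1 := by
          by_contra hne
          obtain ⟨q, hq, hqd⟩ := Nat.exists_prime_and_dvd hne
          exact hex q (hg q hq hqd) hq (hqd.trans (orderOf_dvd_natCard g))
        show ConjClasses.mk g = ConjClasses.mk 1
        rw [orderOf_eq_one_iff.mp h1]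
      exact ⟨fun a b => Subtype.ext ((hone a).trans (hone b).symm)⟩
    calc Nat.card (PiCl π G) ≤ 1 := Finite.card_le_one_iff_subsingleton.mpr hsub
      _ ≤ m := hm

end Cfsg.Agent.Lib.PGroups
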