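import Cfsg.Agent.Lib.PGroups.PiClasses
import Cfsg.Agent.Lib.PGroups.Frobenius

/-!
# `k_π(G) ≤ k_π(N) k_π(G/N)`
-/

set_option autoImplicit false

universe u

namespace Cfsg.Agent.Lib.PGroups

open Subgroup MulAction

theorem exists_pi_split (n : ℕ) (hn : n ≠ 0) (π : Set ℕ) :
    ∃ s t : ℕ, s * t = n ∧ s.Coprime t ∧ (∀ q : ℕ, q.Prime → q ∣ s → q ∈ π) ∧
      (∀ q : ℕ, q.Prime → q ∣ t → q ∉ π) := by
  classical
  let f : ℕ → ℕ := fun p => p ^ n.factorization p
  refine ⟨∏ p ∈ n.primeFactors.filter (· ∈ π), f p, ∏ p ∈ n.primeFactors.filter (· ∉ π), f p,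
    ?_, ?_, ?_, ?_⟩
  · rw [Finset.prod_filter_mul_prod_filter_not]
    exact Nat.prod_factorization_pow_eq_self hn
  · apply Nat.Coprime.prod_left
    intro p hp
    apply Nat.Coprime.prod_right
    intro q hq
    obtain ⟨hp1, hp2⟩ := Finset.mem_filter.mp hp
    obtain ⟨hq1, hq2⟩ := Finset.mem_filter.mp hq
    have hpq : p ≠ q := fun h => hq2 (h ▸ hp2)
    exact Nat.Coprime.pow _ _ ((Nat.coprime_primes (Nat.prime_of_mem_primeFactors hp1)
      (Nat.prime_of_mem_primeFactors hq1)).mpr hpq)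
  · intro r hr hd1
    obtain ⟨p, hp, hrp⟩ := (Prime.dvd_finsetProd_iff hr.prime _).mp hd1
    obtain ⟨hp1, hp2⟩ := Finset.mem_filter.mp hp
    have := (Nat.prime_dvd_prime_iff_eq hr (Nat.prime_of_mem_primeFactors hp1)).mp
      (hr.dvd_of_dvd_pow hrp)
    rwa [this]
  · intro r hr hd1
    obtain ⟨p, hp, hrp⟩ := (Prime.dvd_finsetProd_iff hr.prime _).mp hd1
    obtain ⟨hp1, hp2⟩ := Finset.mem_filter.mp hp
    have := (Nat.prime_dvd_prime_iff_eq hr (Nat.prime_of_mem_primeFactors hp1)).mp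
      (hr.dvd_of_dvd_pow hrp)
    rwa [this]

variable {G : Type*} [Group G] [Finite G]

theorem pow_s_iff {s t : ℕ} (hst : s * t = Nat.card G) (hc : s.Coprime t) {π : Set ℕ}
    (hs : ∀ q : ℕ, q.Prime → q ∣ s → q ∈ π) (ht : ∀ q : ℕ, q.Prime → q ∣ t → q ∉ π) (y : G) :
    y ^ s = 1 ↔ ∀ q : ℕ, q.Prime → q ∣ orderOf y → q ∈ π := by
  constructor
  · intro h q hq hd
    exact hs q hq (hd.trans (orderOf_dvd_of_pow_eq_one h))
  · intro h
    have h1 : orderOf y ∣ s * t := by rw [hst]; exact orderOf_dvd_natCard y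
    have h2 : (orderOf y).Coprime t := by
      apply Nat.coprime_of_dvd
      intro q hq hd1 hd2
      exact ht q hq hd2 (h q hq hd1)
    exact orderOf_dvd_iff_pow_eq_one.mp (h2.dvd_of_dvd_mul_right h1)

theorem card_pairs_eq {A X : Type*} [Group A] [MulAction A X] :
    Nat.card {ab : A × X // ab.1 • ab.2 = ab.2} = Nat.card (orbitRel.Quotient A X) * Nat.card A := by
  rw [← Nat.card_prod]
  exact Nat.card_congr ((Equiv.subtypeProdEquivSigmaSubtype _).trans (sigmaFixedByEquivOrbitsProdGroup A X))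

/-- The `N`-set of elements of the coset `xN` with `y ^ s = 1`. -/
abbrev CosA (N : Subgroup G) (s : ℕ) (x : G) := {y : G // x⁻¹ * y ∈ N ∧ y ^ s = 1}

/-- The `N`-set of elements of `N` with `w ^ s = 1`. -/
abbrev CosB (N : Subgroup G) (s : ℕ) := {w : N // w ^ s = 1}

omit [Finite G] in
theorem cosA_conj_mem {N : Subgroup G} [hN : N.Normal] {s : ℕ} {x : G} (n : N) (y : CosA N s x) :
    x⁻¹ * ((n : G) * y.1 * (n : G)⁻¹) ∈ N ∧ ((n : G) * y.1 * (n : G)⁻¹) ^ s = 1 := by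
  constructor
  · have h1 : x⁻¹ * (n : G) * x ∈ N := by
      have := hN.conj_mem _ n.2 x⁻¹
      simpa using this
    have h2 : (n : G)⁻¹ ∈ N := N.inv_mem n.2
    have e : x⁻¹ * ((n : G) * y.1 * (n : G)⁻¹) =
        (x⁻¹ * (n : G) * x) * (x⁻¹ * y.1) * (n : G)⁻¹ := by group
    rw [e]
    exact N.mul_mem (N.mul_mem h1 y.2.1) h2
  · rw [conj_pow, y.2.2, mul_one, mul_inv_cancel]

@[instance_reducible] noncomputable def actCosA (N : Subgroup G) [N.Normal] (s : ℕ) (x : G) : MulAction N (CosA N s x) where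
  smul n y := ⟨(n : G) * y.1 * (n : G)⁻¹, cosA_conj_mem n y⟩
  one_smul y := Subtype.ext (by
    show ((1 : N) : G) * y.1 * ((1 : N) : G)⁻¹ = y.1
    simp)
  mul_smul a b y := Subtype.ext (by
    show ((a * b : N) : G) * y.1 * ((a * b : N) : G)⁻¹ = (a : G) * ((b : G) * y.1 * (b : G)⁻¹) * (a : G)⁻¹
    simp only [Subgroup.coe_mul, mul_inv_rev]
    group)

@[instance_reducible] noncomputable def actCosB (N : Subgroup G) (s : ℕ) : MulAction N (CosB N s) where
  smul n y := ⟨n * y.1 * n⁻¹, by rw [conj_pow, y.2, mul_one, mul_inv_cancel]⟩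
  one_smul y := Subtype.ext (by
    show (1 : N) * y.1 * (1 : N)⁻¹ = y.1
    simp)
  mul_smul a b y := Subtype.ext (by
    show (a * b) * y.1 * (a * b)⁻¹ = a * (b * y.1 * b⁻¹) * a⁻¹
    group)

attribute [local instance] actCosA actCosB

/-- Key inequality: the number of `N`-classes of `s`-elements in a coset `xN` is at most the
number of `N`-classes of `s`-elements of `N`. -/
theorem card_orbits_cosA_le (N : Subgroup G) [N.Normal] {s t : ℕ} (hc : s.Coprime t)
    (hall : ∀ g : G, g ^ (s * t) = 1) (x : G) :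
    Nat.card (orbitRel.Quotient N (CosA N s x)) ≤ Nat.card (orbitRel.Quotient N (CosB N s)) := by
  classical
  obtain ⟨α, hα1, hα2⟩ : ∃ α : ℕ, α ≡ 1 [MOD s] ∧ α ≡ 0 [MOD t] :=
    ⟨Nat.chineseRemainder hc 1 0, (Nat.chineseRemainder hc 1 0).2⟩
  obtain ⟨β, hβ1, hβ2⟩ : ∃ β : ℕ, β ≡ 0 [MOD s] ∧ β ≡ 1 [MOD t] :=
    ⟨Nat.chineseRemainder hc 0 1, (Nat.chineseRemainder hc 0 1).2⟩
  have hcrt : ∀ a b : ℕ, a ≡ b [MOD s] → a ≡ b [MOD t] → a ≡ b [MOD s * t] := fun a b h1 h2 =>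
    (Nat.modEq_and_modEq_iff_modEq_mul hc).mp ⟨h1, h2⟩
  have hsum : ∀ g : G, g ^ α * g ^ β = g := by
    intro g
    rw [← pow_add]
    have h1 : α + β ≡ 1 [MOD s * t] := hcrt _ _ (by simpa using hα1.add hβ1) (by simpa using hα2.add hβ2)
    rw [pow_eq_of_modEq (hall g) h1, pow_one]
  have hαβ : ∀ g : G, (g ^ β) ^ α = 1 := by
    intro g
    rw [← pow_mul]
    have h1 : β * α ≡ 0 [MOD s * t] := hcrt _ _ (by simpa using hβ1.mul_right α) (by simpa using hα2.mul_left β)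
    rw [pow_eq_of_modEq (hall g) h1, pow_zero]
  have hαs : ∀ g : G, (g ^ α) ^ s = 1 := by
    intro g
    rw [← pow_mul]
    have h1 : α * s ≡ 0 [MOD s * t] := hcrt _ _ (by simpa using (Nat.modEq_zero_iff_dvd.mpr (dvd_refl s)).mul_left α)
      (by simpa using hα2.mul_right s)
    rw [pow_eq_of_modEq (hall g) h1, pow_zero]
  have hyα : ∀ y : G, y ^ s = 1 → y ^ α = y := by
    intro y hy
    rw [pow_eq_of_modEq hy hα1, pow_one]
  -- the chosen elements of the coset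
  let g₀ : G → G := fun w => if h : ∃ g : G, x⁻¹ * g ∈ N ∧ g * w = w * g then Classical.choose h else 1
  have hg₀ : ∀ w g : G, x⁻¹ * g ∈ N → g * w = w * g → x⁻¹ * g₀ w ∈ N ∧ g₀ w * w = w * g₀ w := by
    intro w g h1 h2
    have hex : ∃ g : G, x⁻¹ * g ∈ N ∧ g * w = w * g := ⟨g, h1, h2⟩
    have : g₀ w = Classical.choose hex := dif_pos hex
    rw [this]
    exact Classical.choose_spec hex
  -- basic facts on a pair
  have hcomm : ∀ p : {ab : N × CosA N s x // ab.1 • ab.2 = ab.2}, ((p.1.1 : G)) * p.1.2.1 = p.1.2.1 * (p.1.1 : G) := by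
    intro p
    have h1 : (p.1.1 : G) * p.1.2.1 * (p.1.1 : G)⁻¹ = p.1.2.1 := congrArg Subtype.val p.2
    rw [mul_inv_eq_iff_eq_mul] at h1
    exact h1
  have hwcomm : ∀ p : {ab : N × CosA N s x // ab.1 • ab.2 = ab.2},
      Commute (p.1.2.1 * (p.1.1 : G) ^ β) ((p.1.1 : G) ^ α) := by
    intro p
    have h1 : Commute (p.1.2.1) (p.1.1 : G) := (hcomm p).symm
    exact (h1.pow_right α).mul_left ((Commute.refl (p.1.1 : G)).pow_pow β α)
  have hcoset : ∀ p : {ab : N × CosA N s x // ab.1 • ab.2 = ab.2},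
      x⁻¹ * (p.1.2.1 * (p.1.1 : G) ^ β) ∈ N := by
    intro p
    rw [← mul_assoc]
    exact N.mul_mem p.1.2.2.1 (pow_mem p.1.1.2 β)
  have hg₀p := fun p => hg₀ _ _ (hcoset p) (hwcomm p)
  let Φ : {ab : N × CosA N s x // ab.1 • ab.2 = ab.2} → {ab : N × CosB N s // ab.1 • ab.2 = ab.2} := fun p =>
    ⟨(⟨(g₀ ((p.1.1 : G) ^ α))⁻¹ * (p.1.2.1 * (p.1.1 : G) ^ β), by
        have h1 := (hg₀p p).1
        have h2 := hcoset p
        have e : (g₀ ((p.1.1 : G) ^ α))⁻¹ * (p.1.2.1 * (p.1.1 : G) ^ β) =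
            (x⁻¹ * g₀ ((p.1.1 : G) ^ α))⁻¹ * (x⁻¹ * (p.1.2.1 * (p.1.1 : G) ^ β)) := by group
        rw [e]
        exact N.mul_mem (N.inv_mem h1) h2⟩,
      ⟨p.1.1 ^ α, by
        apply Subtype.ext
        exact hαs _⟩), by
      apply Subtype.ext
      apply Subtype.ext
      show ((g₀ ((p.1.1 : G) ^ α))⁻¹ * (p.1.2.1 * (p.1.1 : G) ^ β)) * (p.1.1 : G) ^ α *
        ((g₀ ((p.1.1 : G) ^ α))⁻¹ * (p.1.2.1 * (p.1.1 : G) ^ β))⁻¹ = (p.1.1 : G) ^ α
      have h1 := (hg₀p p).2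
      have h2 := (hwcomm p).eq
      have h3 : (g₀ ((p.1.1 : G) ^ α))⁻¹ * (p.1.1 : G) ^ α = (p.1.1 : G) ^ α * (g₀ ((p.1.1 : G) ^ α))⁻¹ := by
        have := congrArg (fun z => (g₀ ((p.1.1 : G) ^ α))⁻¹ * z * (g₀ ((p.1.1 : G) ^ α))⁻¹) h1
        simpa [mul_assoc] using this.symm
      rw [mul_inv_eq_iff_eq_mul, mul_assoc, h2, ← mul_assoc, h3, mul_assoc]⟩
  have hinj : Function.Injective Φ := by
    rintro p q h
    have h1 : (p.1.1 : G) ^ α = (q.1.1 : G) ^ α := by
      have := congrArg (fun r => ((r.1.2.1 : N) : G)) h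
      exact this
    have h2 : (g₀ ((p.1.1 : G) ^ α))⁻¹ * (p.1.2.1 * (p.1.1 : G) ^ β) =
        (g₀ ((q.1.1 : G) ^ α))⁻¹ * (q.1.2.1 * (q.1.1 : G) ^ β) := by
      have := congrArg (fun r => ((r.1.1 : N) : G)) h
      exact this
    rw [← h1] at h2
    have h3 : p.1.2.1 * (p.1.1 : G) ^ β = q.1.2.1 * (q.1.1 : G) ^ β := mul_left_cancel h2
    -- recover `y` by taking `α`-th powers
    have hy : ∀ r : {ab : N × CosA N s x // ab.1 • ab.2 = ab.2},
        (r.1.2.1 * (r.1.1 : G) ^ β) ^ α = r.1.2.1 := by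
      intro r
      have hc0 : Commute (r.1.2.1) (r.1.1 : G) := (hcomm r).symm
      have hc' : Commute (r.1.2.1) ((r.1.1 : G) ^ β) := hc0.pow_right β
      rw [hc'.mul_pow, hαβ, mul_one, hyα _ r.1.2.2.2]
    have h4 : p.1.2.1 = q.1.2.1 := by
      rw [← hy p, ← hy q, h3]
    have h5 : (p.1.1 : G) ^ β = (q.1.1 : G) ^ β := by
      rw [h4] at h3
      exact mul_left_cancel h3
    have h6 : (p.1.1 : G) = (q.1.1 : G) := by
      rw [← hsum (p.1.1 : G), ← hsum (q.1.1 : G), h1, h5]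
    apply Subtype.ext
    apply Prod.ext
    · exact Subtype.ext h6
    · exact Subtype.ext h4
  have h1 := Nat.card_le_card_of_injective Φ hinj
  rw [card_pairs_eq, card_pairs_eq] at h1
  exact Nat.le_of_mul_le_mul_right h1 Nat.card_pos

/-- `k_π(G) ≤ k_π(N) k_π(G/N)`. -/
theorem card_piCl_le_mul (N : Subgroup G) [hN : N.Normal] (π : Set ℕ) :
    Nat.card (PiCl π G) ≤ Nat.card (PiCl π N) * Nat.card (PiCl π (G ⧸ N)) := by
  classical
  obtain ⟨s, t, hst, hc, hs, ht⟩ := exists_pi_split (Nat.card G) Nat.card_pos.ne' π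
  have hall : ∀ g : G, g ^ (s * t) = 1 := by
    intro g
    rw [hst]
    exact pow_card_eq_one'
  have hpi := fun y : G => pow_s_iff hst hc hs ht y
  let π₀ := QuotientGroup.mk' N
  have hπ₀ : Function.Surjective π₀ := QuotientGroup.mk'_surjective N
  let f : PiCl π G → PiCl π (G ⧸ N) := fun c => ⟨ConjClasses.map π₀ c.1, by
    obtain ⟨c, hcc⟩ := c
    obtain ⟨g, rfl⟩ := ConjClasses.mk_surjective c
    have hg := (piCl_mk_iff g).mp hcc
    show ∀ q : ℕ, q.Prime → (∃ g' : G ⧸ N, ConjClasses.mk g' = ConjClasses.mk (π₀ g) ∧ q ∣ orderOf g') → q ∈ π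
    rw [piCl_mk_iff]
    intro q hq hd
    exact hg q hq (hd.trans (orderOf_map_dvd π₀ g))⟩
  -- bounding fibres
  have hfiber : ∀ cb : PiCl π (G ⧸ N), Nat.card {c // f c = cb} ≤ Nat.card (PiCl π N) := by
    intro cb
    by_cases hne : Nonempty {c // f c = cb}
    · obtain ⟨⟨⟨c₀, hc₀⟩, hf₀⟩⟩ := hne
      obtain ⟨x, rfl⟩ := ConjClasses.mk_surjective c₀
      -- every class in the fibre meets `CosA`
      have hrep : ∀ c : {c // f c = cb}, ∃ y : CosA N s x, ConjClasses.mk y.1 = c.1.1 := by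
        rintro ⟨⟨c, hcc⟩, hf⟩
        obtain ⟨g₁, rfl⟩ := ConjClasses.mk_surjective c
        have hg₁ := (piCl_mk_iff g₁).mp hcc
        have h1 : ConjClasses.mk (π₀ g₁) = ConjClasses.mk (π₀ x) := by
          have := congrArg Subtype.val (hf.trans hf₀.symm)
          exact this
        have h2 := ConjClasses.mk_eq_mk_iff_isConj.mp h1
        obtain ⟨hb0, hhb⟩ := isConj_iff.mp h2
        obtain ⟨h, rfl⟩ := hπ₀ hb0
        have hy : (h * g₁ * h⁻¹) ^ s = 1 := by
          rw [conj_pow, (hpi g₁).mpr hg₁, mul_one, mul_inv_cancel]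
        have hmem : x⁻¹ * (h * g₁ * h⁻¹) ∈ N := by
          have h3 : π₀ (h * g₁ * h⁻¹) = π₀ x := by
            simpa using hhb
          exact QuotientGroup.eq.mp h3.symm
        refine ⟨⟨h * g₁ * h⁻¹, hmem, hy⟩, ?_⟩
        rw [ConjClasses.mk_eq_mk_iff_isConj, isConj_iff]
        exact ⟨h⁻¹, by group⟩
      choose Y hY using hrep
      let Ψ₁ : {c // f c = cb} → orbitRel.Quotient N (CosA N s x) := fun c => Quotient.mk _ (Y c)
      have hΨ₁ : Function.Injective Ψ₁ := by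
        intro c c' h
        have h1 : (Y c) ∈ orbit N (Y c') := Quotient.exact h
        obtain ⟨n, hn⟩ := h1
        have h2 : (n : G) * (Y c').1 * (n : G)⁻¹ = (Y c).1 := congrArg Subtype.val hn
        apply Subtype.ext
        apply Subtype.ext
        rw [← hY c, ← hY c', ConjClasses.mk_eq_mk_iff_isConj, isConj_iff]
        exact ⟨(n : G)⁻¹, by rw [← h2]; group⟩
      -- orbits on `CosB` give classes
      let Ψ₂ : orbitRel.Quotient N (CosB N s) → PiCl π N := fun ω =>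
        ⟨ConjClasses.mk (Quotient.out ω).1, by
          rw [piCl_mk_iff]
          intro q hq hd
          rw [← Subgroup.orderOf_coe] at hd
          apply (hpi _).mp _ q hq hd
          have := congrArg Subtype.val (Quotient.out ω).2
          simpa using this⟩
      have hΨ₂ : Function.Injective Ψ₂ := by
        intro ω ω' h
        have h1 : ConjClasses.mk (Quotient.out ω).1 = ConjClasses.mk (Quotient.out ω').1 :=
          congrArg Subtype.val h
        obtain ⟨n, hn⟩ := isConj_iff.mp (ConjClasses.mk_eq_mk_iff_isConj.mp h1)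
        have h2 : (Quotient.out ω') ∈ orbit N (Quotient.out ω) := ⟨n, Subtype.ext hn⟩
        have h3 : (Quotient.mk _ (Quotient.out ω') : orbitRel.Quotient N (CosB N s)) =
            Quotient.mk _ (Quotient.out ω) := Quotient.sound h2
        rw [Quotient.out_eq, Quotient.out_eq] at h3
        exact h3.symm
      calc Nat.card {c // f c = cb} ≤ Nat.card (orbitRel.Quotient N (CosA N s x)) :=
            Nat.card_le_card_of_injective Ψ₁ hΨ₁
        _ ≤ Nat.card (orbitRel.Quotient N (CosB N s)) := card_orbits_cosA_le N hc hall x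
        _ ≤ Nat.card (PiCl π N) := Nat.card_le_card_of_injective Ψ₂ hΨ₂
    · haveI : IsEmpty {c // f c = cb} := not_nonempty_iff.mp hne
      rw [Nat.card_of_isEmpty]
      exact Nat.zero_le _
  haveI : Fintype (PiCl π (G ⧸ N)) := Fintype.ofFinite _
  calc Nat.card (PiCl π G) = Nat.card (Σ cb : PiCl π (G ⧸ N), {c // f c = cb}) :=
        Nat.card_congr (Equiv.sigmaFiberEquiv f).symm
    _ = ∑ cb : PiCl π (G ⧸ N), Nat.card {c // f c = cb} := Nat.card_sigma
    _ ≤ ∑ _cb : PiCl π (G ⧸ N), Nat.card (PiCl π N) := Finset.sum_le_sum (fun cb _ => hfiber cb)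
    _ = Nat.card (PiCl π N) * Nat.card (PiCl π (G ⧸ N)) := by
      rw [Finset.sum_const, Finset.card_univ, smul_eq_mul, ← Nat.card_eq_fintype_card, mul_comm]

end Cfsg.Agent.Lib.PGroups
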