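import Cfsg.Agent.Lib.Coprime.Sylow
import Cfsg.Agent.Lib.PGroups.Parts

/-!
# `π`-closed groups under the hypothesis that `N(H)/C(H)` is a `π'`-group for all `π'`-subgroups.
-/

set_option autoImplicit false

universe u

namespace Cfsg.Agent.Lib.PGroups

open Subgroup

/-- `π`-elements. -/
def PiElt (π : Set ℕ) {G : Type*} [Group G] (x : G) : Prop :=
  ∀ p : ℕ, p.Prime → p ∣ orderOf x → p ∈ π

/-- `π`-elements form a subgroup. -/
def PiClosed (π : Set ℕ) (G : Type*) [Group G] : Prop :=
  ∃ K : Subgroup G, ∀ x : G, x ∈ K ↔ PiElt π x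

/-- `π`-elements normalizing a `π'`-subgroup centralize it. -/
def HomogA (π : Set ℕ) (G : Type*) [Group G] : Prop :=
  ∀ H : Subgroup G, (∀ p : ℕ, p.Prime → p ∣ Nat.card H → p ∉ π) → ∀ y : G, PiElt π y →
    y ∈ normalizer (H : Set G) → y ∈ centralizer (H : Set G)

variable {π : Set ℕ} {G : Type*} [Group G] 

theorem PiElt.of_dvd {Y : Type*} [Group Y] {x : G} {y : Y} (hx : PiElt π x)
    (h : orderOf y ∣ orderOf x) : PiElt π y :=
  fun p hp hd => hx p hp (hd.trans h)

theorem PiElt.map {Y : Type*} [Group Y] {x : G} (hx : PiElt π x) (f : G →* Y) : PiElt π (f x) :=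
  hx.of_dvd (orderOf_map_dvd f x)

theorem eq_one_of_both {x : G} (h1 : PiElt π x)
    (h2 : ∀ p : ℕ, p.Prime → p ∣ orderOf x → p ∉ π) : x = 1 := by
  by_contra hne
  have hne' : orderOf x ≠ 1 := fun h => hne (orderOf_eq_one_iff.mp h)
  obtain ⟨r, hr, hd⟩ := Nat.exists_prime_and_dvd hne'
  exact h2 r hr hd (h1 r hr hd)

theorem map_piPrime_eq_one {Y : Type*} [Group Y] (f : G →* Y) {x b : G} (hfx : PiElt π (f x))
    (hb : b ∈ zpowers x) (hb' : ∀ r : ℕ, r.Prime → r ∣ orderOf b → r ∉ π) : f b = 1 := by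
  apply eq_one_of_both (π := π)
  · apply hfx.of_dvd
    apply orderOf_dvd_of_mem_zpowers
    have := Subgroup.mem_map_of_mem f hb
    rwa [MonoidHom.map_zpowers] at this
  · intro p hp hd
    exact hb' p hp (hd.trans (orderOf_map_dvd f b))

theorem centralizer_subgroupOf_normalizer_normal (H : Subgroup G) :
    ((centralizer (H : Set G)).subgroupOf (normalizer (H : Set G))).Normal := by
  constructor
  rintro ⟨c, hcN⟩ hc ⟨n, hn⟩
  rw [Subgroup.mem_subgroupOf] at hc ⊢
  show n * c * n⁻¹ ∈ centralizer (H : Set G)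
  rw [Subgroup.mem_centralizer_iff]
  intro h hh
  have h2 : n⁻¹ * h * n ∈ H := by
    have := (Subgroup.mem_normalizer_iff.mp (inv_mem hn) h).mp hh
    simpa using this
  have hc' : c ∈ centralizer (H : Set G) := hc
  have h4 := (Subgroup.mem_centralizer_iff.mp hc') _ h2
  have h5 : h * (n * c * n⁻¹) = n * ((n⁻¹ * h * n) * c) * n⁻¹ := by group
  have h6 : n * c * n⁻¹ * h = n * (c * (n⁻¹ * h * n)) * n⁻¹ := by group
  rw [h5, h6, h4]

variable [Finite G]

theorem homogA_of_hom (hom : ∀ H : Subgroup G, H ≠ ⊥ → (∀ p : ℕ, p.Prime → p ∣ Nat.card ↥H → p ∉ π) →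
    ∀ p : ℕ, p.Prime → p ∣ (centralizer (H : Set G)).relIndex (normalizer (H : Set G)) → p ∉ π) :
    HomogA π G := by
  intro H hH y hy hyN
  by_cases hb : H = ⊥
  · subst hb
    rw [Subgroup.mem_centralizer_iff]
    intro h hh
    have : h = 1 := by simpa using hh
    simp [this]
  · by_contra hyC
    haveI := centralizer_subgroupOf_normalizer_normal H
    let yb : normalizer (H : Set G) ⧸ (centralizer (H : Set G)).subgroupOf (normalizer (H : Set G)) :=
      QuotientGroup.mk ⟨y, hyN⟩
    have hne : yb ≠ 1 := by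
      intro he
      have := (QuotientGroup.eq_one_iff _).mp he
      rw [Subgroup.mem_subgroupOf] at this
      exact hyC this
    have hne' : orderOf yb ≠ 1 := fun h => hne (orderOf_eq_one_iff.mp h)
    obtain ⟨r, hr, hd⟩ := Nat.exists_prime_and_dvd hne'
    have h1 : r ∈ π := by
      apply hy r hr
      refine hd.trans ?_
      have h2 := orderOf_map_dvd (QuotientGroup.mk' ((centralizer (H : Set G)).subgroupOf (normalizer (H : Set G))))
        (⟨y, hyN⟩ : normalizer (H : Set G))
      have h3 : orderOf (⟨y, hyN⟩ : normalizer (H : Set G)) = orderOf y := Subgroup.orderOf_mk y hyN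
      rwa [h3] at h2
    have h2 : r ∣ (centralizer (H : Set G)).relIndex (normalizer (H : Set G)) :=
      hd.trans (orderOf_dvd_natCard yb)
    exact hom H hb hH r hr h2 h1

theorem PiClosed.of_quotient (L : Subgroup G) [L.Normal] (hL : ∀ x ∈ L, PiElt π x)
    (h : PiClosed π (G ⧸ L)) : PiClosed π G := by
  obtain ⟨M, hM⟩ := h
  refine ⟨M.comap (QuotientGroup.mk' L), fun x => ?_⟩
  rw [Subgroup.mem_comap, hM]
  constructor
  · intro hx p hp hd
    set m := orderOf (QuotientGroup.mk' L x) with hm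
    have h1 : x ^ m ∈ L := by
      rw [← QuotientGroup.eq_one_iff, ← QuotientGroup.mk'_apply, map_pow, hm, pow_orderOf_eq_one]
    have h2 : x ^ (m * orderOf (x ^ m)) = 1 := by rw [pow_mul, pow_orderOf_eq_one]
    have h3 := hd.trans (orderOf_dvd_of_pow_eq_one h2)
    rcases (Nat.Prime.dvd_mul hp).mp h3 with h4 | h4
    · exact hx p hp h4
    · exact hL _ h1 p hp h4
  · intro hx
    exact hx.map _

theorem PiClosed.of_central {B : Type*} [Group B] [Finite B] (N : Subgroup B) [hNn : N.Normal]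
    (hN : ∀ p : ℕ, p.Prime → p ∣ Nat.card N → p ∉ π) {Y : Type*} [Group Y] (f : B →* Y)
    (hker : f.ker = N) (hY : PiClosed π Y)
    (hcentral : ∀ x : B, PiElt π x → ∀ n ∈ N, x * n = n * x) : PiClosed π B := by
  obtain ⟨M, hM⟩ := hY
  set E : Subgroup B := centralizer (N : Set B) ⊓ M.comap f with hE
  let Z : Subgroup E := N.subgroupOf E
  haveI : Z.Normal := hNn.subgroupOf E
  have hZ1 : ∀ p : ℕ, p.Prime → p ∣ Nat.card Z → p ∉ π := by
    intro p hp hd
    haveI : Fact p.Prime := ⟨hp⟩
    obtain ⟨z, hz⟩ := exists_prime_orderOf_dvd_card' p hd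
    apply hN p hp
    have hz1 : ((z : E) : B) ∈ N := z.2
    have h2 : orderOf (⟨((z : E) : B), hz1⟩ : N) = p := by
      rw [Subgroup.orderOf_mk, Subgroup.orderOf_coe, Subgroup.orderOf_coe, hz]
    rw [← h2]
    exact orderOf_dvd_natCard _
  have hZ2 : ∀ p : ℕ, p.Prime → p ∣ Z.index → p ∈ π := by
    intro p hp hd
    haveI : Fact p.Prime := ⟨hp⟩
    obtain ⟨zb, hz⟩ := exists_prime_orderOf_dvd_card' p (show p ∣ Nat.card (E ⧸ Z) from hd)
    obtain ⟨e, rfl⟩ := QuotientGroup.mk'_surjective Z zb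
    have h1 : f (e : B) ∈ M := e.2.2
    rw [hM] at h1
    apply h1 p hp
    set m := orderOf (f (e : B)) with hm
    have h2 : ((e ^ m : E) : B) ∈ N := by
      rw [← hker, MonoidHom.mem_ker]
      simp [hm, pow_orderOf_eq_one]
    have h3 : e ^ m ∈ Z := h2
    have h4 : QuotientGroup.mk' Z e ^ m = 1 := by
      rw [← map_pow]
      exact (QuotientGroup.eq_one_iff _).mpr h3
    rw [← hz]
    exact orderOf_dvd_of_pow_eq_one h4
  have hcop : (Nat.card Z).Coprime Z.index := by
    apply Nat.coprime_of_dvd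
    intro p hp h1 h2
    exact hZ1 p hp h1 (hZ2 p hp h2)
  obtain ⟨T, hT⟩ := Subgroup.exists_right_complement'_of_coprime hcop
  have hTcard : T.index = Nat.card Z := hT.index_eq_card
  have hTcard2 : Z.index = Nat.card T := hT.symm.index_eq_card
  refine ⟨T.map E.subtype, fun x => ?_⟩
  constructor
  · rintro ⟨t, ht, rfl⟩ p hp hd
    apply hZ2 p hp
    rw [hTcard2]
    have h1 : orderOf (t : B) = orderOf t := Subgroup.orderOf_coe t
    have h2 : orderOf (⟨t, ht⟩ : T) = orderOf t := Subgroup.orderOf_mk t ht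
    have h3 : orderOf (⟨t, ht⟩ : T) ∣ Nat.card T := orderOf_dvd_natCard _
    rw [h2] at h3
    refine Dvd.dvd.trans ?_ h3
    have h5 : p ∣ orderOf ((E.subtype t : B)) := hd
    have h6 : (E.subtype t : B) = (t : B) := rfl
    rw [h6, h1] at h5
    exact h5
  · intro hx
    have hxE : x ∈ E := by
      refine ⟨?_, ?_⟩
      · show x ∈ centralizer (N : Set B)
        rw [Subgroup.mem_centralizer_iff]
        intro n hn
        exact (hcentral x hx n hn).symm
      · show f x ∈ M
        rw [hM]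
        exact hx.map f
    obtain ⟨⟨n, t⟩, hnt⟩ := hT.2 ⟨x, hxE⟩
    have hnt' : ((n : E) : B) * ((t : E) : B) = x := congrArg Subtype.val hnt
    have hn : ((n : E) : B) ∈ N := n.2
    have htE : ((t : E) : B) ∈ centralizer (N : Set B) := (t : E).2.1
    have hcomm : Commute ((n : E) : B) ((t : E) : B) := (Subgroup.mem_centralizer_iff.mp htE) _ hn
    set m := Nat.card T with hm
    have hxm : x ^ m = ((n : E) : B) ^ m := by
      rw [← hnt', hcomm.mul_pow]
      have : ((t : E) : B) ^ m = 1 := by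
        have h1 : (t : T) ^ m = 1 := by
          rw [hm]; exact pow_card_eq_one'
        have h2 := congrArg (fun z : T => ((z : E) : B)) h1
        simpa using h2
      rw [this, mul_one]
    have hnN : ∀ p : ℕ, p.Prime → p ∣ orderOf ((n : E) : B) → p ∉ π := by
      intro p hp hd
      apply hN p hp
      have h2 : orderOf (⟨((n : E) : B), hn⟩ : N) = orderOf ((n : E) : B) := Subgroup.orderOf_mk _ _
      rw [← h2] at hd
      exact hd.trans (orderOf_dvd_natCard _)
    have hone : x ^ m = 1 := by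
      apply eq_one_of_both (π := π)
      · exact hx.of_dvd (orderOf_pow_dvd _)
      · intro p hp hd
        rw [hxm] at hd
        exact hnN p hp (hd.trans (orderOf_pow_dvd _))
    have hnm : ((n : E) : B) ^ m = 1 := by rw [← hxm, hone]
    have hn1 : ((n : E) : B) = 1 := by
      apply eq_one_of_both (π := π) _ hnN
      intro p hp hd
      apply hZ2 p hp
      rw [hTcard2]
      exact hd.trans (orderOf_dvd_of_pow_eq_one hnm)
    rw [hn1, one_mul] at hnt'
    exact ⟨t, t.2, hnt'⟩

/-- The heart of the matter: a `π`-element acts trivially on a normal section which is a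
`π'`-group. -/
theorem commute_mod (hA : HomogA π G) (K L : Subgroup G) [hKn : K.Normal] [hLn : L.Normal] (hLK : L ≤ K)
    (hL : ∀ x ∈ L, PiElt π x)
    (hNπ : ∀ p : ℕ, p.Prime → p ∣ Nat.card (K.map (QuotientGroup.mk' L)) → p ∉ π) (x : G)
    (hx : PiElt π x) : ∀ n ∈ K.map (QuotientGroup.mk' L),
      QuotientGroup.mk' L x * n = n * QuotientGroup.mk' L x := by
  set f := QuotientGroup.mk' L with hf
  have hfs : Function.Surjective f := QuotientGroup.mk'_surjective L
  have hker : f.ker = L := QuotientGroup.ker_mk' L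
  set N := K.map f with hN
  haveI hNnorm : N.Normal := hKn.map f hfs
  have hfx : PiElt π (f x) := hx.map f
  have hCA : Lib.Coprime.CoprimeAction (zpowers (f x)) N := by
    refine ⟨?_, ?_, Or.inl ?_⟩
    · rw [normalizer_eq_top_iff.mpr hNnorm]; exact le_top
    · rw [Nat.card_zpowers]
      apply Nat.coprime_of_dvd
      intro r hr h1 h2
      exact hNπ r hr h2 (hfx r hr h1)
    · exact Group.isSolvable_of_comm (fun a b => by
        obtain ⟨_, i, rfl⟩ := a
        obtain ⟨_, j, rfl⟩ := b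
        apply Subtype.ext
        exact ((Commute.refl (f x)).zpow_zpow i j).eq)
  have hsyl : ∀ r : ℕ, r.Prime → r ∣ Nat.card N → ∃ Pb : Subgroup (G ⧸ L),
      ∃ _ : Fact r.Prime, Lib.Coprime.IsSylowOf r Pb N ∧ ∀ p ∈ Pb, f x * p = p * f x := by
    intro r hr hrd
    have hrπ : r ∉ π := hNπ r hr hrd
    haveI : Fact r.Prime := ⟨hr⟩
    obtain ⟨Pb, hS, hAnorm⟩ := hCA.exists_invariant_sylow r
    refine ⟨Pb, ⟨hr⟩, hS, ?_⟩
    have hfxN : f x ∈ normalizer (Pb : Set (G ⧸ L)) := hAnorm (mem_zpowers _)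
    set W := Pb.comap f with hW
    have hLW : L ≤ W := by
      intro l hl
      show f l ∈ Pb
      have : f l = 1 := by rw [← MonoidHom.mem_ker, hker]; exact hl
      rw [this]; exact one_mem _
    obtain ⟨R, hR⟩ := Lib.Coprime.exists_isSylowOf r W
    have hxW : ∀ w ∈ W, x * w * x⁻¹ ∈ W := by
      intro w hw
      show f (x * w * x⁻¹) ∈ Pb
      rw [map_mul, map_mul, map_inv]
      exact (mem_normalizer_iff.mp hfxN _).mp hw
    have hxWle : R.map (MulAut.conj x).toMonoidHom ≤ W := by
      rintro _ ⟨z, hz, rfl⟩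
      exact hxW z (hR.le hz)
    have hR' : Lib.Coprime.IsSylowOf r (R.map (MulAut.conj x).toMonoidHom) W := by
      refine ⟨hxWle, Lib.Coprime.isPGroup_conj_map hR.isP x, ?_⟩
      have h1 := Lib.Coprime.card_mul_relIndex hxWle
      have h2 := Lib.Coprime.card_mul_relIndex hR.le
      rw [Lib.Coprime.card_conj_map] at h1
      have hpos : 0 < Nat.card R := Nat.card_pos
      have h3 : (R.map (MulAut.conj x).toMonoidHom).relIndex W = R.relIndex W :=
        Nat.eq_of_mul_eq_mul_left hpos (by rw [h1, h2])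
      rw [h3]
      exact hR.not_dvd
    obtain ⟨w, hw, hconj⟩ := hR.exists_conj hR'
    -- image of `R`
    have hRP : R.map f = Pb := by
      have hle : R.map f ≤ Pb := by
        rintro _ ⟨z, hz, rfl⟩
        exact hR.le hz
      refine (Lib.Coprime.eq_of_isPGroup_of_not_dvd_relIndex hle le_rfl hS.isP ?_).symm
      have h1 : ((R.map f).comap f).relIndex W = (R.map f).relIndex (W.map f) := Subgroup.relIndex_comap _ _ _
      have h2 : W.map f = Pb := Subgroup.map_comap_eq_self_of_surjective hfs _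
      rw [h2] at h1
      rw [← h1]
      have h3 : (R.map f).comap f = R ⊔ L := by
        rw [comap_map_eq, hker]
      rw [h3]
      have h4 : R ≤ R ⊔ L := le_sup_left
      have h5 : R ⊔ L ≤ W := sup_le hR.le hLW
      have h6 := Subgroup.relIndex_mul_relIndex R (R ⊔ L) W h4 h5
      intro hd
      exact hR.not_dvd (by rw [← h6]; exact Dvd.dvd.mul_left hd _)
    have hfw : f w ∈ R.map f := by
      rw [hRP]; exact hw
    obtain ⟨ρ, hρ, hρw⟩ := hfw
    set y := ρ * (w⁻¹ * x) with hy
    have hfy : f y = f x := by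
      rw [hy, map_mul, map_mul, map_inv, hρw]
      group
    have hyN : y ∈ normalizer (R : Set G) := by
      have h1 : (w⁻¹ * x) ∈ normalizer (R : Set G) := by
        apply Lib.PGroups.mem_normalizer_of_conj_le'
        intro z hz
        have h2 : x * z * x⁻¹ ∈ R.map (MulAut.conj x).toMonoidHom := ⟨z, hz, rfl⟩
        rw [hconj] at h2
        obtain ⟨z', hz', he⟩ := h2
        have he' : w * z' * w⁻¹ = x * z * x⁻¹ := he
        have : w⁻¹ * x * z * (w⁻¹ * x)⁻¹ = z' := by
          calc w⁻¹ * x * z * (w⁻¹ * x)⁻¹ = w⁻¹ * (x * z * x⁻¹) * w := by group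
            _ = w⁻¹ * (w * z' * w⁻¹) * w := by rw [he']
            _ = z' := by group
        rw [this]; exact hz'
      exact mul_mem (Subgroup.le_normalizer hρ) h1
    have hyπ : PiElt π y := by
      obtain ⟨a, b, e, -, ha, hb, -, hbz⟩ := exists_piPart π y
      have hfb : f b = 1 := map_piPrime_eq_one f (by rw [hfy]; exact hfx) hbz hb
      have hbL : b ∈ L := by rw [← hker, MonoidHom.mem_ker]; exact hfb
      have hb1 : b = 1 := eq_one_of_both (hL b hbL) hb
      rw [e, hb1, mul_one]
      exact ha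
    have hRπ : ∀ p : ℕ, p.Prime → p ∣ Nat.card R → p ∉ π := by
      intro p hp hd
      obtain ⟨k, hk⟩ := IsPGroup.iff_card.mp hR.isP
      rw [hk] at hd
      have := (Nat.prime_dvd_prime_iff_eq hp hr).mp (hp.dvd_of_dvd_pow hd)
      rwa [this]
    have hyC := hA R hRπ y hyπ hyN
    intro p hp
    rw [← hRP] at hp
    obtain ⟨ρ', hρ', rfl⟩ := hp
    rw [← hfy, ← map_mul, ← map_mul]
    congr 1
    exact ((Subgroup.mem_centralizer_iff.mp hyC) _ hρ').symm
  intro n hn
  set C : Subgroup (G ⧸ L) := N ⊓ centralizer ({f x} : Set (G ⧸ L)) with hC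
  have hCN : C ≤ N := inf_le_left
  have hidx : C.relIndex N = 1 := by
    by_contra hne
    obtain ⟨r, hr, hd⟩ := Nat.exists_prime_and_dvd hne
    have hrN : r ∣ Nat.card N := hd.trans (Subgroup.relIndex_dvd_card _ _)
    obtain ⟨Pb, hF, hS, hcomm⟩ := hsyl r hr hrN
    have hPC : Pb ≤ C := by
      intro p hp
      refine ⟨hS.le hp, ?_⟩
      show p ∈ centralizer ({f x} : Set (G ⧸ L))
      rw [mem_centralizer_singleton_iff]
      exact (hcomm p hp).symm
    have h1 := Subgroup.relIndex_mul_relIndex Pb C N hPC hCN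
    exact hS.not_dvd (by rw [← h1]; exact Dvd.dvd.mul_left hd _)
  have hle : N ≤ C := Subgroup.relIndex_eq_one.mp hidx
  have h9 : n ∈ centralizer ({f x} : Set (G ⧸ L)) := (hle hn).2
  rw [mem_centralizer_singleton_iff] at h9
  exact h9.symm

/-- A group with a normal subgroup such that it and its quotient are `π`-closed is `π`-closed. -/
theorem piClosed_of_normal (hA : HomogA π G) (K : Subgroup G) [hKn : K.Normal] (hK : PiClosed π K)
    (hQ : PiClosed π (G ⧸ K)) : PiClosed π G := by
  obtain ⟨L₀, hL₀⟩ := hK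
  set L := L₀.map K.subtype with hLdef
  have hmemL : ∀ x : G, x ∈ L ↔ x ∈ K ∧ PiElt π x := by
    intro x
    constructor
    · rintro ⟨z, hz, rfl⟩
      refine ⟨z.2, ?_⟩
      have := (hL₀ z).mp hz
      exact this.map K.subtype
    · rintro ⟨h1, h2⟩
      refine ⟨⟨x, h1⟩, (hL₀ _).mpr ?_, rfl⟩
      intro p hp hd
      rw [Subgroup.orderOf_mk] at hd
      exact h2 p hp hd
  haveI hLn : L.Normal := by
    constructor
    intro n hn g
    rw [hmemL] at hn ⊢
    refine ⟨hKn.conj_mem _ hn.1 g, ?_⟩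
    intro p hp hd
    rw [orderOf_conj_eq] at hd
    exact hn.2 p hp hd
  have hLK : L ≤ K := fun x hx => ((hmemL x).mp hx).1
  have hLπ : ∀ x ∈ L, PiElt π x := fun x hx => ((hmemL x).mp hx).2
  set f := QuotientGroup.mk' L with hf
  have hfs : Function.Surjective f := QuotientGroup.mk'_surjective L
  have hker : f.ker = L := QuotientGroup.ker_mk' L
  haveI hNn : (K.map f).Normal := hKn.map f hfs
  have hNπ : ∀ p : ℕ, p.Prime → p ∣ Nat.card (K.map f) → p ∉ π := by
    intro p hp hd hpπ
    haveI : Fact p.Prime := ⟨hp⟩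
    obtain ⟨z, hz⟩ := exists_prime_orderOf_dvd_card' p hd
    obtain ⟨y, hy, hyz⟩ := z.2
    obtain ⟨a, b, e, -, ha, hb, haz, hbz⟩ := exists_piPart π y
    have haK : a ∈ K := by
      obtain ⟨i, rfl⟩ := haz
      exact zpow_mem hy i
    have haL : a ∈ L := (hmemL a).mpr ⟨haK, ha⟩
    have hfa : f a = 1 := by rw [← MonoidHom.mem_ker, hker]; exact haL
    have h1 : f y = f b := by rw [e, map_mul, hfa, one_mul]
    have h2 : orderOf (z : G ⧸ L) = p := by rw [Subgroup.orderOf_coe, hz]
    rw [← hyz, h1] at h2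
    have h3 : p ∣ orderOf b := by
      rw [← h2]; exact orderOf_map_dvd f b
    exact hb p hp h3 hpπ
  have hcentral : ∀ x : G ⧸ L, PiElt π x → ∀ n ∈ K.map f, x * n = n * x := by
    intro x hx n hn
    obtain ⟨x₁, rfl⟩ := hfs x
    obtain ⟨a, b, e, -, ha, hb, -, hbz⟩ := exists_piPart π x₁
    have hfb : f b = 1 := map_piPrime_eq_one f hx hbz hb
    have h1 : f x₁ = f a := by rw [e, map_mul, hfb, mul_one]
    rw [h1]
    exact commute_mod hA K L hLK hLπ hNπ a ha n hn
  let f₂ : G ⧸ L →* G ⧸ K := QuotientGroup.lift L (QuotientGroup.mk' K) (by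
    intro x hx
    exact (QuotientGroup.eq_one_iff _).mpr (hLK hx))
  have hker2 : f₂.ker = K.map f := by
    ext y
    obtain ⟨g, rfl⟩ := hfs y
    rw [MonoidHom.mem_ker]
    have h1 : f₂ (f g) = QuotientGroup.mk' K g := rfl
    rw [h1]
    constructor
    · intro h
      exact ⟨g, (QuotientGroup.eq_one_iff _).mp h, rfl⟩
    · rintro ⟨k, hk, he⟩
      have h2 : k⁻¹ * g ∈ L := by
        rw [← hker, MonoidHom.mem_ker, map_mul, map_inv, he]
        group
      have h3 : g ∈ K := by
        have := K.mul_mem hk (hLK h2)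
        simpa using this
      exact (QuotientGroup.eq_one_iff _).mpr h3
  have hB : PiClosed π (G ⧸ L) := PiClosed.of_central (K.map f) hNπ f₂ hker2 hQ hcentral
  exact PiClosed.of_quotient L hLπ hB

end Cfsg.Agent.Lib.PGroups
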