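import Cfsg.Agent.Lib.PGroups.PiClosed

/-!
# Characterization of `π`-closed groups: `π`-separable and `N(H)/C(H)` a `π'`-group.
-/

set_option autoImplicit false

universe u

namespace Cfsg.Agent.Lib.PGroups

open Subgroup

variable {π : Set ℕ} {G : Type*} [Group G] 

theorem HomogA.subgroup (hA : HomogA π G) (J : Subgroup G) : HomogA π J := by
  intro H hH y hy hyN
  have h1 : ∀ p : ℕ, p.Prime → p ∣ Nat.card (H.map J.subtype) → p ∉ π := by
    intro p hp hd
    rw [Subgroup.card_map_of_injective J.subtype_injective] at hd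
    exact hH p hp hd
  have h2 : PiElt π (y : G) := by
    intro p hp hd
    rw [Subgroup.orderOf_coe] at hd
    exact hy p hp hd
  have h3 : (y : G) ∈ normalizer ((H.map J.subtype : Subgroup G) : Set G) := by
    rw [mem_normalizer_iff]
    intro z
    constructor
    · rintro ⟨w, hw, rfl⟩
      exact ⟨y * w * y⁻¹, (mem_normalizer_iff.mp hyN w).mp hw, rfl⟩
    · rintro ⟨w, hw, he⟩
      refine ⟨y⁻¹ * w * y, ?_, ?_⟩
      · have := (mem_normalizer_iff.mp (inv_mem hyN) w).mp hw
        simpa using this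
      · have he' : (w : G) = (y : G) * z * (y : G)⁻¹ := he
        show ((y⁻¹ * w * y : J) : G) = z
        push_cast
        rw [he']
        group
  have h4 := hA _ h1 _ h2 h3
  rw [Subgroup.mem_centralizer_iff] at h4 ⊢
  intro z hz
  apply Subtype.ext
  exact h4 _ ⟨z, hz, rfl⟩

theorem PiClosed.of_equiv {A B : Type*} [Group A] [Group B] (e : A ≃* B) (h : PiClosed π A) :
    PiClosed π B := by
  obtain ⟨K, hK⟩ := h
  refine ⟨K.map e.toMonoidHom, fun x => ?_⟩
  have hx : x ∈ K.map e.toMonoidHom ↔ e.symm x ∈ K := by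
    constructor
    · rintro ⟨z, hz, rfl⟩
      simpa using hz
    · intro hz
      exact ⟨_, hz, by simp⟩
  rw [hx, hK]
  constructor
  · intro h1 p hp hd
    apply h1 p hp
    rwa [MulEquiv.orderOf_eq]
  · intro h1 p hp hd
    apply h1 p hp
    rwa [MulEquiv.orderOf_eq] at hd

variable [Finite G]

/-- Passing to the chain. -/
theorem piClosed_of_chain (hA : HomogA π G) {n : ℕ} (H : Fin (n + 1) → Subgroup G) (h0 : H 0 = ⊥)
    (hlast : H (Fin.last n) = ⊤) (hmono : Monotone H) (hnorm : ∀ i, (H i).Normal)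
    (hstep : ∀ i : Fin n, (∀ q : ℕ, q.Prime → q ∣ (H i.castSucc).relIndex (H i.succ) → q ∈ π) ∨
        (∀ q : ℕ, q.Prime → q ∣ (H i.castSucc).relIndex (H i.succ) → q ∉ π)) :
    PiClosed π G := by
  have key : ∀ i : Fin (n + 1), PiClosed π (H i) := by
    intro i
    induction i using Fin.induction with
    | zero =>
      refine ⟨⊤, fun x => ?_⟩
      have hx : x = 1 := by
        apply Subtype.ext
        have h00 : H 0 ≤ ⊥ := h0.le
        exact mem_bot.mp (h00 x.2)
      simp only [mem_top, true_iff]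
      rw [hx]
      intro p hp hd
      rw [orderOf_one] at hd
      exact absurd (Nat.dvd_one.mp hd) hp.one_lt.ne'
    | succ i ih =>
      set J := H i.succ with hJ
      set L := H i.castSucc with hL
      have hLJ : L ≤ J := hmono (Fin.castSucc_lt_succ).le
      haveI hLn : L.Normal := hnorm _
      haveI hNn : (L.subgroupOf J).Normal := hLn.subgroupOf J
      have h1 : PiClosed π (L.subgroupOf J) :=
        PiClosed.of_equiv (Subgroup.subgroupOfEquivOfLe hLJ).symm ih
      have h2 : PiClosed π (J ⧸ L.subgroupOf J) := by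
        rcases hstep i with h3 | h3
        · refine ⟨⊤, fun x => ?_⟩
          simp only [mem_top, true_iff]
          intro p hp hd
          exact h3 p hp (hd.trans (orderOf_dvd_natCard x))
        · refine ⟨⊥, fun x => ?_⟩
          rw [mem_bot]
          constructor
          · rintro rfl p hp hd
            rw [orderOf_one] at hd
            exact absurd (Nat.dvd_one.mp hd) hp.one_lt.ne'
          · intro hx
            apply eq_one_of_both hx
            intro p hp hd
            exact h3 p hp (hd.trans (orderOf_dvd_natCard x))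
      exact piClosed_of_normal (hA.subgroup J) (L.subgroupOf J) h1 h2
  have := key (Fin.last n)
  rw [hlast] at this
  exact PiClosed.of_equiv Subgroup.topEquiv this

theorem homogA_of_piClosed (h : PiClosed π G) : HomogA π G := by
  obtain ⟨K, hK⟩ := h
  intro H hH y hy hyN
  have hyK : y ∈ K := (hK y).mpr hy
  rw [Subgroup.mem_centralizer_iff]
  intro z hz
  have hKn : ∀ a : G, a⁻¹ ∈ K → z * a * z⁻¹ ∈ K := by
    intro a ha
    rw [hK]
    intro p hp hd
    rw [orderOf_conj_eq] at hd
    have h1 := (hK a⁻¹).mp ha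
    apply h1 p hp
    rwa [orderOf_inv]
  have h1 : y * z * y⁻¹ * z⁻¹ ∈ K := by
    have h2 : y * z * y⁻¹ * z⁻¹ = y * (z * y⁻¹ * z⁻¹) := by group
    rw [h2]
    refine mul_mem hyK (hKn _ ?_)
    simpa using hyK
  have h2 : y * z * y⁻¹ * z⁻¹ ∈ H :=
    mul_mem ((mem_normalizer_iff.mp hyN z).mp hz) (inv_mem hz)
  have h3 : y * z * y⁻¹ * z⁻¹ = 1 := by
    apply eq_one_of_both ((hK _).mp h1)
    intro p hp hd
    apply hH p hp
    have h5 : orderOf (⟨_, h2⟩ : H) = orderOf (y * z * y⁻¹ * z⁻¹) := Subgroup.orderOf_mk _ _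
    rw [← h5] at hd
    exact hd.trans (orderOf_dvd_natCard _)
  rw [mul_inv_eq_one, mul_inv_eq_iff_eq_mul] at h3
  exact h3.symm

theorem hom_of_homogA (hA : HomogA π G) (H : Subgroup G)
    (hH : ∀ p : ℕ, p.Prime → p ∣ Nat.card ↥H → p ∉ π) (p : ℕ) (hp : p.Prime)
    (hd : p ∣ (centralizer (H : Set G)).relIndex (normalizer (H : Set G))) : p ∉ π := by
  intro hpπ
  haveI : Fact p.Prime := ⟨hp⟩
  haveI := centralizer_subgroupOf_normalizer_normal H
  set N := normalizer (H : Set G) with hN
  set C := (centralizer (H : Set G)).subgroupOf N with hC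
  obtain ⟨yb, hyb⟩ := exists_prime_orderOf_dvd_card' (G := N ⧸ C) p hd
  obtain ⟨y, rfl⟩ := QuotientGroup.mk'_surjective C yb
  obtain ⟨a, b, e, -, ha, hb, -, hbz⟩ := exists_piPart π y
  have hfy : PiElt π (QuotientGroup.mk' C y) := by
    intro q hq hdq
    rw [hyb] at hdq
    rwa [(Nat.prime_dvd_prime_iff_eq hq hp).mp hdq]
  have hfb : QuotientGroup.mk' C b = 1 := map_piPrime_eq_one _ hfy hbz hb
  have h1 : QuotientGroup.mk' C y = QuotientGroup.mk' C a := by
    rw [e, map_mul, hfb, mul_one]
  have ha' : PiElt π (a : G) := by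
    intro q hq hdq
    rw [Subgroup.orderOf_coe] at hdq
    exact ha q hq hdq
  have haC := hA H hH (a : G) ha' a.2
  have h2 : QuotientGroup.mk' C a = 1 := (QuotientGroup.eq_one_iff _).mpr haC
  rw [h1, h2, orderOf_one] at hyb
  exact hp.one_lt.ne' hyb.symm

theorem piClosed_iff_separable (π : Set ℕ) :
    PiClosed π G ↔
    ((∃ (n : ℕ) (H : Fin (n + 1) → Subgroup G), H 0 = ⊥ ∧ H (Fin.last n) = ⊤ ∧ Monotone H ∧ (∀ i, (H i).Normal) ∧
      ∀ i : Fin n, (∀ q : ℕ, q.Prime → q ∣ (H i.castSucc).relIndex (H i.succ) → q ∈ π) ∨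
        (∀ q : ℕ, q.Prime → q ∣ (H i.castSucc).relIndex (H i.succ) → q ∉ π)) ∧
     (∀ H : Subgroup G, H ≠ ⊥ → (∀ p : ℕ, p.Prime → p ∣ Nat.card ↥H → p ∉ π) →
        ∀ p : ℕ, p.Prime → p ∣ (Subgroup.centralizer (H : Set G)).relIndex (Subgroup.normalizer (H : Set G)) → p ∉ π)) := by
  constructor
  · intro h
    refine ⟨?_, fun H _ hH p hp hd => hom_of_homogA (homogA_of_piClosed h) H hH p hp hd⟩
    obtain ⟨K, hK⟩ := h
    have hKn : K.Normal := by
      constructor
      intro n hn g
      rw [hK] at hn ⊢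
      intro p hp hd
      rw [orderOf_conj_eq] at hd
      exact hn p hp hd
    refine ⟨2, ![⊥, K, ⊤], rfl, rfl, ?_, ?_, ?_⟩
    · intro a b hab
      fin_cases a <;> fin_cases b <;> simp_all
    · intro i
      fin_cases i
      · show (⊥ : Subgroup G).Normal
        infer_instance
      · exact hKn
      · show (⊤ : Subgroup G).Normal
        infer_instance
    · intro i
      fin_cases i
      · left
        show ∀ q : ℕ, q.Prime → q ∣ (⊥ : Subgroup G).relIndex K → q ∈ π
        intro q hq hd
        rw [Subgroup.relIndex_bot_left] at hd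
        haveI : Fact q.Prime := ⟨hq⟩
        obtain ⟨z, hz⟩ := exists_prime_orderOf_dvd_card' q hd
        have h1 : PiElt π (z : G) := (hK _).mp z.2
        apply h1 q hq
        rw [Subgroup.orderOf_coe, hz]
      · right
        show ∀ q : ℕ, q.Prime → q ∣ K.relIndex ⊤ → q ∉ π
        intro q hq hd hqπ
        rw [Subgroup.relIndex_top_right] at hd
        haveI : Fact q.Prime := ⟨hq⟩
        obtain ⟨zb, hz⟩ := exists_prime_orderOf_dvd_card' (G := G ⧸ K) q hd
        obtain ⟨y, rfl⟩ := QuotientGroup.mk'_surjective K zb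
        obtain ⟨a, b, e, -, ha, hb, -, -⟩ := exists_piPart π y
        have h2 : QuotientGroup.mk' K a = 1 := (QuotientGroup.eq_one_iff _).mpr ((hK a).mpr ha)
        have h3 : QuotientGroup.mk' K y = QuotientGroup.mk' K b := by
          rw [e, map_mul, h2, one_mul]
        rw [h3] at hz
        have h4 : q ∣ orderOf b := by
          rw [← hz]; exact orderOf_map_dvd _ b
        exact hb q hq h4 hqπ
  · rintro ⟨⟨n, H, h0, hlast, hmono, hnorm, hstep⟩, hhom⟩
    exact piClosed_of_chain (homogA_of_hom hhom) H h0 hlast hmono hnorm hstep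

end Cfsg.Agent.Lib.PGroups
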