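import Mathlib
import Cfsg.Agent.Lib.PGroups.Parts

/-!
# Groups generated by four elements with relations of the two covers of `S₄`

A group generated by `i j x y` subject to the relations `Rels n` has at most `12 n` elements; hence two groups
generated by elements subject to the same relations, both of order `12 n`, are isomorphic.
-/

set_option autoImplicit false
set_option linter.unusedSectionVars false
set_option linter.style.haveILetI false

namespace Cfsg.Agent.Lib.PGroups.Q48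

open Subgroup

variable {Θ : Type*} [Group Θ]

/-- The relations. -/
structure Rels (n : ℕ) (i j x y : Θ) : Prop where
  hi : i ^ n = 1
  hj2 : j * j = i * i
  hji : j⁻¹ * i * j = i⁻¹
  hx3 : x ^ 3 = 1
  hxi : x⁻¹ * i * x = j
  hxj : x⁻¹ * j * x = i * j
  hyi : y⁻¹ * i * y = i⁻¹
  hyj : y⁻¹ * j * y = (i * j)⁻¹
  hyx : y⁻¹ * x * y = x⁻¹

/-- In a finite group a set containing `1`, closed under right multiplication by `S`, contains the closure of `S`. -/
theorem closure_subset_of_right_mul [Finite Θ] {S W : Set Θ} (h1 : (1 : Θ) ∈ W)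
    (hR : ∀ w ∈ W, ∀ s ∈ S, w * s ∈ W) : ∀ g ∈ closure S, g ∈ W := by
  have hpow : ∀ w ∈ W, ∀ s ∈ S, ∀ k : ℕ, w * s ^ k ∈ W := by
    intro w hw s hs k
    induction k with
    | zero => simpa using hw
    | succ k ih =>
      rw [pow_succ, ← mul_assoc]
      exact hR _ ih s hs
  intro g hg
  induction hg using Subgroup.closure_induction_right with
  | one => exact h1
  | mul_right x _ y hy ih => exact hR x ih y hy
  | mul_inv_cancel x _ y hy ih =>
    have hord : 0 < orderOf y := orderOf_pos y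
    have e : y⁻¹ = y ^ (orderOf y - 1) := by
      rw [eq_comm, eq_inv_iff_mul_eq_one, ← pow_succ, Nat.sub_add_cancel hord, pow_orderOf_eq_one]
    rw [e]
    exact hpow x ih y hy _

section rels

variable {n : ℕ} {i j x y : Θ}

theorem Rels.ji (h : Rels n i j x y) : j * i = i⁻¹ * j := by
  have := h.hji
  calc j * i = j * (j⁻¹ * i * j)⁻¹ := by rw [this, inv_inv]
    _ = i⁻¹ * j := by group

theorem Rels.card_f0_le [Finite Θ] (hn : 0 < n) (h : Rels n i j x y) :
    Nat.card (closure ({i, j} : Set Θ)) ≤ 2 * n := by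
  classical
  let W : Set Θ := {g | (∃ a : ℕ, g = i ^ a) ∨ ∃ a : ℕ, g = i ^ a * j}
  have hi' : i⁻¹ = i ^ (n - 1) := by
    rw [eq_comm, eq_inv_iff_mul_eq_one, ← pow_succ, Nat.sub_add_cancel hn, h.hi]
  have hsub : ∀ g ∈ closure ({i, j} : Set Θ), g ∈ W := by
    apply closure_subset_of_right_mul
    · exact Or.inl ⟨0, by simp⟩
    · rintro w (⟨a, rfl⟩ | ⟨a, rfl⟩) s (rfl | rfl)
      · exact Or.inl ⟨a + 1, (pow_succ _ _).symm⟩
      · exact Or.inr ⟨a, rfl⟩
      · refine Or.inr ⟨a + (n - 1), ?_⟩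
        rw [mul_assoc, h.ji, ← mul_assoc, pow_add, hi']
      · refine Or.inl ⟨a + 2, ?_⟩
        rw [mul_assoc, h.hj2, pow_add, pow_two]
  -- a surjection from a type of size `2 n`
  let f : Fin n × Bool → Θ := fun p => if p.2 then i ^ (p.1 : ℕ) else i ^ (p.1 : ℕ) * j
  haveI : NeZero n := ⟨hn.ne'⟩
  have hmod : ∀ a : ℕ, i ^ a = i ^ (a % n) := by
    intro a
    conv_lhs => rw [← Nat.div_add_mod a n, pow_add, pow_mul, h.hi, one_pow, one_mul]
  have hle : Nat.card (closure ({i, j} : Set Θ)) ≤ Nat.card (Fin n × Bool) := by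
    have hinj : Function.Injective (fun g : closure ({i, j} : Set Θ) => (g : Θ)) := Subtype.val_injective
    have hmem : ∀ g : closure ({i, j} : Set Θ), ∃ p : Fin n × Bool, f p = g := by
      intro g
      rcases hsub g g.2 with ⟨a, ha⟩ | ⟨a, ha⟩
      · refine ⟨(⟨a % n, Nat.mod_lt _ hn⟩, true), ?_⟩
        simp only [f, if_true]
        rw [ha, ← hmod]
      · refine ⟨(⟨a % n, Nat.mod_lt _ hn⟩, false), ?_⟩
        simp only [f, Bool.false_eq_true, if_false]
        rw [ha, ← hmod]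
    choose c hc using hmem
    refine Nat.card_le_card_of_injective c ?_
    intro g g' hgg
    apply Subtype.ext
    rw [← hc g, ← hc g', hgg]
  refine hle.trans (le_of_eq ?_)
  rw [Nat.card_prod, Nat.card_eq_fintype_card, Nat.card_eq_fintype_card, Fintype.card_fin, Fintype.card_bool]
  ring

theorem conj_closure_mem {S : Set Θ} {g : Θ} (h : ∀ s ∈ S, g * s * g⁻¹ ∈ closure S) :
    ∀ w ∈ closure S, g * w * g⁻¹ ∈ closure S := by
  intro w hw
  induction hw using Subgroup.closure_induction with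
  | mem a ha => exact h a ha
  | one => simp [Subgroup.one_mem]
  | mul a b _ _ ha hb =>
    have e : g * (a * b) * g⁻¹ = (g * a * g⁻¹) * (g * b * g⁻¹) := by group
    rw [e]
    exact Subgroup.mul_mem _ ha hb
  | inv a _ ha =>
    have e : g * a⁻¹ * g⁻¹ = (g * a * g⁻¹)⁻¹ := by group
    rw [e]
    exact Subgroup.inv_mem _ ha

theorem Rels.x_mem [Finite Θ] (h : Rels n i j x y) :
    x ∈ normalizer ((closure ({i, j} : Set Θ) : Subgroup Θ) : Set Θ) := by
  have hi : i ∈ closure ({i, j} : Set Θ) := subset_closure (by simp)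
  have hj : j ∈ closure ({i, j} : Set Θ) := subset_closure (by simp)
  have : x⁻¹ ∈ normalizer ((closure ({i, j} : Set Θ) : Subgroup Θ) : Set Θ) := by
    apply Cfsg.Agent.Lib.PGroups.mem_normalizer_of_conj_le'
    apply conj_closure_mem
    rintro s (rfl | rfl)
    · rw [inv_inv, h.hxi]; exact hj
    · rw [inv_inv, h.hxj]; exact Subgroup.mul_mem _ hi hj
  simpa using Subgroup.inv_mem _ this

theorem Rels.y_mem [Finite Θ] (h : Rels n i j x y) :
    y ∈ normalizer ((closure ({i, j} : Set Θ) : Subgroup Θ) : Set Θ) := by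
  have hi : i ∈ closure ({i, j} : Set Θ) := subset_closure (by simp)
  have hj : j ∈ closure ({i, j} : Set Θ) := subset_closure (by simp)
  have : y⁻¹ ∈ normalizer ((closure ({i, j} : Set Θ) : Subgroup Θ) : Set Θ) := by
    apply Cfsg.Agent.Lib.PGroups.mem_normalizer_of_conj_le'
    apply conj_closure_mem
    rintro s (rfl | rfl)
    · rw [inv_inv, h.hyi]; exact Subgroup.inv_mem _ hi
    · rw [inv_inv, h.hyj]; exact Subgroup.inv_mem _ (Subgroup.mul_mem _ hi hj)
  simpa using Subgroup.inv_mem _ this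

theorem Rels.conj_mem_f0 {t f : Θ} (ht : t ∈ normalizer ((closure ({i, j} : Set Θ) : Subgroup Θ) : Set Θ))
    (hf : f ∈ closure ({i, j} : Set Θ)) : t * f * t⁻¹ ∈ closure ({i, j} : Set Θ) :=
  (Subgroup.mem_normalizer_iff.mp ht f).mp hf

theorem Rels.card_closure_le [Finite Θ] (hn : 0 < n) (h : Rels n i j x y) (hy2 : y * y = 1 ∨ y * y = i * i) :
    Nat.card (closure ({i, j, x, y} : Set Θ)) ≤ 12 * n := by
  classical
  set F₀ := closure ({i, j} : Set Θ) with hF₀
  have hi : i ∈ F₀ := subset_closure (by simp)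
  have hj : j ∈ F₀ := subset_closure (by simp)
  have hyy : y * y ∈ F₀ := by
    rcases hy2 with h2 | h2
    · rw [h2]; exact Subgroup.one_mem _
    · rw [h2]; exact Subgroup.mul_mem _ hi hi
  have hxN : x ∈ normalizer (F₀ : Set Θ) := h.x_mem
  have hyN : y ∈ normalizer (F₀ : Set Θ) := h.y_mem
  let W : Set Θ := {g | ∃ f ∈ F₀, ∃ c : ℕ, g = f * x ^ c ∨ g = f * x ^ c * y}
  have hxinv : x⁻¹ = x ^ 2 := by
    rw [eq_comm, eq_inv_iff_mul_eq_one, ← pow_succ, h.hx3]
  have hyx : y * x = x⁻¹ * y := by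
    calc y * x = y * (y⁻¹ * x * y)⁻¹ := by rw [h.hyx, inv_inv]
      _ = x⁻¹ * y := by group
  have hsub : ∀ g ∈ closure ({i, j, x, y} : Set Θ), g ∈ W := by
    apply closure_subset_of_right_mul
    · exact ⟨1, Subgroup.one_mem _, 0, Or.inl (by simp)⟩
    · have hconj : ∀ f₀ ∈ F₀, ∀ (f : Θ) (hf : f ∈ F₀) (c : ℕ), (f * x ^ c * f₀ ∈ W ∧ f * x ^ c * y * f₀ ∈ W) := by
        intro f₀ hf₀ f hf c
        have hxc : x ^ c ∈ normalizer (F₀ : Set Θ) := Subgroup.pow_mem _ hxN c
        constructor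
        · refine ⟨f * (x ^ c * f₀ * (x ^ c)⁻¹), Subgroup.mul_mem _ hf (Rels.conj_mem_f0 hxc hf₀), c, Or.inl ?_⟩
          group
        · have hxy : x ^ c * y ∈ normalizer (F₀ : Set Θ) := Subgroup.mul_mem _ hxc hyN
          refine ⟨f * ((x ^ c * y) * f₀ * (x ^ c * y)⁻¹), Subgroup.mul_mem _ hf (Rels.conj_mem_f0 hxy hf₀), c, Or.inr ?_⟩
          group
      rintro w ⟨f, hf, c, rfl | rfl⟩ s hs
      · rcases hs with hs | hs | hs | hs <;> rw [hs]
        · exact (hconj _ hi f hf c).1
        · exact (hconj _ hj f hf c).1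
        · exact ⟨f, hf, c + 1, Or.inl (by rw [pow_succ, mul_assoc])⟩
        · exact ⟨f, hf, c, Or.inr rfl⟩
      · rcases hs with hs | hs | hs | hs <;> rw [hs]
        · exact (hconj _ hi f hf c).2
        · exact (hconj _ hj f hf c).2
        · refine ⟨f, hf, c + 2, Or.inr ?_⟩
          rw [mul_assoc, hyx, hxinv, pow_add]
          group
        · have e : f * x ^ c * y * y = f * x ^ c * (y * y) := by group
          rw [e]
          exact (hconj _ hyy f hf c).1
  let τ : F₀ × Fin 3 × Bool → Θ := fun p =>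
    if p.2.2 then (p.1 : Θ) * x ^ (p.2.1 : ℕ) else (p.1 : Θ) * x ^ (p.2.1 : ℕ) * y
  have hmod : ∀ a : ℕ, x ^ a = x ^ (a % 3) := by
    intro a
    conv_lhs => rw [← Nat.div_add_mod a 3, pow_add, pow_mul, h.hx3, one_pow, one_mul]
  have hmem : ∀ g : closure ({i, j, x, y} : Set Θ), ∃ p : F₀ × Fin 3 × Bool, τ p = g := by
    intro g
    obtain ⟨f, hf, c, ha | ha⟩ := hsub g g.2
    · refine ⟨(⟨f, hf⟩, ⟨c % 3, Nat.mod_lt _ (by norm_num)⟩, true), ?_⟩
      simp only [τ, if_true]
      rw [ha, ← hmod]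
    · refine ⟨(⟨f, hf⟩, ⟨c % 3, Nat.mod_lt _ (by norm_num)⟩, false), ?_⟩
      simp only [τ, Bool.false_eq_true, if_false]
      rw [ha, ← hmod]
  choose c hc using hmem
  have hle : Nat.card (closure ({i, j, x, y} : Set Θ)) ≤ Nat.card (F₀ × Fin 3 × Bool) := by
    refine Nat.card_le_card_of_injective c ?_
    intro g g' hgg
    apply Subtype.ext
    rw [← hc g, ← hc g', hgg]
  refine hle.trans ?_
  rw [Nat.card_prod, Nat.card_prod, Nat.card_eq_fintype_card (α := Fin 3), Nat.card_eq_fintype_card (α := Bool),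
    Fintype.card_fin, Fintype.card_bool]
  have := h.card_f0_le hn
  calc Nat.card F₀ * (3 * 2) ≤ (2 * n) * (3 * 2) := Nat.mul_le_mul_right _ this
    _ = 12 * n := by ring

theorem Rels.prod {Θ' : Type*} [Group Θ'] {i' j' x' y' : Θ'} (h : Rels n i j x y) (h' : Rels n i' j' x' y') :
    Rels n (i, i') (j, j') (x, x') (y, y') where
  hi := Prod.ext (by simpa using h.hi) (by simpa using h'.hi)
  hj2 := Prod.ext (by simpa using h.hj2) (by simpa using h'.hj2)
  hji := Prod.ext (by simpa using h.hji) (by simpa using h'.hji)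
  hx3 := Prod.ext (by simpa using h.hx3) (by simpa using h'.hx3)
  hxi := Prod.ext (by simpa using h.hxi) (by simpa using h'.hxi)
  hxj := Prod.ext (by simpa using h.hxj) (by simpa using h'.hxj)
  hyi := Prod.ext (by simpa using h.hyi) (by simpa using h'.hyi)
  hyj := Prod.ext (by simpa using h.hyj) (by simpa using h'.hyj)
  hyx := Prod.ext (by simpa using h.hyx) (by simpa using h'.hyx)

/-- The graph trick. -/
theorem nonempty_mulEquiv_of_rels {A B : Type*} [Group A] [Group B] [Finite A] [Finite B]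
    {i j x y : A} {i' j' x' y' : B} (hn : 0 < n) (h : Rels n i j x y) (h' : Rels n i' j' x' y')
    (hy : (y * y = 1 ∧ y' * y' = 1) ∨ (y * y = i * i ∧ y' * y' = i' * i'))
    (gA : closure ({i, j, x, y} : Set A) = ⊤) (gB : closure ({i', j', x', y'} : Set B) = ⊤)
    (cA : Nat.card A = 12 * n) (cB : Nat.card B = 12 * n) : Nonempty (A ≃* B) := by
  have hP := h.prod h'
  have hy2 : (y, y') * (y, y') = 1 ∨ (y, y') * (y, y') = (i, i') * (i, i') := by
    rcases hy with ⟨a, b⟩ | ⟨a, b⟩
    · exact Or.inl (Prod.ext (by simpa using a) (by simpa using b))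
    · exact Or.inr (Prod.ext (by simpa using a) (by simpa using b))
  have hle := hP.card_closure_le hn hy2
  set K := closure ({(i, i'), (j, j'), (x, x'), (y, y')} : Set (A × B)) with hK
  have mi : (i, i') ∈ K := subset_closure (by simp)
  have mj : (j, j') ∈ K := subset_closure (by simp)
  have mx : (x, x') ∈ K := subset_closure (by simp)
  have my : (y, y') ∈ K := subset_closure (by simp)
  let p₁ : K →* A := (MonoidHom.fst A B).comp K.subtype
  let p₂ : K →* B := (MonoidHom.snd A B).comp K.subtype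
  have s₁ : Function.Surjective p₁ := by
    rw [← MonoidHom.range_eq_top, eq_top_iff, ← gA, Subgroup.closure_le]
    rintro s (rfl | rfl | rfl | rfl)
    · exact ⟨⟨_, mi⟩, rfl⟩
    · exact ⟨⟨_, mj⟩, rfl⟩
    · exact ⟨⟨_, mx⟩, rfl⟩
    · exact ⟨⟨_, my⟩, rfl⟩
  have s₂ : Function.Surjective p₂ := by
    rw [← MonoidHom.range_eq_top, eq_top_iff, ← gB, Subgroup.closure_le]
    rintro s (rfl | rfl | rfl | rfl)
    · exact ⟨⟨_, mi⟩, rfl⟩
    · exact ⟨⟨_, mj⟩, rfl⟩
    · exact ⟨⟨_, mx⟩, rfl⟩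
    · exact ⟨⟨_, my⟩, rfl⟩
  have b₁ : Function.Bijective p₁ := s₁.bijective_of_nat_card_le (by rw [cA]; exact hle)
  have b₂ : Function.Bijective p₂ := s₂.bijective_of_nat_card_le (by rw [cB]; exact hle)
  exact ⟨(MulEquiv.ofBijective p₁ b₁).symm.trans (MulEquiv.ofBijective p₂ b₂)⟩

end rels

end Cfsg.Agent.Lib.PGroups.Q48
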