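import Mathlib
import Cfsg.Agent.Lib.PGroups.Q48A

/-!
# Groups of order 48 with a self-centralizing normal `Q₈`: normal form of the action
-/

set_option autoImplicit false
set_option linter.unusedSectionVars false
set_option linter.style.haveILetI false
set_option maxRecDepth 100000

namespace Cfsg.Agent.Lib.PGroups.Q48

open Subgroup QuaternionGroup

variable {Q : Type*} [Group Q]

/-- Abstract data of a quaternion subgroup of order 8. -/
structure Q8Data (F : Subgroup Q) (z : Q) : Prop where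
  zF : z ∈ F
  z1 : z ≠ 1
  z2 : z * z = 1
  zc : ∀ f ∈ F, z * f = f * z
  f1 : ∀ u ∈ F, u = 1 ∨ u = z ∨ u * u = z
  anti : ∀ u ∈ F, ∀ v ∈ F, u * u = z → v * v = z → v ≠ u → v ≠ u⁻¹ → v⁻¹ * u * v = u⁻¹
  list : ∀ u ∈ F, ∀ v ∈ F, u * u = z → v * v = z → v ≠ u → v ≠ u⁻¹ → ∀ f ∈ F,
    f = 1 ∨ f = z ∨ f = u ∨ f = u⁻¹ ∨ f = v ∨ f = v⁻¹ ∨ f = u * v ∨ f = (u * v)⁻¹
  partner : ∀ u ∈ F, u * u = z → ∃ v ∈ F, v * v = z ∧ v ≠ u ∧ v ≠ u⁻¹
  ex1 : ∃ u ∈ F, u * u = z
  card8 : Nat.card F = 8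

theorem m1 : ∀ u : QuaternionGroup 2, u = 1 ∨ u = a 2 ∨ u * u = a 2 := by decide
theorem m2 : ∀ u v : QuaternionGroup 2, u * u = a 2 → v * v = a 2 → v ≠ u → v ≠ u⁻¹ → v⁻¹ * u * v = u⁻¹ := by decide
theorem m3 : ∀ u v : QuaternionGroup 2, u * u = a 2 → v * v = a 2 → v ≠ u → v ≠ u⁻¹ → ∀ f : QuaternionGroup 2,
    f = 1 ∨ f = a 2 ∨ f = u ∨ f = u⁻¹ ∨ f = v ∨ f = v⁻¹ ∨ f = u * v ∨ f = (u * v)⁻¹ := by decide
theorem m4 : ∀ u : QuaternionGroup 2, u * u = a 2 → ∃ v : QuaternionGroup 2, v * v = a 2 ∧ v ≠ u ∧ v ≠ u⁻¹ := by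
  decide
theorem m5 : ∀ u : QuaternionGroup 2, a 2 * u = u * a 2 := by decide
theorem m6 : (a 2 : QuaternionGroup 2) ≠ 1 := by decide
theorem m7 : (a 2 : QuaternionGroup 2) * a 2 = 1 := by decide
theorem m8 : (a 1 : QuaternionGroup 2) * a 1 = a 2 := by decide

/-- The data from an isomorphism with the model. -/
theorem q8Data_of_equiv {F : Subgroup Q} (e : F ≃* QuaternionGroup 2) :
    Q8Data F ((e.symm (a 2) : F) : Q) := by
  let σ : QuaternionGroup 2 →* Q := F.subtype.comp e.symm.toMonoidHom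
  have hσ : ∀ q, σ q = ((e.symm q : F) : Q) := fun q => rfl
  have inj : Function.Injective σ := fun p q h => e.symm.injective (Subtype.ext h)
  have hr : ∀ u ∈ F, ∃ q, σ q = u := by
    intro u hu
    exact ⟨e ⟨u, hu⟩, by rw [hσ]; simp⟩
  have hm : ∀ q, σ q ∈ F := fun q => (e.symm q).2
  rw [← hσ]
  refine
    { zF := hm _
      z1 := fun h => m6 (inj (h.trans (map_one σ).symm))
      z2 := by rw [← map_mul, m7, map_one]
      zc := ?_, f1 := ?_, anti := ?_, list := ?_, partner := ?_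
      ex1 := ⟨σ (a 1), hm _, by rw [← map_mul, m8]⟩
      card8 := ?_ }
  · intro f hf
    obtain ⟨q, rfl⟩ := hr f hf
    rw [← map_mul, ← map_mul, m5]
  · intro u hu
    obtain ⟨q, rfl⟩ := hr u hu
    rcases m1 q with h | h | h
    · exact Or.inl (by rw [h, map_one])
    · exact Or.inr (Or.inl (by rw [h]))
    · exact Or.inr (Or.inr (by rw [← map_mul, h]))
  · intro u hu v hv h1 h2 h3 h4
    obtain ⟨p, rfl⟩ := hr u hu
    obtain ⟨q, rfl⟩ := hr v hv
    rw [← map_mul] at h1 h2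
    have h5 : q ≠ p := fun h => h3 (by rw [h])
    have h6 : q ≠ p⁻¹ := fun h => h4 (by rw [h, map_inv])
    rw [← map_inv, ← map_mul, ← map_mul, m2 p q (inj h1) (inj h2) h5 h6, map_inv]
  · intro u hu v hv h1 h2 h3 h4 f hf
    obtain ⟨p, rfl⟩ := hr u hu
    obtain ⟨q, rfl⟩ := hr v hv
    obtain ⟨r, rfl⟩ := hr f hf
    rw [← map_mul] at h1 h2
    have h5 : q ≠ p := fun h => h3 (by rw [h])
    have h6 : q ≠ p⁻¹ := fun h => h4 (by rw [h, map_inv])
    rcases m3 p q (inj h1) (inj h2) h5 h6 r with h | h | h | h | h | h | h | h <;> rw [h]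
    · exact Or.inl (map_one σ)
    · exact Or.inr (Or.inl rfl)
    · exact Or.inr (Or.inr (Or.inl rfl))
    · exact Or.inr (Or.inr (Or.inr (Or.inl (map_inv σ _))))
    · exact Or.inr (Or.inr (Or.inr (Or.inr (Or.inl rfl))))
    · exact Or.inr (Or.inr (Or.inr (Or.inr (Or.inr (Or.inl (map_inv σ _))))))
    · exact Or.inr (Or.inr (Or.inr (Or.inr (Or.inr (Or.inr (Or.inl (map_mul σ _ _)))))))
    · exact Or.inr (Or.inr (Or.inr (Or.inr (Or.inr (Or.inr (Or.inr (by rw [map_inv, map_mul])))))))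
  · intro u hu h1
    obtain ⟨p, rfl⟩ := hr u hu
    rw [← map_mul] at h1
    obtain ⟨q, hq1, hq2, hq3⟩ := m4 p (inj h1)
    refine ⟨σ q, hm _, by rw [← map_mul, hq1], fun h => hq2 (inj h), fun h => hq3 (inj (h.trans (map_inv σ p).symm))⟩
  · rw [Nat.card_congr e.toEquiv, Nat.card_eq_fintype_card, QuaternionGroup.card]

section data

variable {F : Subgroup Q} {z : Q}

theorem Q8Data.inv_eq (D : Q8Data F z) {u : Q} (h : u * u = z) : u⁻¹ = z * u := by
  rw [inv_eq_iff_mul_eq_one, ← h]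
  calc u * (u * u * u) = (u * u) * (u * u) := by group
    _ = 1 := by rw [h, D.z2]

theorem Q8Data.sq_ne_one (D : Q8Data F z) {u : Q} (h : u * u = z) : u * u ≠ 1 := by
  rw [h]; exact D.z1

theorem Q8Data.ne_one (D : Q8Data F z) {u : Q} (h : u * u = z) : u ≠ 1 := by
  rintro rfl
  exact D.z1 (by rw [← h, one_mul])

theorem Q8Data.ne_z (D : Q8Data F z) {u : Q} (h : u * u = z) : u ≠ z := by
  rintro rfl
  rw [D.z2] at h
  exact D.z1 h.symm

theorem Q8Data.sq_inv (D : Q8Data F z) {u : Q} (h : u * u = z) : u⁻¹ * u⁻¹ = z := by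
  rw [← mul_inv_rev, h, inv_eq_iff_mul_eq_one]; exact D.z2

theorem Q8Data.mulsq (D : Q8Data F z) {u v : Q} (hu : u ∈ F) (hv : v ∈ F) (h1 : u * u = z) (h2 : v * v = z)
    (h3 : v ≠ u) (h4 : v ≠ u⁻¹) : (u * v) * (u * v) = z := by
  have h5 := D.anti u hu v hv h1 h2 h3 h4
  have h6 : v * u * v = u⁻¹ * z := by
    calc v * u * v = (v * v) * (v⁻¹ * u * v) := by group
      _ = z * u⁻¹ := by rw [h2, h5]
      _ = u⁻¹ * z := D.zc _ (F.inv_mem hu)
  calc (u * v) * (u * v) = u * (v * u * v) := by group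
    _ = u * (u⁻¹ * z) := by rw [h6]
    _ = z := by group

theorem Q8Data.anti' (D : Q8Data F z) {u v : Q} (hu : u ∈ F) (hv : v ∈ F) (h1 : u * u = z) (h2 : v * v = z)
    (h3 : v ≠ u) (h4 : v ≠ u⁻¹) : u⁻¹ * v * u = v⁻¹ := by
  refine D.anti v hv u hu h2 h1 (Ne.symm h3) ?_
  intro h
  apply h4
  rw [h, inv_inv]

/-- `v u = (u v)⁻¹`. -/
theorem Q8Data.mul_comm_inv (D : Q8Data F z) {u v : Q} (hu : u ∈ F) (hv : v ∈ F) (h1 : u * u = z) (h2 : v * v = z) :
    (u * v)⁻¹ = v * u := by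
  rw [mul_inv_rev, D.inv_eq h1, D.inv_eq h2]
  have := D.zc v hv
  calc z * v * (z * u) = (v * z) * (z * u) := by rw [this]
    _ = v * (z * z) * u := by group
    _ = v * u := by rw [D.z2, mul_one]

/-- `u⁻¹ v⁻¹ = u v`. -/
theorem Q8Data.inv_mul_inv (D : Q8Data F z) {u v : Q} (hv : v ∈ F) (h1 : u * u = z) (h2 : v * v = z) (hu : u ∈ F) :
    u⁻¹ * v⁻¹ = u * v := by
  rw [D.inv_eq h1, D.inv_eq h2]
  have := D.zc u hu
  calc z * u * (z * v) = (u * z) * (z * v) := by rw [this]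
    _ = u * (z * z) * v := by group
    _ = u * v := by rw [D.z2, mul_one]

/-- A group automorphism preserving `F` fixes `z`. -/
theorem Q8Data.map_z (D : Q8Data F z) (φ : Q ≃* Q) (hφ : ∀ w ∈ F, φ w ∈ F) : φ z = z := by
  have h1 : φ z * φ z = 1 := by rw [← map_mul, D.z2, map_one]
  rcases D.f1 _ (hφ z D.zF) with h | h | h
  · exfalso
    apply D.z1
    apply φ.injective
    rw [h, map_one]
  · exact h
  · rw [h1] at h
    exact absurd h.symm D.z1

theorem Q8Data.map_sq (D : Q8Data F z) (φ : Q ≃* Q) (hφ : ∀ w ∈ F, φ w ∈ F) {u : Q} (h : u * u = z) :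
    φ u * φ u = z := by
  rw [← map_mul, h, D.map_z φ hφ]

/-- Commuting with two generators means centralizing. -/
theorem Q8Data.centralizes (D : Q8Data F z) {u v g : Q} (hu : u ∈ F) (hv : v ∈ F) (h1 : u * u = z) (h2 : v * v = z)
    (h3 : v ≠ u) (h4 : v ≠ u⁻¹) (cz : g * z = z * g) (cu : g * u = u * g) (cv : g * v = v * g) :
    g ∈ centralizer (F : Set Q) := by
  have cu' : g * u⁻¹ = u⁻¹ * g := by
    rw [eq_inv_mul_iff_mul_eq, ← mul_assoc, ← cu, mul_assoc, mul_inv_cancel, mul_one]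
  have cv' : g * v⁻¹ = v⁻¹ * g := by
    rw [eq_inv_mul_iff_mul_eq, ← mul_assoc, ← cv, mul_assoc, mul_inv_cancel, mul_one]
  rw [Subgroup.mem_centralizer_iff]
  intro f hf
  rcases D.list u hu v hv h1 h2 h3 h4 f hf with h | h | h | h | h | h | h | h <;> rw [h]
  · simp
  · exact cz.symm
  · exact cu.symm
  · exact cu'.symm
  · exact cv.symm
  · exact cv'.symm
  · rw [mul_assoc, ← cv, ← mul_assoc, ← cu, mul_assoc]
  · rw [mul_inv_rev, mul_assoc, ← cu', ← mul_assoc, ← cv', mul_assoc]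

/-- **Claim S**: an element acting by signs on two generators lies in `F`. -/
theorem Q8Data.mem_of_signs (D : Q8Data F z) (hC : centralizer (F : Set Q) ≤ F) (hFn : F.Normal) {u v g : Q}
    (hu : u ∈ F) (hv : v ∈ F) (h1 : u * u = z) (h2 : v * v = z) (h3 : v ≠ u) (h4 : v ≠ u⁻¹)
    (hgu : g⁻¹ * u * g = u ∨ g⁻¹ * u * g = u⁻¹) (hgv : g⁻¹ * v * g = v ∨ g⁻¹ * v * g = v⁻¹) : g ∈ F := by
  have hφ : ∀ w ∈ F, (MulAut.conj g⁻¹) w ∈ F := by
    intro w hw
    exact hFn.conj_mem w hw g⁻¹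
  have hcz : g⁻¹ * z * g = z := by
    have := D.map_z (MulAut.conj g⁻¹) hφ
    simpa using this
  -- the reduction
  have key : ∀ f ∈ F, f * (g⁻¹ * u * g) * f⁻¹ = u → f * (g⁻¹ * v * g) * f⁻¹ = v → g ∈ F := by
    intro f hf e1 e2
    have c1 : (g * f⁻¹) * u = u * (g * f⁻¹) := by
      calc (g * f⁻¹) * u = (g * f⁻¹) * (f * (g⁻¹ * u * g) * f⁻¹) := by rw [e1]
        _ = u * (g * f⁻¹) := by group
    have c2 : (g * f⁻¹) * v = v * (g * f⁻¹) := by
      calc (g * f⁻¹) * v = (g * f⁻¹) * (f * (g⁻¹ * v * g) * f⁻¹) := by rw [e2]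
        _ = v * (g * f⁻¹) := by group
    have c0 : (g * f⁻¹) * z = z * (g * f⁻¹) := by
      have c3 : g * z = z * g := by
        calc g * z = g * (g⁻¹ * z * g) := by rw [hcz]
          _ = z * g := by group
      have c4 : f⁻¹ * z = z * f⁻¹ := (D.zc _ (F.inv_mem hf)).symm
      rw [mul_assoc, c4, ← mul_assoc, c3, mul_assoc]
    have := hC (D.centralizes hu hv h1 h2 h3 h4 c0 c1 c2)
    have e : g = (g * f⁻¹) * f := by group
    rw [e]
    exact F.mul_mem this hf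
  have a1 := D.anti u hu v hv h1 h2 h3 h4
  have a2 := D.anti' hu hv h1 h2 h3 h4
  have a1' : v * u⁻¹ * v⁻¹ = u := by
    rw [← a1]; group
  have a2' : u * v⁻¹ * u⁻¹ = v := by
    rw [← a2]; group
  rcases hgu with e1 | e1 <;> rcases hgv with e2 | e2
  · exact key 1 F.one_mem (by rw [e1]; group) (by rw [e2]; group)
  · exact key u hu (by rw [e1]; group) (by rw [e2]; exact a2')
  · exact key v hv (by rw [e1]; exact a1') (by rw [e2]; group)
  · refine key (u * v) (F.mul_mem hu hv) ?_ ?_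
    · rw [e1]
      calc u * v * u⁻¹ * (u * v)⁻¹ = u * (v * u⁻¹ * v⁻¹) * u⁻¹ := by group
        _ = u := by rw [a1']; group
    · rw [e2]
      calc u * v * v⁻¹ * (u * v)⁻¹ = u * v⁻¹ * u⁻¹ := by group
        _ = v := a2'

/-- **Claim X**: an automorphism of order three acting nontrivially moves every cyclic subgroup of order four. -/
theorem Q8Data.claimX (D : Q8Data F z) (φ : Q ≃* Q) (hφ : ∀ w ∈ F, φ w ∈ F) (h3 : ∀ w, φ (φ (φ w)) = w)
    (hne : ¬ ∀ w ∈ F, φ w = w) {u : Q} (hu : u ∈ F) (h2 : u * u = z) : φ u ≠ u ∧ φ u ≠ u⁻¹ := by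
  have hz := D.map_z φ hφ
  have hinv : ∀ w, w * w = z → φ w ≠ w⁻¹ := by
    intro w hw e
    have e1 : φ (φ w) = w := by rw [e, map_inv, e, inv_inv]
    have e2 := h3 w
    rw [e1, e] at e2
    have : w * w = 1 := by
      nth_rewrite 1 [← e2]
      simp
    exact D.sq_ne_one hw this
  refine ⟨?_, hinv u h2⟩
  intro hfix
  obtain ⟨v, hv, hv2, hv3, hv4⟩ := D.partner u hu h2
  have hw : φ v * φ v = z := D.map_sq φ hφ hv2
  have hc : ∀ c : Q, c * c = z → φ c = c → φ v = c * v → False := by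
    intro c hc1 hc2 hc3
    have e1 : φ (φ v) = z * v := by
      rw [hc3, map_mul, hc2, hc3, ← mul_assoc, hc1]
    have e2 := h3 v
    rw [e1, map_mul, hz, hc3] at e2
    have e3 : z * c = 1 := by
      have : z * c * v = 1 * v := by rw [one_mul, mul_assoc]; exact e2
      exact mul_right_cancel this
    have e4 : c = z := by
      have := D.z2
      rw [← e3] at this
      have h5 : z * c = z * z := by rw [e3, D.z2]
      exact mul_left_cancel h5
    exact D.ne_z hc1 e4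
  rcases D.list u hu v hv h2 hv2 hv3 hv4 (φ v) (hφ v hv) with h | h | h | h | h | h | h | h
  · rw [h] at hw
    exact D.z1 (by rw [← hw, one_mul])
  · rw [h, D.z2] at hw
    exact D.z1 hw.symm
  · apply hv3
    apply φ.injective
    rw [h, hfix]
  · apply hv4
    apply φ.injective
    rw [h, map_inv, hfix]
  · apply hne
    intro w hww
    rcases D.list u hu v hv h2 hv2 hv3 hv4 w hww with e | e | e | e | e | e | e | e <;> rw [e]
    · simp
    · exact hz
    · exact hfix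
    · rw [map_inv, hfix]
    · exact h
    · rw [map_inv, h]
    · rw [map_mul, hfix, h]
    · rw [map_inv, map_mul, hfix, h]
  · exact hinv v hv2 h
  · exact hc u h2 hfix h
  · refine hc (z * u) ?_ ?_ ?_
    · have := D.zc u hu
      calc z * u * (z * u) = (u * z) * (z * u) := by rw [this]
        _ = u * (z * z) * u := by group
        _ = z := by rw [D.z2, mul_one, h2]
    · rw [map_mul, hz, hfix]
    · rw [h, mul_inv_rev, D.inv_eq hv2, D.inv_eq h2]
      have := D.zc v hv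
      have e5 : (u * v) * (u * v) = z := D.mulsq hu hv h2 hv2 hv3 hv4
      have e6 := D.inv_eq e5
      rw [mul_inv_rev, D.inv_eq hv2, D.inv_eq h2] at e6
      rw [e6, mul_assoc]

/-- **Lemma Y1**: an element of order four whose cyclic group is fixed by an involutory automorphism. -/
theorem Q8Data.exists_sign (D : Q8Data F z) (ψ : Q ≃* Q) (hψ : ∀ w ∈ F, ψ w ∈ F) (h2 : ∀ w ∈ F, ψ (ψ w) = w) :
    ∃ i ∈ F, i * i = z ∧ (ψ i = i ∨ ψ i = i⁻¹) := by
  obtain ⟨u, hu, hu2⟩ := D.ex1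
  by_cases h1 : ψ u = u
  · exact ⟨u, hu, hu2, Or.inl h1⟩
  by_cases h3 : ψ u = u⁻¹
  · exact ⟨u, hu, hu2, Or.inr h3⟩
  have hw := hψ u hu
  have hw2 := D.map_sq ψ hψ hu2
  refine ⟨u * ψ u, F.mul_mem hu hw, D.mulsq hu hw hu2 hw2 h1 h3, Or.inr ?_⟩
  rw [map_mul, h2 u hu, D.mul_comm_inv hu hw hu2 hw2]

/-- **Lemma X2**: normalizing the action of the element of order three. -/
theorem Q8Data.exists_normal (D : Q8Data F z) (φ ψ : Q ≃* Q) (hφ : ∀ w ∈ F, φ w ∈ F) (h3 : ∀ w, φ (φ (φ w)) = w)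
    (hne : ¬ ∀ w ∈ F, φ w = w) {i : Q} (hi : i ∈ F) (hi2 : i * i = z) (hs : ψ i = i ∨ ψ i = i⁻¹) :
    ∃ i ∈ F, i * i = z ∧ (ψ i = i ∨ ψ i = i⁻¹) ∧ φ (φ i) = i * φ i := by
  have hj := hφ i hi
  have hj2 := D.map_sq φ hφ hi2
  have hk := hφ _ hj
  have hk2 := D.map_sq φ hφ hj2
  obtain ⟨a1, a2⟩ := D.claimX φ hφ h3 hne hi hi2
  obtain ⟨a3, a4⟩ := D.claimX φ hφ h3 hne hj hj2
  have a5 : φ (φ i) ≠ i := by
    intro h
    apply a1
    have := h3 i
    rw [h] at this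
    exact this
  have a6 : φ (φ i) ≠ i⁻¹ := by
    intro h
    apply a2
    have := h3 i
    rw [h, map_inv] at this
    exact inv_eq_iff_eq_inv.mp this
  rcases D.list i hi (φ i) hj hi2 hj2 a1 a2 (φ (φ i)) hk with h | h | h | h | h | h | h | h
  · exact absurd h (D.ne_one hk2)
  · exact absurd h (D.ne_z hk2)
  · exact absurd h a5
  · exact absurd h a6
  · exact absurd h a3
  · exact absurd h a4
  · exact ⟨i, hi, hi2, hs, h⟩
  · refine ⟨i⁻¹, F.inv_mem hi, D.sq_inv hi2, ?_, ?_⟩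
    · rcases hs with e | e
      · exact Or.inl (by rw [map_inv, e])
      · exact Or.inr (by rw [map_inv, e])
    · rw [map_inv, map_inv, h, inv_inv]
      exact (D.inv_mul_inv hj hi2 hj2 hi).symm

end data

end Cfsg.Agent.Lib.PGroups.Q48
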