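import Mathlib
import Cfsg.Agent.Lib.PGroups.Q48A

/-!
# The models: `GL₂(3)` and `S₄`
-/

set_option autoImplicit false

namespace Cfsg.Agent.Lib.PGroups.Q48

open Subgroup

/-- `GL₂(3)`. -/
abbrev G23 := GL (Fin 2) (ZMod 3)

/-- generator -/
def gI : G23 := ⟨!![0, 1; 2, 0], !![0, 2; 1, 0], by decide +kernel, by decide +kernel⟩
/-- generator -/
def gJ : G23 := ⟨!![1, 1; 1, 2], !![2, 2; 2, 1], by decide +kernel, by decide +kernel⟩
/-- generator -/
def gX : G23 := ⟨!![2, 2; 1, 0], !![0, 1; 2, 2], by decide +kernel, by decide +kernel⟩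
/-- generator -/
def gY : G23 := ⟨!![0, 1; 1, 0], !![0, 1; 1, 0], by decide +kernel, by decide +kernel⟩

theorem rels_gl : Rels 4 gI gJ gX gY where
  hi := by decide +kernel
  hj2 := by decide +kernel
  hji := by decide +kernel
  hx3 := by decide +kernel
  hxi := by decide +kernel
  hxj := by decide +kernel
  hyi := by decide +kernel
  hyj := by decide +kernel
  hyx := by decide +kernel

theorem gY_sq : gY * gY = 1 := by decide +kernel

theorem gl_words : ∀ g : G23, ∃ a : Fin 4, ∃ b : Fin 2, ∃ c : Fin 3, ∃ d : Fin 2,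
    g = gI ^ (a : ℕ) * gJ ^ (b : ℕ) * gX ^ (c : ℕ) * gY ^ (d : ℕ) := by decide +kernel

theorem closure_gl : Subgroup.closure ({gI, gJ, gX, gY} : Set G23) = ⊤ := by
  rw [eq_top_iff]
  intro g _
  obtain ⟨a, b, c, d, rfl⟩ := gl_words g
  have mi : gI ∈ Subgroup.closure ({gI, gJ, gX, gY} : Set G23) := Subgroup.subset_closure (by simp)
  have mj : gJ ∈ Subgroup.closure ({gI, gJ, gX, gY} : Set G23) := Subgroup.subset_closure (by simp)
  have mx : gX ∈ Subgroup.closure ({gI, gJ, gX, gY} : Set G23) := Subgroup.subset_closure (by simp)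
  have my : gY ∈ Subgroup.closure ({gI, gJ, gX, gY} : Set G23) := Subgroup.subset_closure (by simp)
  exact Subgroup.mul_mem _ (Subgroup.mul_mem _ (Subgroup.mul_mem _ (Subgroup.pow_mem _ mi _)
    (Subgroup.pow_mem _ mj _)) (Subgroup.pow_mem _ mx _)) (Subgroup.pow_mem _ my _)

theorem card_gl : Nat.card G23 = 48 := by
  have := Matrix.card_GL_field (𝔽 := ZMod 3) 2
  simpa [Fin.prod_univ_two] using this

/-- generators of `S₄` -/
def pI : Equiv.Perm (Fin 4) := Equiv.swap 0 1 * Equiv.swap 2 3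
/-- generators of `S₄` -/
def pJ : Equiv.Perm (Fin 4) := Equiv.swap 0 2 * Equiv.swap 1 3
/-- generators of `S₄` -/
def pX : Equiv.Perm (Fin 4) := ⟨![0, 3, 1, 2], ![0, 2, 3, 1], by decide +kernel, by decide +kernel⟩
/-- generators of `S₄` -/
def pY : Equiv.Perm (Fin 4) := Equiv.swap 2 3

theorem rels_perm : Rels 2 pI pJ pX pY where
  hi := by decide +kernel
  hj2 := by decide +kernel
  hji := by decide +kernel
  hx3 := by decide +kernel
  hxi := by decide +kernel
  hxj := by decide +kernel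
  hyi := by decide +kernel
  hyj := by decide +kernel
  hyx := by decide +kernel

theorem pY_sq : pY * pY = 1 := by decide +kernel

theorem perm_words : ∀ g : Equiv.Perm (Fin 4), ∃ a : Fin 2, ∃ b : Fin 2, ∃ c : Fin 3, ∃ d : Fin 2,
    g = pI ^ (a : ℕ) * pJ ^ (b : ℕ) * pX ^ (c : ℕ) * pY ^ (d : ℕ) := by decide +kernel

theorem closure_perm : Subgroup.closure ({pI, pJ, pX, pY} : Set (Equiv.Perm (Fin 4))) = ⊤ := by
  rw [eq_top_iff]
  intro g _
  obtain ⟨a, b, c, d, rfl⟩ := perm_words g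
  have mi : pI ∈ Subgroup.closure ({pI, pJ, pX, pY} : Set (Equiv.Perm (Fin 4))) := Subgroup.subset_closure (by simp)
  have mj : pJ ∈ Subgroup.closure ({pI, pJ, pX, pY} : Set (Equiv.Perm (Fin 4))) := Subgroup.subset_closure (by simp)
  have mx : pX ∈ Subgroup.closure ({pI, pJ, pX, pY} : Set (Equiv.Perm (Fin 4))) := Subgroup.subset_closure (by simp)
  have my : pY ∈ Subgroup.closure ({pI, pJ, pX, pY} : Set (Equiv.Perm (Fin 4))) := Subgroup.subset_closure (by simp)
  exact Subgroup.mul_mem _ (Subgroup.mul_mem _ (Subgroup.mul_mem _ (Subgroup.pow_mem _ mi _)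
    (Subgroup.pow_mem _ mj _)) (Subgroup.pow_mem _ mx _)) (Subgroup.pow_mem _ my _)

theorem card_perm : Nat.card (Equiv.Perm (Fin 4)) = 24 := by
  rw [Nat.card_eq_fintype_card, Fintype.card_perm, Fintype.card_fin]
  rfl

end Cfsg.Agent.Lib.PGroups.Q48
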