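import Mathlib
import Cfsg.Agent.Lib.PGroups.Q48B
import Cfsg.Agent.Lib.PGroups.Q48M

/-!
# Groups of order 48 with a self-centralizing normal `Q₈`: the elements `i j x y`
-/

set_option autoImplicit false
set_option linter.unusedSectionVars false
set_option linter.style.haveILetI false

namespace Cfsg.Agent.Lib.PGroups.Q48

open Subgroup

variable {Q : Type*} [Group Q] {F : Subgroup Q} {z : Q}

theorem exists_xy [Finite Q] (hFn : F.Normal) (D : Q8Data F z) (hC : centralizer (F : Set Q) ≤ F)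
    (h48 : Nat.card Q = 48) :
    ∃ x y : Q, x ^ 3 = 1 ∧ (¬ ∀ w ∈ F, x⁻¹ * w * x = w) ∧ y ∉ F ∧ (y⁻¹ * x * y = x ∨ y⁻¹ * x * y = x⁻¹) ∧
      (y * y = 1 ∨ y * y = z) ∧ ∀ K : Subgroup Q, F ≤ K → x ∈ K → y ∈ K → K = ⊤ := by
  classical
  haveI : Fact (Nat.Prime 3) := ⟨by norm_num⟩
  haveI : Fact (Nat.Prime 2) := ⟨by norm_num⟩
  obtain ⟨P⟩ : Nonempty (Sylow 3 Q) := inferInstance
  have hP3 : Nat.card P = 3 := by
    obtain ⟨k, hk⟩ := IsPGroup.iff_card.mp P.isPGroup'
    have hm := Subgroup.card_mul_index (P : Subgroup Q)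
    have hnd := P.not_dvd_index
    rw [h48] at hm
    have hk' : Nat.card (P : Subgroup Q) = 3 ^ k := hk
    rw [hk'] at hm
    rcases k with _ | _ | k
    · exfalso
      apply hnd
      simp only [pow_zero, one_mul] at hm
      rw [hm]
      norm_num
    · simpa using hk
    · exfalso
      have : 3 ^ 2 ∣ 48 := by
        rw [← hm]
        exact Dvd.dvd.mul_right (pow_dvd_pow 3 (by omega)) _
      norm_num at this
  obtain ⟨x', hx'⟩ := exists_prime_orderOf_dvd_card' (G := P) 3 (by rw [hP3])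
  obtain ⟨x, hxP⟩ := x'
  have hxo : orderOf x = 3 := by rw [← hx', Subgroup.orderOf_mk]
  have hx3 : x ^ 3 = 1 := by rw [← hxo]; exact pow_orderOf_eq_one x
  have hx1 : x ≠ 1 := by
    rintro rfl
    simp at hxo
  have hzP : zpowers x = (P : Subgroup Q) := by
    apply Subgroup.eq_of_le_of_card_ge
    · exact (Subgroup.zpowers_le).mpr hxP
    · rw [Nat.card_zpowers, hxo]; exact hP3.le
  have h8 : ∀ f ∈ F, f ^ 8 = 1 := by
    intro f hf
    have := pow_card_eq_one' (x := (⟨f, hf⟩ : F))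
    rw [D.card8] at this
    exact congrArg Subtype.val this
  have hP' : ∀ f ∈ (P : Subgroup Q), f ^ 3 = 1 := by
    intro f hf
    have := pow_card_eq_one' (x := (⟨f, hf⟩ : (P : Subgroup Q)))
    rw [hP3] at this
    exact congrArg Subtype.val this
  have hFP : ∀ f, f ∈ F → f ∈ (P : Subgroup Q) → f = 1 := by
    intro f h1 h2
    have e1 := h8 f h1
    have e2 := hP' f h2
    have : f ^ Nat.gcd 8 3 = 1 := pow_gcd_eq_one.mpr ⟨e1, e2⟩
    simpa using this
  have hxF : x ∉ F := fun h => hx1 (hFP x h hxP)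
  have hxxx : x * x * x = 1 := (pow_three' x).symm.trans hx3
  -- `M`
  set M : Subgroup Q := F ⊔ (P : Subgroup Q) with hM
  have hFM : F ≤ M := le_sup_left
  have hPM : (P : Subgroup Q) ≤ M := le_sup_right
  have hMle : Nat.card M ≤ 24 := by
    have hsurj : ∀ m : M, ∃ p : F × P, (p.1 : Q) * (p.2 : Q) = m := by
      intro m
      have hm : (m : Q) ∈ ((F ⊔ (P : Subgroup Q) : Subgroup Q) : Set Q) := m.2
      rw [Subgroup.normal_mul] at hm
      obtain ⟨a, ha, b, hb, e⟩ := Set.mem_mul.mp hm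
      exact ⟨(⟨a, ha⟩, ⟨b, hb⟩), e⟩
    choose c hc using hsurj
    have hinj : Function.Injective c := by
      intro m m' h
      apply Subtype.ext
      rw [← hc m, ← hc m', h]
    have := Nat.card_le_card_of_injective c hinj
    rw [Nat.card_prod, D.card8, hP3] at this
    exact this
  have hMd8 : 8 ∣ Nat.card M := by
    rw [← D.card8]; exact Subgroup.card_dvd_of_le hFM
  have hMd3 : 3 ∣ Nat.card M := by
    rw [← hP3]; exact Subgroup.card_dvd_of_le hPM
  have hMcard : Nat.card M = 24 := by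
    have h1 : 24 ∣ Nat.card M := by
      have : Nat.Coprime 8 3 := by norm_num
      exact this.mul_dvd_of_dvd_of_dvd hMd8 hMd3
    exact le_antisymm hMle (Nat.le_of_dvd Nat.card_pos h1)
  have hMi : M.index = 2 := by
    have := Subgroup.card_mul_index M
    rw [hMcard, h48] at this
    omega
  haveI hMn : M.Normal := Subgroup.normal_of_index_eq_two hMi
  have hF : normalizer ((P : Subgroup Q) : Set Q) ⊔ M = ⊤ := Sylow.normalizer_sup_eq_top' (N := M) P hPM
  obtain ⟨y₀, hy₀N, hy₀M⟩ : ∃ y₀ ∈ normalizer ((P : Subgroup Q) : Set Q), y₀ ∉ M := by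
    by_contra hcon
    push Not at hcon
    have : normalizer ((P : Subgroup Q) : Set Q) ≤ M := hcon
    rw [sup_of_le_right this] at hF
    rw [hF] at hMi
    simp at hMi
  obtain ⟨y, hy⟩ : ∃ y, y = y₀ ^ 3 := ⟨_, rfl⟩
  have hyN : y ∈ normalizer ((P : Subgroup Q) : Set Q) := by
    rw [hy]; exact Subgroup.pow_mem _ hy₀N 3
  have hyM : y ∉ M := by
    intro h
    apply hy₀M
    have h2 : y₀ * y₀ ∈ M := Subgroup.mul_self_mem_of_index_two hMi y₀
    have e : y₀ = y * (y₀ * y₀)⁻¹ := by rw [hy]; group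
    rw [e]
    exact M.mul_mem h (M.inv_mem h2)
  have hyF : y ∉ F := fun h => hyM (hFM h)
  have hy16 : y ^ 16 = 1 := by
    have := pow_card_eq_one' (x := y₀)
    rw [h48] at this
    rw [hy, ← pow_mul]
    exact this
  have hyyF : y * y ∈ F := by
    have hFcard : Nat.card (Q ⧸ F) = 6 := by
      have := Subgroup.card_eq_card_quotient_mul_card_subgroup F
      rw [h48, D.card8] at this
      omega
    haveI := hFn
    have e6 : ((y : Q) : Q ⧸ F) ^ 6 = 1 := by
      have := pow_card_eq_one' (x := ((y : Q) : Q ⧸ F))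
      rwa [hFcard] at this
    have e16 : ((y : Q) : Q ⧸ F) ^ 16 = 1 := by
      rw [← QuotientGroup.mk_pow, hy16, QuotientGroup.mk_one]
    have e2 : ((y : Q) : Q ⧸ F) ^ Nat.gcd 6 16 = 1 := pow_gcd_eq_one.mpr ⟨e6, e16⟩
    have e3 : ((y : Q) : Q ⧸ F) ^ 2 = 1 := by simpa using e2
    rw [← QuotientGroup.mk_pow, QuotientGroup.eq_one_iff, pow_two] at e3
    exact e3
  let φ : Q ≃* Q := MulAut.conj x⁻¹
  have hφv : ∀ w, φ w = x⁻¹ * w * x := fun w => by simp [φ]
  have hφF : ∀ w ∈ F, φ w ∈ F := fun w hw => by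
    simpa [φ] using hFn.conj_mem w hw x⁻¹
  have hφ3 : ∀ w, φ (φ (φ w)) = w := by
    intro w
    rw [hφv, hφv, hφv]
    calc x⁻¹ * (x⁻¹ * (x⁻¹ * w * x) * x) * x = (x * x * x)⁻¹ * w * (x * x * x) := by group
      _ = w := by rw [hxxx]; simp
  have hne : ¬ ∀ w ∈ F, x⁻¹ * w * x = w := by
    intro h
    apply hxF
    apply hC
    rw [Subgroup.mem_centralizer_iff]
    intro w hw
    have := h w hw
    calc w * x = x * (x⁻¹ * w * x) := by group
      _ = x * w := by rw [this]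
  have hne' : ¬ ∀ w ∈ F, φ w = w := by
    intro h
    apply hne
    intro w hw
    rw [← hφv]
    exact h w hw
  have hyy : y * y = 1 ∨ y * y = z := by
    rcases D.f1 _ hyyF with h | h | h
    · exact Or.inl h
    · exact Or.inr h
    · exfalso
      obtain ⟨w, hw⟩ : ∃ w, w = y * y := ⟨_, rfl⟩
      rw [← hw] at h hyyF
      have hwN : w ∈ normalizer ((P : Subgroup Q) : Set Q) := by
        rw [hw]; exact Subgroup.mul_mem _ hyN hyN
      have c1 : w * x⁻¹ * w⁻¹ ∈ (P : Subgroup Q) :=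
        (Subgroup.mem_normalizer_iff.mp hwN _).mp (Subgroup.inv_mem _ hxP)
      have c2 : w * x⁻¹ * w⁻¹ * x ∈ (P : Subgroup Q) := Subgroup.mul_mem _ c1 hxP
      have c3 : w * x⁻¹ * w⁻¹ * x ∈ F := by
        have e : w * x⁻¹ * w⁻¹ * x = w * φ w⁻¹ := by rw [hφv]; group
        rw [e]
        exact F.mul_mem hyyF (hφF _ (F.inv_mem hyyF))
      have c4 := hFP _ c3 c2
      have c5 : φ w = w := by
        rw [hφv]
        have e : x⁻¹ * w * x = (w * x⁻¹ * w⁻¹ * x)⁻¹ * w := by group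
        rw [e, c4]
        simp
      exact (D.claimX φ hφF hφ3 hne' hyyF h).1 c5
  have hyx : y⁻¹ * x * y = x ∨ y⁻¹ * x * y = x⁻¹ := by
    have h1 : y⁻¹ * x * y ∈ (P : Subgroup Q) := by
      have := (Subgroup.mem_normalizer_iff.mp (Subgroup.inv_mem _ hyN) x).mp hxP
      simpa using this
    rw [← hzP] at h1
    have h2 : y⁻¹ * x * y ∈ Submonoid.powers x := by
      rw [mem_powers_iff_mem_zpowers]; exact h1
    obtain ⟨n, hn⟩ := Submonoid.mem_powers_iff _ _ |>.mp h2
    have hmod : x ^ n = x ^ (n % 3) := by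
      conv_lhs => rw [← Nat.div_add_mod n 3, pow_add, pow_mul, hx3, one_pow, one_mul]
    have hlt : n % 3 < 3 := Nat.mod_lt _ (by norm_num)
    rw [hmod] at hn
    interval_cases hh : n % 3
    · exfalso
      apply hx1
      have e : x = y * (y⁻¹ * x * y) * y⁻¹ := by group
      rw [e, ← hn]
      simp
    · left
      rw [← hn, pow_one]
    · right
      rw [← hn]
      rw [eq_inv_iff_mul_eq_one, ← pow_succ, hx3]
  refine ⟨x, y, hx3, hne, hyF, hyx, hyy, ?_⟩
  intro K hFK hxK hyK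
  have hPK : (P : Subgroup Q) ≤ K := by
    rw [← hzP]; exact (Subgroup.zpowers_le).mpr hxK
  have hMK : M ≤ K := sup_le hFK hPK
  have h1 : Nat.card M ∣ Nat.card K := Subgroup.card_dvd_of_le hMK
  have h2 : Nat.card K ∣ Nat.card Q := Subgroup.card_subgroup_dvd_card K
  rw [h48] at h2
  rw [hMcard] at h1
  have h3 : Nat.card K ≠ 24 := by
    intro h
    have : M = K := Subgroup.eq_of_le_of_card_ge hMK (by rw [h, hMcard])
    exact hyM (this ▸ hyK)
  obtain ⟨m, hm⟩ := h1
  obtain ⟨n, hn⟩ := h2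
  have : m ∣ 2 := by
    refine ⟨n, ?_⟩
    rw [hm] at hn
    nlinarith
  have hm2 : m = 1 ∨ m = 2 := (Nat.dvd_prime Nat.prime_two).mp this
  rcases hm2 with rfl | rfl
  · exact absurd (by rw [hm]) h3
  · apply Subgroup.eq_top_of_card_eq
    rw [hm, h48]

theorem exists_rels [Finite Q] (hFn : F.Normal) (D : Q8Data F z) (hC : centralizer (F : Set Q) ≤ F)
    (h48 : Nat.card Q = 48) :
    ∃ i j x y : Q, Rels 4 i j x y ∧ i ∈ F ∧ j ∈ F ∧ i * i = z ∧ j ≠ i ∧ j ≠ i⁻¹ ∧ (y * y = 1 ∨ y * y = z) ∧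
      closure ({i, j, x, y} : Set Q) = ⊤ := by
  classical
  obtain ⟨x, y, hx3, hne, hyF, hyx, hyy, hgen⟩ := exists_xy hFn D hC h48
  let φ : Q ≃* Q := MulAut.conj x⁻¹
  have hφv : ∀ w, φ w = x⁻¹ * w * x := fun w => by simp [φ]
  have hφF : ∀ w ∈ F, φ w ∈ F := fun w hw => by
    simpa [φ] using hFn.conj_mem w hw x⁻¹
  have hxxx : x * x * x = 1 := (pow_three' x).symm.trans hx3
  have hφ3 : ∀ w, φ (φ (φ w)) = w := by
    intro w
    rw [hφv, hφv, hφv]
    calc x⁻¹ * (x⁻¹ * (x⁻¹ * w * x) * x) * x = (x * x * x)⁻¹ * w * (x * x * x) := by group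
      _ = w := by rw [hxxx]; simp
  have hne' : ¬ ∀ w ∈ F, φ w = w := by
    intro h
    apply hne
    intro w hw
    rw [← hφv]
    exact h w hw
  let ψ : Q ≃* Q := MulAut.conj y⁻¹
  have hψv : ∀ w, ψ w = y⁻¹ * w * y := fun w => by simp [ψ]
  have hψF : ∀ w ∈ F, ψ w ∈ F := fun w hw => by
    simpa [ψ] using hFn.conj_mem w hw y⁻¹
  have hψ2 : ∀ w ∈ F, ψ (ψ w) = w := by
    intro w hw
    rw [hψv, hψv]
    have e : y⁻¹ * (y⁻¹ * w * y) * y = (y * y)⁻¹ * w * (y * y) := by group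
    rw [e]
    rcases hyy with h | h
    · rw [h]; simp
    · rw [h, mul_assoc, ← D.zc w hw, ← mul_assoc, inv_mul_cancel, one_mul]
  obtain ⟨i₀, hi₀, hi₀2, hs₀⟩ := D.exists_sign ψ hψF hψ2
  obtain ⟨i, hi, hi2, hs, hnorm⟩ := D.exists_normal φ ψ hφF hφ3 hne' hi₀ hi₀2 hs₀
  obtain ⟨j, hjdef⟩ : ∃ j, j = φ i := ⟨_, rfl⟩
  rw [← hjdef] at hnorm
  have hj : j ∈ F := hjdef ▸ hφF i hi
  have hj2 : j * j = z := hjdef ▸ D.map_sq φ hφF hi2
  obtain ⟨a1, a2⟩ := D.claimX φ hφF hφ3 hne' hi hi2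
  rw [← hjdef] at a1 a2
  have hφj : φ j = i * j := by rw [hjdef]; rw [hjdef] at hnorm; exact hnorm
  have hφij : φ (i * j) = i := by
    rw [← hφj, hjdef]; exact hφ3 i
  have hyi_yj : ψ i = i⁻¹ ∧ ψ j = (i * j)⁻¹ := by
    rcases hyx with hc | hc
    · exfalso
      have hc' : y⁻¹ * x⁻¹ * y = x⁻¹ := by
        have : y⁻¹ * x⁻¹ * y = (y⁻¹ * x * y)⁻¹ := by group
        rw [this, hc]
      have hcomm : ∀ w, ψ (φ w) = φ (ψ w) := by
        intro w
        rw [hψv, hφv, hφv, hψv]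
        calc y⁻¹ * (x⁻¹ * w * x) * y = (y⁻¹ * x⁻¹ * y) * (y⁻¹ * w * y) * (y⁻¹ * x * y) := by group
          _ = x⁻¹ * (y⁻¹ * w * y) * x := by rw [hc', hc]
      have hb : ψ j = j ∨ ψ j = j⁻¹ := by
        rw [hjdef, hcomm]
        rcases hs with e | e
        · exact Or.inl (by rw [e])
        · exact Or.inr (by rw [e, map_inv])
      apply hyF
      refine D.mem_of_signs hC hFn hi hj hi2 hj2 a1 a2 ?_ ?_
      · rw [← hψv]; exact hs
      · rw [← hψv]; exact hb
    · have hc' : y⁻¹ * x⁻¹ * y = x := by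
        have : y⁻¹ * x⁻¹ * y = (y⁻¹ * x * y)⁻¹ := by group
        rw [this, hc, inv_inv]
      have hrel : ∀ w, φ (ψ (φ w)) = ψ w := by
        intro w
        rw [hφv, hψv, hφv, hψv]
        calc x⁻¹ * (y⁻¹ * (x⁻¹ * w * x) * y) * x
            = x⁻¹ * ((y⁻¹ * x⁻¹ * y) * (y⁻¹ * w * y) * (y⁻¹ * x * y)) * x := by group
          _ = y⁻¹ * w * y := by rw [hc', hc]; group
      have e1 : φ (ψ j) = ψ i := by rw [hjdef]; exact hrel i
      have e2 : φ (ψ (i * j)) = ψ j := by rw [← hφj]; exact hrel j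
      rcases hs with e | e
      · exfalso
        have e3 : ψ j = i * j := by
          apply φ.injective
          rw [e1, e, hφij]
        have e4 : ψ (i * j) = j := by
          apply φ.injective
          rw [e2, e3, hφj]
        rw [map_mul, e, e3, ← mul_assoc, hi2] at e4
        have : z * j = 1 * j := by rw [one_mul]; exact e4
        exact D.z1 (mul_right_cancel this)
      · refine ⟨e, ?_⟩
        apply φ.injective
        rw [e1, e, map_inv, hφij]
  obtain ⟨e1, e2⟩ := hyi_yj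
  rw [hψv] at e1 e2
  have hR : Rels 4 i j x y :=
    { hi := by
        calc i ^ 4 = (i * i) * (i * i) := by rw [show (4 : ℕ) = 2 + 2 from rfl, pow_add, pow_two]
          _ = 1 := by rw [hi2, D.z2]
      hj2 := by rw [hj2, hi2]
      hji := D.anti i hi j hj hi2 hj2 a1 a2
      hx3 := hx3
      hxi := by rw [← hφv, hjdef]
      hxj := by rw [← hφv, hφj]
      hyi := e1
      hyj := e2
      hyx := by
        rcases hyx with hc | hc
        · exfalso
          have hc' : y⁻¹ * x⁻¹ * y = x⁻¹ := by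
            have : y⁻¹ * x⁻¹ * y = (y⁻¹ * x * y)⁻¹ := by group
            rw [this, hc]
          have hcomm : ∀ w, ψ (φ w) = φ (ψ w) := by
            intro w
            rw [hψv, hφv, hφv, hψv]
            calc y⁻¹ * (x⁻¹ * w * x) * y = (y⁻¹ * x⁻¹ * y) * (y⁻¹ * w * y) * (y⁻¹ * x * y) := by group
              _ = x⁻¹ * (y⁻¹ * w * y) * x := by rw [hc', hc]
          have hb : ψ j = j ∨ ψ j = j⁻¹ := by
            rw [hjdef, hcomm, hψv, e1]
            exact Or.inr (by rw [map_inv])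
          apply hyF
          refine D.mem_of_signs hC hFn hi hj hi2 hj2 a1 a2 (Or.inr e1) ?_
          rw [← hψv]; exact hb
        · exact hc }
  refine ⟨i, j, x, y, hR, hi, hj, hi2, a1, a2, hyy, ?_⟩
  set K := closure ({i, j, x, y} : Set Q) with hK
  have mi : i ∈ K := subset_closure (by simp)
  have mj : j ∈ K := subset_closure (by simp)
  have mx : x ∈ K := subset_closure (by simp)
  have my : y ∈ K := subset_closure (by simp)
  refine hgen K ?_ mx my
  intro f hf
  rcases D.list i hi j hj hi2 hj2 a1 a2 f hf with h | h | h | h | h | h | h | h <;> rw [h]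
  · exact K.one_mem
  · rw [← hi2]; exact K.mul_mem mi mi
  · exact mi
  · exact K.inv_mem mi
  · exact mj
  · exact K.inv_mem mj
  · exact K.mul_mem mi mj
  · exact K.inv_mem (K.mul_mem mi mj)

end Cfsg.Agent.Lib.PGroups.Q48
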