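import Mathlib
import Cfsg.Agent.Lib.PGroups.Q48C
import Cfsg.Agent.Lib.TwoGroups.Present
import Cfsg.Agent.Lib.Basic.Core

/-!
# Groups of order 48 with a self-centralizing normal `Q₈`: identification
-/

set_option autoImplicit false
set_option linter.unusedSectionVars false
set_option linter.style.haveILetI false

namespace Cfsg.Agent.Lib.PGroups.Q48

open Subgroup

variable {Q : Type*} [Group Q] {F : Subgroup Q} {z : Q}

theorem Rels.map2 {A : Type*} [Group A] {i j x y : Q} (R : Rels 4 i j x y) (f : Q →* A) (h : f i * f i = 1) :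
    Rels 2 (f i) (f j) (f x) (f y) where
  hi := by rw [pow_two, h]
  hj2 := by rw [← map_mul, R.hj2, map_mul]
  hji := by rw [← map_inv, ← map_mul, ← map_mul, R.hji, map_inv]
  hx3 := by rw [← map_pow, R.hx3, map_one]
  hxi := by rw [← map_inv, ← map_mul, ← map_mul, R.hxi]
  hxj := by rw [← map_inv, ← map_mul, ← map_mul, R.hxj, map_mul]
  hyi := by rw [← map_inv, ← map_mul, ← map_mul, R.hyi, map_inv]
  hyj := by rw [← map_inv, ← map_mul, ← map_mul, R.hyj, map_inv, map_mul]
  hyx := by rw [← map_inv, ← map_mul, ← map_mul, R.hyx, map_inv]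

theorem Q8Data.mem_center (D : Q8Data F z) (hFn : F.Normal) : z ∈ center Q := by
  rw [Subgroup.mem_center_iff]
  intro g
  have hφ : ∀ w ∈ F, (MulAut.conj g⁻¹) w ∈ F := fun w hw => hFn.conj_mem w hw g⁻¹
  have h := D.map_z (MulAut.conj g⁻¹) hφ
  simp only [MulAut.conj_apply, inv_inv] at h
  calc g * z = g * (g⁻¹ * z * g) := by rw [h]
    _ = z * g := by group

/-- Elements of `F` commuting with `F`. -/
theorem Q8Data.central_cases (D : Q8Data F z) {c : Q} (hc : c ∈ F) (hcc : ∀ f ∈ F, c * f = f * c) : c = 1 ∨ c = z := by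
  rcases D.f1 c hc with h | h | h
  · exact Or.inl h
  · exact Or.inr h
  · exfalso
    obtain ⟨v, hv, hv2, hv3, hv4⟩ := D.partner c hc h
    have e := D.anti c hc v hv h hv2 hv3 hv4
    have e1 : v⁻¹ * c * v = c := by
      rw [mul_assoc, hcc v hv]; group
    rw [e1] at e
    have : c * c = 1 := by
      nth_rewrite 1 [e]
      simp
    exact D.sq_ne_one h this

theorem Q8Data.orderOf_z (D : Q8Data F z) : orderOf z = 2 := by
  haveI : Fact (Nat.Prime 2) := ⟨Nat.prime_two⟩
  exact orderOf_eq_prime (by rw [pow_two]; exact D.z2) D.z1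

theorem Q8Data.center_eq [Finite Q] (D : Q8Data F z) (hFn : F.Normal) (hC : centralizer (F : Set Q) ≤ F) :
    center Q = zpowers z := by
  apply le_antisymm
  · intro c hc
    have hc' := Subgroup.mem_center_iff.mp hc
    have h1 : c ∈ F := by
      apply hC
      rw [Subgroup.mem_centralizer_iff]
      exact fun f _ => hc' f
    rcases D.central_cases h1 (fun f _ => (hc' f).symm) with h | h
    · rw [h]; exact Subgroup.one_mem _
    · rw [h]; exact Subgroup.mem_zpowers z
  · exact (Subgroup.zpowers_le).mpr (D.mem_center hFn)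

theorem Q8Data.card_center [Finite Q] (D : Q8Data F z) (hFn : F.Normal) (hC : centralizer (F : Set Q) ≤ F) :
    Nat.card (center Q) = 2 := by
  rw [D.center_eq hFn hC, Nat.card_zpowers, D.orderOf_z]

theorem card_sylow2 [Finite Q] (h48 : Nat.card Q = 48) (P : Sylow 2 Q) : Nat.card (P : Subgroup Q) = 16 := by
  haveI : Fact (Nat.Prime 2) := ⟨Nat.prime_two⟩
  obtain ⟨k, hk⟩ := IsPGroup.iff_card.mp P.isPGroup'
  have hm := Subgroup.card_mul_index (P : Subgroup Q)
  have hnd := P.not_dvd_index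
  have hk' : Nat.card (P : Subgroup Q) = 2 ^ k := hk
  rw [h48, hk'] at hm
  rw [hk']
  have hk5 : k ≤ 4 := by
    by_contra hcon
    have : 2 ^ 5 ∣ 48 := by
      rw [← hm]
      exact Dvd.dvd.mul_right (pow_dvd_pow 2 (by omega)) _
    norm_num at this
  have : P.index = 48 / 2 ^ k := by
    rw [← hm, Nat.mul_div_cancel_left _ (by positivity)]
  interval_cases k
  · exfalso; apply hnd; rw [this]; norm_num
  · exfalso; apply hnd; rw [this]; norm_num
  · exfalso; apply hnd; rw [this]; norm_num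
  · exfalso; apply hnd; rw [this]; norm_num
  · norm_num

theorem sylow_quat [Finite Q] (hFn : F.Normal) (D : Q8Data F z) (h48 : Nat.card Q = 48) {i j x y : Q}
    (R : Rels 4 i j x y) (hi : i ∈ F) (hj : j ∈ F) (hi2 : i * i = z) (hy : y * y = z) (P : Sylow 2 Q) :
    Nonempty ((P : Subgroup Q) ≃* QuaternionGroup 4) := by
  classical
  haveI : Fact (Nat.Prime 2) := ⟨Nat.prime_two⟩
  have hF2 : IsPGroup 2 F := IsPGroup.of_card (n := 3) (by rw [D.card8]; norm_num)
  have hj2 : j * j = z := by rw [R.hj2, hi2]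
  have hy4 : y ^ 2 ^ 2 = 1 := by
    calc y ^ 2 ^ 2 = (y * y) * (y * y) := by
          rw [show (2 ^ 2 : ℕ) = 2 + 2 from rfl, pow_add, pow_two]
      _ = 1 := by rw [hy, D.z2]
  have hyp : IsPGroup 2 (zpowers y) := by
    rw [Cfsg.Agent.Lib.PGroups.isPGroup_zpowers_iff]
    obtain ⟨k, _, hk⟩ := (Nat.dvd_prime_pow Nat.prime_two).mp (orderOf_dvd_of_pow_eq_one hy4)
    exact ⟨k, hk⟩
  obtain ⟨P₀, hP₀⟩ := hyp.exists_le_sylow
  have hFP : F ≤ (P₀ : Subgroup Q) := Cfsg.Agent.Lib.Basic.normal_pGroup_le_sylow hFn hF2 P₀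
  have hyP : y ∈ (P₀ : Subgroup Q) := hP₀ (Subgroup.mem_zpowers y)
  have hjP : j ∈ (P₀ : Subgroup Q) := hFP hj
  have htP : y * j ∈ (P₀ : Subgroup Q) := Subgroup.mul_mem _ hyP hjP
  have hc : Nat.card (P₀ : Subgroup Q) = 4 * 4 := card_sylow2 h48 P₀
  have hii : i⁻¹ = z * i := D.inv_eq hi2
  -- `t² = i⁻¹`
  have ht2 : (y * j) * (y * j) = i⁻¹ := by
    have e1 := R.hyj
    have e2 := R.hji
    calc (y * j) * (y * j) = (y * y) * (y⁻¹ * j * y) * j := by group
      _ = z * (i * j)⁻¹ * j := by rw [hy, e1]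
      _ = z * (j⁻¹ * i * j)⁻¹ := by group
      _ = z * i := by rw [e2, inv_inv]
      _ = i⁻¹ := hii.symm
  have hiF := D.sq_inv hi2
  have ht4 : (y * j) ^ 4 = z := by
    calc (y * j) ^ 4 = ((y * j) * (y * j)) * ((y * j) * (y * j)) := by
          rw [show (4 : ℕ) = 2 + 2 from rfl, pow_add, pow_two]
      _ = z := by rw [ht2, hiF]
  have ht8 : orderOf (y * j) = 8 := by
    have : orderOf (y * j) = 2 ^ (2 + 1) := by
      apply orderOf_eq_prime_pow
      · rw [show (2 ^ 2 : ℕ) = 4 from rfl, ht4]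
        exact D.z1
      · rw [show (2 ^ (2 + 1) : ℕ) = 4 + 4 from rfl, pow_add, ht4, D.z2]
    rw [this]
    rfl
  let ρ : (P₀ : Subgroup Q) := ⟨y * j, htP⟩
  let σ : (P₀ : Subgroup Q) := ⟨j, hjP⟩
  have h1 : orderOf ρ = 2 * 4 := by
    rw [Subgroup.orderOf_mk, ht8]
  have h2 : σ * σ = ρ ^ 4 := by
    apply Subtype.ext
    change j * j = (y * j) ^ 4
    rw [ht4, hj2]
  have h3 : σ * ρ * σ⁻¹ = ρ⁻¹ := by
    apply Subtype.ext
    change j * (y * j) * j⁻¹ = (y * j)⁻¹
    rw [eq_inv_iff_mul_eq_one]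
    calc j * (y * j) * j⁻¹ * (y * j) = j * (y * y) * j := by group
      _ = (j * j) * z := by rw [hy, mul_assoc, D.zc j hj]; group
      _ = 1 := by rw [hj2, D.z2]
  have h4 : σ ∉ zpowers ρ := by
    intro hm
    obtain ⟨k, hk⟩ := Subgroup.mem_zpowers_iff.mp hm
    have hk' : (y * j) ^ k = j := by
      have := congrArg Subtype.val hk
      simpa [ρ, σ] using this
    have hcomm : (y * j) * j = j * (y * j) := by
      nth_rewrite 2 [← hk']
      nth_rewrite 3 [← hk']
      exact ((Commute.refl (y * j)).zpow_right k).eq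
    have hcomm2 : j⁻¹ * i⁻¹ * j = i⁻¹ := by
      have c1 : ((y * j) * (y * j)) * j = j * ((y * j) * (y * j)) := by
        rw [mul_assoc, hcomm, ← mul_assoc, hcomm, mul_assoc]
      rw [ht2] at c1
      rw [mul_assoc, c1]
      group
    have e2 := R.hji
    have e3 : j⁻¹ * i⁻¹ * j = i := by
      have : j⁻¹ * i⁻¹ * j = (j⁻¹ * i * j)⁻¹ := by group
      rw [this, e2, inv_inv]
    rw [hcomm2] at e3
    have : i * i = 1 := by
      nth_rewrite 1 [← e3]
      simp
    exact D.sq_ne_one hi2 this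
  obtain ⟨e⟩ := Cfsg.Agent.Lib.TwoGroups.nonempty_mulEquiv_quaternion_of (G := (P₀ : Subgroup Q)) (m := 4) ρ σ h1 h2 h3 h4 hc
  exact ⟨(Sylow.equiv P P₀).trans e⟩

/-- The identification of the groups of order 48 with a self-centralizing normal quaternion group of order 8. -/
theorem final_of_data [Finite Q] (hFn : F.Normal) (D : Q8Data F z) (hC : centralizer (F : Set Q) ≤ F)
    (h48 : Nat.card Q = 48) :
    Nonempty (Q ≃* GL (Fin 2) (ZMod 3)) ∨
      (Nat.card Q = 48 ∧ Nat.card (center Q) = 2 ∧ Nonempty (Q ⧸ center Q ≃* Equiv.Perm (Fin 4)) ∧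
        ∀ P : Sylow 2 Q, Nonempty ((P : Subgroup Q) ≃* QuaternionGroup 4)) := by
  obtain ⟨i, j, x, y, R, hi, hj, hi2, a1, a2, hyy, hgen⟩ := exists_rels hFn D hC h48
  rcases hyy with hy | hy
  · left
    exact nonempty_mulEquiv_of_rels (n := 4) (by norm_num) R rels_gl (Or.inl ⟨hy, gY_sq⟩) hgen closure_gl
      (by rw [h48]) (by rw [card_gl])
  · right
    refine ⟨h48, D.card_center hFn hC, ?_, sylow_quat hFn D h48 R hi hj hi2 hy⟩
    let f : Q →* Q ⧸ center Q := QuotientGroup.mk' (center Q)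
    have hz : f z = 1 := (QuotientGroup.eq_one_iff z).mpr (D.mem_center hFn)
    have h1 : f i * f i = 1 := by rw [← map_mul, hi2, hz]
    have R' := R.map2 f h1
    have hy' : f y * f y = 1 := by rw [← map_mul, hy, hz]
    have hsurj : Function.Surjective f := QuotientGroup.mk'_surjective _
    have hg' : closure ({f i, f j, f x, f y} : Set (Q ⧸ center Q)) = ⊤ := by
      have := Subgroup.map_top_of_surjective f hsurj
      rw [← hgen, MonoidHom.map_closure] at this
      simpa [Set.image_insert_eq] using this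
    have hcard : Nat.card (Q ⧸ center Q) = 24 := by
      have := Subgroup.card_eq_card_quotient_mul_card_subgroup (center Q)
      rw [h48, D.card_center hFn hC] at this
      omega
    exact nonempty_mulEquiv_of_rels (n := 2) (by norm_num) R' rels_perm (Or.inl ⟨hy', pY_sq⟩) hg' closure_perm
      (by rw [hcard]) (by rw [card_perm])

end Cfsg.Agent.Lib.PGroups.Q48
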