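import Mathlib
import Cfsg.Agent.Lib.PGroups.Q48D
import Cfsg.Agent.Lib.OddLocal.UniqueP2
import Cfsg.Agent.Lib.Char.GagolaSolv
import Cfsg.Agent.Lib.Perm.RegQ8
import Cfsg.Agent.Lib.Basic.Solv1
import Cfsg.Agent.Lib.LocalEven.Basic
import Cfsg.Prelude.Def_CaseTheorems

/-!
# Solvable groups in which distinct Sylow 2-subgroups meet in 2-rank at most one
-/

set_option autoImplicit false
set_option linter.unusedSectionVars false
set_option linter.style.haveILetI false
set_option linter.unusedVariables false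

namespace Cfsg.Agent.Lib.PGroups.Q48

open Subgroup Cfsg Cfsg.Agent.Lib.Basic

theorem no_klein {W : Type*} [Group W] [Finite W] (h : PRankLE 2 1 W) {a b : W} (ha : a * a = 1) (hb : b * b = 1)
    (hab : a * b = b * a) (ha1 : a ≠ 1) (hb1 : b ≠ 1) (hne : a ≠ b) : False := by
  let A := closure ({a, b} : Set W)
  have ma : a ∈ A := subset_closure (by simp)
  have mb : b ∈ A := subset_closure (by simp)
  have c1 : ∀ x ∈ A, x * a = a * x ∧ x * b = b * x := by
    intro x hx
    have h1 : A ≤ centralizer ({a, b} : Set W) := by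
      rw [Subgroup.closure_le]
      intro s hs
      rw [SetLike.mem_coe, Subgroup.mem_centralizer_iff]
      intro t ht
      rcases hs with hs | hs <;> rcases ht with ht | ht <;> rw [hs, ht]
      · exact hab.symm
      · exact hab
    have h2 := Subgroup.mem_centralizer_iff.mp (h1 hx)
    exact ⟨(h2 a (by simp)).symm, (h2 b (by simp)).symm⟩
  have c2 : ∀ x ∈ A, ∀ y ∈ A, x * y = y * x := by
    intro x hx y hy
    have h1 : A ≤ centralizer ({x} : Set W) := by
      rw [Subgroup.closure_le]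
      intro s hs
      rw [SetLike.mem_coe, Subgroup.mem_centralizer_iff]
      intro t ht
      have ht' : t = x := ht
      rw [ht']
      rcases hs with hs | hs <;> rw [hs]
      · exact (c1 x hx).1
      · exact (c1 x hx).2
    exact Subgroup.mem_centralizer_iff.mp (h1 hy) x rfl
  have e2 : ∀ x ∈ A, x ^ 2 = 1 := by
    intro x hx
    induction hx using Subgroup.closure_induction with
    | mem s hs =>
      rcases hs with rfl | rfl
      · rw [pow_two, ha]
      · rw [pow_two, hb]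
    | one => simp
    | mul s t hs ht h1 h2 =>
      have : Commute s t := c2 s hs t ht
      rw [this.mul_pow, h1, h2, one_mul]
    | inv s _ h1 => rw [inv_pow, h1, inv_one]
  have hc : IsMulCommutative A := ⟨⟨fun x y => Subtype.ext (c2 _ x.2 _ y.2)⟩⟩
  have hle := h A hc e2
  classical
  have h3 : ({1, a, b} : Finset W).card = 3 := Finset.card_eq_three.mpr ⟨1, a, b, Ne.symm ha1, Ne.symm hb1, hne, rfl⟩
  have hsub : (({1, a, b} : Finset W) : Set W) ⊆ (A : Set W) := by
    intro s hs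
    simp only [Finset.coe_insert, Finset.coe_singleton, Set.mem_insert_iff, Set.mem_singleton_iff] at hs
    rcases hs with hs | hs | hs <;> rw [hs]
    · exact A.one_mem
    · exact ma
    · exact mb
  have h4 := Set.ncard_le_ncard hsub (Set.toFinite _)
  rw [Set.ncard_coe_finset, h3, ← Nat.card_coe_set_eq] at h4
  have h5 : Nat.card (A : Set W) ≤ 2 ^ 1 := hle
  omega

theorem uniqueP_of_no_klein {W : Type*} [Group W] [Finite W] (hW : IsPGroup 2 W)
    (hk : ∀ a b : W, a * a = 1 → b * b = 1 → a * b = b * a → a ≠ 1 → b ≠ 1 → a ≠ b → False) :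
    Cfsg.Agent.Lib.OddLocal.UniqueP 2 W := by
  classical
  haveI : Fact (Nat.Prime 2) := ⟨Nat.prime_two⟩
  intro H K hH hK
  have key : ∀ L : Subgroup W, Nat.card L = 2 → ∀ ζ : W, ζ ∈ center W → orderOf ζ = 2 → L = zpowers ζ := by
    intro L hL ζ hζ hζo
    obtain ⟨h', ho⟩ := exists_prime_orderOf_dvd_card' (G := L) 2 (by rw [hL])
    obtain ⟨h, hh⟩ := h'
    have ho' : orderOf h = 2 := by rw [← ho, Subgroup.orderOf_mk]
    have hh2 : h * h = 1 := by rw [← pow_two, ← ho']; exact pow_orderOf_eq_one h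
    have hh1 : h ≠ 1 := by
      rintro rfl
      simp at ho'
    have hz2 : ζ * ζ = 1 := by rw [← pow_two, ← hζo]; exact pow_orderOf_eq_one ζ
    have hz1 : ζ ≠ 1 := by
      rintro rfl
      simp at hζo
    have e : h = ζ := by
      by_contra hne
      exact hk h ζ hh2 hz2 ((Subgroup.mem_center_iff.mp hζ h)) hh1 hz1 hne
    subst e
    symm
    apply Subgroup.eq_of_le_of_card_ge
    · exact (Subgroup.zpowers_le).mpr hh
    · rw [Nat.card_zpowers, ho', hL]
  haveI : Nontrivial W := by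
    obtain ⟨h', ho⟩ := exists_prime_orderOf_dvd_card' (G := H) 2 (by rw [hH])
    refine ⟨(h' : W), 1, ?_⟩
    intro e
    have : h' = 1 := Subtype.ext e
    rw [this] at ho
    simp at ho
  haveI hct := hW.center_nontrivial
  obtain ⟨n, hn, hcard⟩ := (hW.to_subgroup (center W)).nontrivial_iff_card.mp hct
  obtain ⟨ζ', hζ'⟩ := exists_prime_orderOf_dvd_card' (G := center W) 2 (by rw [hcard]; exact dvd_pow_self 2 hn.ne')
  have hζo : orderOf (ζ' : W) = 2 := by rw [← hζ', Subgroup.orderOf_coe]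
  rw [key H hH _ ζ'.2 hζo, key K hK _ ζ'.2 hζo]

/-- Odd prime power order elements centralize a normal cyclic `2`-subgroup. -/
theorem commute_of_cyclic {X : Type*} [Group X] [Finite X] {T : Subgroup X} [hT : T.Normal] (hc : IsCyclic T)
    (h2 : IsPGroup 2 T) {r k : ℕ} [hr : Fact r.Prime] (hodd : r ≠ 2) {x : X} (hx : x ^ r ^ k = 1) :
    ∀ t ∈ T, t * x = x * t := by
  haveI : Fact (Nat.Prime 2) := ⟨Nat.prime_two⟩
  obtain ⟨n, hn⟩ := IsPGroup.iff_card.mp h2
  let α : MulAut T := MulAut.conjNormal x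
  have h1 : α ^ r ^ k = 1 := by
    show (MulAut.conjNormal x) ^ r ^ k = (1 : MulAut T)
    rw [← map_pow, hx, map_one]
  have hcard : Nat.card (MulAut T) = Nat.totient (2 ^ n) := by
    rw [IsCyclic.card_mulAut, hn]
  have h3 : α ^ Nat.card (MulAut T) = 1 := pow_card_eq_one'
  have hcop : Nat.Coprime (r ^ k) (Nat.card (MulAut T)) := by
    rw [hcard]
    rcases n with _ | n
    · simp
    · rw [Nat.totient_prime_pow_succ Nat.prime_two]
      simp only [Nat.add_one_sub_one, mul_one]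
      exact Nat.Coprime.pow _ _ ((Nat.coprime_primes hr.out Nat.prime_two).mpr hodd)
  have h4 : α ^ Nat.gcd (r ^ k) (Nat.card (MulAut T)) = 1 := pow_gcd_eq_one.mpr ⟨h1, h3⟩
  rw [hcop, pow_one] at h4
  intro t ht
  have h5 := congrArg (fun f : MulAut T => ((f ⟨t, ht⟩ : T) : X)) h4
  simp only [α, MulAut.conjNormal_apply, MulAut.one_apply] at h5
  rw [mul_inv_eq_iff_eq_mul] at h5
  exact h5.symm

variable {Q : Type*} [Group Q] [Finite Q]

theorem main_Q [Group.IsSolvable Q] (h0 : pPrimeCore 2 Q = ⊥)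
    (hI : ∀ S T : Sylow 2 Q, S ≠ T → PRankLE 2 1 ↥((S : Subgroup Q) ⊓ (T : Subgroup Q))) :
    (∃ P : Sylow 2 Q, (P : Subgroup Q).Normal) ∨
    Nonempty (Q ≃* GL (Fin 2) (ZMod 3)) ∨
    (Nat.card Q = 48 ∧ Nat.card ↥(center Q) = 2 ∧ Nonempty (Q ⧸ center Q ≃* Equiv.Perm (Fin 4)) ∧
      ∀ P : Sylow 2 Q, Nonempty (↥(P : Subgroup Q) ≃* QuaternionGroup 4)) := by
  classical
  haveI fact2 : Fact (Nat.Prime 2) := ⟨Nat.prime_two⟩
  by_cases hN : ∃ P : Sylow 2 Q, (P : Subgroup Q).Normal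
  · exact Or.inl hN
  right
  obtain ⟨P₀⟩ : Nonempty (Sylow 2 Q) := inferInstance
  have hnS : ¬ Subsingleton (Sylow 2 Q) := fun h => hN ⟨P₀, Sylow.normal_of_subsingleton P₀⟩
  obtain ⟨S, T, hST⟩ := (not_subsingleton_iff_nontrivial.mp hnS).exists_pair_ne
  obtain ⟨F, hFdef⟩ : ∃ F, F = pCore 2 Q := ⟨_, rfl⟩
  have hFn : F.Normal := by rw [hFdef]; infer_instance
  have hF2 : IsPGroup 2 F := hFdef ▸ pCore_isPGroup 2
  have hC : centralizer (F : Set Q) ≤ F := hFdef ▸ centralizer_pCore_le_of_pPrimeCore_eq_bot 2 h0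
  have hFS : F ≤ (S : Subgroup Q) := normal_pGroup_le_sylow hFn hF2 S
  have hFT : F ≤ (T : Subgroup Q) := normal_pGroup_le_sylow hFn hF2 T
  have hU : Cfsg.Agent.Lib.OddLocal.UniqueP 2 F := by
    apply uniqueP_of_no_klein hF2
    intro a b ha hb hab ha1 hb1 hne
    refine no_klein (hI S T hST) (a := ⟨a.1, hFS a.2, hFT a.2⟩) (b := ⟨b.1, hFS b.2, hFT b.2⟩) ?_ ?_ ?_ ?_ ?_ ?_
    · have h := congrArg Subtype.val ha
      exact Subtype.ext h
    · have h := congrArg Subtype.val hb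
      exact Subtype.ext h
    · have h := congrArg Subtype.val hab
      exact Subtype.ext h
    · intro e
      have h := congrArg Subtype.val e
      exact ha1 (Subtype.ext h)
    · intro e
      have h := congrArg Subtype.val e
      exact hb1 (Subtype.ext h)
    · intro e
      have h := congrArg Subtype.val e
      exact hne (Subtype.ext h)
  have hTop : IsPGroup 2 Q → False := by
    intro hp
    apply hN
    refine ⟨P₀, ?_⟩
    have : (⊤ : Subgroup Q) = P₀ := P₀.is_maximal' (hp.to_subgroup ⊤) le_top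
    rw [← this]
    infer_instance
  have hElt : (∀ (r k : ℕ) (_ : Fact r.Prime), r ≠ 2 → ∀ x : Q, x ^ r ^ k = 1 → x = 1) → False := by
    intro h
    apply hTop
    apply Cfsg.Agent.Lib.LocalEven.isPGroup_of_forall_coprime
    intro g hg
    by_contra hg1
    have ho1 : orderOf g ≠ 1 := fun e => hg1 (orderOf_eq_one_iff.mp e)
    have hro := orderOf_pos g
    let r := (orderOf g).minFac
    have hrp : r.Prime := Nat.minFac_prime ho1
    have hrd : r ∣ orderOf g := Nat.minFac_dvd _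
    have hr2 : r ≠ 2 := by
      intro e
      have h2d : 2 ∣ orderOf g := e ▸ hrd
      have : 2 ∣ Nat.gcd (orderOf g) 2 := Nat.dvd_gcd h2d dvd_rfl
      rw [hg] at this
      norm_num at this
    have ho := orderOf_pow_orderOf_div (x := g) hro.ne' hrd
    have h5 : (g ^ (orderOf g / r)) ^ r ^ 1 = 1 := by
      have := pow_orderOf_eq_one (g ^ (orderOf g / r))
      rw [ho] at this
      rw [pow_one]
      exact this
    have h6 := h r 1 ⟨hrp⟩ hr2 _ h5
    rw [h6, orderOf_one] at ho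
    exact hrp.one_lt.ne ho
  have hcent : ∀ (r k : ℕ) (_ : Fact r.Prime), r ≠ 2 → ∀ x : Q, x ^ r ^ k = 1 → (∀ t ∈ F, t * x = x * t) → x = 1 := by
    intro r k hr hodd x hx hcomm
    have h1 : x ∈ F := by
      apply hC
      rw [Subgroup.mem_centralizer_iff]
      exact hcomm
    obtain ⟨m, hm⟩ := hF2 ⟨x, h1⟩
    have hm' : x ^ 2 ^ m = 1 := congrArg Subtype.val hm
    have hcop : Nat.Coprime (r ^ k) (2 ^ m) :=
      Nat.Coprime.pow _ _ ((Nat.coprime_primes hr.out Nat.prime_two).mpr hodd)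
    have : x ^ Nat.gcd (r ^ k) (2 ^ m) = 1 := pow_gcd_eq_one.mpr ⟨hx, hm'⟩
    rw [hcop, pow_one] at this
    exact this
  haveI := hFn
  rcases Cfsg.Agent.Lib.OddLocal.cyclic_or_quaternion hF2 hU with hcyc | ⟨n, ⟨e⟩⟩
  · exfalso
    apply hElt
    intro r k hr hodd x hx
    exact hcent r k hr hodd x hx (commute_of_cyclic hcyc hF2 hodd hx)
  by_cases hn : n = 1
  swap
  · exfalso
    apply hElt
    intro r k hr hodd x hx
    exact hcent r k hr hodd x hx (Cfsg.Agent.Lib.Char.GS.commute_of_quat e hodd (Or.inr hn) hx)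
  subst hn
  have e' : F ≃* QuaternionGroup 2 := e
  have D := q8Data_of_equiv e'
  obtain ⟨z, hz⟩ : ∃ z, z = ((e'.symm (QuaternionGroup.a 2) : F) : Q) := ⟨_, rfl⟩
  rw [← hz] at D
  let ρ : Q →* MulAut F := MulAut.conjNormal
  have hker : ρ.ker = zpowers z := by
    apply le_antisymm
    · intro g hg
      have h1 : ∀ t ∈ F, t * g = g * t := by
        intro t ht
        have h5 := congrArg (fun f : MulAut F => ((f ⟨t, ht⟩ : F) : Q)) (MonoidHom.mem_ker.mp hg)
        simp only [ρ, MulAut.conjNormal_apply, MulAut.one_apply] at h5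
        rw [mul_inv_eq_iff_eq_mul] at h5
        exact h5.symm
      have h2 : g ∈ F := by
        apply hC
        rw [Subgroup.mem_centralizer_iff]
        exact h1
      rcases D.central_cases h2 (fun f hf => (h1 f hf).symm) with h | h
      · rw [h]; exact Subgroup.one_mem _
      · rw [h]; exact Subgroup.mem_zpowers z
    · rw [Subgroup.zpowers_le, MonoidHom.mem_ker]
      ext t
      simp only [ρ, MulAut.conjNormal_apply, MulAut.one_apply]
      rw [D.zc t t.2, mul_assoc, mul_inv_cancel, mul_one]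
  have hkc : Nat.card ρ.ker = 2 := by
    rw [hker, Nat.card_zpowers, D.orderOf_z]
  have hrd : Nat.card ρ.range ∣ 24 := by
    have h1 : Nat.card ρ.range ∣ Nat.card (MulAut F) := Subgroup.card_subgroup_dvd_card _
    have h2 : Nat.card (MulAut F) = Nat.card (MulAut (QuaternionGroup 2)) :=
      Nat.card_congr (MulAut.congr e').toEquiv
    rw [h2] at h1
    exact h1.trans Cfsg.Agent.Lib.Perm.rq_q8_aut_dvd
  have hQ : Nat.card Q = Nat.card ρ.range * 2 := by
    have := Subgroup.card_eq_card_quotient_mul_card_subgroup ρ.ker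
    rw [hkc, Nat.card_congr (QuotientGroup.quotientKerEquivRange ρ).toEquiv] at this
    exact this
  have hQd : Nat.card Q ∣ 48 := by
    rw [hQ]
    exact Nat.mul_dvd_mul_right hrd 2
  have h8 : 8 ∣ Nat.card Q := by
    rw [← D.card8]
    exact Subgroup.card_subgroup_dvd_card F
  obtain ⟨m, hm⟩ := h8
  have hm6 : m ∣ 6 := by
    obtain ⟨c, hc⟩ := hQd
    refine ⟨c, ?_⟩
    rw [hm] at hc
    nlinarith
  have hmle : m ≤ 6 := Nat.le_of_dvd (by norm_num) hm6
  have hFP₀ : F ≤ (P₀ : Subgroup Q) := normal_pGroup_le_sylow hFn hF2 P₀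
  have hodd_case : Nat.card Q = 24 → False := by
    intro h24
    apply hN
    refine ⟨P₀, ?_⟩
    have h1 : Nat.card F ∣ Nat.card (P₀ : Subgroup Q) := Subgroup.card_dvd_of_le hFP₀
    obtain ⟨k, hk⟩ := IsPGroup.iff_card.mp P₀.isPGroup'
    have hk' : Nat.card (P₀ : Subgroup Q) = 2 ^ k := hk
    have h2 : 2 ^ k ∣ 24 := by
      rw [← hk', ← h24]
      exact Subgroup.card_subgroup_dvd_card _
    have hk4 : k ≤ 3 := by
      by_contra hcon
      have : 2 ^ 4 ∣ 24 := (pow_dvd_pow 2 (by omega)).trans h2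
      norm_num at this
    have hle : Nat.card (P₀ : Subgroup Q) ≤ 8 := by
      rw [hk']
      calc 2 ^ k ≤ 2 ^ 3 := Nat.pow_le_pow_right (by norm_num) hk4
        _ = 8 := rfl
    have : F = (P₀ : Subgroup Q) := Subgroup.eq_of_le_of_card_ge hFP₀ (by rw [D.card8]; exact hle)
    rw [← this]
    exact hFn
  have h48 : Nat.card Q = 48 := by
    interval_cases m
    · simp at hm6
    · exact absurd (IsPGroup.of_card (n := 3) (by rw [hm]; norm_num)) hTop
    · exact absurd (IsPGroup.of_card (n := 4) (by rw [hm]; norm_num)) hTop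
    · exact (hodd_case (by rw [hm])).elim
    · norm_num at hm6
    · norm_num at hm6
    · rw [hm]
  exact final_of_data hFn D hC h48

/-- Inheritance of the hypothesis by the quotient by a normal subgroup of odd order. -/
theorem hyp_quot {G : Type*} [Group G] [Finite G] (N : Subgroup G) [hNn : N.Normal] (hN : (Nat.card N).Coprime 2)
    (hI : ∀ S T : Sylow 2 G, S ≠ T → PRankLE 2 1 ↥((S : Subgroup G) ⊓ (T : Subgroup G))) :
    ∀ S T : Sylow 2 (G ⧸ N), S ≠ T →
      PRankLE 2 1 ↥((S : Subgroup (G ⧸ N)) ⊓ (T : Subgroup (G ⧸ N))) := by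
  classical
  haveI fact2 : Fact (Nat.Prime 2) := ⟨Nat.prime_two⟩
  intro Sb Tb hne A hAc hAe
  by_contra hcard
  have hcard' : 2 < Nat.card A := by
    rw [pow_one] at hcard
    omega
  let π : G →* G ⧸ N := QuotientGroup.mk' N
  have hπ : Function.Surjective π := QuotientGroup.mk'_surjective N
  have hker : ∀ g, π g = 1 ↔ g ∈ N := fun g => QuotientGroup.eq_one_iff g
  obtain ⟨S, hS⟩ := Sylow.mapSurjective_surjective hπ 2 Sb
  obtain ⟨T, hT⟩ := Sylow.mapSurjective_surjective hπ 2 Tb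
  have hSc : ((S : Subgroup G).map π) = (Sb : Subgroup (G ⧸ N)) := by rw [← hS]; rfl
  have hTc : ((T : Subgroup G).map π) = (Tb : Subgroup (G ⧸ N)) := by rw [← hT]; rfl
  -- elements of `2`-power order in `N` are trivial
  have hinj : ∀ (g : G) (k : ℕ), g ^ 2 ^ k = 1 → g ∈ N → g = 1 := by
    intro g k hg hgN
    have e1 : g ^ Nat.card N = 1 := by
      have := pow_card_eq_one' (x := (⟨g, hgN⟩ : N))
      exact congrArg Subtype.val this
    have hcop : Nat.Coprime (Nat.card N) (2 ^ k) := Nat.Coprime.pow_right _ hN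
    have : g ^ Nat.gcd (Nat.card N) (2 ^ k) = 1 := pow_gcd_eq_one.mpr ⟨e1, hg⟩
    rw [hcop, pow_one] at this
    exact this
  have hinjP : ∀ (P : Subgroup G), IsPGroup 2 P → ∀ g ∈ P, g ∈ N → g = 1 := by
    intro P hP g hgP hgN
    obtain ⟨k, hk⟩ := hP ⟨g, hgP⟩
    exact hinj g k (congrArg Subtype.val hk) hgN
  let A' : Subgroup (G ⧸ N) := A.map (((Sb : Subgroup (G ⧸ N)) ⊓ (Tb : Subgroup (G ⧸ N))).subtype)
  have hAS : A' ≤ (Sb : Subgroup (G ⧸ N)) := by
    rintro _ ⟨a, _, rfl⟩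
    exact a.2.1
  have hAT : A' ≤ (Tb : Subgroup (G ⧸ N)) := by
    rintro _ ⟨a, _, rfl⟩
    exact a.2.2
  have hA'card : Nat.card A' = Nat.card A :=
    Nat.card_congr (Subgroup.equivMapOfInjective A _ (Subgroup.subtype_injective _)).toEquiv.symm
  have hA'e : ∀ a ∈ A', a ^ 2 = 1 := by
    rintro _ ⟨a, ha, rfl⟩
    have := hAe a ha
    have h2 := congrArg (fun t : ↥((Sb : Subgroup (G ⧸ N)) ⊓ (Tb : Subgroup (G ⧸ N))) => (t : G ⧸ N)) this
    simpa using h2
  have hA'c : ∀ a ∈ A', ∀ b ∈ A', a * b = b * a := by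
    rintro _ ⟨a, ha, rfl⟩ _ ⟨b, hb, rfl⟩
    have h1 := hAc.is_comm.comm (⟨a, ha⟩ : A) ⟨b, hb⟩
    have h2 := congrArg (fun t : A => ((t : ↥((Sb : Subgroup (G ⧸ N)) ⊓ (Tb : Subgroup (G ⧸ N)))) : G ⧸ N)) h1
    simpa using h2
  let H : Subgroup G := A'.comap π
  -- Sylow subgroups of `H` are contained in the right Sylow subgroups of `G`
  have claim : ∀ (X : Sylow 2 G), A' ≤ (X : Subgroup G).map π → ∀ (P : Sylow 2 H),
      ((X : Subgroup G) ⊓ H).subgroupOf H ≤ (P : Subgroup H) → ∀ p ∈ (P : Subgroup H), (p : G) ∈ (X : Subgroup G) := by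
    intro X hX P hP p hp
    have hpp : π (p : G) ∈ A' := p.2
    obtain ⟨s, hs, hse⟩ := hX hpp
    have hsH : s ∈ H := by
      change π s ∈ A'
      rw [hse]
      exact hpp
    have hsP : (⟨s, hsH⟩ : H) ∈ (P : Subgroup H) := hP (by
      rw [Subgroup.mem_subgroupOf]
      exact ⟨hs, hsH⟩)
    have hnP : (⟨s, hsH⟩ : H)⁻¹ * p ∈ (P : Subgroup H) := Subgroup.mul_mem _ (Subgroup.inv_mem _ hsP) hp
    obtain ⟨k, hk⟩ := P.isPGroup' ⟨_, hnP⟩
    have hk' : (s⁻¹ * (p : G)) ^ 2 ^ k = 1 := by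
      have := congrArg (fun t : (P : Subgroup H) => (((t : H)) : G)) hk
      simpa using this
    have hnN : s⁻¹ * (p : G) ∈ N := by
      rw [← hker, map_mul, map_inv, hse, inv_mul_cancel]
    have := hinj _ k hk' hnN
    rw [inv_mul_eq_one] at this
    rw [← this]
    exact hs
  -- conjugacy in `H`
  have hPG : ∀ X : Sylow 2 G, IsPGroup 2 (((X : Subgroup G) ⊓ H).subgroupOf H) := by
    rintro X ⟨g, hg⟩
    have hg' := (Subgroup.mem_subgroupOf.mp hg).1
    obtain ⟨k, hk⟩ := X.isPGroup' ⟨g.1, hg'⟩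
    refine ⟨k, Subtype.ext (Subtype.ext ?_)⟩
    have := congrArg Subtype.val hk
    simpa using this
  obtain ⟨P₁, hP₁⟩ := (hPG S).exists_le_sylow
  obtain ⟨P₂, hP₂⟩ := (hPG T).exists_le_sylow
  obtain ⟨h, hh⟩ := MulAction.exists_smul_eq H P₁ P₂
  have c₂ := claim T (by rw [hTc]; exact hAT) P₂ hP₂
  have hconj : ∀ t ∈ (P₁ : Subgroup H), h * t * h⁻¹ ∈ (P₂ : Subgroup H) := by
    intro t ht
    rw [← hh, Sylow.coe_subgroup_smul, Subgroup.mem_smul_pointwise_iff_exists]
    exact ⟨t, ht, by simp⟩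
  obtain ⟨h₀, hh₀⟩ : ∃ h₀ : G, h₀ = (h : G) := ⟨_, rfl⟩
  let T' : Sylow 2 G := h₀⁻¹ • T
  have hET : ∀ e ∈ (S : Subgroup G), e ∈ H → e ∈ (T' : Subgroup G) := by
    intro e heS heH
    have h1 : (⟨e, heH⟩ : H) ∈ (P₁ : Subgroup H) := hP₁ (by
      rw [Subgroup.mem_subgroupOf]
      exact ⟨heS, heH⟩)
    have h2 := c₂ _ (hconj _ h1)
    have h3 : h₀ * e * h₀⁻¹ ∈ (T : Subgroup G) := by
      rw [hh₀]
      simpa using h2
    change e ∈ ((h₀⁻¹ • T : Sylow 2 G) : Subgroup G)
    rw [Sylow.coe_subgroup_smul, Subgroup.mem_smul_pointwise_iff_exists]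
    refine ⟨_, h3, ?_⟩
    simp [mul_assoc]
  have hST : S = T' := by
    by_contra hne'
    have hle : (S : Subgroup G) ⊓ H ≤ (S : Subgroup G) ⊓ (T' : Subgroup G) :=
      fun e he => ⟨he.1, hET e he.1 he.2⟩
    have hR := hI S T' hne'
    let B : Subgroup ↥((S : Subgroup G) ⊓ (T' : Subgroup G)) := ((S : Subgroup G) ⊓ H).subgroupOf _
    have hmem : ∀ b ∈ B, (b : G) ∈ (S : Subgroup G) ∧ π (b : G) ∈ A' := fun b hb =>
      Subgroup.mem_subgroupOf.mp hb
    have hBc : IsMulCommutative B := by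
      refine ⟨⟨fun b c => ?_⟩⟩
      apply Subtype.ext
      apply Subtype.ext
      have h1 := hmem _ b.2
      have h2 := hmem _ c.2
      have e1 : ((b : ↥((S : Subgroup G) ⊓ (T' : Subgroup G))) : G) * (c : ↥((S : Subgroup G) ⊓ (T' : Subgroup G)))
          * (((b : ↥((S : Subgroup G) ⊓ (T' : Subgroup G))) : G) * (c : ↥((S : Subgroup G) ⊓ (T' : Subgroup G))))⁻¹ = 1 := by simp
      have h3 := hinjP S S.isPGroup' (((b : ↥((S : Subgroup G) ⊓ (T' : Subgroup G))) : G) * (c : ↥((S : Subgroup G) ⊓ (T' : Subgroup G)))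
          * (((c : ↥((S : Subgroup G) ⊓ (T' : Subgroup G))) : G) * (b : ↥((S : Subgroup G) ⊓ (T' : Subgroup G))))⁻¹)
        (Subgroup.mul_mem _ (Subgroup.mul_mem _ h1.1 h2.1) (Subgroup.inv_mem _ (Subgroup.mul_mem _ h2.1 h1.1)))
        (by
          rw [← hker, map_mul, map_inv, map_mul, map_mul, hA'c _ h1.2 _ h2.2, mul_inv_cancel])
      exact mul_inv_eq_one.mp h3
    have hBe : ∀ b ∈ B, b ^ 2 = 1 := by
      intro b hb
      have h1 := hmem b hb
      apply Subtype.ext
      have h3 := hinjP S S.isPGroup' ((b : G) ^ 2) (Subgroup.pow_mem _ h1.1 2)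
        (by rw [← hker, map_pow]; exact hA'e _ h1.2)
      simpa using h3
    have hBle := hR B hBc hBe
    have hBcard : Nat.card B = Nat.card (↥((S : Subgroup G) ⊓ H)) :=
      Nat.card_congr (Subgroup.subgroupOfEquivOfLe hle).toEquiv
    have hsurj : Nat.card A' ≤ Nat.card (↥((S : Subgroup G) ⊓ H)) := by
      have hs : ∀ a : A', ∃ e : ↥((S : Subgroup G) ⊓ H), π (e : G) = a := by
        intro a
        have h1 : (a : G ⧸ N) ∈ (S : Subgroup G).map π := by
          rw [hSc]; exact hAS a.2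
        obtain ⟨s, hs, hse⟩ := h1
        refine ⟨⟨s, hs, ?_⟩, hse⟩
        change π s ∈ A'
        rw [hse]
        exact a.2
      choose c hc using hs
      refine Nat.card_le_card_of_injective c ?_
      intro a b hab
      apply Subtype.ext
      rw [← hc a, ← hc b, hab]
    rw [pow_one] at hBle
    omega
  apply hne
  apply Sylow.ext
  symm
  apply Sb.is_maximal' Tb.isPGroup'
  intro xb hxb
  rw [← hSc] at hxb
  obtain ⟨s, hs, rfl⟩ := hxb
  rw [hST] at hs
  change s ∈ ((h₀⁻¹ • T : Sylow 2 G) : Subgroup G) at hs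
  rw [Sylow.coe_subgroup_smul, Subgroup.mem_smul_pointwise_iff_exists] at hs
  obtain ⟨t, ht, hte⟩ := hs
  have hte' : s = h₀⁻¹ * t * h₀ := by
    rw [← hte]
    simp
  have h1 : π t ∈ (Tb : Subgroup (G ⧸ N)) := by
    rw [← hTc]
    exact ⟨t, ht, rfl⟩
  have h2 : π h₀ ∈ (Tb : Subgroup (G ⧸ N)) := by
    rw [hh₀]
    exact hAT h.2
  rw [hte', map_mul, map_mul, map_inv]
  exact Subgroup.mul_mem _ (Subgroup.mul_mem _ (Subgroup.inv_mem _ h2) h1) h2

end Cfsg.Agent.Lib.PGroups.Q48
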