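import Cfsg.Agent.Lib.PGroups.SqFree1

/-! The averaging argument: if the centralizer of every element contains a subgroup of index at
most `p` of a Sylow `p`-subgroup, the number of classes of `p`-elements exceeds `|P|/p`; for `p` the
smallest prime and `P` abelian this forces `N(P) = C(P)`. -/

set_option autoImplicit false

namespace Cfsg.Agent.Lib.PGroups.SqFree

open Subgroup Cfsg.Agent.Lib.PGroups

universe u

section fixA

/-- An automorphism-like map of an abelian `p`-group, of order having only prime factors larger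
than `p`, cannot have a fixed-point subgroup of index `p`. -/
theorem fix_false {A : Type*} [Group A] [Finite A] (hcomm : ∀ a b : A, a * b = b * a) {p : ℕ}
    [hp : Fact p.Prime] (hA : IsPGroup p A) (σ : A →* A) {w : ℕ} (hw : ∀ x, σ^[w] x = x)
    (hw0 : w ≠ 0) (hpr : ∀ r : ℕ, r.Prime → r ∣ w → p < r) (D : Subgroup A)
    (hD : ∀ x, x ∈ D ↔ σ x = x) (hi : D.index = p) : False := by
  classical
  letI : CommGroup A := { (inferInstance : Group A) with mul_comm := hcomm }
  let ψ : A →* A := σ / MonoidHom.id A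
  have hψ : ∀ x, ψ x = σ x / x := fun x => rfl
  have hker : ψ.ker = D := by
    ext x
    rw [MonoidHom.mem_ker, hψ, div_eq_one, hD]
  have hrange : Nat.card ψ.range = p := by rw [← Subgroup.index_ker, hker, hi]
  have hσr : ∀ x ∈ ψ.range, σ x ∈ ψ.range := by
    rintro _ ⟨u, rfl⟩
    refine ⟨σ u, ?_⟩
    rw [hψ, hψ, map_div]
  have hiter : ∀ x ∈ ψ.range, ∀ i : ℕ, σ^[i] x ∈ ψ.range := by
    intro x hx i
    induction i with
    | zero => exact hx
    | succ i ih =>
      rw [Function.iterate_succ_apply']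
      exact hσr _ ih
  have hfix : ∀ x ∈ ψ.range, σ x = x := by
    intro x hx
    by_contra hne
    set d := Function.minimalPeriod σ x with hd
    have hper : Function.IsPeriodicPt σ w x := hw x
    have hdw : d ∣ w := hper.minimalPeriod_dvd
    have hd1 : d ≠ 1 := fun h1 => hne (Function.minimalPeriod_eq_one_iff_isFixedPt.mp h1)
    have hd0 : d ≠ 0 := (Nat.pos_of_dvd_of_pos hdw (Nat.pos_of_ne_zero hw0)).ne'
    obtain ⟨r, hr, hrd⟩ := Nat.exists_prime_and_dvd hd1
    have hlt := hpr r hr (hrd.trans hdw)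
    have hdr : r ≤ d := Nat.le_of_dvd (Nat.pos_of_ne_zero hd0) hrd
    have hinj : Function.Injective (fun i : Fin d => (⟨σ^[(i : ℕ)] x, hiter x hx _⟩ : ψ.range)) := by
      intro i j hij
      have h1 : σ^[(i : ℕ)] x = σ^[(j : ℕ)] x := congrArg Subtype.val hij
      exact Fin.ext (Function.iterate_injOn_Iio_minimalPeriod i.2 j.2 h1)
    have h2 := Nat.card_le_card_of_injective _ hinj
    rw [Nat.card_eq_fintype_card, Fintype.card_fin, hrange] at h2
    omega
  have hall : ∀ u : A, σ u = u := by
    intro u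
    set x := ψ u with hx
    have hxr : x ∈ ψ.range := ⟨u, rfl⟩
    have hxf := hfix x hxr
    have hσu : σ u = x * u := by rw [hx, hψ]; simp
    have hk : ∀ k : ℕ, σ^[k] u = x ^ k * u := by
      intro k
      induction k with
      | zero => simp
      | succ k ih =>
        rw [Function.iterate_succ_apply', ih, map_mul, map_pow, hxf, hσu, pow_succ]
        group
    have h1 := hw u
    rw [hk w] at h1
    have h2 : x ^ w = 1 := by simpa using h1
    have h3 : x = 1 := by
      by_contra hne
      obtain ⟨j, hj⟩ := hA x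
      have h4 : orderOf x ∣ p ^ j := orderOf_dvd_of_pow_eq_one hj
      obtain ⟨i, -, hi⟩ := (Nat.dvd_prime_pow hp.out).mp h4
      have hi0 : i ≠ 0 := by
        rintro rfl
        rw [pow_zero] at hi
        exact hne (orderOf_eq_one_iff.mp hi)
      have h5 : p ∣ orderOf x := by rw [hi]; exact dvd_pow_self p hi0
      have h6 := hpr p hp.out (h5.trans (orderOf_dvd_of_pow_eq_one h2))
      omega
    rw [hσu, h3, one_mul]
  have h1 : D = ⊤ := by
    rw [eq_top_iff]
    intro x _
    exact (hD x).mpr (hall x)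
  rw [h1, Subgroup.index_top] at hi
  exact hp.out.one_lt.ne hi

end fixA

variable {G : Type u} [Group G] [Finite G]

/-- Elements of `p`-power order. -/
def PElt (p : ℕ) (G : Type u) [Group G] : Type u := {z : G // ∃ k : ℕ, z ^ (p ^ k) = 1}

instance (p : ℕ) : Finite (PElt p G) := Subtype.finite

instance (p : ℕ) : MulAction G (PElt p G) where
  smul g z := ⟨g * z.1 * g⁻¹, by
    obtain ⟨k, hk⟩ := z.2
    exact ⟨k, by rw [conj_pow, hk]; simp⟩⟩
  one_smul z := Subtype.ext (by
    change 1 * z.1 * 1⁻¹ = z.1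
    simp)
  mul_smul a b z := Subtype.ext (by
    change (a * b) * z.1 * (a * b)⁻¹ = a * (b * z.1 * b⁻¹) * a⁻¹
    group)

theorem PElt.smul_val {p : ℕ} (g : G) (z : PElt p G) : (g • z).1 = g * z.1 * g⁻¹ := rfl

/-- Burnside's lemma with `Nat.card`. -/
theorem burnside_natCard {A X : Type*} [Group A] [Fintype A] [Finite X] [MulAction A X] :
    ∑ a : A, Nat.card (MulAction.fixedBy X a) =
      Nat.card (MulAction.orbitRel.Quotient A X) * Nat.card A := by
  classical
  letI : Fintype X := Fintype.ofFinite X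
  letI : Fintype (MulAction.orbitRel.Quotient A X) := Fintype.ofFinite _
  have h := MulAction.sum_card_fixedBy_eq_card_orbits_mul_card_group A X
  simp only [Nat.card_eq_fintype_card]
  exact h

/-- The conjugation action of the normalizer on a subgroup. -/
def normAct (P : Subgroup G) : MulAction (normalizer (P : Set G)) P where
  smul n x := ⟨n.1 * x.1 * n.1⁻¹, (mem_normalizer_iff.mp n.2 x.1).mp x.2⟩
  one_smul z := Subtype.ext (by
    change (1 : G) * z.1 * 1⁻¹ = z.1
    simp)
  mul_smul a b z := Subtype.ext (by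
    change (a.1 * b.1) * z.1 * (a.1 * b.1)⁻¹ = a.1 * (b.1 * z.1 * b.1⁻¹) * a.1⁻¹
    group)

/-- the fixed `p`-elements of `g` contain `Q ⊓ C(g)`. -/
theorem card_subgroupOf_le_fixedBy {p : ℕ} (g : G) (Q : Sylow p G) :
    Nat.card ((centralizer ({g} : Set G)).subgroupOf (Q : Subgroup G)) ≤
      Nat.card (MulAction.fixedBy (PElt p G) g) := by
  let f : (centralizer ({g} : Set G)).subgroupOf (Q : Subgroup G) →
      MulAction.fixedBy (PElt p G) g := fun t =>
    ⟨⟨t.1.1, by
      obtain ⟨k, hk⟩ := Q.2 t.1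
      exact ⟨k, by simpa using congrArg Subtype.val hk⟩⟩, by
      apply Subtype.ext
      have h1 := mem_centralizer_singleton_iff.mp (Subgroup.mem_subgroupOf.mp t.2)
      change g * t.1.1 * g⁻¹ = t.1.1
      rw [← h1]
      group⟩
  apply Nat.card_le_card_of_injective f
  intro a b hab
  have h1 : a.1.1 = b.1.1 := congrArg (fun z => z.1.1) hab
  exact Subtype.ext (Subtype.ext h1)

/-- The lower bound for the number of classes of `p`-elements. -/
theorem SF.card_lt_mul_orbits (h : SF G) (p : ℕ) [hp : Fact p.Prime] (P : Sylow p G) :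
    Nat.card P < p * Nat.card (MulAction.orbitRel.Quotient G (PElt p G)) := by
  classical
  letI : Fintype G := Fintype.ofFinite G
  have hb := burnside_natCard (A := G) (X := PElt p G)
  have hP0 : 0 < Nat.card P := Nat.card_pos
  have hQc : ∀ Q : Sylow p G, Nat.card Q = Nat.card P := fun Q =>
    Nat.card_congr (Sylow.equiv Q P).toEquiv
  have h1 : ∀ g : G, Nat.card P ≤ p * Nat.card (MulAction.fixedBy (PElt p G) g) := by
    intro g
    obtain ⟨Q, hQ⟩ := h.exists_sylow_relIndex p g
    have h2 := card_subgroupOf_le_fixedBy g Q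
    have h3 := Subgroup.card_mul_index ((centralizer ({g} : Set G)).subgroupOf (Q : Subgroup G))
    have h4 : ((centralizer ({g} : Set G)).subgroupOf (Q : Subgroup G)).index ≤ p := by
      have : ((centralizer ({g} : Set G)).subgroupOf (Q : Subgroup G)).index = 1 ∨
          ((centralizer ({g} : Set G)).subgroupOf (Q : Subgroup G)).index = p := hQ
      rcases this with h5 | h5
      · rw [h5]; exact hp.out.one_lt.le
      · exact h5.le
    rw [← hQc Q, ← h3, mul_comm]
    exact Nat.mul_le_mul h4 h2
  have h2 : Nat.card P < p * Nat.card (MulAction.fixedBy (PElt p G) (1 : G)) := by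
    have h3 := card_subgroupOf_le_fixedBy (1 : G) P
    have h4 : (centralizer ({(1 : G)} : Set G)).subgroupOf (P : Subgroup G) = ⊤ := by
      rw [eq_top_iff]
      intro x _
      rw [Subgroup.mem_subgroupOf, mem_centralizer_singleton_iff]
      simp
    rw [h4, Subgroup.card_top] at h3
    have h5 := hp.out.two_le
    nlinarith
  have h3 : ∑ _g : G, Nat.card P < ∑ g : G, p * Nat.card (MulAction.fixedBy (PElt p G) g) :=
    Finset.sum_lt_sum (fun g _ => h1 g) ⟨1, Finset.mem_univ _, h2⟩
  rw [← Finset.mul_sum, hb, Finset.sum_const, Finset.card_univ, smul_eq_mul,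
    ← Nat.card_eq_fintype_card] at h3
  have hG0 : 0 < Nat.card G := Nat.card_pos
  have h4 : Nat.card G * Nat.card P <
      Nat.card G * (p * Nat.card (MulAction.orbitRel.Quotient G (PElt p G))) := by
    calc Nat.card G * Nat.card P < p * (Nat.card (MulAction.orbitRel.Quotient G (PElt p G)) * Nat.card G) := h3
      _ = _ := by ring
  exact Nat.lt_of_mul_lt_mul_left h4

/-- Orbits of the normalizer of a Sylow subgroup on it surject onto the classes of `p`-elements. -/
theorem card_orbits_le_normalizer {p : ℕ} [hp : Fact p.Prime] (P : Sylow p G) :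
    letI := normAct (P : Subgroup G)
    Nat.card (MulAction.orbitRel.Quotient G (PElt p G)) ≤
      Nat.card (MulAction.orbitRel.Quotient (normalizer ((P : Subgroup G) : Set G)) (P : Subgroup G)) := by
  classical
  letI := normAct (P : Subgroup G)
  let ι : ↥(P : Subgroup G) → PElt p G := fun x => ⟨x.1, by
    obtain ⟨k, hk⟩ := P.2 x
    exact ⟨k, by simpa using congrArg Subtype.val hk⟩⟩
  let φ : MulAction.orbitRel.Quotient (normalizer ((P : Subgroup G) : Set G)) (P : Subgroup G) →
      MulAction.orbitRel.Quotient G (PElt p G) :=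
    Quotient.lift (fun x => Quotient.mk _ (ι x)) (by
      intro a b hab
      apply Quotient.sound
      obtain ⟨n, hn⟩ := hab
      refine ⟨n.1, ?_⟩
      apply Subtype.ext
      have h1 := congrArg Subtype.val hn
      exact h1)
  apply Nat.card_le_card_of_surjective φ
  intro z
  obtain ⟨z, rfl⟩ := Quotient.exists_rep z
  have hz : IsPGroup p (zpowers z.1) := by
    obtain ⟨k, hk⟩ := z.2
    rw [IsPGroup.iff_card, Nat.card_zpowers]
    obtain ⟨i, -, hi⟩ := (Nat.dvd_prime_pow hp.out).mp (orderOf_dvd_of_pow_eq_one hk)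
    exact ⟨i, hi⟩
  obtain ⟨Q, hQ⟩ := hz.exists_le_sylow
  obtain ⟨k, hk⟩ := MulAction.exists_smul_eq G Q P
  have h2 : (P : Subgroup G) = (Q : Subgroup G).map (MulAut.conj k).toMonoidHom := by
    rw [← hk]; rfl
  have h3 : k * z.1 * k⁻¹ ∈ (P : Subgroup G) := by
    rw [h2]
    exact ⟨z.1, hQ (mem_zpowers _), by simp⟩
  refine ⟨Quotient.mk _ (⟨_, h3⟩ : ↥(P : Subgroup G)), ?_⟩
  apply Quotient.sound
  refine ⟨k, ?_⟩
  apply Subtype.ext
  rfl

theorem SF.normalizer_le_centralizer (h : SF G) (p : ℕ) [hp : Fact p.Prime]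
    (hmin : ∀ r : ℕ, r.Prime → r ∣ Nat.card G → p ≤ r) (P : Sylow p G)
    (hab : ∀ a ∈ (P : Subgroup G), ∀ b ∈ (P : Subgroup G), a * b = b * a) :
    normalizer ((P : Subgroup G) : Set G) ≤ centralizer ((P : Subgroup G) : Set G) := by
  classical
  set N := normalizer ((P : Subgroup G) : Set G) with hN
  set CC := centralizer ((P : Subgroup G) : Set G) with hCC
  let C₁ : Subgroup N := CC.subgroupOf N
  haveI hC₁n : C₁.Normal := by
    refine ⟨fun x hx n => ?_⟩
    rw [Subgroup.mem_subgroupOf, hCC, Subgroup.mem_centralizer_iff] at hx ⊢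
    intro a ha
    have h1 : n.1⁻¹ * a * n.1 ∈ (P : Subgroup G) := by
      have h2 := (Subgroup.mem_normalizer_iff.mp (N.inv_mem n.2) a).mp ha
      simpa using h2
    have h3 := hx _ h1
    have h4 : (n * x * n⁻¹ : N).1 = n.1 * x.1 * n.1⁻¹ := rfl
    rw [h4]
    calc a * (n.1 * x.1 * n.1⁻¹) = n.1 * ((n.1⁻¹ * a * n.1) * x.1) * n.1⁻¹ := by group
      _ = n.1 * (x.1 * (n.1⁻¹ * a * n.1)) * n.1⁻¹ := by rw [h3]
      _ = n.1 * x.1 * n.1⁻¹ * a := by group
  set w := C₁.index with hw
  have hw0 : w ≠ 0 := Subgroup.index_ne_zero_of_finite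
  have hMw : Nat.card C₁ * w = Nat.card N := Subgroup.card_mul_index C₁
  -- `p` does not divide `w`
  have hPle : (P : Subgroup G) ≤ N := Subgroup.le_normalizer
  have hPCC : (P : Subgroup G) ≤ CC := by
    intro a ha
    rw [hCC, Subgroup.mem_centralizer_iff]
    intro b hb
    exact hab b hb a ha
  have hpw : ¬ p ∣ w := by
    intro hdvd
    have h1 : Nat.card P ∣ Nat.card C₁ := by
      have h2 : Nat.card C₁ = Nat.card (CC ⊓ N : Subgroup G) := by
        change Nat.card (CC.subgroupOf N) = _
        rw [← Subgroup.inf_subgroupOf_right CC N]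
        exact Nat.card_congr (Subgroup.subgroupOfEquivOfLe inf_le_right).toEquiv
      rw [h2]
      exact Subgroup.card_dvd_of_le (le_inf hPCC hPle)
    obtain ⟨c, hc⟩ := h1
    obtain ⟨d, hd⟩ := hdvd
    have h3 : Nat.card N ∣ Nat.card G := Subgroup.card_subgroup_dvd_card N
    have h4 : Nat.card P * p ∣ Nat.card G := by
      refine Dvd.dvd.trans ?_ h3
      rw [← hMw, hc, hd]
      exact ⟨c * d, by ring⟩
    have h5 : Nat.card P * (P : Subgroup G).index = Nat.card G := Subgroup.card_mul_index _
    rw [← h5] at h4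
    exact P.not_dvd_index (Nat.dvd_of_mul_dvd_mul_left Nat.card_pos h4)
  have hpr : ∀ r : ℕ, r.Prime → r ∣ w → p < r := by
    intro r hr hrw
    have h1 : r ∣ Nat.card G :=
      (hrw.trans (Subgroup.index_dvd_card C₁)).trans (Subgroup.card_subgroup_dvd_card N)
    have h2 := hmin r hr h1
    rcases h2.lt_or_eq with h3 | h3
    · exact h3
    · exfalso; apply hpw; rw [h3]; exact hrw
  -- the fixed point bound
  letI := normAct (P : Subgroup G)
  letI : Fintype N := Fintype.ofFinite N
  have hb := burnside_natCard (A := N) (X := ↥(P : Subgroup G))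
  have hP0 : 0 < Nat.card P := Nat.card_pos
  have hbound : ∀ n : N, p ^ 2 * Nat.card (MulAction.fixedBy ↥(P : Subgroup G) n) ≤
      Nat.card P + (if n ∈ C₁ then (p ^ 2 - 1) * Nat.card P else 0) := by
    intro n
    have hf : Nat.card (MulAction.fixedBy ↥(P : Subgroup G) n) ≤ Nat.card P := by
      exact Nat.card_le_card_of_injective (fun x => x.1) (fun a b hab => Subtype.ext hab)
    by_cases hn : n ∈ C₁
    · rw [if_pos hn]
      have h2 : 1 ≤ p ^ 2 := Nat.one_le_pow _ _ hp.out.pos
      have h3 : p ^ 2 * Nat.card (MulAction.fixedBy ↥(P : Subgroup G) n) ≤ p ^ 2 * Nat.card P :=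
        Nat.mul_le_mul_left _ hf
      have h4 : Nat.card (P : Subgroup G) + (p ^ 2 - 1) * Nat.card P = p ^ 2 * Nat.card P := by
        obtain ⟨t, ht⟩ : ∃ t, p ^ 2 = t + 1 := ⟨p ^ 2 - 1, by omega⟩
        rw [ht]
        simp only [Nat.add_sub_cancel]
        ring
      omega
    · rw [if_neg hn, add_zero]
      -- `D`
      let D : Subgroup ↥(P : Subgroup G) := (centralizer ({n.1} : Set G)).subgroupOf (P : Subgroup G)
      have hDc : Nat.card (MulAction.fixedBy ↥(P : Subgroup G) n) ≤ Nat.card D := by
        refine Nat.card_le_card_of_injective (fun x => (⟨x.1, ?_⟩ : D)) ?_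
        · rw [Subgroup.mem_subgroupOf, mem_centralizer_singleton_iff]
          have h1 : n.1 * x.1.1 * n.1⁻¹ = x.1.1 := congrArg Subtype.val x.2
          exact (mul_inv_eq_iff_eq_mul.mp h1).symm
        · intro a b hab
          have h9 := congrArg (fun z : D => z.1) hab
          exact Subtype.ext h9
      have hDi := Subgroup.card_mul_index D
      obtain ⟨e, he⟩ := IsPGroup.iff_card.mp P.2
      have hdvd : D.index ∣ p ^ e := by
        have := Subgroup.index_dvd_card D
        rwa [he] at this
      obtain ⟨j, -, hj⟩ := (Nat.dvd_prime_pow hp.out).mp hdvd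
      have hj0 : j ≠ 0 := by
        rintro rfl
        rw [pow_zero] at hj
        apply hn
        rw [Subgroup.mem_subgroupOf, hCC, Subgroup.mem_centralizer_iff]
        intro a ha
        have h1 : D = ⊤ := Subgroup.index_eq_one.mp hj
        have h2 : (⟨a, ha⟩ : (P : Subgroup G)) ∈ D := h1 ▸ mem_top _
        have h3 := mem_centralizer_singleton_iff.mp (Subgroup.mem_subgroupOf.mp h2)
        exact h3
      have hj1 : j ≠ 1 := by
        rintro rfl
        rw [pow_one] at hj
        let σ : ↥(P : Subgroup G) →* ↥(P : Subgroup G) :=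
          { toFun := fun x => ⟨n.1 * x.1 * n.1⁻¹, (mem_normalizer_iff.mp n.2 x.1).mp x.2⟩
            map_one' := Subtype.ext (by simp)
            map_mul' := fun a b => Subtype.ext (by
              change n.1 * (a.1 * b.1) * n.1⁻¹ = n.1 * a.1 * n.1⁻¹ * (n.1 * b.1 * n.1⁻¹)
              group) }
        have hσv : ∀ x, (σ x).1 = n.1 * x.1 * n.1⁻¹ := fun x => rfl
        have hiter : ∀ (k : ℕ) (x : ↥(P : Subgroup G)), (σ^[k] x).1 = n.1 ^ k * x.1 * (n.1 ^ k)⁻¹ := by
          intro k x
          induction k with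
          | zero => simp
          | succ k ih =>
            rw [Function.iterate_succ_apply', hσv, ih, pow_succ']
            group
        have hnw : n.1 ^ w ∈ CC := by
          have h1 : n ^ w ∈ C₁ := Subgroup.pow_index_mem C₁ n
          exact_mod_cast (Subgroup.mem_subgroupOf.mp h1)
        refine fix_false (A := ↥(P : Subgroup G)) (fun a b => Subtype.ext (hab a a.2 b b.2)) P.2 σ
          (w := w) ?_ hw0 hpr D ?_ hj
        · intro x
          apply Subtype.ext
          rw [hiter]
          have h1 := (Subgroup.mem_centralizer_iff.mp hnw) x.1 x.2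
          rw [← h1]
          group
        · intro x
          rw [Subgroup.mem_subgroupOf, mem_centralizer_singleton_iff]
          constructor
          · intro h1
            apply Subtype.ext
            rw [hσv, ← h1]
            group
          · intro h1
            have h2 : n.1 * x.1 * n.1⁻¹ = x.1 := congrArg Subtype.val h1
            exact (mul_inv_eq_iff_eq_mul.mp h2).symm
      have hj2 : 2 ≤ j := by omega
      have h5 : p ^ 2 ≤ D.index := by
        rw [hj]; exact Nat.pow_le_pow_right hp.out.pos hj2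
      calc p ^ 2 * Nat.card (MulAction.fixedBy ↥(P : Subgroup G) n)
          ≤ D.index * Nat.card D := Nat.mul_le_mul h5 hDc
        _ = Nat.card P := by rw [mul_comm, hDi]
  -- summing up
  have hsum : p ^ 2 * (Nat.card (MulAction.orbitRel.Quotient N ↥(P : Subgroup G)) * Nat.card N) ≤
      Nat.card N * Nat.card P + Nat.card C₁ * ((p ^ 2 - 1) * Nat.card P) := by
    rw [← hb, Finset.mul_sum]
    refine (Finset.sum_le_sum (fun n _ => hbound n)).trans (le_of_eq ?_)
    rw [Finset.sum_add_distrib, Finset.sum_const, Finset.card_univ, smul_eq_mul,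
      ← Nat.card_eq_fintype_card, Finset.sum_ite, Finset.sum_const_zero, add_zero,
      Finset.sum_const, smul_eq_mul]
    congr 2
    symm
    exact Nat.subtype_card _ (fun x => by simp)
  have hlow := h.card_lt_mul_orbits p P
  have hle2 := card_orbits_le_normalizer P
  set Ω := Nat.card (MulAction.orbitRel.Quotient N ↥(P : Subgroup G)) with hΩ
  set P₀ := Nat.card P with hP₀
  set M := Nat.card N with hM
  set c := Nat.card C₁ with hc
  have hlow2 : P₀ < p * Ω := lt_of_lt_of_le hlow (Nat.mul_le_mul_left _ hle2)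
  have hM0 : 0 < M := Nat.card_pos
  have hc0 : 0 < c := Nat.card_pos
  obtain ⟨r, hr⟩ : ∃ r, p = r + 1 := ⟨p - 1, by have := hp.out.pos; omega⟩
  have hr0 : 0 < r := by have := hp.out.one_lt; omega
  have hw_lt : w < p + 1 := by
    have hkey : (r + 1) * M < M + c * (r * (r + 2)) := by
      have h1 : (r + 1) ^ 2 - 1 = r * (r + 2) := by
        have : (r + 1) ^ 2 = r * (r + 2) + 1 := by ring
        omega
      rw [hr, h1] at hsum
      rw [hr] at hlow2
      have h2 : (r + 1) ^ 2 * M * P₀ < (r + 1) ^ 2 * M * ((r + 1) * Ω) :=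
        Nat.mul_lt_mul_of_pos_left hlow2 (by positivity)
      have h3 : (r + 1) * ((r + 1) ^ 2 * (Ω * M)) ≤ (r + 1) * (M * P₀ + c * (r * (r + 2) * P₀)) :=
        Nat.mul_le_mul_left _ hsum
      have h4 : ((r + 1) * M) * ((r + 1) * P₀) < (M + c * (r * (r + 2))) * ((r + 1) * P₀) := by
        calc ((r + 1) * M) * ((r + 1) * P₀) = (r + 1) ^ 2 * M * P₀ := by ring
          _ < (r + 1) ^ 2 * M * ((r + 1) * Ω) := h2
          _ = (r + 1) * ((r + 1) ^ 2 * (Ω * M)) := by ring
          _ ≤ (r + 1) * (M * P₀ + c * (r * (r + 2) * P₀)) := h3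
          _ = _ := by ring
      exact Nat.lt_of_mul_lt_mul_right h4
    have h5 : r * M < r * (c * (r + 2)) := by
      have : (r + 1) * M = r * M + M := by ring
      have h6 : c * (r * (r + 2)) = r * (c * (r + 2)) := by ring
      omega
    have h6 : M < c * (r + 2) := Nat.lt_of_mul_lt_mul_left h5
    rw [← hMw, mul_comm] at h6
    have h7 : w * c < (r + 2) * c := by
      rw [mul_comm (r + 2)]
      exact h6
    have h8 := Nat.lt_of_mul_lt_mul_right h7
    omega
  have hw1 : w = 1 := by
    by_contra hne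
    obtain ⟨r', hr', hrd⟩ := Nat.exists_prime_and_dvd hne
    have h1 := hpr r' hr' hrd
    have h2 := Nat.le_of_dvd (Nat.pos_of_ne_zero hw0) hrd
    omega
  have htop : C₁ = ⊤ := Subgroup.index_eq_one.mp hw1
  intro x hx
  have h1 : (⟨x, hx⟩ : N) ∈ C₁ := htop ▸ mem_top _
  exact Subgroup.mem_subgroupOf.mp h1

end Cfsg.Agent.Lib.PGroups.SqFree
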