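import Cfsg.Agent.Lib.PGroups.SqFree2
import Cfsg.Agent.Lib.Basic.MinNormal
import Cfsg.Agent.Lib.Basic.Super

/-! Solvability of groups with squarefree class sizes; minimal normal subgroups have prime order. -/

set_option autoImplicit false

namespace Cfsg.Agent.Lib.PGroups.SqFree

open Subgroup Cfsg.Agent.Lib.PGroups Cfsg.Agent.Lib.Basic

universe u

/-- Groups with squarefree class sizes are solvable. -/
theorem SF.isSolvable_aux (n : ℕ) : ∀ (G : Type u) [Group G] [Finite G], Nat.card G = n → SF G →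
    Group.IsSolvable G := by
  induction n using Nat.strong_induction_on with
  | _ n ih =>
  intro G _ _ hn h
  by_cases hnt : Nontrivial G
  swap
  · rw [not_nontrivial_iff_subsingleton] at hnt
    infer_instance
  by_cases hex : ∃ N : Subgroup G, N.Normal ∧ N ≠ ⊥ ∧ N ≠ ⊤
  · obtain ⟨N, hNn, hb, ht⟩ := hex
    haveI := hNn
    have hcm := Subgroup.card_mul_index N
    have hN1 : 1 < Nat.card N := by
      have h1 : Nat.card N ≠ 1 := fun h2 => hb (Subgroup.card_eq_one.mp h2)
      have h2 : 0 < Nat.card N := Nat.card_pos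
      omega
    have hi1 : 1 < N.index := by
      have h1 : N.index ≠ 1 := fun h2 => ht (Subgroup.index_eq_one.mp h2)
      have h2 : N.index ≠ 0 := Subgroup.index_ne_zero_of_finite
      omega
    have h1 : Nat.card N < n := by
      rw [← hn, ← hcm]
      nlinarith
    have h2 : Nat.card (G ⧸ N) < n := by
      rw [← Subgroup.index_eq_card, ← hn, ← hcm]
      nlinarith
    haveI := ih _ h1 N rfl (h.normal N)
    haveI := ih _ h2 (G ⧸ N) rfl (h.of_surjective (QuotientGroup.mk' N) (QuotientGroup.mk'_surjective N))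
    refine Group.isSolvable_of_ker_le_range N.subtype (QuotientGroup.mk' N) ?_
    rw [QuotientGroup.ker_mk', Subgroup.range_subtype]
  · push Not at hex
    by_cases hc : center G = ⊥
    · exfalso
      have hp1 : Nat.card G ≠ 1 := Finite.one_lt_card.ne'
      let p := (Nat.card G).minFac
      haveI hp : Fact p.Prime := ⟨Nat.minFac_prime hp1⟩
      have hmin : ∀ r : ℕ, r.Prime → r ∣ Nat.card G → p ≤ r :=
        fun r hr hd => Nat.minFac_le_of_dvd hr.two_le hd
      obtain ⟨P⟩ : Nonempty (Sylow p G) := inferInstance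
      have hab : ∀ a ∈ (P : Subgroup G), ∀ b ∈ (P : Subgroup G), a * b = b * a := by
        intro a ha b hb
        have h1 := h.sylow_comm_le_center p P (Subgroup.commutator_mem_commutator ha hb)
        rw [hc, Subgroup.mem_bot] at h1
        exact commutatorElement_eq_one_iff_mul_comm.mp h1
      have hP := h.normalizer_le_centralizer p hmin P hab
      have hcomp := MonoidHom.ker_transferSylow_isComplement' P hP
      have hcm := hcomp.card_mul_card
      have hPb : (P : Subgroup G) ≠ ⊥ := P.ne_bot_of_dvd_card (Nat.minFac_dvd _)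
      by_cases hk : (MonoidHom.transferSylow P hP).ker = ⊥
      · rw [hk, Subgroup.card_bot, one_mul] at hcm
        have htop : (P : Subgroup G) = ⊤ :=
          Subgroup.eq_top_of_card_eq _ hcm
        have hcen : center G = ⊤ := by
          rw [eq_top_iff]
          intro x _
          rw [Subgroup.mem_center_iff]
          intro g
          exact hab g (htop ▸ mem_top g) x (htop ▸ mem_top x)
        rw [hcen] at hc
        exact top_ne_bot hc
      · have htop := hex _ (MonoidHom.normal_ker _) hk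
        rw [htop, Subgroup.card_top] at hcm
        have h1 : Nat.card P = 1 := by
          have h2 : 0 < Nat.card G := Nat.card_pos
          nlinarith
        exact hPb (Subgroup.card_eq_one.mp h1)
    · have htop := hex _ inferInstance hc
      exact Group.isSolvable_of_comm (fun a b => by
        have h1 : a ∈ center G := htop ▸ mem_top a
        exact (Subgroup.mem_center_iff.mp h1 b).symm)

theorem SF.isSolvable {G : Type u} [Group G] [Finite G] (h : SF G) : Group.IsSolvable G :=
  SF.isSolvable_aux _ G rfl h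

variable {G : Type u} [Group G] [Finite G]

section pair

variable (A : Subgroup G) [hA : A.Normal] (hcomm : ∀ a ∈ A, ∀ b ∈ A, a * b = b * a)

/-- The commutator map `a ↦ y a y⁻¹ a⁻¹` on an abelian normal subgroup. -/
def phi (y : G) : A →* A where
  toFun a := ⟨y * a.1 * y⁻¹ * a.1⁻¹, A.mul_mem (hA.conj_mem a.1 a.2 y) (A.inv_mem a.2)⟩
  map_one' := Subtype.ext (by simp)
  map_mul' a b := Subtype.ext (by
    have h1 : a.1⁻¹ * (y * b.1 * y⁻¹ * b.1⁻¹) = (y * b.1 * y⁻¹ * b.1⁻¹) * a.1⁻¹ :=
      hcomm _ (A.inv_mem a.2) _ (A.mul_mem (hA.conj_mem b.1 b.2 y) (A.inv_mem b.2))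
    change y * (a.1 * b.1) * y⁻¹ * (a.1 * b.1)⁻¹ =
      (y * a.1 * y⁻¹ * a.1⁻¹) * (y * b.1 * y⁻¹ * b.1⁻¹)
    calc y * (a.1 * b.1) * y⁻¹ * (a.1 * b.1)⁻¹
        = (y * a.1 * y⁻¹) * ((y * b.1 * y⁻¹ * b.1⁻¹) * a.1⁻¹) := by group
      _ = (y * a.1 * y⁻¹) * (a.1⁻¹ * (y * b.1 * y⁻¹ * b.1⁻¹)) := by rw [h1]
      _ = _ := by group)

theorem phi_val (y : G) (a : A) : (phi A hcomm y a).1 = y * a.1 * y⁻¹ * a.1⁻¹ := rfl

theorem mem_ker_phi {y : G} {a : A} : a ∈ (phi A hcomm y).ker ↔ y * a.1 * y⁻¹ = a.1 := by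
  rw [MonoidHom.mem_ker]
  constructor
  · intro h1
    have h2 := congrArg Subtype.val h1
    rw [phi_val] at h2
    exact mul_inv_eq_one.mp h2
  · intro h1
    apply Subtype.ext
    rw [phi_val, h1]
    simp

theorem ker_phi_eq (y : G) : (phi A hcomm y).ker = (centralizer ({y} : Set G)).subgroupOf A := by
  ext a
  rw [mem_ker_phi, Subgroup.mem_subgroupOf, mem_centralizer_singleton_iff]
  constructor
  · intro h1
    exact (mul_inv_eq_iff_eq_mul.mp h1).symm
  · intro h1
    rw [h1.symm]
    group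

/-- The image has order `1` or `q`. -/
theorem SF.card_range_phi (h : SF G) {q : ℕ} (hq : q.Prime) (hAq : IsPGroup q A) (y : G) :
    Nat.card (phi A hcomm y).range = 1 ∨ Nat.card (phi A hcomm y).range = q := by
  rw [← Subgroup.index_ker, ker_phi_eq]
  exact h.relIndex_centralizer y A hq hAq

theorem phi_mul (y z : G) (a : A) :
    phi A hcomm (y * z) a =
      phi A hcomm y ⟨z * a.1 * z⁻¹, hA.conj_mem a.1 a.2 z⟩ * phi A hcomm z a := by
  apply Subtype.ext
  change (y * z) * a.1 * (y * z)⁻¹ * a.1⁻¹ =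
    (y * (z * a.1 * z⁻¹) * y⁻¹ * (z * a.1 * z⁻¹)⁻¹) * (z * a.1 * z⁻¹ * a.1⁻¹)
  group

/-- The pair lemma. -/
theorem SF.pair_ker (h : SF G) {q : ℕ} (hq : q.Prime) (hAq : IsPGroup q A) {y z : G}
    (hI : (phi A hcomm y).range ⊓ (phi A hcomm z).range = ⊥)
    (hy : Nat.card (phi A hcomm y).range = q) (hz : Nat.card (phi A hcomm z).range = q) :
    (phi A hcomm y).ker = (phi A hcomm z).ker := by
  set C := (phi A hcomm (y * z)).ker with hC
  have hle : ∀ a ∈ C, a ∈ (phi A hcomm y).ker ∧ a ∈ (phi A hcomm z).ker := by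
    intro a ha
    have h1 : phi A hcomm (y * z) a = 1 := ha
    rw [phi_mul] at h1
    have h2 : phi A hcomm z a ∈ (phi A hcomm y).range ⊓ (phi A hcomm z).range := by
      refine ⟨?_, ⟨a, rfl⟩⟩
      have h3 : phi A hcomm z a = (phi A hcomm y ⟨z * a.1 * z⁻¹, hA.conj_mem a.1 a.2 z⟩)⁻¹ :=
        eq_inv_of_mul_eq_one_right h1
      rw [h3]
      exact Subgroup.inv_mem _ ⟨_, rfl⟩
    rw [hI, Subgroup.mem_bot] at h2
    have hz' : a ∈ (phi A hcomm z).ker := h2
    refine ⟨?_, hz'⟩
    rw [h2, mul_one] at h1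
    have h4 := (mem_ker_phi A hcomm).mp hz'
    have h5 : (⟨z * a.1 * z⁻¹, hA.conj_mem a.1 a.2 z⟩ : A) = a := Subtype.ext h4
    rw [h5] at h1
    exact h1
  have hCi : Nat.card C * C.index = Nat.card A := Subgroup.card_mul_index C
  have hCle : C.index ≤ q := by
    have h1 : C.index = Nat.card (phi A hcomm (y * z)).range := Subgroup.index_ker _
    rw [h1]
    rcases h.card_range_phi A hcomm hq hAq (y * z) with h2 | h2
    · rw [h2]; exact hq.one_lt.le
    · exact h2.le
  have hK : ∀ w : G, Nat.card (phi A hcomm w).range = q → C ≤ (phi A hcomm w).ker →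
      C = (phi A hcomm w).ker := by
    intro w hw hCw
    apply Subgroup.eq_of_le_of_card_ge hCw
    have h1 := Subgroup.card_mul_index (phi A hcomm w).ker
    rw [Subgroup.index_ker, hw] at h1
    have h2 : Nat.card (phi A hcomm w).ker * q ≤ Nat.card C * q := by
      rw [h1, ← hCi]
      exact Nat.mul_le_mul_left _ hCle
    exact Nat.le_of_mul_le_mul_right h2 hq.pos
  rw [← hK y hy (fun a ha => (hle a ha).1), ← hK z hz (fun a ha => (hle a ha).2)]

end pair

end Cfsg.Agent.Lib.PGroups.SqFree
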