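import Cfsg.Agent.Lib.PGroups.SqFree3

/-! Minimal normal subgroups of groups with squarefree class sizes have prime order; Knoche's
theorem on `p`-groups with class sizes at most `p`. -/

set_option autoImplicit false

namespace Cfsg.Agent.Lib.PGroups.SqFree

open Subgroup Cfsg.Agent.Lib.PGroups Cfsg.Agent.Lib.Basic
open scoped commutatorElement

universe u

variable {G : Type u} [Group G] [Finite G]

/-- Two distinct subgroups of the same prime order meet trivially. -/
theorem inf_eq_bot_of_card_prime {K : Type*} [Group K] [Finite K] {p : ℕ} (hp : p.Prime)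
    {R S : Subgroup K} (hR : Nat.card R = p) (hS : Nat.card S = p) (hne : R ≠ S) : R ⊓ S = ⊥ := by
  apply inf_eq_bot_of_prime_card (by rw [hS]; exact hp)
  intro hle
  exact hne (Subgroup.eq_of_le_of_card_ge hle (by rw [hR, hS])).symm

theorem SF.card_prime_of_isMinNormal (h : SF G) {N : Subgroup G} (hmin : IsMinNormal N) :
    (Nat.card N).Prime := by
  classical
  haveI := h.isSolvable
  haveI hNn : N.Normal := hmin.1
  obtain ⟨hc, p, hp, hx⟩ := hmin.elementary
  have hcomm : ∀ a ∈ N, ∀ b ∈ N, a * b = b * a := fun a ha b hb => by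
    have := hc.is_comm.comm ⟨a, ha⟩ ⟨b, hb⟩
    exact congrArg Subtype.val this
  have hNp : IsPGroup p N := fun x => ⟨1, Subtype.ext (by simpa using hx x x.2)⟩
  by_contra hnp
  have hcard : ∀ y, Nat.card (phi N hcomm y).range = 1 ∨ Nat.card (phi N hcomm y).range = p :=
    fun y => h.card_range_phi N hcomm hp hNp y
  -- the conjugation formula
  let cj : G → N → N := fun g a => ⟨g * a.1 * g⁻¹, hNn.conj_mem a.1 a.2 g⟩
  have hconj : ∀ (g y : G) (a : N), (phi N hcomm (g * y * g⁻¹) (cj g a)).1 =
      g * (phi N hcomm y a).1 * g⁻¹ := by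
    intro g y a
    change (g * y * g⁻¹) * (g * a.1 * g⁻¹) * (g * y * g⁻¹)⁻¹ * (g * a.1 * g⁻¹)⁻¹ =
      g * (y * a.1 * y⁻¹ * a.1⁻¹) * g⁻¹
    group
  -- some element acts nontrivially
  obtain ⟨y, hy⟩ : ∃ y, (phi N hcomm y).range ≠ ⊥ := by
    by_contra hall
    push Not at hall
    have hcen : ∀ a ∈ N, a ∈ center G := by
      intro a ha
      rw [Subgroup.mem_center_iff]
      intro g
      have h1 : phi N hcomm g ⟨a, ha⟩ ∈ (phi N hcomm g).range := ⟨_, rfl⟩
      rw [hall g, Subgroup.mem_bot] at h1
      have h2 := (mem_ker_phi N hcomm).mp h1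
      exact mul_inv_eq_iff_eq_mul.mp h2
    obtain ⟨x, hxN, hx1⟩ : ∃ x ∈ N, x ≠ 1 := by
      by_contra hcon
      push Not at hcon
      exact hmin.2.1 ((Subgroup.eq_bot_iff_forall N).mpr hcon)
    have hzn : (zpowers x).Normal := by
      refine ⟨fun z hz g => ?_⟩
      have h1 : z ∈ center G := (Subgroup.zpowers_le.mpr (hcen x hxN)) hz
      have h2 := Subgroup.mem_center_iff.mp h1 g
      rw [h2, mul_inv_cancel_right]
      exact hz
    have hzle : zpowers x ≤ N := Subgroup.zpowers_le.mpr hxN
    haveI : Fact p.Prime := ⟨hp⟩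
    rcases hmin.2.2 _ hzn hzle with h1 | h1
    · exact hx1 (Subgroup.zpowers_eq_bot.mp h1)
    · apply hnp
      rw [← h1, Nat.card_zpowers, orderOf_eq_prime (hx x hxN) hx1]
      exact hp
  have hyc : Nat.card (phi N hcomm y).range = p := by
    rcases hcard y with h1 | h1
    · exact absurd (Subgroup.card_eq_one.mp h1) hy
    · exact h1
  obtain ⟨a₀, ha₀⟩ : ∃ a, phi N hcomm y a ≠ 1 := by
    by_contra hcon
    push Not at hcon
    apply hy
    rw [eq_bot_iff]
    rintro _ ⟨a, rfl⟩
    exact hcon a
  have hycj : ∀ g, Nat.card (phi N hcomm (g * y * g⁻¹)).range = p := by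
    intro g
    rcases hcard (g * y * g⁻¹) with h1 | h1
    · exfalso
      have h2 := Subgroup.card_eq_one.mp h1
      have h3 : phi N hcomm (g * y * g⁻¹) (cj g a₀) ∈ (phi N hcomm (g * y * g⁻¹)).range := ⟨_, rfl⟩
      rw [h2, Subgroup.mem_bot] at h3
      have h4 := hconj g y a₀
      rw [h3] at h4
      apply ha₀
      apply Subtype.ext
      have h5 : g * (phi N hcomm y a₀).1 * g⁻¹ = 1 := h4.symm
      have h6 : (phi N hcomm y a₀).1 = g⁻¹ * (g * (phi N hcomm y a₀).1 * g⁻¹) * g := by group
      rw [h6, h5]
      simp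
    · exact h1
  -- a conjugate with a different image
  obtain ⟨g₁, hg₁⟩ : ∃ g, (phi N hcomm (g * y * g⁻¹)).range ≠ (phi N hcomm y).range := by
    by_contra hcon
    push Not at hcon
    have hn : ((phi N hcomm y).range.map N.subtype).Normal := by
      refine ⟨?_⟩
      rintro _ ⟨_, ⟨a, rfl⟩, rfl⟩ g
      have h1 : phi N hcomm (g * y * g⁻¹) (cj g a) ∈ (phi N hcomm y).range := by
        rw [← hcon g]; exact ⟨_, rfl⟩
      exact ⟨_, h1, hconj g y a⟩
    have hle : (phi N hcomm y).range.map N.subtype ≤ N := by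
      rintro _ ⟨x, _, rfl⟩
      exact x.2
    rcases hmin.2.2 _ hn hle with h1 | h1
    · apply hy
      exact (Subgroup.map_eq_bot_iff_of_injective _ N.subtype_injective).mp h1
    · apply hnp
      have h2 : Nat.card ((phi N hcomm y).range.map N.subtype) = p := by
        rw [← hyc]
        exact Nat.card_congr (Subgroup.equivMapOfInjective _ _ N.subtype_injective).toEquiv.symm
      rw [← h1, h2]
      exact hp
  -- a conjugate with a different kernel
  obtain ⟨g₂, hg₂⟩ : ∃ g, (phi N hcomm (g * y * g⁻¹)).ker ≠ (phi N hcomm y).ker := by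
    by_contra hcon
    push Not at hcon
    have hn : ((phi N hcomm y).ker.map N.subtype).Normal := by
      refine ⟨?_⟩
      rintro _ ⟨a, ha, rfl⟩ g
      have h1 : cj g a ∈ (phi N hcomm (g * y * g⁻¹)).ker := by
        apply Subtype.ext
        rw [hconj g y a, show (phi N hcomm y a) = 1 from ha]
        simp
      rw [hcon g] at h1
      exact ⟨_, h1, rfl⟩
    have hle : (phi N hcomm y).ker.map N.subtype ≤ N := by
      rintro _ ⟨x, _, rfl⟩
      exact x.2
    rcases hmin.2.2 _ hn hle with h1 | h1
    · have h2 : (phi N hcomm y).ker = ⊥ :=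
        (Subgroup.map_eq_bot_iff_of_injective _ N.subtype_injective).mp h1
      apply hnp
      have h3 := Subgroup.index_ker (phi N hcomm y)
      rw [h2, Subgroup.index_bot, hyc] at h3
      rw [h3]
      exact hp
    · apply ha₀
      have h2 : a₀.1 ∈ (phi N hcomm y).ker.map N.subtype := by rw [h1]; exact a₀.2
      obtain ⟨b, hb, hb2⟩ := h2
      have h3 : b = a₀ := Subtype.ext hb2
      rw [h3] at hb
      exact hb
  have hpair := fun {z w : G} (hzc : Nat.card (phi N hcomm z).range = p)
    (hwc : Nat.card (phi N hcomm w).range = p)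
    (hne : (phi N hcomm z).range ≠ (phi N hcomm w).range) =>
      h.pair_ker N hcomm hp hNp (inf_eq_bot_of_card_prime hp hzc hwc hne) hzc hwc
  have h1 := hpair (hycj g₁) hyc hg₁
  have h2 : (phi N hcomm (g₂ * y * g₂⁻¹)).range = (phi N hcomm y).range := by
    by_contra hne
    exact hg₂ (hpair (hycj g₂) hyc hne)
  have h3 := hpair (hycj g₁) (hycj g₂) (by rw [h2]; exact hg₁)
  exact hg₂ (h3.symm.trans h1)

section knoche

variable {P : Type*} [Group P] [Finite P] {p : ℕ} [hp : Fact p.Prime]

/-- **Knoche**: a `p`-group with all class sizes at most `p` has derived subgroup of order at most `p`. -/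
theorem knoche (hP : IsPGroup p P)
    (hc : ∀ a : P, (centralizer ({a} : Set P)).index = 1 ∨ (centralizer ({a} : Set P)).index = p) :
    Nat.card (commutator P) ≤ p := by
  classical
  -- `Cn` abbreviation
  let Cn : P → Subgroup P := fun a => centralizer ({a} : Set P)
  have hmemCn : ∀ {a x : P}, x ∈ Cn a ↔ x * a = a * x := mem_centralizer_singleton_iff
  have hCnnorm : ∀ a, (Cn a).Normal := by
    intro a
    rcases hc a with h1 | h1
    · have h2 : Cn a = ⊤ := Subgroup.index_eq_one.mp h1
      rw [h2]; infer_instance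
    · obtain ⟨k, hk⟩ := IsPGroup.iff_card.mp hP
      have hk0 : k ≠ 0 := by
        rintro rfl
        have h2 := Subgroup.index_dvd_card (Cn a)
        have h3 : (Cn a).index = p := h1
        rw [hk, h3] at h2
        simp at h2
        exact hp.out.one_lt.ne' h2
      have hmf : (Nat.card P).minFac = p := by
        rw [hk, Nat.Prime.pow_minFac hp.out hk0]
      exact Subgroup.normal_of_index_eq_minFac_card (by rw [hmf]; exact h1)
  have hCnconj : ∀ a g : P, Cn (g * a * g⁻¹) = Cn a := by
    intro a g
    have key : ∀ (a g : P), Cn a ≤ Cn (g * a * g⁻¹) := by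
      intro a g x hx
      rw [hmemCn]
      have h1 : g⁻¹ * x * g ∈ Cn a := by
        have := (hCnnorm a).conj_mem x hx g⁻¹
        simpa using this
      have h2 := hmemCn.mp h1
      calc x * (g * a * g⁻¹) = g * ((g⁻¹ * x * g) * a) * g⁻¹ := by group
        _ = g * (a * (g⁻¹ * x * g)) * g⁻¹ := by rw [h2]
        _ = (g * a * g⁻¹) * x := by group
    apply le_antisymm _ (key a g)
    have := key (g * a * g⁻¹) g⁻¹
    simpa [mul_assoc] using this
  -- commutators are central
  have hcentral : ∀ a b : P, ⁅a, b⁆ ∈ center P := by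
    intro a b
    by_cases hab : a * b = b * a
    · rw [commutatorElement_eq_one_iff_mul_comm.mpr hab]
      exact Subgroup.one_mem _
    set c := ⁅a, b⁆ with hcdef
    have hca : ∀ x ∈ Cn a, x ∈ Cn c := by
      intro x hx
      rw [hmemCn]
      have h1 := hmemCn.mp hx
      have h2 : x ∈ Cn (b * a * b⁻¹) := by rw [hCnconj]; exact hx
      have h3 := hmemCn.mp h2
      have h4 : c = a * (b * a * b⁻¹)⁻¹ := by
        rw [hcdef, commutatorElement_def]; group
      rw [h4]
      have h5 : Commute x (b * a * b⁻¹)⁻¹ := (show Commute x (b * a * b⁻¹) from h3).inv_right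
      have h6 : Commute x a := h1
      exact (h6.mul_right h5)
    have hcb : b ∈ Cn c := by
      rw [hmemCn]
      have h2 : b ∈ Cn (a * b * a⁻¹) := by rw [hCnconj]; exact hmemCn.mpr rfl
      have h3 : Commute b (a * b * a⁻¹) := hmemCn.mp h2
      have h4 : c = (a * b * a⁻¹) * b⁻¹ := by
        rw [hcdef, commutatorElement_def]
      rw [h4]
      exact h3.mul_right (Commute.refl b).inv_right
    have hbnot : b ∉ Cn a := by
      intro hb
      exact hab (hmemCn.mp hb).symm
    have hidx : (Cn c).index ∣ (Cn a).index := Subgroup.index_dvd_of_le hca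
    have hane : (Cn a).index = p := by
      rcases hc a with h1 | h1
      · exfalso
        have h2 : Cn a = ⊤ := Subgroup.index_eq_one.mp h1
        exact hbnot (h2 ▸ mem_top b)
      · exact h1
    rw [hane] at hidx
    rcases (Nat.dvd_prime hp.out).mp hidx with h1 | h1
    · have h2 : Cn c = ⊤ := Subgroup.index_eq_one.mp h1
      rw [Subgroup.mem_center_iff]
      intro g
      have h3 : g ∈ Cn c := h2 ▸ mem_top g
      exact hmemCn.mp h3
    · exfalso
      have h2 : Cn a = Cn c := Subgroup.eq_of_le_of_card_ge hca (by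
        have h3 := Subgroup.card_mul_index (Cn a)
        have h4 := Subgroup.card_mul_index (Cn c)
        rw [hane] at h3
        rw [h1] at h4
        have h5 : Nat.card (Cn c) * p = Nat.card (Cn a) * p := h4.trans h3.symm
        exact (Nat.eq_of_mul_eq_mul_right hp.out.pos h5).le)
      exact hbnot (h2 ▸ hcb)
  have hcentral' : ∀ a b x : P, ⁅a, b⁆ * x = x * ⁅a, b⁆ := fun a b x =>
    (Subgroup.mem_center_iff.mp (hcentral a b) x).symm
  -- the maps `ψ a`
  let ψ : P → P →* P := fun a =>
    { toFun := fun x => ⁅a, x⁆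
      map_one' := by simp
      map_mul' := by
        intro x y
        have h1 : ⁅a, x * y⁆ = ⁅a, x⁆ * (x * ⁅a, y⁆ * x⁻¹) := by
          simp only [commutatorElement_def]; group
        rw [h1, ← hcentral' a y x, mul_inv_cancel_right] }
  have hψv : ∀ a x, ψ a x = ⁅a, x⁆ := fun a x => rfl
  have hψker : ∀ a, (ψ a).ker = Cn a := by
    intro a
    ext x
    rw [MonoidHom.mem_ker, hψv, commutatorElement_eq_one_iff_mul_comm, hmemCn]
    exact ⟨fun h1 => h1.symm, fun h1 => h1.symm⟩
  have hLcard : ∀ a, Nat.card (ψ a).range = 1 ∨ Nat.card (ψ a).range = p := by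
    intro a
    rw [← Subgroup.index_ker, hψker]
    exact hc a
  have hψmul : ∀ a b x, ψ (a * b) x = ψ a x * ψ b x := by
    intro a b x
    rw [hψv, hψv, hψv]
    have h1 : ⁅a * b, x⁆ = a * ⁅b, x⁆ * a⁻¹ * ⁅a, x⁆ := by
      simp only [commutatorElement_def]; group
    rw [h1, ← hcentral' b x a, mul_inv_cancel_right]
    exact hcentral' b x _
  -- the pair lemma
  have hpair : ∀ a b : P, Nat.card (ψ a).range = p → Nat.card (ψ b).range = p →
      (ψ a).range ≠ (ψ b).range → Cn a = Cn b := by
    intro a b ha hb hne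
    have hI := inf_eq_bot_of_card_prime hp.out ha hb hne
    have hle : ∀ x ∈ Cn (a * b), x ∈ Cn a ∧ x ∈ Cn b := by
      intro x hx
      have h1 : ψ (a * b) x = 1 := by
        rw [← hψker] at hx
        exact hx
      rw [hψmul] at h1
      have h2 : ψ a x ∈ (ψ a).range ⊓ (ψ b).range := by
        refine ⟨⟨x, rfl⟩, ?_⟩
        rw [eq_inv_of_mul_eq_one_left h1]
        exact Subgroup.inv_mem _ ⟨x, rfl⟩
      rw [hI, Subgroup.mem_bot] at h2
      rw [h2, one_mul] at h1
      rw [← hψker, ← hψker]
      exact ⟨h2, h1⟩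
    have hidx : ∀ w, Nat.card (ψ w).range = p → (Cn w).index = p := by
      intro w hw
      rw [← hψker, Subgroup.index_ker]
      exact hw
    have hab : (Cn (a * b)).index ≤ p := by
      rcases hc (a * b) with h1 | h1
      · exact (show (Cn (a * b)).index = 1 from h1).le.trans hp.out.one_lt.le
      · exact (show (Cn (a * b)).index = p from h1).le
    have hK : ∀ w, Nat.card (ψ w).range = p → Cn (a * b) ≤ Cn w → Cn (a * b) = Cn w := by
      intro w hw hle'
      apply Subgroup.eq_of_le_of_card_ge hle'
      have h1 := Subgroup.card_mul_index (Cn w)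
      have h2 := Subgroup.card_mul_index (Cn (a * b))
      rw [hidx w hw] at h1
      have h3 : Nat.card (Cn w) * p ≤ Nat.card (Cn (a * b)) * p := by
        rw [h1, ← h2]
        exact Nat.mul_le_mul_left _ hab
      exact Nat.le_of_mul_le_mul_right h3 hp.out.pos
    rw [← hK a ha (fun x hx => (hle x hx).1), ← hK b hb (fun x hx => (hle x hx).2)]
  by_cases hab : ∀ a : P, Nat.card (ψ a).range = 1
  · have h1 : commutator P = ⊥ := by
      rw [commutator_def, eq_bot_iff, Subgroup.commutator_le]
      intro a _ x _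
      have h2 : ψ a x ∈ (ψ a).range := ⟨x, rfl⟩
      rw [Subgroup.card_eq_one.mp (hab a), Subgroup.mem_bot] at h2
      exact h2
    rw [h1, Subgroup.card_bot]
    exact hp.out.one_lt.le
  push Not at hab
  obtain ⟨a₀, ha₀⟩ := hab
  have ha₀c : Nat.card (ψ a₀).range = p := (hLcard a₀).resolve_left ha₀
  have hall : ∀ d, (ψ d).range ≤ (ψ a₀).range := by
    intro d
    by_contra hd
    have hdc : Nat.card (ψ d).range = p := by
      rcases hLcard d with h1 | h1
      · exfalso
        apply hd
        rw [Subgroup.card_eq_one.mp h1]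
        exact bot_le
      · exact h1
    have hne : (ψ d).range ≠ (ψ a₀).range := fun h1 => hd h1.le
    have hCC := hpair d a₀ hdc ha₀c hne
    -- an element outside the common centralizer
    obtain ⟨e, he⟩ : ∃ e, e ∉ Cn a₀ := by
      by_contra hcon
      push Not at hcon
      apply ha₀
      rw [← Subgroup.index_ker, hψker]
      exact Subgroup.index_eq_one.mpr ((Subgroup.eq_top_iff' _).mpr hcon)
    have hec : Nat.card (ψ e).range = p := by
      rcases hLcard e with h1 | h1
      · exfalso
        have h2 : ∀ x, ψ e x = 1 := by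
          intro x
          have h3 : ψ e x ∈ (ψ e).range := ⟨x, rfl⟩
          rwa [Subgroup.card_eq_one.mp h1, Subgroup.mem_bot] at h3
        apply he
        have h3 := h2 a₀
        rw [hψv, commutatorElement_eq_one_iff_mul_comm] at h3
        exact hmemCn.mpr h3
      · exact h1
    have heCn : e ∈ Cn e := hmemCn.mpr rfl
    by_cases h1 : (ψ e).range = (ψ a₀).range
    · have h2 : (ψ e).range ≠ (ψ d).range := by
        rw [h1]
        exact hne.symm
      have h3 := hpair e d hec hdc h2
      rw [h3, hCC] at heCn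
      exact he heCn
    · have h3 := hpair e a₀ hec ha₀c h1
      rw [h3] at heCn
      exact he heCn
  have hle : commutator P ≤ (ψ a₀).range := by
    rw [commutator_def, Subgroup.commutator_le]
    intro a _ x _
    exact hall a ⟨x, rfl⟩
  calc Nat.card (commutator P) ≤ Nat.card (ψ a₀).range := Nat.card_le_card_of_injective _ (Subgroup.inclusion_injective hle)
    _ = p := ha₀c

end knoche

end Cfsg.Agent.Lib.PGroups.SqFree
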