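import Cfsg.Agent.Lib.PGroups.SqFree4

/-! Groups with squarefree class sizes whose derived subgroup is an abelian subgroup of a normal
Sylow subgroup: the derived subgroup has order at most `q`. -/

set_option autoImplicit false

namespace Cfsg.Agent.Lib.PGroups.SqFree

open Subgroup Cfsg.Agent.Lib.PGroups Cfsg.Agent.Lib.Basic
open scoped commutatorElement

universe u

variable {G : Type u} [Group G] [Finite G]

/-- A `q`-element one of whose powers with exponent prime to `q` lies in a subgroup lies in it. -/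
theorem mem_of_pow_mem_of_coprime {K : Type*} [Group K] {q n : ℕ} (hK : IsPGroup q K)
    (hn : n.Coprime q) (S : Subgroup K) {z : K} (hz : z ^ n ∈ S) : z ∈ S := by
  obtain ⟨k, hk⟩ := hK z
  have h1 : n.Coprime (orderOf z) :=
    Nat.Coprime.coprime_dvd_right (orderOf_dvd_of_pow_eq_one hk) (hn.pow_right k)
  obtain ⟨m, hm⟩ := exists_pow_eq_self_of_coprime h1
  rw [← hm]
  exact S.pow_mem hz m

section coprime

variable (A : Subgroup G) [hA : A.Normal] (hcomm : ∀ a ∈ A, ∀ b ∈ A, a * b = b * a)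

theorem conj_pow_phi_mem (x u : G) (c : A) (hc : c.1 = x * u * x⁻¹ * u⁻¹) (i : ℕ) :
    ∃ w ∈ (phi A hcomm x).range, x ^ i * u * (x ^ i)⁻¹ * u⁻¹ = (c ^ i * w).1 := by
  have hc1 : ∀ a b : A, a * b = b * a := fun a b => Subtype.ext (hcomm _ a.2 _ b.2)
  induction i with
  | zero => exact ⟨1, Subgroup.one_mem _, by simp⟩
  | succ i ih =>
    obtain ⟨w, hw, hi⟩ := ih
    set z : A := c ^ i * w with hz
    refine ⟨phi A hcomm x z * w, Subgroup.mul_mem _ ⟨z, rfl⟩ hw, ?_⟩
    have h1 : (phi A hcomm x z).1 = x * z.1 * x⁻¹ * z.1⁻¹ := rfl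
    have h2 : x ^ (i + 1) * u * (x ^ (i + 1))⁻¹ * u⁻¹ =
        x * (x ^ i * u * (x ^ i)⁻¹ * u⁻¹) * x⁻¹ * (x * u * x⁻¹ * u⁻¹) := by
      rw [pow_succ']; group
    rw [h2, hi, ← hc]
    have h3 : x * z.1 * x⁻¹ = (phi A hcomm x z).1 * z.1 := by rw [h1]; group
    rw [h3]
    change ((phi A hcomm x z) * z * c).1 = _
    congr 1
    rw [hz, pow_succ]
    letI : CommGroup A := { (inferInstance : Group A) with mul_comm := hc1 }
    simp only [mul_assoc, mul_comm, mul_left_comm]

/-- Commutators with an element of order prime to `q` lie in the image of the commutator map. -/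
theorem comm_mem_range {q n : ℕ} (hAq : IsPGroup q A) (hn : n.Coprime q) {x : G} (hx : x ^ n = 1)
    (u : G) (c : A) (hc : c.1 = x * u * x⁻¹ * u⁻¹) : c ∈ (phi A hcomm x).range := by
  obtain ⟨w, hw, hi⟩ := conj_pow_phi_mem A hcomm x u c hc n
  apply mem_of_pow_mem_of_coprime hAq hn
  have h1 : c ^ n * w = 1 := by
    apply Subtype.ext
    rw [← hi, hx]
    simp
  rw [eq_inv_of_mul_eq_one_left h1]
  exact Subgroup.inv_mem _ hw

theorem eq_one_of_mem_range_of_phi {q n : ℕ} (hAq : IsPGroup q A) (hn : n.Coprime q) {x : G}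
    (hx : x ^ n = 1) {z : A} (hz : z ∈ (phi A hcomm x).range) (hz1 : phi A hcomm x z = 1) :
    z = 1 := by
  obtain ⟨a, rfl⟩ := hz
  set z := phi A hcomm x a with hzdef
  have hzfix : x * z.1 * x⁻¹ = z.1 := (mem_ker_phi A hcomm).mp hz1
  have hxa : x * a.1 * x⁻¹ = z.1 * a.1 := by
    rw [hzdef, phi_val]; group
  have hi : ∀ i : ℕ, x ^ i * a.1 * (x ^ i)⁻¹ = z.1 ^ i * a.1 := by
    intro i
    induction i with
    | zero => simp
    | succ i ih =>
      have h1 : x ^ (i + 1) * a.1 * (x ^ (i + 1))⁻¹ = x * (x ^ i * a.1 * (x ^ i)⁻¹) * x⁻¹ := by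
        rw [pow_succ']; group
      have h2 : x * z.1 ^ i * x⁻¹ = z.1 ^ i := by
        rw [← conj_pow, hzfix]
      have h3 : x * (z.1 ^ i * a.1) * x⁻¹ = (x * z.1 ^ i * x⁻¹) * (x * a.1 * x⁻¹) := by group
      rw [h1, ih, h3, h2, hxa, pow_succ]
      group
  have h1 := hi n
  rw [hx] at h1
  have h2 : z.1 ^ n = 1 := by
    have h3 : a.1 = z.1 ^ n * a.1 := by simpa using h1
    exact (mul_eq_right.mp h3.symm)
  have h3 : z ^ n = 1 := Subtype.ext (by simpa using h2)
  have h4 : z ^ n ∈ (⊥ : Subgroup A) := by rw [h3]; exact Subgroup.one_mem _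
  have h5 := mem_of_pow_mem_of_coprime hAq hn ⊥ h4
  exact Subgroup.mem_bot.mp h5

theorem exists_mem_range_phi_eq {q n : ℕ} (hAq : IsPGroup q A) (hn : n.Coprime q) {x : G}
    (hx : x ^ n = 1) {z : A} (hz : z ∈ (phi A hcomm x).range) :
    ∃ y ∈ (phi A hcomm x).range, phi A hcomm x y = z := by
  let f : (phi A hcomm x).range → (phi A hcomm x).range := fun y => ⟨phi A hcomm x y.1, ⟨_, rfl⟩⟩
  have hf : Function.Injective f := by
    intro y y' hyy
    have h1 : phi A hcomm x y.1 = phi A hcomm x y'.1 := congrArg Subtype.val hyy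
    have h2 : phi A hcomm x (y.1 * y'.1⁻¹) = 1 := by
      rw [map_mul, map_inv, h1, mul_inv_cancel]
    have h3 := eq_one_of_mem_range_of_phi A hcomm hAq hn hx
      (Subgroup.mul_mem _ y.2 (Subgroup.inv_mem _ y'.2)) h2
    exact Subtype.ext (mul_inv_eq_one.mp h3)
  obtain ⟨y, hy⟩ := (Finite.injective_iff_surjective.mp hf) ⟨z, hz⟩
  exact ⟨y.1, y.2, congrArg Subtype.val hy⟩

/-- Commuting elements of order prime to `q` with nontrivial images have the same image. -/
theorem SF.range_phi_eq (h : SF G) {q n : ℕ} (hq : q.Prime) (hAq : IsPGroup q A)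
    (hn : n.Coprime q) {x y : G} (hx : x ^ n = 1) (hxy : x * y = y * x)
    (hxc : Nat.card (phi A hcomm x).range = q) (hyc : Nat.card (phi A hcomm y).range = q) :
    (phi A hcomm x).range = (phi A hcomm y).range := by
  by_contra hne
  have hI := inf_eq_bot_of_card_prime hq hxc hyc hne
  have hker := h.pair_ker A hcomm hq hAq hI hxc hyc
  -- a nontrivial element of the image of `x`
  have hne1 : (phi A hcomm x).range ≠ ⊥ := by
    intro h1
    rw [h1, Subgroup.card_bot] at hxc
    exact hq.one_lt.ne hxc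
  obtain ⟨z, hz, hz1⟩ := (Subgroup.bot_or_exists_ne_one _).resolve_left hne1
  apply hz1
  obtain ⟨a, ha⟩ := id hz
  have hinv : phi A hcomm y z ∈ (phi A hcomm x).range ⊓ (phi A hcomm y).range := by
    refine ⟨?_, ⟨z, rfl⟩⟩
    have h1 : phi A hcomm y z =
        phi A hcomm x ⟨y * a.1 * y⁻¹, hA.conj_mem a.1 a.2 y⟩ * z⁻¹ := by
      apply Subtype.ext
      rw [← ha]
      change y * (x * a.1 * x⁻¹ * a.1⁻¹) * y⁻¹ * (x * a.1 * x⁻¹ * a.1⁻¹)⁻¹ =
        (x * (y * a.1 * y⁻¹) * x⁻¹ * (y * a.1 * y⁻¹)⁻¹) * (x * a.1 * x⁻¹ * a.1⁻¹)⁻¹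
      have h2 : y * (x * a.1 * x⁻¹ * a.1⁻¹) * y⁻¹ = (y * x) * a.1 * (y * x)⁻¹ * (y * a.1 * y⁻¹)⁻¹ := by
        group
      have h3 : x * (y * a.1 * y⁻¹) * x⁻¹ = (x * y) * a.1 * (x * y)⁻¹ := by group
      rw [h2, h3, hxy]
    rw [h1]
    exact Subgroup.mul_mem _ ⟨_, rfl⟩ (Subgroup.inv_mem _ hz)
  rw [hI, Subgroup.mem_bot] at hinv
  have h5 : z ∈ (phi A hcomm x).ker := by
    rw [hker]
    exact hinv
  exact eq_one_of_mem_range_of_phi A hcomm hAq hn hx hz h5

end coprime

/-- **Lemma K.** -/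
theorem SF.card_commutator_le (h : SF G) {q : ℕ} [hq : Fact q.Prime] (P : Sylow q G)
    (hPn : (P : Subgroup G).Normal) (hAP : commutator G ≤ P)
    (hcomm : ∀ a ∈ commutator G, ∀ b ∈ commutator G, a * b = b * a) :
    Nat.card (commutator G) ≤ q := by
  classical
  haveI := hPn
  have hAq : IsPGroup q (commutator G) := P.2.to_le hAP
  obtain ⟨H, hH⟩ := Subgroup.exists_right_complement'_of_coprime P.card_coprime_index
  have hcm : ∀ g g' : G, ⁅g, g'⁆ ∈ commutator G :=
    fun g g' => Subgroup.commutator_mem_commutator (mem_top g) (mem_top g')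
  have hdec : ∀ g : G, ∃ u ∈ (P : Subgroup G), ∃ k ∈ H, g = u * k := by
    intro g
    obtain ⟨⟨u, k⟩, hg⟩ := hH.2 g
    exact ⟨u.1, u.2, k.1, k.2, hg.symm⟩
  have hdisj : ∀ z, z ∈ (P : Subgroup G) → z ∈ H → z = 1 := by
    intro z h1 h2
    exact Subgroup.disjoint_def.mp hH.disjoint h1 h2
  have hHab : ∀ a ∈ H, ∀ b ∈ H, a * b = b * a := by
    intro a ha b hb
    have h1 : ⁅a, b⁆ ∈ (P : Subgroup G) := hAP (hcm a b)
    have h2 : ⁅a, b⁆ ∈ H := by
      rw [commutatorElement_def]
      exact H.mul_mem (H.mul_mem (H.mul_mem ha hb) (H.inv_mem ha)) (H.inv_mem hb)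
    exact commutatorElement_eq_one_iff_mul_comm.mp (hdisj _ h1 h2)
  set n := Nat.card H with hn
  have hnc : n.Coprime q := by
    have h1 : ¬ q ∣ (P : Subgroup G).index := P.not_dvd_index
    have h2 : (P : Subgroup G).index = Nat.card H := by
      exact hH.symm.index_eq_card
    rw [hn, ← h2]
    exact ((Nat.Prime.coprime_iff_not_dvd hq.out).mpr h1).symm
  have hpow : ∀ a ∈ H, a ^ n = 1 := by
    intro a ha
    have h1 := pow_card_eq_one' (x := (⟨a, ha⟩ : H))
    exact congrArg Subtype.val h1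
  -- the commutator is contained in any normal subgroup with the generators
  have hK4 : ∀ L : Subgroup G, L.Normal → (∀ u ∈ (P : Subgroup G), ∀ v ∈ (P : Subgroup G), ⁅u, v⁆ ∈ L) →
      (∀ k ∈ H, ∀ u ∈ (P : Subgroup G), ⁅k, u⁆ ∈ L) → commutator G ≤ L := by
    intro L hL h1 h2
    haveI := hL
    let π := QuotientGroup.mk' L
    have hC : ∀ x y : G, ⁅x, y⁆ ∈ L → Commute (π x) (π y) := by
      intro x y hxy
      rw [← commutatorElement_eq_one_iff_commute, ← map_commutatorElement]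
      exact (QuotientGroup.eq_one_iff _).mpr hxy
    rw [commutator_def, Subgroup.commutator_le]
    intro a _ b _
    obtain ⟨u₁, hu₁, k₁, hk₁, rfl⟩ := hdec a
    obtain ⟨u₂, hu₂, k₂, hk₂, rfl⟩ := hdec b
    have hcom : Commute (π (u₁ * k₁)) (π (u₂ * k₂)) := by
      rw [map_mul, map_mul]
      apply Commute.mul_left
      · apply Commute.mul_right
        · exact hC _ _ (h1 _ hu₁ _ hu₂)
        · exact (hC _ _ (h2 _ hk₂ _ hu₁)).symm
      · apply Commute.mul_right
        · exact hC _ _ (h2 _ hk₁ _ hu₂)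
        · apply hC
          rw [commutatorElement_eq_one_iff_mul_comm.mpr (hHab _ hk₁ _ hk₂)]
          exact Subgroup.one_mem _
    apply (QuotientGroup.eq_one_iff _).mp
    have h3 : π ⁅u₁ * k₁, u₂ * k₂⁆ = 1 := by
      rw [map_commutatorElement]
      exact commutatorElement_eq_one_iff_commute.mpr hcom
    exact h3
  by_cases hcase : ∀ k ∈ H, ∀ u ∈ (P : Subgroup G), k * u = u * k
  · -- the direct product case
    have hle := hK4 ⁅(P : Subgroup G), (P : Subgroup G)⁆ (Subgroup.commutator_normal _ _)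
      (fun u hu v hv => Subgroup.commutator_mem_commutator hu hv)
      (fun k hk u hu => by
        rw [commutatorElement_eq_one_iff_mul_comm.mpr (hcase k hk u hu)]
        exact Subgroup.one_mem _)
    have hkn : Nat.card (commutator (P : Subgroup G)) ≤ q := by
      apply knoche P.2
      intro a
      obtain ⟨k, hk⟩ := IsPGroup.iff_card.mp P.2
      refine eq_one_or_of_dvd_squarefree hq.out (h.normal (P : Subgroup G) a) dvd_rfl
        (k := k) ?_
      rw [← hk]
      exact Subgroup.index_dvd_card _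
    calc Nat.card (commutator G) ≤ Nat.card (⁅(P : Subgroup G), (P : Subgroup G)⁆ : Subgroup G) :=
          Nat.card_le_card_of_injective _ (Subgroup.inclusion_injective hle)
      _ = Nat.card (commutator (P : Subgroup G)) := by
          rw [← Subgroup.map_subtype_commutator]
          exact Nat.card_congr (Subgroup.equivMapOfInjective _ _ (Subgroup.subtype_injective _)).toEquiv.symm
      _ ≤ q := hkn
  push Not at hcase
  obtain ⟨h₀, hh₀, u₀, hu₀, hne⟩ := hcase
  let φ : G → (commutator G →* commutator G) := fun y => phi (commutator G) hcomm y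
  have hφv : ∀ y (a : commutator G), (φ y a).1 = y * a.1 * y⁻¹ * a.1⁻¹ := fun _ _ => rfl
  have hK1 : ∀ k ∈ H, ∀ u : G, (⟨⁅k, u⁆, hcm k u⟩ : commutator G) ∈ (φ k).range := by
    intro k hk u
    exact comm_mem_range (commutator G) hcomm hAq hnc (hpow k hk) u _ rfl
  have hcardI : ∀ y, Nat.card (φ y).range = 1 ∨ Nat.card (φ y).range = q :=
    fun y => h.card_range_phi (commutator G) hcomm hq.out hAq y
  have hI₀c : Nat.card (φ h₀).range = q := by
    rcases hcardI h₀ with h1 | h1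
    · exfalso
      have h2 := hK1 h₀ hh₀ u₀
      rw [Subgroup.card_eq_one.mp h1, Subgroup.mem_bot] at h2
      have h3 : ⁅h₀, u₀⁆ = 1 := congrArg Subtype.val h2
      exact hne (commutatorElement_eq_one_iff_mul_comm.mp h3)
    · exact h1
  -- all commutators lie in the image of `h₀`
  have hall : ∀ k ∈ H, ∀ u : G, (⟨⁅k, u⁆, hcm k u⟩ : commutator G) ∈ (φ h₀).range := by
    intro k hk u
    by_cases hcu : ⁅k, u⁆ = 1
    · have h1 : (⟨⁅k, u⁆, hcm k u⟩ : commutator G) = 1 := Subtype.ext hcu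
      rw [h1]
      exact Subgroup.one_mem _
    have h2 : Nat.card (φ k).range = q := by
      rcases hcardI k with h1 | h1
      · exfalso
        have h2 := hK1 k hk u
        rw [Subgroup.card_eq_one.mp h1, Subgroup.mem_bot] at h2
        exact hcu (congrArg Subtype.val h2)
      · exact h1
    have h3 : (φ k).range = (φ h₀).range :=
      h.range_phi_eq (commutator G) hcomm hq.out hAq hnc (hpow k hk) (hHab k hk h₀ hh₀) h2 hI₀c
    rw [← h3]
    exact hK1 k hk u
  set LG : Subgroup G := (φ h₀).range.map (commutator G).subtype with hLG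
  have hmemLG : ∀ z : commutator G, z ∈ (φ h₀).range → z.1 ∈ LG := fun z hz => ⟨z, hz, rfl⟩
  have hLGc : Nat.card LG = q := by
    rw [← hI₀c]
    exact Nat.card_congr (Subgroup.equivMapOfInjective _ _ (Subgroup.subtype_injective _)).toEquiv.symm
  have hLGP : LG ≤ (P : Subgroup G) := by
    rintro _ ⟨x, _, rfl⟩
    exact hAP x.2
  have hcommLG : ∀ k ∈ H, ∀ u : G, ⁅k, u⁆ ∈ LG := fun k hk u => hmemLG _ (hall k hk u)
  -- conjugation by `H` and by `P`
  have hconjH : ∀ k ∈ H, ∀ z ∈ LG, k * z * k⁻¹ ∈ LG := by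
    rintro k hk _ ⟨_, ⟨a, rfl⟩, rfl⟩
    have h1 : k * ((φ h₀ a).1) * k⁻¹ = (φ h₀ ⟨k * a.1 * k⁻¹, (inferInstance : (commutator G).Normal).conj_mem a.1 a.2 k⟩).1 := by
      rw [hφv, hφv]
      have h2 : h₀ * (k * a.1 * k⁻¹) * h₀⁻¹ = k * (h₀ * a.1 * h₀⁻¹) * k⁻¹ := by
        have h3 : h₀ * k = k * h₀ := hHab _ hh₀ _ hk
        calc h₀ * (k * a.1 * k⁻¹) * h₀⁻¹ = (h₀ * k) * a.1 * (h₀ * k)⁻¹ := by group
          _ = (k * h₀) * a.1 * (k * h₀)⁻¹ := by rw [h3]
          _ = _ := by group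
      rw [h2]
      group
    rw [show (commutator G).subtype (φ h₀ a) = (φ h₀ a).1 from rfl, h1]
    exact hmemLG _ ⟨_, rfl⟩
  have hconjP : ∀ u : G, ∀ z ∈ LG, u * z * u⁻¹ ∈ LG := by
    rintro u _ ⟨_, ⟨a, rfl⟩, rfl⟩
    have h1 : u * (φ h₀ a).1 * u⁻¹ = ⁅h₀, u⁆⁻¹ * ⁅h₀, u * a.1⁆ := by
      rw [hφv]
      simp only [commutatorElement_def]
      group
    rw [show (commutator G).subtype (φ h₀ a) = (φ h₀ a).1 from rfl, h1]
    exact LG.mul_mem (LG.inv_mem (hcommLG h₀ hh₀ u)) (hcommLG h₀ hh₀ _)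
  haveI hLGn : LG.Normal := ⟨fun z hz g => hconjP g z hz⟩
  -- `LG` is central in `P`
  have hLGcen : LG ≤ centralizer ((P : Subgroup G) : Set G) := by
    by_contra hnot
    have hbot := inf_eq_bot_of_prime_card (K := LG) (M := centralizer ((P : Subgroup G) : Set G))
      (by rw [hLGc]; exact hq.out) hnot
    haveI hnil : Group.IsNilpotent (P : Subgroup G) := P.2.isNilpotent
    let L' : Subgroup (P : Subgroup G) := LG.subgroupOf P
    haveI : L'.Normal := Subgroup.Normal.subgroupOf hLGn _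
    have hL' : L' ≠ ⊥ := by
      intro h1
      have h2 : LG = ⊥ := by
        rw [eq_bot_iff]
        intro z hz
        have h3 : (⟨z, hLGP hz⟩ : (P : Subgroup G)) ∈ L' := hz
        rw [h1, Subgroup.mem_bot] at h3
        exact congrArg Subtype.val h3
      rw [h2, Subgroup.card_bot] at hLGc
      exact hq.out.one_lt.ne hLGc
    have h1 := normal_inf_center_ne_bot L' hL'
    obtain ⟨w, hw, hwne⟩ := (Subgroup.bot_or_exists_ne_one _).resolve_left h1
    apply hwne
    have h2 : w.1 ∈ centralizer ((P : Subgroup G) : Set G) ⊓ LG := by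
      refine Subgroup.mem_inf.mpr ⟨?_, hw.1⟩
      rw [Subgroup.mem_centralizer_iff]
      intro u hu
      have h3 := Subgroup.mem_center_iff.mp hw.2 ⟨u, hu⟩
      exact congrArg Subtype.val h3
    rw [hbot, Subgroup.mem_bot] at h2
    exact Subtype.ext h2
  have hLGcom : ∀ z ∈ LG, ∀ u ∈ (P : Subgroup G), Commute z u := by
    intro z hz u hu
    exact ((Subgroup.mem_centralizer_iff.mp (hLGcen hz)) u hu).symm
  -- decomposition of `P`
  have hdecP : ∀ u ∈ (P : Subgroup G), ∃ y ∈ LG, ∃ k ∈ (P : Subgroup G), k * h₀ = h₀ * k ∧ u = y * k := by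
    intro u hu
    obtain ⟨y, hy, hyz⟩ := exists_mem_range_phi_eq (commutator G) hcomm hAq hnc (hpow h₀ hh₀)
      (hK1 h₀ hh₀ u)
    refine ⟨y.1, hmemLG y hy, y.1⁻¹ * u, (P : Subgroup G).mul_mem
      ((P : Subgroup G).inv_mem (hAP y.2)) hu, ?_, by group⟩
    have h1 : h₀ * y.1 * h₀⁻¹ * y.1⁻¹ = h₀ * u * h₀⁻¹ * u⁻¹ := congrArg Subtype.val hyz
    have h2 : h₀ * u * h₀⁻¹ = (h₀ * y.1 * h₀⁻¹ * y.1⁻¹) * u := by
      rw [h1]; group
    symm
    calc h₀ * (y.1⁻¹ * u) = (h₀ * y.1⁻¹ * h₀⁻¹) * (h₀ * u * h₀⁻¹) * h₀ := by group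
      _ = (h₀ * y.1⁻¹ * h₀⁻¹) * ((h₀ * y.1 * h₀⁻¹ * y.1⁻¹) * u) * h₀ := by rw [h2]
      _ = y.1⁻¹ * u * h₀ := by group
  -- the centralizer of `h₀` in `P` is abelian
  have hi₂ : (centralizer ({h₀} : Set G)).relIndex (P : Subgroup G) = q := by
    rcases h.relIndex_centralizer h₀ (P : Subgroup G) hq.out P.2 with h1 | h1
    · exfalso
      have h2 : (P : Subgroup G) ≤ centralizer ({h₀} : Set G) := Subgroup.relIndex_eq_one.mp h1
      have h3 := mem_centralizer_singleton_iff.mp (h2 hu₀)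
      exact hne h3.symm
    · exact h1
  have hK₀ab : ∀ k ∈ (P : Subgroup G), k * h₀ = h₀ * k → ∀ k' ∈ (P : Subgroup G), k' * h₀ = h₀ * k' →
      Commute k k' := by
    intro k hk hkc k' hk' hk'c
    obtain ⟨j, hj⟩ := P.2 ⟨k, hk⟩
    have hj' : k ^ (q ^ j) = 1 := congrArg Subtype.val hj
    have hypow : (k * h₀) ^ (q ^ j) = h₀ ^ (q ^ j) := by
      rw [(show Commute k h₀ from hkc).mul_pow, hj', one_mul]
    have hcop : (q ^ j).Coprime (orderOf h₀) :=
      Nat.Coprime.coprime_dvd_right (orderOf_dvd_of_pow_eq_one (hpow h₀ hh₀)) (hnc.symm.pow_left j)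
    obtain ⟨m, hm⟩ := exists_pow_eq_self_of_coprime hcop
    have hle : centralizer ({k * h₀} : Set G) ≤ centralizer ({h₀} : Set G) := by
      intro w hw
      rw [mem_centralizer_singleton_iff] at hw ⊢
      have h1 : Commute w (k * h₀) := hw
      have h2 : Commute w (((k * h₀) ^ (q ^ j)) ^ m) := (h1.pow_right _).pow_right _
      rw [hypow, hm] at h2
      exact h2
    have hi₁ : (centralizer ({k * h₀} : Set G)).relIndex (P : Subgroup G) = q := by
      have hdvd : (centralizer ({h₀} : Set G)).relIndex (P : Subgroup G) ∣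
          (centralizer ({k * h₀} : Set G)).relIndex (P : Subgroup G) :=
        Subgroup.relIndex_dvd_of_le_left _ hle
      rw [hi₂] at hdvd
      rcases h.relIndex_centralizer (k * h₀) (P : Subgroup G) hq.out P.2 with h1 | h1
      · rw [h1] at hdvd
        exact absurd (Nat.dvd_one.mp hdvd) hq.out.one_lt.ne'
      · exact h1
    have hcard : (centralizer ({k * h₀} : Set G)).subgroupOf (P : Subgroup G) =
        (centralizer ({h₀} : Set G)).subgroupOf (P : Subgroup G) := by
      apply Subgroup.eq_of_le_of_card_ge (show (centralizer ({k * h₀} : Set G)).subgroupOf (P : Subgroup G) ≤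
        (centralizer ({h₀} : Set G)).subgroupOf (P : Subgroup G) from fun x hx => hle hx)
      have h3 := Subgroup.card_mul_index ((centralizer ({k * h₀} : Set G)).subgroupOf (P : Subgroup G))
      have h4 := Subgroup.card_mul_index ((centralizer ({h₀} : Set G)).subgroupOf (P : Subgroup G))
      have h5 : ((centralizer ({k * h₀} : Set G)).subgroupOf (P : Subgroup G)).index = q := hi₁
      have h6 : ((centralizer ({h₀} : Set G)).subgroupOf (P : Subgroup G)).index = q := hi₂
      rw [h5] at h3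
      rw [h6] at h4
      exact (Nat.eq_of_mul_eq_mul_right hq.out.pos (h4.trans h3.symm)).le
    have h1 : (⟨k', hk'⟩ : (P : Subgroup G)) ∈ (centralizer ({h₀} : Set G)).subgroupOf (P : Subgroup G) := by
      rw [Subgroup.mem_subgroupOf, mem_centralizer_singleton_iff]
      exact hk'c
    rw [← hcard, Subgroup.mem_subgroupOf, mem_centralizer_singleton_iff] at h1
    have h2 : k' * (k * h₀) = (k * h₀) * k' := h1
    have h3 : (k' * k) * h₀ = (k * k') * h₀ := by
      calc (k' * k) * h₀ = k' * (k * h₀) := by group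
        _ = k * (h₀ * k') := by rw [h2, mul_assoc]
        _ = k * (k' * h₀) := by rw [hk'c]
        _ = _ := by group
    exact (mul_right_cancel h3).symm
  -- `P` is abelian
  have hPab : ∀ u ∈ (P : Subgroup G), ∀ v ∈ (P : Subgroup G), ⁅u, v⁆ ∈ LG := by
    intro u hu v hv
    obtain ⟨y, hy, k, hk, hkc, rfl⟩ := hdecP u hu
    obtain ⟨y', hy', k', hk', hk'c, rfl⟩ := hdecP v hv
    have hcm' : Commute (y * k) (y' * k') := by
      apply Commute.mul_left
      · apply Commute.mul_right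
        · exact hLGcom y hy y' (hLGP hy')
        · exact hLGcom y hy k' hk'
      · apply Commute.mul_right
        · exact (hLGcom y' hy' k hk).symm
        · exact hK₀ab k hk hkc k' hk' hk'c
    rw [commutatorElement_eq_one_iff_commute.mpr hcm']
    exact Subgroup.one_mem _
  have hfin := hK4 LG hLGn hPab (fun k hk u _ => hcommLG k hk u)
  calc Nat.card (commutator G) ≤ Nat.card LG :=
        Nat.card_le_card_of_injective _ (Subgroup.inclusion_injective hfin)
    _ = q := hLGc

end Cfsg.Agent.Lib.PGroups.SqFree
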