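import Cfsg.Agent.Lib.PGroups.SqFree5
import Cfsg.Agent.Lib.Basic.Misc2

/-! The derived subgroup of a group with squarefree class sizes is cyclic of squarefree order. -/

set_option autoImplicit false

namespace Cfsg.Agent.Lib.PGroups.SqFree

open Subgroup Cfsg.Agent.Lib.PGroups Cfsg.Agent.Lib.Basic
open scoped commutatorElement

universe u

/-- An abelian group of squarefree order is cyclic. -/
theorem isCyclic_of_comm_squarefree {K : Type*} [Group K] [Finite K]
    (hc : ∀ a b : K, a * b = b * a) (hs : Squarefree (Nat.card K)) : IsCyclic K := by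
  letI : CommGroup K := { (inferInstance : Group K) with mul_comm := hc }
  apply IsCyclic.of_exponent_eq_card
  apply Nat.dvd_antisymm (Group.exponent_dvd_nat_card)
  rw [← Nat.prod_primeFactors_of_squarefree hs]
  apply Finset.prod_primes_dvd
  · intro p hp
    exact (Nat.prime_of_mem_primeFactors hp).prime
  · intro p hp
    haveI := Fact.mk (Nat.prime_of_mem_primeFactors hp)
    obtain ⟨x, hx⟩ := exists_prime_orderOf_dvd_card' p (Nat.dvd_of_mem_primeFactors hp)
    rw [← hx]
    exact Monoid.order_dvd_exponent x

variable {G : Type u} [Group G] [Finite G]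

theorem map_commutator_mk' (M : Subgroup G) [M.Normal] :
    (commutator G).map (QuotientGroup.mk' M) = commutator (G ⧸ M) := by
  rw [commutator_def, commutator_def, Subgroup.map_commutator,
    Subgroup.map_top_of_surjective _ (QuotientGroup.mk'_surjective M)]

theorem card_commutator_eq (M : Subgroup G) [M.Normal] :
    Nat.card (commutator G) = Nat.card (M.subgroupOf (commutator G)) * Nat.card (commutator (G ⧸ M)) := by
  let f := (QuotientGroup.mk' M).subgroupMap (commutator G)
  have hf : Function.Surjective f := (QuotientGroup.mk' M).subgroupMap_surjective _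
  have hker : f.ker = M.subgroupOf (commutator G) := by
    ext x
    rw [MonoidHom.mem_ker, Subgroup.mem_subgroupOf, ← QuotientGroup.eq_one_iff]
    constructor
    · intro h1
      exact congrArg Subtype.val h1
    · intro h1
      exact Subtype.ext h1
  have h1 := Subgroup.card_mul_index f.ker
  rw [Subgroup.index_ker, MonoidHom.range_eq_top.mpr hf, Subgroup.card_top, hker] at h1
  rw [← h1, map_commutator_mk']

theorem isCyclic_commutator_of_disjoint (M : Subgroup G) [M.Normal]
    (hdisj : M.subgroupOf (commutator G) = ⊥) (hc : IsCyclic (commutator (G ⧸ M))) :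
    IsCyclic (commutator G) := by
  let f := (QuotientGroup.mk' M).subgroupMap (commutator G)
  have hker : f.ker = ⊥ := by
    rw [← hdisj]
    ext x
    rw [MonoidHom.mem_ker, Subgroup.mem_subgroupOf, ← QuotientGroup.eq_one_iff]
    constructor
    · intro h1
      exact congrArg Subtype.val h1
    · intro h1
      exact Subtype.ext h1
  haveI : IsCyclic ((commutator G).map (QuotientGroup.mk' M)) := by
    rw [map_commutator_mk']
    exact hc
  exact isCyclic_of_injective f ((MonoidHom.ker_eq_bot_iff f).mp hker)

/-- The structure theorem for the derived subgroup. -/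
theorem SF.commutator_aux (n : ℕ) : ∀ (G : Type u) [Group G] [Finite G], Nat.card G = n → SF G →
    IsCyclic (commutator G) ∧ Squarefree (Nat.card (commutator G)) := by
  induction n using Nat.strong_induction_on with
  | _ n ih =>
  intro G _ _ hn h
  classical
  by_cases hbot : commutator G = ⊥
  · rw [hbot]
    refine ⟨inferInstance, ?_⟩
    rw [Subgroup.card_bot]
    exact squarefree_one
  haveI hnt : Nontrivial G := by
    by_contra hcon
    rw [not_nontrivial_iff_subsingleton] at hcon
    exact hbot (Subsingleton.elim _ _)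
  haveI := h.isSolvable
  -- induction hypothesis
  have hIH : ∀ M : Subgroup G, IsMinNormal M → ∀ _hMn : M.Normal,
      IsCyclic (commutator (G ⧸ M)) ∧ Squarefree (Nat.card (commutator (G ⧸ M))) := by
    intro M hM hMn
    have h1 : Nat.card (G ⧸ M) < n := by
      rw [← Subgroup.index_eq_card, ← hn, ← Subgroup.card_mul_index M]
      have h2 : 1 < Nat.card M := by
        have h3 : Nat.card M ≠ 1 := fun h4 => hM.2.1 (Subgroup.card_eq_one.mp h4)
        have h4 : 0 < Nat.card M := Nat.card_pos
        omega
      have h3 : 0 < M.index := Nat.pos_of_ne_zero Subgroup.index_ne_zero_of_finite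
      nlinarith
    exact ih _ h1 (G ⧸ M) rfl (h.of_surjective (QuotientGroup.mk' M) (QuotientGroup.mk'_surjective M))
  obtain ⟨N, hN⟩ := exists_isMinNormal (G := G)
  haveI hNn : N.Normal := hN.1
  have hNp := h.card_prime_of_isMinNormal hN
  set q := Nat.card N with hq
  haveI hqf : Fact q.Prime := ⟨hNp⟩
  obtain ⟨hBc, hBs⟩ := hIH N hN hNn
  have hcount := card_commutator_eq N
  by_cases hNA : N ≤ commutator G
  swap
  · -- `N` meets the derived subgroup trivially
    have hdisj : N.subgroupOf (commutator G) = ⊥ := by
      have h1 : (commutator G) ⊓ N = ⊥ := inf_eq_bot_of_prime_card hNp hNA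
      rw [eq_bot_iff]
      intro x hx
      have h2 : x.1 ∈ (commutator G) ⊓ N := ⟨x.2, hx⟩
      rw [h1, Subgroup.mem_bot] at h2
      exact Subgroup.mem_bot.mpr (Subtype.ext h2)
    refine ⟨isCyclic_commutator_of_disjoint N hdisj hBc, ?_⟩
    rw [hcount, hdisj, Subgroup.card_bot, one_mul]
    exact hBs
  -- `N` is centralized by the derived subgroup, which is therefore abelian
  haveI hNcyc : IsCyclic N := isCyclic_of_prime_card (p := q) rfl
  obtain ⟨⟨n₀, hn₀N⟩, hgen⟩ := IsCyclic.exists_generator (α := N)
  have hgen' : ∀ x ∈ N, ∃ j : ℤ, x = n₀ ^ j := by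
    intro x hx
    obtain ⟨j, hj⟩ := Subgroup.mem_zpowers_iff.mp (hgen ⟨x, hx⟩)
    exact ⟨j, (congrArg Subtype.val hj).symm⟩
  have hAcN : ∀ a ∈ commutator G, ∀ x ∈ N, Commute a x := by
    intro a ha x hx
    have h1 : commutator G ≤ centralizer ({x} : Set G) := by
      rw [commutator_def, Subgroup.commutator_le]
      intro u _ v _
      rw [mem_centralizer_singleton_iff]
      exact commutator_commute_of_cyclic_normal hNn hn₀N hgen' u v hx
    exact mem_centralizer_singleton_iff.mp (h1 ha)
  have hcomm : ∀ a ∈ commutator G, ∀ b ∈ commutator G, a * b = b * a := by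
    let f := (QuotientGroup.mk' N).subgroupMap (commutator G)
    haveI : IsCyclic ((commutator G).map (QuotientGroup.mk' N)) := by
      rw [map_commutator_mk']
      exact hBc
    have hf : f.ker ≤ center (commutator G) := by
      intro x hx
      have h1 : x.1 ∈ N := by
        rw [← QuotientGroup.eq_one_iff]
        exact congrArg Subtype.val hx
      rw [Subgroup.mem_center_iff]
      intro g
      exact Subtype.ext (hAcN g.1 g.2 x.1 h1)
    have hmc := f.isMulCommutative_of_isCyclic_of_ker_le_center hf
    intro a ha b hb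
    have h1 := hmc.is_comm.comm (⟨a, ha⟩ : commutator G) ⟨b, hb⟩
    exact congrArg Subtype.val h1
  have hcard1 : Nat.card (N.subgroupOf (commutator G)) = q :=
    Nat.card_congr (Subgroup.subgroupOfEquivOfLe hNA).toEquiv
  rw [hcard1] at hcount
  by_cases hsq : Squarefree (Nat.card (commutator G))
  · exact ⟨isCyclic_of_comm_squarefree (fun a b => Subtype.ext (hcomm _ a.2 _ b.2)) hsq, hsq⟩
  exfalso
  have hqd : q ∣ Nat.card (commutator (G ⧸ N)) := by
    by_contra hnd
    apply hsq
    rw [hcount, Nat.squarefree_mul ((Nat.Prime.coprime_iff_not_dvd hNp).mpr hnd)]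
    exact ⟨hNp.prime.squarefree, hBs⟩
  have hq2 : q * q ∣ Nat.card (commutator G) := by
    rw [hcount]
    exact Nat.mul_dvd_mul_left _ hqd
  -- every minimal normal subgroup has order `q`
  have hall : ∀ M : Subgroup G, IsMinNormal M → Nat.card M = q := by
    intro M hM
    haveI hMn : M.Normal := hM.1
    obtain ⟨hMc, hMs⟩ := hIH M hM hMn
    have hc := card_commutator_eq M
    have hMp := h.card_prime_of_isMinNormal hM
    by_cases hMA : M ≤ commutator G
    · have hcard : Nat.card (M.subgroupOf (commutator G)) = Nat.card M :=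
        Nat.card_congr (Subgroup.subgroupOfEquivOfLe hMA).toEquiv
      rw [hcard] at hc
      by_contra hne
      have hcop : (q * q).Coprime (Nat.card M) := by
        have h1 : q.Coprime (Nat.card M) := (Nat.coprime_primes hNp hMp).mpr (fun h2 => hne h2.symm)
        exact Nat.Coprime.mul_left h1 h1
      have h2 : q * q ∣ Nat.card (commutator (G ⧸ M)) := by
        rw [hc] at hq2
        exact hcop.dvd_of_dvd_mul_left hq2
      exact hNp.not_isUnit ((Nat.squarefree_iff_prime_squarefree.mp hMs) q hNp h2 |>.elim)
    · exfalso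
      have hdisj : M.subgroupOf (commutator G) = ⊥ := by
        have h1 : (commutator G) ⊓ M = ⊥ := inf_eq_bot_of_prime_card hMp hMA
        rw [eq_bot_iff]
        intro x hx
        have h2 : x.1 ∈ (commutator G) ⊓ M := ⟨x.2, hx⟩
        rw [h1, Subgroup.mem_bot] at h2
        exact Subgroup.mem_bot.mpr (Subtype.ext h2)
      rw [hdisj, Subgroup.card_bot, one_mul] at hc
      exact hsq (hc ▸ hMs)
  -- the derived subgroup is a `q`-group
  haveI hmc : IsMulCommutative (commutator G) :=
    ⟨⟨fun a b => Subtype.ext (hcomm _ a.2 _ b.2)⟩⟩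
  have hAq : IsPGroup q (commutator G) := by
    apply IsPGroup.of_card (n := (Nat.card (commutator G)).primeFactorsList.length)
    apply Nat.eq_prime_pow_of_unique_prime_dvd Nat.card_pos.ne'
    intro s hs hsd
    haveI : Fact s.Prime := ⟨hs⟩
    have hTn : (torsionSubgroupOf (commutator G) s).Normal := torsionSubgroupOf_normal s
    obtain ⟨x, hx⟩ := exists_prime_orderOf_dvd_card' (G := commutator G) s hsd
    have hxT : x.1 ∈ torsionSubgroupOf (commutator G) s := by
      refine mem_torsionSubgroupOf.mpr ⟨x.2, ?_⟩
      have h1 : x ^ s = 1 := by rw [← hx]; exact pow_orderOf_eq_one x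
      simpa using congrArg Subtype.val h1
    have hx1 : x.1 ≠ 1 := by
      intro h1
      have h2 : x = 1 := Subtype.ext h1
      rw [h2, orderOf_one] at hx
      exact hs.one_lt.ne hx
    have hTne : torsionSubgroupOf (commutator G) s ≠ ⊥ := by
      intro h1
      rw [h1, Subgroup.mem_bot] at hxT
      exact hx1 hxT
    obtain ⟨M, hM, hMT⟩ := exists_isMinNormal_le hTn hTne
    have hMc := hall M hM
    obtain ⟨z, hzM, hz1⟩ := (Subgroup.bot_or_exists_ne_one M).resolve_left hM.2.1
    have hzs : z ^ s = 1 := (mem_torsionSubgroupOf.mp (hMT hzM)).2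
    have h2 : orderOf z = s := orderOf_eq_prime hzs hz1
    have h3 : s ∣ q := by
      rw [← h2, ← hMc]
      exact Subgroup.orderOf_dvd_natCard M hzM
    exact (Nat.prime_dvd_prime_iff_eq hs hNp).mp h3
  obtain ⟨P, hP⟩ := hAq.exists_le_sylow
  have hPn : (P : Subgroup G).Normal := by
    refine ⟨fun x hx g => ?_⟩
    have h1 : ⁅g, x⁆ ∈ commutator G :=
      Subgroup.commutator_mem_commutator (mem_top g) (mem_top x)
    have h2 : g * x * g⁻¹ = ⁅g, x⁆ * x := by
      rw [commutatorElement_def]; group
    rw [h2]
    exact (P : Subgroup G).mul_mem (hP h1) hx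
  have hle := h.card_commutator_le P hPn hP hcomm
  have hge : q * q ≤ Nat.card (commutator G) := Nat.le_of_dvd Nat.card_pos hq2
  have h2 := hNp.two_le
  nlinarith

theorem SF.commutator_isCyclic_squarefree {G : Type u} [Group G] [Finite G] (h : SF G) :
    IsCyclic (commutator G) ∧ Squarefree (Nat.card (commutator G)) :=
  SF.commutator_aux _ G rfl h

end Cfsg.Agent.Lib.PGroups.SqFree
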