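import Mathlib

/-!
# A linear-algebra lemma on operators conjugate to their powers

If `T` is an operator of prime order `q` on a finite `𝔽_p`-vector space, such that every power
`T ^ k` (`0 < k < q`) is conjugate to `T` and the operators conjugating `T` to a power of itself are
transitive on nonzero vectors, then `p` is a primitive root modulo `q`.
-/

set_option autoImplicit false

namespace Cfsg.Agent.Lib.PGroups

open Polynomial

section L1

variable {p q : ℕ} [hp : Fact p.Prime] [hq : Fact q.Prime]
variable {V : Type*} [AddCommGroup V] [Module (ZMod p) V] [Finite V]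

local notation "F" => ZMod p
local notation "E" => Module.End (ZMod p) V

/-- Powers in characteristic `p`: `f ^ (p ^ d) = expand (p ^ d) f`. -/
theorem pow_eq_expand_zmod (f : F[X]) (d : ℕ) : f ^ (p ^ d) = expand F (p ^ d) f := by
  induction d with
  | zero => simp
  | succ d ih =>
    rw [pow_succ, pow_mul, ih, ← ZMod.expand_card (p := p), expand_expand, mul_comm]

/-- Intertwining for polynomial expressions. -/
theorem intertwine_aeval (A S S' : E) (h : A * S = S' * A) (f : F[X]) :
    A * aeval S f = aeval S' f * A := by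
  induction f using Polynomial.induction_on' with
  | add f g hf hg => simp only [map_add, mul_add, add_mul, hf, hg]
  | monomial n c =>
    have h1 : A * S ^ n = S' ^ n * A := (SemiconjBy.pow_right (show SemiconjBy A S S' from h) n)
    simp only [aeval_monomial, Module.algebraMap_end_eq_smul_id, smul_mul_assoc,
      mul_smul_comm]
    show c • (A * (1 : E) * S ^ n) = c • ((1 : E) * S' ^ n * A)
    rw [mul_one, one_mul, h1]

/-- The cyclic `𝔽_p[T]`-submodule generated by `v`. -/
noncomputable def cycSpan (T : E) (v : V) : Submodule F V :=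
  LinearMap.range ((LinearMap.applyₗ v).comp (aeval T : F[X] →ₐ[F] E).toLinearMap)

theorem mem_cycSpan {T : E} {v x : V} : x ∈ cycSpan T v ↔ ∃ f : F[X], aeval T f v = x := by
  rw [cycSpan, LinearMap.mem_range]
  rfl

theorem self_mem_cycSpan (T : E) (v : V) : v ∈ cycSpan T v :=
  mem_cycSpan.mpr ⟨1, by simp⟩

theorem cycSpan_le {T : E} {v : V} (g : F[X]) : cycSpan T (aeval T g v) ≤ cycSpan T v := by
  intro x hx
  obtain ⟨f, rfl⟩ := mem_cycSpan.mp hx
  refine mem_cycSpan.mpr ⟨f * g, ?_⟩
  rw [map_mul, Module.End.mul_apply]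

theorem finrank_cycSpan_le {T : E} (A : E) (k : ℕ) (hA : Function.Injective A)
    (hT : A * T = T ^ k * A) (v : V) :
    Module.finrank F (cycSpan T v) ≤ Module.finrank F (cycSpan T (A v)) := by
  haveI : Module.Finite F V := Module.Finite.of_finite
  have hle : (cycSpan T v).map (A : V →ₗ[F] V) ≤ cycSpan T (A v) := by
    rintro _ ⟨x, hx, rfl⟩
    obtain ⟨f, rfl⟩ := mem_cycSpan.mp hx
    refine mem_cycSpan.mpr ⟨expand F k f, ?_⟩
    have h1 := intertwine_aeval A T (T ^ k) hT f
    have h2 : aeval T (expand F k f) = aeval (T ^ k) f := by rw [expand_aeval]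
    rw [h2]
    exact (congrArg (fun B : E => B v) h1).symm
  have h3 : Module.finrank F ((cycSpan T v).map (A : V →ₗ[F] V)) = Module.finrank F (cycSpan T v) :=
    LinearEquiv.finrank_eq (Submodule.equivMapOfInjective _ hA _).symm
  rw [← h3]
  exact Submodule.finrank_mono hle

/-- With the transitivity hypothesis, nontrivial idempotents in `𝔽_p[T]` do not exist. -/
theorem idem_trivial (T : E)
    (htrans : ∀ v w : V, v ≠ 0 → w ≠ 0 → ∃ (A : E) (k : ℕ), Function.Injective A ∧ A v = w ∧
      A * T = T ^ k * A)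
    (f : F[X]) (hU : (aeval T f : E) * aeval T f = aeval T f) (h0 : aeval T f ≠ (0 : E)) :
    aeval T f = (1 : E) := by
  classical
  haveI : Module.Finite F V := Module.Finite.of_finite
  by_contra h1
  set U : E := aeval T f with hUdef
  have hconst : ∀ v w : V, v ≠ 0 → w ≠ 0 →
      Module.finrank F (cycSpan T v) = Module.finrank F (cycSpan T w) := by
    have hle : ∀ v w : V, v ≠ 0 → w ≠ 0 →
        Module.finrank F (cycSpan T v) ≤ Module.finrank F (cycSpan T w) := by
      intro v w hv hw
      obtain ⟨A, k, hA, hAv, hAT⟩ := htrans v w hv hw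
      rw [← hAv]
      exact finrank_cycSpan_le A k hA hAT v
    exact fun v w hv hw => le_antisymm (hle v w hv hw) (hle w v hw hv)
  obtain ⟨a, ha⟩ : ∃ a, U a ≠ 0 := by
    by_contra h
    push Not at h
    exact h0 (LinearMap.ext h)
  obtain ⟨b, hb⟩ : ∃ b, U b ≠ b := by
    by_contra h
    push Not at h
    exact h1 (LinearMap.ext h)
  have hUU : ∀ x, U (U x) = U x := fun x => congrArg (fun B : E => B x) hU
  set v₁ := U a with hv₁
  set v₂ := b - U b with hv₂
  have hv₂0 : v₂ ≠ 0 := sub_ne_zero.mpr (Ne.symm hb)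
  have hUv₁ : U v₁ = v₁ := hUU a
  have hUv₂ : U v₂ = 0 := by rw [hv₂, map_sub, hUU, sub_self]
  set v := v₁ + v₂ with hv
  have hUv : U v = v₁ := by rw [hv, map_add, hUv₁, hUv₂, add_zero]
  have hv0 : v ≠ 0 := by
    intro h
    rw [h, map_zero] at hUv
    exact ha hUv.symm
  have h1Uv : aeval T (1 - f) v = v₂ := by
    rw [map_sub, map_one, ← hUdef]
    show v - U v = v₂
    rw [hUv, hv]
    abel
  have hW1 : cycSpan T v₁ ≤ cycSpan T v := by
    have := cycSpan_le (T := T) (v := v) f
    rwa [← hUdef, hUv] at this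
  have hW2 : cycSpan T v₂ ≤ cycSpan T v := by
    have := cycSpan_le (T := T) (v := v) (1 - f)
    rwa [h1Uv] at this
  have hcomm : ∀ (g : F[X]) x, U (aeval T g x) = aeval T g (U x) := by
    intro g x
    have : U * aeval T g = aeval T g * U := by
      rw [hUdef, ← map_mul, ← map_mul, mul_comm]
    exact congrArg (fun B : E => B x) this
  have hdisj : cycSpan T v₁ ⊓ cycSpan T v₂ = ⊥ := by
    rw [eq_bot_iff]
    intro x hx
    obtain ⟨hx1, hx2⟩ := Submodule.mem_inf.mp hx
    obtain ⟨g1, rfl⟩ := mem_cycSpan.mp hx1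
    obtain ⟨g2, hg2⟩ := mem_cycSpan.mp hx2
    have h3 : U (aeval T g1 v₁) = aeval T g1 v₁ := by rw [hcomm, hUv₁]
    have h4 : U (aeval T g2 v₂) = 0 := by rw [hcomm, hUv₂, map_zero]
    rw [hg2] at h4
    rw [h3] at h4
    simpa using h4
  have hrank := Submodule.finrank_sup_add_finrank_inf_eq (cycSpan T v₁) (cycSpan T v₂)
  rw [hdisj, finrank_bot, add_zero, hconst v₁ v ha hv0, hconst v₂ v hv₂0 hv0] at hrank
  have hsup := Submodule.finrank_mono (sup_le hW1 hW2)
  have hpos : 0 < Module.finrank F (cycSpan T v) := by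
    refine Module.finrank_pos_iff_exists_ne_zero.mpr ⟨⟨v, self_mem_cycSpan T v⟩, ?_⟩
    intro h
    exact hv0 (congrArg Subtype.val h)
  omega

/-- **The key lemma.** -/
theorem orderOf_natCast_eq_of_transitive [Nontrivial V] (hpq : p ≠ q) (T : E)
    (hTq : T ^ q = 1) (hT1 : T ≠ 1)
    (hconj : ∀ k : ℕ, 0 < k → k < q → ∃ A : E, Function.Surjective A ∧ A * T = T ^ k * A)
    (htrans : ∀ v w : V, v ≠ 0 → w ≠ 0 → ∃ (A : E) (k : ℕ), Function.Injective A ∧ A v = w ∧
      A * T = T ^ k * A) :
    orderOf (p : ZMod q) = q - 1 := by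
  classical
  haveI : Module.Finite F V := Module.Finite.of_finite
  have hp' : p.Prime := hp.out
  have hq' : q.Prime := hq.out
  have hT0 : orderOf T = q := orderOf_eq_prime hTq hT1
  have hpne : (p : ZMod q) ≠ 0 := by
    intro h
    rw [ZMod.natCast_eq_zero_iff] at h
    exact hpq ((Nat.prime_dvd_prime_iff_eq hq' hp').mp h).symm
  have hpow1 : (p : ZMod q) ^ (q - 1) = 1 := ZMod.pow_card_sub_one_eq_one hpne
  set d := orderOf (p : ZMod q) with hd
  have hdvd : d ∣ q - 1 := orderOf_dvd_of_pow_eq_one hpow1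
  have hq1 : 0 < q - 1 := Nat.sub_pos_of_lt hq'.one_lt
  have hdle : d ≤ q - 1 := Nat.le_of_dvd hq1 hdvd
  have hdpos : 0 < d := Nat.pos_of_dvd_of_pos hdvd hq1 |> fun h => h
  set N := p ^ d with hN
  have hN2 : 2 ≤ N := by
    calc 2 ≤ p := hp'.two_le
      _ = p ^ 1 := (pow_one p).symm
      _ ≤ p ^ d := Nat.pow_le_pow_right hp'.pos hdpos
  have hNq : N % q = 1 := by
    have h1 : ((N : ℕ) : ZMod q) = ((1 : ℕ) : ZMod q) := by
      rw [hN]
      push_cast
      exact pow_orderOf_eq_one _
    have h2 := (ZMod.natCast_eq_natCast_iff' _ _ _).mp h1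
    rw [h2]
    exact Nat.mod_eq_of_lt hq'.one_lt
  have hTN : T ^ N = T := by
    rw [pow_eq_pow_mod N hTq, hNq, pow_one]
  have hfrob : ∀ f : F[X], (aeval T f : E) ^ N = aeval T f := by
    intro f
    rw [← map_pow, pow_eq_expand_zmod, expand_aeval, hTN]
  have hinv : ∀ f : F[X], aeval T f ≠ (0 : E) → (aeval T f : E) * aeval T (f ^ (N - 2)) = (1 : E) := by
    intro f hf
    have h1 : (aeval T (f ^ (N - 1)) : E) * aeval T (f ^ (N - 1)) = aeval T (f ^ (N - 1)) := by
      have h2 : f ^ (N - 1) * f ^ (N - 1) = f ^ N * f ^ (N - 2) := by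
        rw [← pow_add, ← pow_add]
        congr 1
        omega
      rw [← map_mul, h2, map_mul, map_pow, hfrob, ← map_mul, ← pow_succ']
      congr 2
      omega
    have h3 : aeval T (f ^ (N - 1)) ≠ (0 : E) := by
      intro h
      apply hf
      have h4 : (aeval T f : E) ^ N = aeval T f ^ (N - 1) * aeval T f := by
        rw [← pow_succ]
        congr 1
        omega
      rw [← hfrob f, h4, ← map_pow, h, zero_mul]
    have h5 := idem_trivial T htrans _ h1 h3
    rw [← map_mul, ← pow_succ']
    rw [show N - 2 + 1 = N - 1 by omega]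
    exact h5
  set m := minpoly F T with hm
  have hint : IsIntegral F T := Algebra.IsIntegral.isIntegral T
  have hm0 : m ≠ 0 := minpoly.ne_zero hint
  have hmmonic : m.Monic := minpoly.monic hint
  have haevalm : aeval T m = 0 := minpoly.aeval F T
  have hdvdm : ∀ f : F[X], aeval T f = 0 → m ∣ f := fun f hf => minpoly.dvd F T hf
  have hirr : Irreducible m := by
    refine ⟨minpoly.not_isUnit F T, ?_⟩
    have key : ∀ f g : F[X], m = f * g → aeval T g = 0 → IsUnit f := by
      intro f g hfg hg
      obtain ⟨c, hc⟩ := hdvdm g hg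
      have h1 : m * (f * c) = m * 1 := by
        rw [mul_one]
        calc m * (f * c) = f * (m * c) := by ring
          _ = f * g := by rw [hc]
          _ = m := hfg.symm
      have h2 := mul_left_cancel₀ hm0 h1
      exact IsUnit.of_mul_eq_one _ h2
    intro f g hfg
    have h0 : (aeval T f : E) * aeval T g = (0 : E) := by
      rw [← map_mul, ← hfg, haevalm]
    by_cases hf : aeval T f = (0 : E)
    · right
      exact key g f (by rw [hfg, mul_comm]) hf
    · left
      refine key f g hfg ?_
      have h3 := hinv f hf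
      calc (aeval T g : E) = (aeval T f * aeval T (f ^ (N - 2))) * aeval T g := by rw [h3, one_mul]
        _ = (aeval T f * aeval T g) * aeval T (f ^ (N - 2)) := by
          rw [← map_mul, ← map_mul, ← map_mul, ← map_mul]
          congr 1
          ring
        _ = 0 := by rw [h0, zero_mul]
  haveI hfact : Fact (Irreducible m) := ⟨hirr⟩
  let K := AdjoinRoot m
  haveI : Module.Finite F K := (AdjoinRoot.powerBasis hm0).finite
  haveI : Finite K := Module.finite_of_finite F
  have hfin : Module.finrank F K = m.natDegree := by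
    rw [(AdjoinRoot.powerBasis hm0).finrank, AdjoinRoot.powerBasis_dim]
  have hcardK : Nat.card K = p ^ m.natDegree := by
    rw [Module.natCard_eq_pow_finrank (K := F) (V := K), hfin, Nat.card_zmod]
  -- upper bound
  have hall : ∀ x : K, x ^ N = x := by
    intro x
    obtain ⟨f, rfl⟩ := AdjoinRoot.mk_surjective x
    rw [← map_pow, AdjoinRoot.mk_eq_mk]
    apply hdvdm
    rw [map_sub, map_pow, hfrob, sub_self]
  have hupper : Nat.card K ≤ N := by
    haveI := Fintype.ofFinite K
    have hne : (X ^ N - X : K[X]) ≠ 0 := FiniteField.X_pow_card_sub_X_ne_zero K (by omega)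
    have hdeg : (X ^ N - X : K[X]).natDegree = N :=
      FiniteField.X_pow_card_sub_X_natDegree_eq K (by omega)
    have hZ : (Finset.univ : Finset K).val ⊆ (X ^ N - X : K[X]).roots := by
      intro x _
      rw [mem_roots hne]
      simp [IsRoot, hall x]
    have := Polynomial.card_le_degree_of_subset_roots hZ
    rw [hdeg, Finset.card_univ, ← Nat.card_eq_fintype_card] at this
    exact this
  have hDd : m.natDegree ≤ d := by
    rw [hcardK, hN] at hupper
    exact (Nat.pow_le_pow_iff_right hp'.one_lt).mp hupper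
  -- lower bound
  let t : K := AdjoinRoot.root m
  have hroot : ∀ k : ℕ, 0 < k → k < q → aeval (t ^ k) m = 0 := by
    intro k hk0 hkq
    obtain ⟨A, hA, hAT⟩ := hconj k hk0 hkq
    have h1 := intertwine_aeval A T (T ^ k) hAT m
    rw [haevalm, mul_zero] at h1
    have h2 : aeval (T ^ k) m = 0 := by
      ext x
      obtain ⟨y, rfl⟩ := hA x
      have := congrArg (fun B : E => B y) h1
      simpa using this.symm
    rw [← expand_aeval]
    rw [show t = AdjoinRoot.root m from rfl]
    have h3 : aeval (AdjoinRoot.root m) (expand F k m) = AdjoinRoot.mk m (expand F k m) :=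
      AdjoinRoot.aeval_eq _
    rw [h3, AdjoinRoot.mk_eq_zero]
    apply hdvdm
    rw [expand_aeval, h2]
  have htinj : ∀ j k : ℕ, j < q → k < q → t ^ j = t ^ k → j = k := by
    intro j k hj hk h
    have h1 : AdjoinRoot.mk m (X ^ j) = AdjoinRoot.mk m (X ^ k) := by
      simpa [map_pow, AdjoinRoot.mk_X] using h
    rw [AdjoinRoot.mk_eq_mk] at h1
    have h2 := h1
    obtain ⟨c, hc⟩ := h2
    have h3 : aeval T (X ^ j - X ^ k : F[X]) = 0 := by
      rw [hc, map_mul, haevalm, zero_mul]
    have h4 : T ^ j = T ^ k := by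
      simpa [sub_eq_zero] using h3
    have h5 := pow_injOn_Iio_orderOf (x := T)
    rw [hT0] at h5
    exact h5 hj hk h4
  have hlower : q - 1 ≤ m.natDegree := by
    let Z : Finset K := (Finset.Ioo 0 q).image (fun k => t ^ k)
    have hZcard : Z.card = q - 1 := by
      have hinjon : Set.InjOn (fun k => t ^ k) (Finset.Ioo 0 q : Finset ℕ) := by
        intro j hj k hk h
        exact htinj j k (Finset.mem_Ioo.mp hj).2 (Finset.mem_Ioo.mp hk).2 h
      rw [Finset.card_image_of_injOn hinjon, Nat.card_Ioo]
      omega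
    have hmap0 : m.map (algebraMap F K) ≠ 0 := (Polynomial.map_ne_zero hm0)
    have hZ : Z.val ⊆ (m.map (algebraMap F K)).roots := by
      intro x hx
      obtain ⟨k, hk, rfl⟩ := Finset.mem_image.mp (Finset.mem_val.mp hx)
      obtain ⟨hk0, hkq⟩ := Finset.mem_Ioo.mp hk
      rw [mem_roots hmap0, IsRoot, eval_map_algebraMap]
      exact hroot k hk0 hkq
    have := Polynomial.card_le_degree_of_subset_roots hZ
    rwa [hZcard, natDegree_map] at this
  omega

end L1

end Cfsg.Agent.Lib.PGroups
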