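import Mathlib

/-!
# Operators of prime order when `p` is a primitive root

If `T` is a fixed-point-free operator of prime order `q` on a finite `𝔽_p`-vector space `V` and `p` is
a primitive root modulo `q` then `𝔽_p[T]` is a field over which `V` is a vector space; this gives
additive automorphisms of `V` commuting with `T`, transitive on nonzero vectors, and a
"Frobenius" additive automorphism conjugating `T` to `T ^ p`.
-/

set_option autoImplicit false

namespace Cfsg.Agent.Lib.PGroups

open Polynomial

/-- The general linear group of a finite-dimensional vector space is transitive on nonzero vectors. -/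
theorem exists_linearEquiv_apply_eq' {K V : Type*} [Field K] [AddCommGroup V] [Module K V]
    {v w : V} (hv : v ≠ 0) (hw : w ≠ 0) : ∃ A : V ≃ₗ[K] V, A v = w := by
  classical
  have hsv : LinearIndepOn K id ({v} : Set V) := LinearIndepOn.singleton (v := id) hv
  have hsw : LinearIndepOn K id ({w} : Set V) := LinearIndepOn.singleton (v := id) hw
  let b₁ := Module.Basis.extend hsv
  let b₂ := Module.Basis.extend hsw
  let i₁ : (hsv.extend (Set.subset_univ _) : Set V) := ⟨v, hsv.subset_extend _ rfl⟩
  let i₂ : (hsw.extend (Set.subset_univ _) : Set V) := ⟨w, hsw.subset_extend _ rfl⟩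
  let e₀ := b₁.indexEquiv b₂
  let e := e₀.trans (Equiv.swap (e₀ i₁) i₂)
  refine ⟨b₁.equiv b₂ e, ?_⟩
  have h1 : b₁ i₁ = v := Module.Basis.extend_apply_self _ _
  have h2 : b₂ i₂ = w := Module.Basis.extend_apply_self _ _
  calc (b₁.equiv b₂ e) v = (b₁.equiv b₂ e) (b₁ i₁) := by rw [h1]
    _ = b₂ (e i₁) := Module.Basis.equiv_apply _ _ _ _
    _ = w := by simp [e, h2]

section L2

variable {p q : ℕ} [hp : Fact p.Prime] [hq : Fact q.Prime]
variable {V : Type*} [AddCommGroup V] [Module (ZMod p) V] [Finite V]

local notation "F" => ZMod p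
local notation "E" => Module.End (ZMod p) V

theorem irreducible_minpoly_of_primitive [Nontrivial V] (hpq : p ≠ q) (T : E) (hTq : T ^ q = 1)
    (hfpf : ∀ v, T v = v → v = 0) (hord : orderOf (p : ZMod q) = q - 1) :
    Irreducible (minpoly F T) := by
  classical
  haveI : Module.Finite F V := Module.Finite.of_finite
  have hp' : p.Prime := hp.out
  have hq' : q.Prime := hq.out
  have hint : IsIntegral F T := Algebra.IsIntegral.isIntegral T
  set m := minpoly F T with hm
  have hm0 : m ≠ 0 := minpoly.ne_zero hint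
  have hΦT : aeval T (cyclotomic q F) = 0 := by
    rw [cyclotomic_prime]
    have h1 : (T - 1) * aeval T (∑ i ∈ Finset.range q, (X : F[X]) ^ i) = 0 := by
      have h2 : aeval T (∑ i ∈ Finset.range q, (X : F[X]) ^ i) = ∑ i ∈ Finset.range q, T ^ i := by
        simp
      rw [h2, mul_geom_sum, hTq, sub_self]
    ext v
    have h3 := congrArg (fun B : E => B v) h1
    have h4 : (T - 1) (aeval T (∑ i ∈ Finset.range q, (X : F[X]) ^ i) v) = 0 := h3
    have h5 : T (aeval T (∑ i ∈ Finset.range q, (X : F[X]) ^ i) v) =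
        aeval T (∑ i ∈ Finset.range q, (X : F[X]) ^ i) v := by
      rw [LinearMap.sub_apply, sub_eq_zero] at h4
      exact h4
    exact hfpf _ h5
  have hmΦ : m ∣ cyclotomic q F := minpoly.dvd F T hΦT
  have hΦ0 : cyclotomic q F ≠ 0 := cyclotomic_ne_zero q F
  have hmdeg : m.natDegree ≤ q - 1 := by
    have h1 := natDegree_le_of_dvd hmΦ hΦ0
    rwa [natDegree_cyclotomic, Nat.totient_prime hq'] at h1
  obtain ⟨g, hgirr, hgm⟩ := WfDvdMonoid.exists_irreducible_factor (minpoly.not_isUnit F T) hm0
  have hg0 : g ≠ 0 := hgirr.ne_zero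
  haveI : Fact (Irreducible g) := ⟨hgirr⟩
  let K := AdjoinRoot g
  haveI : Module.Finite F K := (AdjoinRoot.powerBasis hg0).finite
  haveI : Finite K := Module.finite_of_finite F
  haveI := Fintype.ofFinite K
  have hfin : Module.finrank F K = g.natDegree := by
    rw [(AdjoinRoot.powerBasis hg0).finrank, AdjoinRoot.powerBasis_dim]
  have hcardK : Nat.card K = p ^ g.natDegree := by
    rw [Module.natCard_eq_pow_finrank (K := F) (V := K), hfin, Nat.card_zmod]
  let t : K := AdjoinRoot.root g
  have hΦt : ∑ i ∈ Finset.range q, t ^ i = 0 := by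
    have h1 : aeval (AdjoinRoot.root g) (cyclotomic q F) = AdjoinRoot.mk g (cyclotomic q F) :=
      AdjoinRoot.aeval_eq _
    rw [cyclotomic_prime] at h1
    have h2 : AdjoinRoot.mk g (∑ i ∈ Finset.range q, (X : F[X]) ^ i) = 0 := by
      rw [AdjoinRoot.mk_eq_zero, ← cyclotomic_prime]
      exact hgm.trans hmΦ
    rw [h2] at h1
    simpa using h1
  have htq : t ^ q = 1 := by
    have h1 := mul_geom_sum t q
    rw [hΦt, mul_zero] at h1
    exact (sub_eq_zero.mp h1.symm)
  have hqK : ((q : ℕ) : K) ≠ 0 := by
    intro h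
    have h1 : ((q : ℕ) : K) = algebraMap F K ((q : ℕ) : F) := (map_natCast _ _).symm
    rw [h1] at h
    have h2 := (map_eq_zero_iff _ (algebraMap F K).injective).mp h
    rw [ZMod.natCast_eq_zero_iff] at h2
    exact hpq ((Nat.prime_dvd_prime_iff_eq hp' hq').mp h2)
  have ht1 : t ≠ 1 := by
    intro h
    rw [h] at hΦt
    simp at hΦt
    exact hqK hΦt
  have hordt : orderOf t = q := orderOf_eq_prime htq ht1
  have ht0 : t ≠ 0 := by
    intro h
    rw [h, zero_pow hq'.ne_zero] at htq
    exact zero_ne_one htq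
  have hcard1 : t ^ (Fintype.card K - 1) = 1 := FiniteField.pow_card_sub_one_eq_one t ht0
  have hdvd : q ∣ Fintype.card K - 1 := hordt ▸ orderOf_dvd_of_pow_eq_one hcard1
  have hpowD : (p : ZMod q) ^ g.natDegree = 1 := by
    have hc : Fintype.card K = p ^ g.natDegree := by rw [← Nat.card_eq_fintype_card, hcardK]
    rw [hc] at hdvd
    have h1 : 1 ≤ p ^ g.natDegree := Nat.one_le_pow _ _ hp'.pos
    have h2 : ((p ^ g.natDegree - 1 : ℕ) : ZMod q) = 0 := (ZMod.natCast_eq_zero_iff _ _).mpr hdvd
    rw [Nat.cast_sub h1, sub_eq_zero] at h2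
    simpa using h2
  have hdvd2 : q - 1 ∣ g.natDegree := hord ▸ orderOf_dvd_of_pow_eq_one hpowD
  have hgpos : 0 < g.natDegree := natDegree_pos_iff_degree_pos.mpr (degree_pos_of_irreducible hgirr)
  have hge : q - 1 ≤ g.natDegree := Nat.le_of_dvd hgpos hdvd2
  have hle : m.natDegree ≤ g.natDegree := by omega
  have hass : Associated g m := associated_of_dvd_of_natDegree_le hgm hm0 hle
  exact hass.irreducible hgirr

theorem exists_additive_auts [Nontrivial V] (hpq : p ≠ q) (T : E) (hTq : T ^ q = 1)
    (hfpf : ∀ v, T v = v → v = 0) (hord : orderOf (p : ZMod q) = q - 1) :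
    (∀ v w : V, v ≠ 0 → w ≠ 0 → ∃ A : V ≃+ V, A v = w ∧ ∀ u, A (T u) = T (A u)) ∧
      ∃ B : V ≃+ V, ∀ u, B (T u) = (T ^ p) (B u) := by
  classical
  haveI : Module.Finite F V := Module.Finite.of_finite
  have hp' : p.Prime := hp.out
  have hint : IsIntegral F T := Algebra.IsIntegral.isIntegral T
  have hirr := irreducible_minpoly_of_primitive hpq T hTq hfpf hord
  set m := minpoly F T with hm
  have hm0 : m ≠ 0 := minpoly.ne_zero hint
  haveI : Fact (Irreducible m) := ⟨hirr⟩
  let K := AdjoinRoot m
  haveI : Module.Finite F K := (AdjoinRoot.powerBasis hm0).finite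
  haveI : Finite K := Module.finite_of_finite F
  let ι : K →+* E := Ideal.Quotient.lift (Ideal.span {m}) (aeval T : F[X] →ₐ[F] E).toRingHom (by
    intro a ha
    obtain ⟨c, rfl⟩ := Ideal.mem_span_singleton.mp ha
    show aeval T (m * c) = 0
    rw [map_mul, hm, minpoly.aeval, zero_mul])
  have hιmk : ∀ f : F[X], ι (AdjoinRoot.mk m f) = aeval T f := fun f => Ideal.Quotient.lift_mk _ _ _
  let t : K := AdjoinRoot.root m
  have hιt : ι t = T := by
    have h := hιmk X
    rwa [AdjoinRoot.mk_X, aeval_X] at h
  letI : Module K V := Module.compHom V ι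
  have hsmul : ∀ (k : K) (v : V), k • v = ι k v := fun _ _ => rfl
  haveI : Module.Finite K V := Module.Finite.of_finite
  haveI : CharP K p := charP_of_injective_algebraMap (algebraMap F K).injective p
  refine ⟨?_, ?_⟩
  · intro v w hv hw
    obtain ⟨A, hA⟩ := exists_linearEquiv_apply_eq' (K := K) hv hw
    refine ⟨A.toAddEquiv, hA, fun u => ?_⟩
    show A (T u) = T (A u)
    rw [← hιt, ← hsmul, ← hsmul, map_smul]
  · let n := Module.finrank K V
    let e : V ≃ₗ[K] (Fin n → K) := (Module.finBasis K V).equivFun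
    let fr : (Fin n → K) →+ (Fin n → K) :=
      { toFun := fun x i => x i ^ p
        map_zero' := by
          funext i
          simp [hp'.ne_zero]
        map_add' := by
          intro x y
          funext i
          simp [add_pow_char] }
    have hfr : ∀ x, fr x = fun i => x i ^ p := fun _ => rfl
    let B₀ : V →+ V := e.symm.toAddEquiv.toAddMonoidHom.comp (fr.comp e.toAddEquiv.toAddMonoidHom)
    have hB₀ : ∀ v, B₀ v = e.symm (fr (e v)) := fun _ => rfl
    have hinj : Function.Injective B₀ := by
      intro u v huv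
      rw [hB₀, hB₀] at huv
      have h1 := e.symm.injective huv
      apply e.injective
      funext i
      have h2 := congrFun h1 i
      rw [hfr, hfr] at h2
      exact frobenius_inj K p h2
    have hbij : Function.Bijective B₀ := Finite.injective_iff_bijective.mp hinj
    refine ⟨AddEquiv.ofBijective B₀ hbij, fun u => ?_⟩
    show B₀ (T u) = (T ^ p) (B₀ u)
    have h3 : T ^ p = ι (t ^ p) := by rw [map_pow, hιt]
    rw [h3, ← hsmul, ← hιt, ← hsmul, hB₀, hB₀]
    have h4 : fr (e (t • u)) = t ^ p • fr (e u) := by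
      rw [map_smul]
      funext i
      simp [hfr, mul_pow]
    rw [h4, map_smul]

end L2

end Cfsg.Agent.Lib.PGroups
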