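import Cfsg.Agent.Lib.PGroups.ThreeOrb1
import Cfsg.Agent.Lib.PGroups.ThreeOrb2

/-!
# Group forms of the linear algebra lemmas; extending automorphisms to a semidirect product
-/

set_option autoImplicit false
set_option linter.unusedSectionVars false
set_option linter.style.haveILetI false

namespace Cfsg.Agent.Lib.PGroups

section

variable {G : Type*} [Group G] {p q : ℕ} [hp : Fact p.Prime] [hq : Fact q.Prime]

theorem orderOf_natCast_of_mulAut {W : Type*} [CommGroup W] [Finite W] [Nontrivial W]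
    [Module (ZMod p) (Additive W)] (hpq : p ≠ q) (c : MulAut W) (hcq : c ^ q = 1) (hc1 : c ≠ 1)
    (hconj : ∀ k : ℕ, 0 < k → k < q → ∃ φ : W ≃* W, ∀ u : W, φ (c u) = (c ^ k) (φ u))
    (htrans : ∀ v w : W, v ≠ 1 → w ≠ 1 → ∃ (φ : W ≃* W) (k : ℕ), φ v = w ∧ ∀ u : W,
      φ (c u) = (c ^ k) (φ u)) :
    orderOf (p : ZMod q) = q - 1 := by
  let Aφ : (W ≃* W) → (Additive W →ₗ[ZMod p] Additive W) := fun φ =>
    AddMonoidHom.toZModLinearMap p (φ.toMonoidHom.toAdditive)
  have hAφ : ∀ (φ : W ≃* W) (v : Additive W),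
      Aφ φ v = Additive.ofMul (φ (Additive.toMul v)) := fun _ _ => rfl
  let cH : MulAut W →* Module.End (ZMod p) (Additive W) :=
    { toFun := fun g => Aφ g
      map_one' := by
        ext v
        rw [hAφ]
        rfl
      map_mul' := by
        intro a b
        ext v
        rw [hAφ]
        rfl }
  have hcH : ∀ (g : MulAut W) (v : Additive W),
      cH g v = Additive.ofMul (g (Additive.toMul v)) := fun _ _ => rfl
  have hTq : cH c ^ q = 1 := by rw [← map_pow, hcq, map_one]
  have hT1 : cH c ≠ 1 := by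
    intro h
    apply hc1
    ext u
    have h1 := congrArg (fun B : Module.End (ZMod p) (Additive W) => B (Additive.ofMul u)) h
    exact Additive.ofMul.injective h1
  refine orderOf_natCast_eq_of_transitive hpq (cH c) hTq hT1 ?_ ?_
  · intro k hk0 hkq
    obtain ⟨φ, hφ⟩ := hconj k hk0 hkq
    refine ⟨Aφ φ, ?_, ?_⟩
    · intro x
      refine ⟨Additive.ofMul (φ.symm (Additive.toMul x)), ?_⟩
      show Aφ φ _ = x
      rw [hAφ]
      simp
    · rw [← map_pow]
      ext v
      show Aφ φ (cH c v) = cH (c ^ k) (Aφ φ v)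
      rw [hcH, hcH, hAφ, hAφ]
      exact congrArg Additive.ofMul (hφ _)
  · intro v w hv hw
    have hv' : Additive.toMul v ≠ 1 := hv
    have hw' : Additive.toMul w ≠ 1 := hw
    obtain ⟨φ, k, hvw, hφ⟩ := htrans _ _ hv' hw'
    refine ⟨Aφ φ, k, ?_, ?_, ?_⟩
    · intro a b hab
      have hab' : Aφ φ a = Aφ φ b := hab
      rw [hAφ, hAφ] at hab'
      have := φ.injective (Additive.ofMul.injective hab')
      exact Additive.toMul.injective this
    · show Aφ φ v = w
      rw [hAφ, hvw]
      rfl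
    · rw [← map_pow]
      ext u
      show Aφ φ (cH c u) = cH (c ^ k) (Aφ φ u)
      rw [hcH, hcH, hAφ, hAφ]
      exact congrArg Additive.ofMul (hφ _)

theorem orderOf_natCast_of_group_transitive [Finite G] (hpq : p ≠ q) (D : Subgroup G) [hDn : D.Normal]
    (hc : ∀ a b : D, a * b = b * a) (he : ∀ a : D, a ^ p = 1) (hnt : D ≠ ⊥) (y : G) (hyq : y ^ q = 1)
    (hy1 : ∃ u : D, MulAut.conjNormal y u ≠ u)
    (hconj : ∀ k : ℕ, 0 < k → k < q → ∃ φ : D ≃* D, ∀ u : D,
      φ (MulAut.conjNormal y u) = MulAut.conjNormal (y ^ k) (φ u))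
    (htrans : ∀ v w : D, v ≠ 1 → w ≠ 1 → ∃ (φ : D ≃* D) (k : ℕ), φ v = w ∧ ∀ u : D,
      φ (MulAut.conjNormal y u) = MulAut.conjNormal (y ^ k) (φ u)) :
    orderOf (p : ZMod q) = q - 1 := by
  letI cg : CommGroup D := { (inferInstance : Group D) with mul_comm := hc }
  letI : Module (ZMod p) (Additive D) := AddCommGroup.zmodModule (n := p) (fun x => by
    show Additive.ofMul ((Additive.toMul x) ^ p) = 0
    rw [he]
    rfl)
  haveI : Nontrivial D := (Subgroup.nontrivial_iff_ne_bot _).mpr hnt
  refine orderOf_natCast_of_mulAut (W := D) hpq (MulAut.conjNormal y) ?_ ?_ ?_ ?_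
  · rw [← map_pow, hyq, map_one]
  · obtain ⟨u, hu⟩ := hy1
    intro h
    apply hu
    rw [h]
    rfl
  · intro k hk0 hkq
    obtain ⟨φ, hφ⟩ := hconj k hk0 hkq
    refine ⟨φ, fun u => ?_⟩
    rw [← map_pow]
    exact hφ u
  · intro v w hv hw
    obtain ⟨φ, k, hvw, hφ⟩ := htrans v w hv hw
    refine ⟨φ, k, hvw, fun u => ?_⟩
    rw [← map_pow]
    exact hφ u

theorem mulAut_auts_of_primitive {W : Type*} [CommGroup W] [Finite W] [Nontrivial W]
    [Module (ZMod p) (Additive W)] (hpq : p ≠ q) (c : MulAut W) (hcq : c ^ q = 1)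
    (hfpf : ∀ u : W, c u = u → u = 1) (hord : orderOf (p : ZMod q) = q - 1) :
    (∀ v w : W, v ≠ 1 → w ≠ 1 → ∃ φ : W ≃* W, φ v = w ∧ ∀ u : W, φ (c u) = c (φ u)) ∧
    ∃ φ : W ≃* W, ∀ u : W, φ (c u) = (c ^ p) (φ u) := by
  let Aφ : (W ≃* W) → (Additive W →ₗ[ZMod p] Additive W) := fun φ =>
    AddMonoidHom.toZModLinearMap p (φ.toMonoidHom.toAdditive)
  have hAφ : ∀ (φ : W ≃* W) (v : Additive W),
      Aφ φ v = Additive.ofMul (φ (Additive.toMul v)) := fun _ _ => rfl
  let cH : MulAut W →* Module.End (ZMod p) (Additive W) :=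
    { toFun := fun g => Aφ g
      map_one' := by
        ext v
        rw [hAφ]
        rfl
      map_mul' := by
        intro a b
        ext v
        rw [hAφ]
        rfl }
  have hcH : ∀ (g : MulAut W) (v : Additive W),
      cH g v = Additive.ofMul (g (Additive.toMul v)) := fun _ _ => rfl
  have hTq : cH c ^ q = 1 := by rw [← map_pow, hcq, map_one]
  obtain ⟨ha, b, hb⟩ := exists_additive_auts hpq (cH c) hTq (by
    intro v hv
    have h1 : c (Additive.toMul v) = Additive.toMul v := Additive.ofMul.injective hv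
    have h2 := hfpf _ h1
    exact Additive.toMul.injective h2) hord
  refine ⟨?_, MulEquiv.toAdditive.symm b, ?_⟩
  · intro v w hv hw
    obtain ⟨A, hA, hAT⟩ := ha (Additive.ofMul v) (Additive.ofMul w) hv hw
    refine ⟨MulEquiv.toAdditive.symm A, Additive.ofMul.injective hA, fun u => ?_⟩
    exact Additive.ofMul.injective (hAT (Additive.ofMul u))
  · intro u
    have h1 := hb (Additive.ofMul u)
    rw [← map_pow] at h1
    exact Additive.ofMul.injective h1

theorem group_auts_of_primitive [Finite G] (hpq : p ≠ q) (D : Subgroup G) [hDn : D.Normal]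
    (hc : ∀ a b : D, a * b = b * a) (he : ∀ a : D, a ^ p = 1) (hnt : D ≠ ⊥) (y : G) (hyq : y ^ q = 1)
    (hfpf : ∀ u : D, MulAut.conjNormal y u = u → u = 1) (hord : orderOf (p : ZMod q) = q - 1) :
    (∀ v w : D, v ≠ 1 → w ≠ 1 → ∃ φ : D ≃* D, φ v = w ∧ ∀ u : D,
      φ (MulAut.conjNormal y u) = MulAut.conjNormal y (φ u)) ∧
    ∃ φ : D ≃* D, ∀ u : D, φ (MulAut.conjNormal y u) = MulAut.conjNormal (y ^ p) (φ u) := by
  letI cg : CommGroup D := { (inferInstance : Group D) with mul_comm := hc }
  letI : Module (ZMod p) (Additive D) := AddCommGroup.zmodModule (n := p) (fun x => by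
    show Additive.ofMul ((Additive.toMul x) ^ p) = 0
    rw [he]
    rfl)
  haveI : Nontrivial D := (Subgroup.nontrivial_iff_ne_bot _).mpr hnt
  obtain ⟨h1, φ, h2⟩ := mulAut_auts_of_primitive (W := D) hpq (MulAut.conjNormal y)
    (by rw [← map_pow, hyq, map_one]) hfpf hord
  refine ⟨h1, φ, fun u => ?_⟩
  rw [map_pow]
  exact h2 u

/-- Extending a compatible pair of automorphisms to an automorphism of the ambient group. -/
theorem exists_aut_of_complement {H K : Subgroup G} [hHn : H.Normal] (hcomp : H.IsComplement' K)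
    (fn : H ≃* H) (fg : K ≃* K)
    (h : ∀ (k : K) (u : H), fn (MulAut.conjNormal (k : G) u) = MulAut.conjNormal ((fg k : K) : G) (fn u)) :
    ∃ α : G ≃* G, (∀ u : H, α u = fn u) ∧ ∀ k : K, α k = fg k := by
  let e := SemidirectProduct.mulEquivSubgroup hcomp
  let c := SemidirectProduct.congr (φ₁ := (H.normalizerMonoidHom).comp
      (Subgroup.inclusion (H.normalizer_eq_top ▸ le_top)))
    (φ₂ := (H.normalizerMonoidHom).comp (Subgroup.inclusion (H.normalizer_eq_top ▸ le_top)))
    fn fg (by
      intro k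
      ext u
      have h1 := h k u
      exact congrArg Subtype.val h1)
  refine ⟨e.symm.trans (c.trans e), fun u => ?_, fun k => ?_⟩
  · have hl : ∀ u : H, e (SemidirectProduct.inl u) = u := fun u => by
      show (SemidirectProduct.monoidHomSubgroup _) (SemidirectProduct.inl u) = (u : G)
      simp [SemidirectProduct.monoidHomSubgroup]
    have h1 := hl u
    have h2 : (e.symm.trans (c.trans e)) (u : G) = e (c (e.symm u)) := rfl
    rw [h2, ← h1, e.symm_apply_apply]
    have h3 : c (SemidirectProduct.inl u) = SemidirectProduct.inl (fn u) := by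
      ext <;> simp [c]
    rw [h3]
    exact hl _
  · have hl : ∀ u : K, e (SemidirectProduct.inr u) = u := fun u => by
      show (SemidirectProduct.monoidHomSubgroup _) (SemidirectProduct.inr u) = (u : G)
      simp [SemidirectProduct.monoidHomSubgroup]
    have h1 := hl k
    have h2 : (e.symm.trans (c.trans e)) (k : G) = e (c (e.symm k)) := rfl
    rw [h2, ← h1, e.symm_apply_apply]
    have h3 : c (SemidirectProduct.inr k) = SemidirectProduct.inr (fg k) := by
      ext <;> simp [c]
    rw [h3]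
    exact hl _

/-- An automorphism of a normal complement compatible with `y ↦ y ^ k` extends. -/
theorem exists_aut_extending [Finite G] {D : Subgroup G} [hDn : D.Normal] {y : G} {k : ℕ}
    (hcomp : D.IsComplement' (Subgroup.zpowers y))
    (hk : k.Coprime (orderOf y)) (φ : D ≃* D)
    (hφ : ∀ u : D, φ (MulAut.conjNormal y u) = MulAut.conjNormal (y ^ k) (φ u)) :
    ∃ α : G ≃* G, (∀ u : D, α u = φ u) ∧ α y = y ^ k := by
  have hKc : ∀ a b : Subgroup.zpowers y, a * b = b * a := by
    rintro ⟨_, i, rfl⟩ ⟨_, j, rfl⟩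
    ext
    simp [← zpow_add, add_comm]
  let f : Subgroup.zpowers y →* Subgroup.zpowers y :=
    { toFun := fun x => x ^ k
      map_one' := one_pow k
      map_mul' := fun a b => (show Commute a b from hKc a b).mul_pow k }
  have hf : ∀ x, f x = x ^ k := fun _ => rfl
  have hinj : Function.Injective f := by
    rw [injective_iff_map_eq_one]
    intro a ha
    rw [hf] at ha
    have h1 : orderOf a ∣ k := orderOf_dvd_of_pow_eq_one ha
    have h2 : orderOf a ∣ orderOf y := by
      have h3 := Subgroup.orderOf_dvd_natCard (Subgroup.zpowers y) a.2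
      rwa [Nat.card_zpowers, Subgroup.orderOf_coe] at h3
    have h4 : orderOf a = 1 := Nat.Coprime.eq_one_of_dvd
      (Nat.Coprime.coprime_dvd_left h1 hk) h2
    exact orderOf_eq_one_iff.mp h4
  have hbij : Function.Bijective f := Finite.injective_iff_bijective.mp hinj
  let fg : Subgroup.zpowers y ≃* Subgroup.zpowers y := MulEquiv.ofBijective f hbij
  have hfg : ∀ x, ((fg x : Subgroup.zpowers y) : G) = (x : G) ^ k := fun _ => rfl
  have hpow : ∀ (i : ℕ) (u : D), φ (MulAut.conjNormal (y ^ i) u) =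
      MulAut.conjNormal ((y ^ i) ^ k) (φ u) := by
    intro i
    induction i with
    | zero =>
      intro u
      simp
    | succ i ih =>
      intro u
      have h1 : y ^ (i + 1) = y ^ i * y := pow_succ y i
      have h2 : (y ^ (i + 1)) ^ k = (y ^ i) ^ k * y ^ k := by
        rw [h1, ((Commute.refl y).pow_left i).mul_pow]
      rw [h2, h1, map_mul, map_mul, MulAut.mul_apply, MulAut.mul_apply, ih, hφ]
  obtain ⟨α, hα1, hα2⟩ := exists_aut_of_complement hcomp φ fg (by
    intro x u
    obtain ⟨i, hi⟩ := (mem_powers_iff_mem_zpowers).mpr x.2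
    have hx : (x : G) = y ^ i := hi.symm
    rw [hfg, hx]
    exact hpow i u)
  refine ⟨α, hα1, ?_⟩
  have h := hα2 ⟨y, Subgroup.mem_zpowers y⟩
  exact h

end

end Cfsg.Agent.Lib.PGroups
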