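import Mathlib
import Cfsg.Prelude.Def_Local
import Cfsg.Prelude.Def_Transfer
import Cfsg.Agent.Lib.Transfer.Tate
import Cfsg.Agent.Lib.Tech.PNilp
import Cfsg.Agent.Lib.Basic.Frattini
import Cfsg.Agent.Lib.OddLocal.Sup
import Cfsg.Agent.Lib.Components.Layer
import Cfsg.Agent.Lib.Components.PComp2
import Cfsg.Agent.Lib.Tech.Quadratic
import Cfsg.Agent.Lib.PGroups.Parts

/-!
# Groups with a two-generator Sylow subgroup and trivial cores
-/

set_option autoImplicit false
set_option linter.unusedSectionVars false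
set_option linter.style.haveILetI false

namespace Cfsg.Agent.Lib.PGroups.TwoGen

open Subgroup Cfsg Cfsg.Agent.Lib.Components Cfsg.Agent.Lib.Basic Cfsg.Agent.Lib.Transfer Cfsg.Agent.Lib.Tech
open scoped commutatorElement

theorem index_ne_of_lt {Q : Type*} [Group Q] [Finite Q] {H K : Subgroup Q} (h : H < K) :
    K.index ≠ H.index := by
  intro he
  have h1 := Subgroup.card_mul_index H
  have h2 := Subgroup.card_mul_index K
  rw [he] at h2
  have h3 : 0 < H.index := Nat.pos_of_ne_zero (Subgroup.index_ne_zero_of_finite)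
  have h4 : Nat.card H = Nat.card K := Nat.eq_of_mul_eq_mul_right h3 (h1.trans h2.symm)
  exact h.ne (Subgroup.eq_of_le_of_card_ge h.le h4.ge)

theorem exists_sup_zpowers_eq_top {Q : Type*} [Group Q] [Finite Q] {p : ℕ} (hp : p.Prime)
    (A : Subgroup Q) (hgen : (frattini Q).index = p ^ 2) (hA : ¬ A ≤ frattini Q) :
    ∃ c : Q, A ⊔ zpowers c = ⊤ := by
  set W := A ⊔ frattini Q with hW
  have hlt : frattini Q < W := by
    refine lt_of_le_of_ne le_sup_right ?_
    intro h
    apply hA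
    rw [h]
    exact le_sup_left
  have hd : W.index ∣ p ^ 2 := by
    rw [← hgen]
    exact Subgroup.index_dvd_of_le hlt.le
  have hne : W.index ≠ p ^ 2 := by
    rw [← hgen]
    exact index_ne_of_lt hlt
  have hWp : W.index ∣ p := by
    obtain ⟨j, hj, hje⟩ := (Nat.dvd_prime_pow hp).1 hd
    have hj2 : j ≠ 2 := by
      rintro rfl
      exact hne hje
    have hj1 : j ≤ 1 := by omega
    rw [hje]
    exact (pow_dvd_pow p hj1).trans (by simp)
  by_cases hWt : W = ⊤
  · refine ⟨1, ?_⟩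
    have : A = ⊤ := frattini_nongenerating hWt
    rw [this]
    simp
  · obtain ⟨c, -, hc⟩ : ∃ c, c ∈ (⊤ : Subgroup Q) ∧ c ∉ W := SetLike.exists_of_lt (lt_top_iff_ne_top.mpr hWt)
    refine ⟨c, ?_⟩
    set Y := W ⊔ zpowers c with hY
    have hWY : W < Y := by
      refine lt_of_le_of_ne le_sup_left ?_
      intro h
      apply hc
      rw [h]
      exact mem_sup_right (mem_zpowers c)
    have hYW : Y.index ∣ W.index := Subgroup.index_dvd_of_le hWY.le
    have hWne : W.index ≠ 1 := fun h => hWt (Subgroup.index_eq_one.mp h)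
    have hWeq : W.index = p := ((Nat.dvd_prime hp).1 hWp).resolve_left hWne
    have hYne : Y.index ≠ p := by
      rw [← hWeq]
      exact index_ne_of_lt hWY
    have hY1 : Y.index = 1 := ((Nat.dvd_prime hp).1 (hWeq ▸ hYW)).resolve_right hYne
    have hYt : Y = ⊤ := Subgroup.index_eq_one.mp hY1
    have hsup : (A ⊔ zpowers c) ⊔ frattini Q = ⊤ := by
      rw [← hYt, hY, hW]
      exact sup_right_comm _ _ _
    exact frattini_nongenerating hsup

theorem commutator_mem_of_sup_zpowers {Q : Type*} [Group Q] (A : Subgroup Q) [hA : A.Normal] (c : Q)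
    (h : A ⊔ zpowers c = ⊤) (x y : Q) : x * y * x⁻¹ * y⁻¹ ∈ A := by
  have hmem : ∀ z : Q, ∃ i : ℤ, (QuotientGroup.mk' A z) = (QuotientGroup.mk' A c) ^ i := by
    intro z
    have hz : z ∈ ((A ⊔ zpowers c : Subgroup Q) : Set Q) := by
      rw [h]
      exact mem_top z
    rw [Subgroup.normal_mul] at hz
    obtain ⟨a, ha, w, hw, rfl⟩ := Set.mem_mul.mp hz
    obtain ⟨i, rfl⟩ := mem_zpowers_iff.mp hw
    refine ⟨i, ?_⟩
    have ha1 : QuotientGroup.mk' A a = 1 := (QuotientGroup.eq_one_iff a).mpr ha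
    rw [map_mul, map_zpow, ha1, one_mul]
  obtain ⟨i, hi⟩ := hmem x
  obtain ⟨j, hj⟩ := hmem y
  have hcomm : Commute (QuotientGroup.mk' A x) (QuotientGroup.mk' A y) := by
    rw [hi, hj]
    exact (Commute.refl _).zpow_zpow i j
  have h1 : QuotientGroup.mk' A (x * y * x⁻¹ * y⁻¹) = 1 := by
    rw [map_mul, map_mul, map_mul, map_inv, map_inv, hcomm.eq]
    group
  exact (QuotientGroup.eq_one_iff _).mp h1

variable {G : Type*} [Group G] [Finite G] {p : ℕ} [Fact p.Prime]

/-- If `A` is normalized by `P` and not inside `Φ(P)`, then `P = (A∩P)⟨c⟩`. -/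
theorem exists_gen (P : Sylow p G) (hgen : (frattini ↥(P : Subgroup G)).index = p ^ 2)
    (A : Subgroup G) (hAn : ∀ x ∈ (P : Subgroup G), ∀ a ∈ A, x * a * x⁻¹ ∈ A)
    (hnot : ¬ A ⊓ (P : Subgroup G) ≤ (frattini ↥(P : Subgroup G)).map (P : Subgroup G).subtype) :
    ∃ c ∈ (P : Subgroup G), ∀ x ∈ (P : Subgroup G), ∃ a ∈ A ⊓ (P : Subgroup G), ∃ i : ℤ, x = a * c ^ i := by
  have hp : p.Prime := Fact.out
  set A' : Subgroup ↥(P : Subgroup G) := A.subgroupOf (P : Subgroup G) with hA'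
  haveI hAn' : A'.Normal := by
    constructor
    intro a ha x
    rw [hA', mem_subgroupOf] at ha ⊢
    exact hAn x.1 x.2 a.1 ha
  have hnot' : ¬ A' ≤ frattini ↥(P : Subgroup G) := by
    intro h
    apply hnot
    rintro a ⟨haA, haP⟩
    refine ⟨⟨a, haP⟩, h (mem_subgroupOf.mpr haA), rfl⟩
  obtain ⟨c, hc⟩ := exists_sup_zpowers_eq_top hp A' hgen hnot'
  refine ⟨c.1, c.2, ?_⟩
  intro x hx
  have hz : (⟨x, hx⟩ : ↥(P : Subgroup G)) ∈ ((A' ⊔ zpowers c : Subgroup _) : Set _) := by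
    rw [hc]
    exact mem_top _
  rw [Subgroup.normal_mul] at hz
  obtain ⟨a, ha, w, hw, he⟩ := Set.mem_mul.mp hz
  obtain ⟨i, rfl⟩ := mem_zpowers_iff.mp hw
  refine ⟨a.1, ⟨mem_subgroupOf.mp ha, a.2⟩, i, ?_⟩
  exact (congrArg Subtype.val he).symm

/-- Under the same hypotheses, commutators of `P` lie in `A`. -/
theorem commutator_mem (P : Sylow p G) (hgen : (frattini ↥(P : Subgroup G)).index = p ^ 2)
    (A : Subgroup G) (hAn : ∀ x ∈ (P : Subgroup G), ∀ a ∈ A, x * a * x⁻¹ ∈ A)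
    (hnot : ¬ A ⊓ (P : Subgroup G) ≤ (frattini ↥(P : Subgroup G)).map (P : Subgroup G).subtype)
    (x y : G) (hx : x ∈ (P : Subgroup G)) (hy : y ∈ (P : Subgroup G)) : x * y * x⁻¹ * y⁻¹ ∈ A := by
  have hp : p.Prime := Fact.out
  set A' : Subgroup ↥(P : Subgroup G) := A.subgroupOf (P : Subgroup G) with hA'
  haveI hAn' : A'.Normal := by
    constructor
    intro a ha x
    rw [hA', mem_subgroupOf] at ha ⊢
    exact hAn x.1 x.2 a.1 ha
  have hnot' : ¬ A' ≤ frattini ↥(P : Subgroup G) := by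
    intro h
    apply hnot
    rintro a ⟨haA, haP⟩
    refine ⟨⟨a, haP⟩, h (mem_subgroupOf.mpr haA), rfl⟩
  obtain ⟨c, hc⟩ := exists_sup_zpowers_eq_top hp A' hgen hnot'
  have h1 := commutator_mem_of_sup_zpowers A' c hc ⟨x, hx⟩ ⟨y, hy⟩
  exact mem_subgroupOf.mp h1

/-- A nontrivial normal subgroup is not inside `Φ(P)`. -/
theorem not_le_phi (P : Sylow p G) (hcore : pPrimeCore p G = ⊥)
    (hfrat : ((frattini ↥(P : Subgroup G)).map (P : Subgroup G).subtype).normalCore = ⊥)
    (N : Subgroup G) [hN : N.Normal] (hN1 : N ≠ ⊥) :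
    ¬ N ⊓ (P : Subgroup G) ≤ (frattini ↥(P : Subgroup G)).map (P : Subgroup G).subtype := by
  intro h
  have h1 : HasNormalPComplement p N := tate_hasNormalPComplement P N h
  have h2 : IsPGroup p N := isPGroup_of_normal_hnpc (X := G) (fun R hR hc => by
    have := Cfsg.Agent.Lib.Components.le_pPrimeCore hR hc
    rw [hcore] at this
    exact le_bot_iff.mp this) N h1
  have h3 : N ≤ (P : Subgroup G) := h2.le_sylow_of_normal P
  have h4 : N ≤ (frattini ↥(P : Subgroup G)).map (P : Subgroup G).subtype :=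
    (le_inf le_rfl h3).trans h
  have h5 := Subgroup.normal_le_normalCore.mpr h4
  rw [hfrat] at h5
  exact hN1 (le_bot_iff.mp h5)


open scoped Classical in
/-- Averaging a `P`-equivariant retraction (Gaschütz for abelian sections). -/
theorem exists_normal_of_retraction (P : Sylow p G) (R N : Subgroup G) [hR : R.Normal] [hN : N.Normal]
    (hNR : N ≤ R) (hRc : ∀ a ∈ R, ∀ b ∈ R, a * b = b * a) (hNp : IsPGroup p N)
    (f : G → G) (hfN : ∀ r ∈ R, f r ∈ N) (hfmul : ∀ r ∈ R, ∀ s ∈ R, f (r * s) = f r * f s)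
    (hfid : ∀ n ∈ N, f n = n)
    (hfconj : ∀ x ∈ (P : Subgroup G), ∀ r ∈ R, f (x * r * x⁻¹) = x * f r * x⁻¹) :
    ∃ K : Subgroup G, K.Normal ∧ K ≤ R ∧ K ⊓ N = ⊥ ∧ (K = ⊥ → R = N) := by
  have hp : p.Prime := Fact.out
  haveI : IsMulCommutative N := ⟨⟨fun a b => Subtype.ext (hRc _ (hNR a.2) _ (hNR b.2))⟩⟩
  letI : CommGroup N := { (inferInstance : Group N) with mul_comm := fun a b => Subtype.ext (hRc _ (hNR a.2) _ (hNR b.2)) }
  haveI : Fintype (G ⧸ (P : Subgroup G)) := Fintype.ofFinite _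
  have hconj : ∀ (g : G), ∀ r ∈ R, g * r * g⁻¹ ∈ R := fun g r hr => hR.conj_mem r hr g
  let ψ : G ⧸ (P : Subgroup G) → R → N := fun q r =>
    ⟨q.out * f (q.out⁻¹ * r.1 * q.out) * q.out⁻¹, by
      have h1 : q.out⁻¹ * r.1 * q.out ∈ R := by
        have := hconj q.out⁻¹ r.1 r.2
        simpa using this
      exact hN.conj_mem _ (hfN _ h1) _⟩
  have hψ : ∀ q (r : R), ((ψ q r : N) : G) = q.out * f (q.out⁻¹ * r.1 * q.out) * q.out⁻¹ := fun q r => rfl
  have hψmul : ∀ q (r s : R), ψ q (r * s) = ψ q r * ψ q s := by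
    intro q r s
    apply Subtype.ext
    have h1 : ∀ r : R, q.out⁻¹ * r.1 * q.out ∈ R := fun r => by
      have := hconj q.out⁻¹ r.1 r.2
      simpa using this
    have e : q.out⁻¹ * (r * s : R).1 * q.out = (q.out⁻¹ * r.1 * q.out) * (q.out⁻¹ * s.1 * q.out) := by
      simp only [Subgroup.coe_mul]
      group
    rw [Subgroup.coe_mul, hψ, hψ, hψ, e, hfmul _ (h1 r) _ (h1 s)]
    group
  let F : R →* N := MonoidHom.mk' (fun r => ∏ q, ψ q r) (fun r s => by
    simp only [hψmul]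
    exact Finset.prod_mul_distrib)
  have hF : ∀ r, F r = ∏ q, ψ q r := fun r => rfl
  -- equivariance
  have hFconj : ∀ (g : G) (r : R), MulAut.conjNormal g (F r) = F ⟨g * r.1 * g⁻¹, hconj g r.1 r.2⟩ := by
    intro g r
    rw [hF, hF, map_prod, ← Equiv.prod_comp (MulAction.toPerm g) (fun q => ψ q ⟨g * r.1 * g⁻¹, hconj g r.1 r.2⟩)]
    refine Finset.prod_congr rfl fun q _ => ?_
    apply Subtype.ext
    rw [MulAut.conjNormal_apply, hψ, hψ]
    simp only [MulAction.toPerm_apply]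
    set u := (g • q).out with hu
    set v := q.out with hv
    have hx : u⁻¹ * (g * v) ∈ (P : Subgroup G) := by
      rw [← QuotientGroup.eq]
      have h1 : ((u : G) : G ⧸ (P : Subgroup G)) = g • q := QuotientGroup.out_eq' _
      have h2 : ((g * v : G) : G ⧸ (P : Subgroup G)) = g • q := by
        have : ((v : G) : G ⧸ (P : Subgroup G)) = q := QuotientGroup.out_eq' _
        rw [← this]
        rfl
      rw [h1, h2]
    have hy : v⁻¹ * r.1 * v ∈ R := by
      have := hconj v⁻¹ r.1 r.2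
      simpa using this
    have h3 := hfconj _ hx _ hy
    have e : u⁻¹ * (g * r.1 * g⁻¹) * u = u⁻¹ * (g * v) * (v⁻¹ * r.1 * v) * (u⁻¹ * (g * v))⁻¹ := by
      group
    rw [e, h3]
    group
  have hFN : ∀ n : N, F ⟨n.1, hNR n.2⟩ = n ^ P.1.index := by
    intro n
    rw [hF]
    have h1 : ∀ q, ψ q ⟨n.1, hNR n.2⟩ = n := by
      intro q
      apply Subtype.ext
      rw [hψ]
      have : q.out⁻¹ * n.1 * q.out ∈ N := by
        have := hN.conj_mem n.1 n.2 q.out⁻¹
        simpa using this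
      simp only
      rw [hfid _ this]
      group
    simp only [h1]
    rw [Finset.prod_const, Finset.card_univ, Subgroup.index, Nat.card_eq_fintype_card]
  refine ⟨F.ker.map R.subtype, ?_, map_subtype_le _, ?_, ?_⟩
  · constructor
    rintro _ ⟨r, hr, rfl⟩ g
    refine ⟨⟨g * r.1 * g⁻¹, hconj g r.1 r.2⟩, ?_, rfl⟩
    have hr' : F r = 1 := hr
    change F _ = 1
    rw [← hFconj, hr', map_one]
  · rw [eq_bot_iff]
    rintro x ⟨⟨r, hr, rfl⟩, hx⟩
    have hxN : r.1 ∈ N := hx
    have h1 := hFN ⟨r.1, hxN⟩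
    have h2 : F ⟨r.1, hNR hxN⟩ = 1 := MonoidHom.mem_ker.mp hr
    rw [h2] at h1
    have h3 : (⟨r.1, hxN⟩ : N) ^ P.1.index = 1 := h1.symm
    obtain ⟨k, hk⟩ := hNp ⟨r.1, hxN⟩
    have h4 : Nat.Coprime (p ^ k) P.1.index :=
      Nat.Coprime.pow_left k ((Nat.Prime.coprime_iff_not_dvd hp).mpr P.not_dvd_index)
    have h5 := Nat.dvd_gcd (orderOf_dvd_of_pow_eq_one hk) (orderOf_dvd_of_pow_eq_one h3)
    rw [h4] at h5
    have h6 : (⟨r.1, hxN⟩ : N) = 1 := orderOf_eq_one_iff.mp (Nat.dvd_one.mp h5)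
    exact congrArg Subtype.val h6
  · intro hK
    have hker : F.ker = ⊥ := by
      rw [eq_bot_iff]
      intro r hr
      have h1 : r.1 ∈ F.ker.map R.subtype := ⟨r, hr, rfl⟩
      rw [hK, mem_bot] at h1
      exact Subtype.ext h1
    have hinj : Function.Injective F := (MonoidHom.ker_eq_bot_iff F).mp hker
    have hcard : Nat.card R ≤ Nat.card N := Nat.card_le_card_of_injective F hinj
    exact (Subgroup.eq_of_le_of_card_ge hNR hcard).symm

/-- A retraction from a decomposition `R = N × T` with `T` central in `P`. -/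
theorem exists_retraction (P : Sylow p G) (R N T : Subgroup G) [hR : R.Normal] [hN : N.Normal]
    (hRc : ∀ a ∈ R, ∀ b ∈ R, a * b = b * a) (hNR : N ≤ R) (hTR : T ≤ R)
    (hdec : ∀ r ∈ R, ∃ n, n ∈ N ∧ ∃ t, t ∈ T ∧ r = n * t) (hdisj : N ⊓ T = ⊥)
    (hTc : ∀ t ∈ T, ∀ x ∈ (P : Subgroup G), x * t * x⁻¹ = t) :
    ∃ f : G → G, (∀ r ∈ R, f r ∈ N) ∧ (∀ r ∈ R, ∀ s ∈ R, f (r * s) = f r * f s) ∧
      (∀ n ∈ N, f n = n) ∧ (∀ x ∈ (P : Subgroup G), ∀ r ∈ R, f (x * r * x⁻¹) = x * f r * x⁻¹) := by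
  choose! f hfN t htT hft using hdec
  have huniq : ∀ n ∈ N, ∀ n' ∈ N, ∀ u ∈ T, ∀ u' ∈ T, n * u = n' * u' → n = n' := by
    intro n hn n' hn' u hu u' hu' he
    have h1 : n'⁻¹ * n = u' * u⁻¹ := by
      rw [inv_mul_eq_iff_eq_mul, ← mul_assoc, eq_mul_inv_iff_mul_eq]
      exact he
    have h2 : n'⁻¹ * n ∈ N ⊓ T := Subgroup.mem_inf.mpr ⟨mul_mem (inv_mem hn') hn, by
      rw [h1]
      exact mul_mem hu' (inv_mem hu)⟩
    rw [hdisj, mem_bot] at h2
    exact (inv_mul_eq_one.mp h2).symm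
  have hconjN : ∀ (x : G), ∀ n ∈ N, x * n * x⁻¹ ∈ N := fun x n hn => hN.conj_mem n hn x
  refine ⟨f, hfN, ?_, ?_, ?_⟩
  · intro r hr s hs
    have h1 : r * s = (f r * f s) * (t r * t s) := by
      have e1 : t r * f s = f s * t r := hRc _ (hTR (htT r hr)) _ (hNR (hfN s hs))
      calc r * s = (f r * t r) * (f s * t s) := by rw [← hft r hr, ← hft s hs]
        _ = f r * (t r * f s) * t s := by group
        _ = f r * (f s * t r) * t s := by rw [e1]
        _ = _ := by group
    have hrs : r * s ∈ R := mul_mem hr hs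
    have h2 := hft _ hrs
    have h4 : (f r * f s) * (t r * t s) = f (r * s) * t (r * s) := h1.symm.trans h2
    exact (huniq _ (mul_mem (hfN r hr) (hfN s hs)) _ (hfN _ hrs) _ (mul_mem (htT r hr) (htT s hs)) _ (htT _ hrs) h4).symm
  · intro n hn
    have hnR := hNR hn
    have h1 := huniq n hn _ (hfN n hnR) 1 (one_mem _) _ (htT n hnR) (by rw [mul_one]; exact hft n hnR)
    exact h1.symm
  · intro x hx r hr
    have hR' : x * r * x⁻¹ ∈ R := hR.conj_mem r hr x
    have h1 : x * r * x⁻¹ = (x * f r * x⁻¹) * t r := by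
      have h2 := hTc _ (htT r hr) x hx
      calc x * r * x⁻¹ = x * (f r * t r) * x⁻¹ := by rw [← hft r hr]
        _ = (x * f r * x⁻¹) * (x * t r * x⁻¹) := by group
        _ = _ := by rw [h2]
    have h2 := hft _ hR'
    have h4 : (x * f r * x⁻¹) * t r = f (x * r * x⁻¹) * t (x * r * x⁻¹) := h1.symm.trans h2
    exact (huniq _ (hconjN x _ (hfN r hr)) _ (hfN _ hR') _ (htT r hr) _ (htT _ hR') h4).symm


/-- The key step in the abelian case: `O_p(G) = N`. -/
theorem eq_of_min (P : Sylow p G) (hgen : (frattini ↥(P : Subgroup G)).index = p ^ 2)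
    (R N : Subgroup G) [hR : R.Normal] [hN : N.Normal] (hNR : N ≤ R) (hRP : R ≤ (P : Subgroup G))
    (hRc : ∀ a ∈ R, ∀ b ∈ R, a * b = b * a) (hRexp : ∀ r ∈ R, r ^ p = 1) (hN1 : N ≠ ⊥)
    (hmin : ∀ K : Subgroup G, K.Normal → K ≠ ⊥ → N ≤ K)
    (hnot : ¬ N ⊓ (P : Subgroup G) ≤ (frattini ↥(P : Subgroup G)).map (P : Subgroup G).subtype) :
    R = N := by
  have hp : p.Prime := Fact.out
  haveI : Fact p.Prime := ⟨hp⟩
  by_contra hne
  have hlt : N < R := lt_of_le_of_ne hNR (Ne.symm hne)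
  obtain ⟨r, hrR, hrN⟩ := SetLike.exists_of_lt hlt
  obtain ⟨c, hcP, hc⟩ := exists_gen P hgen N (fun x _ a ha => hN.conj_mem a ha x) hnot
  have hdec0 : ∀ r ∈ R, ∃ n ∈ N, ∃ i : ℤ, r = n * c ^ i ∧ c ^ i ∈ R := by
    intro r hr
    obtain ⟨a, ha, i, he⟩ := hc r (hRP hr)
    refine ⟨a, ha.1, i, he, ?_⟩
    have : c ^ i = a⁻¹ * r := by rw [he]; group
    rw [this]
    exact mul_mem (inv_mem (hNR ha.1)) hr
  obtain ⟨a₀, ha₀, i₀, he₀, hci₀⟩ := hdec0 r hrR
  set t₀ := c ^ i₀ with ht₀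
  have ht₀N : t₀ ∉ N := by
    intro h
    apply hrN
    rw [he₀]
    exact mul_mem ha₀ h
  have ht₀1 : t₀ ≠ 1 := fun h => ht₀N (h ▸ one_mem _)
  -- the cyclic part
  set T' : Subgroup ↥(zpowers c) := R.subgroupOf (zpowers c) with hT'
  have hT'cyc : IsCyclic ↥T' := inferInstance
  set t₀' : ↥T' := ⟨⟨t₀, zpow_mem (mem_zpowers c) i₀⟩, mem_subgroupOf.mpr hci₀⟩ with ht₀'
  have ht₀'1 : t₀' ≠ 1 := by
    intro h
    exact ht₀1 (congrArg (fun y : ↥T' => ((y : ↥(zpowers c)) : G)) h)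
  have hcard : Nat.card ↥T' = p := by
    have h1 : Nat.card ↥T' ∣ p := by
      rw [← IsCyclic.exponent_eq_card]
      apply Monoid.exponent_dvd_of_forall_pow_eq_one
      rintro ⟨⟨y, hy⟩, hyR⟩
      apply Subtype.ext
      apply Subtype.ext
      exact hRexp y (mem_subgroupOf.mp hyR)
    rcases (Nat.dvd_prime hp).1 h1 with h2 | h2
    · exfalso
      have : Subsingleton ↥T' := (Nat.card_eq_one_iff_unique.mp h2).1
      exact ht₀'1 (Subsingleton.elim _ _)
    · exact h2
  -- `T`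
  set T : Subgroup G := R ⊓ zpowers c with hT
  have hTN : N ⊓ T = ⊥ := by
    rw [eq_bot_iff]
    rintro y ⟨hyN, hyT⟩
    rw [mem_bot]
    by_contra hy1
    have hyT' : (⟨⟨y, hyT.2⟩, mem_subgroupOf.mpr hyT.1⟩ : ↥T') ≠ 1 := by
      intro h
      exact hy1 (congrArg (fun y : ↥T' => ((y : ↥(zpowers c)) : G)) h)
    have h1 := mem_zpowers_of_prime_card hcard (g' := t₀') hyT'
    obtain ⟨k, hk⟩ := mem_zpowers_iff.mp h1
    apply ht₀N
    have h2 : y ^ k = t₀ := congrArg (fun y : ↥T' => ((y : ↥(zpowers c)) : G)) hk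
    rw [← h2]
    exact N.zpow_mem hyN k
  have hdec : ∀ r ∈ R, ∃ n, n ∈ N ∧ ∃ t, t ∈ T ∧ r = n * t := by
    intro r hr
    obtain ⟨a, ha, i, he, hci⟩ := hdec0 r hr
    exact ⟨a, ha, c ^ i, ⟨hci, zpow_mem (mem_zpowers c) i⟩, he⟩
  have hTc : ∀ t ∈ T, ∀ x ∈ (P : Subgroup G), x * t * x⁻¹ = t := by
    rintro t ⟨htR, htc⟩ x hx
    obtain ⟨a, ha, i, rfl⟩ := hc x hx
    obtain ⟨j, rfl⟩ := mem_zpowers_iff.mp htc
    have h1 : Commute a (c ^ j) := hRc _ (hNR ha.1) _ htR
    have h2 : Commute (c ^ i) (c ^ j) := (Commute.refl c).zpow_zpow i j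
    have h3 : Commute (a * c ^ i) (c ^ j) := h1.mul_left h2
    rw [h3.eq]
    group
  obtain ⟨f, hf1, hf2, hf3, hf4⟩ := exists_retraction P R N T hRc hNR inf_le_left hdec hTN hTc
  have hNp : IsPGroup p N := P.isPGroup'.to_le (hNR.trans hRP)
  obtain ⟨K, hKn, hKR, hKN, hKe⟩ := exists_normal_of_retraction P R N hNR hRc hNp f hf1 hf2 hf3 hf4
  have hK1 : K ≠ ⊥ := fun h => hne (hKe h)
  have h1 := hmin K hKn hK1
  have h2 : N ≤ K ⊓ N := le_inf h1 le_rfl
  rw [hKN] at h2
  exact hN1 (le_bot_iff.mp h2)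

/-- Commutators and `p`-th powers in `P` lie in `Φ(P)`. -/
theorem comm_mem_phi (P : Sylow p G) (x y : G) (hx : x ∈ (P : Subgroup G)) (hy : y ∈ (P : Subgroup G)) :
    x * y * x⁻¹ * y⁻¹ ∈ (frattini ↥(P : Subgroup G)).map (P : Subgroup G).subtype := by
  haveI : Group.IsNilpotent ↥(P : Subgroup G) := P.isPGroup'.isNilpotent
  have h1 : ⁅(⟨x, hx⟩ : ↥(P : Subgroup G)), (⟨y, hy⟩ : ↥(P : Subgroup G))⁆ ∈ frattini ↥(P : Subgroup G) := by
    apply commutator_le_frattini_of_isNilpotent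
    rw [commutator_def]
    exact commutator_mem_commutator (mem_top _) (mem_top _)
  exact ⟨_, h1, rfl⟩

theorem pow_mem_phi (P : Sylow p G) (x : G) (hx : x ∈ (P : Subgroup G)) :
    x ^ p ∈ (frattini ↥(P : Subgroup G)).map (P : Subgroup G).subtype :=
  ⟨_, pow_mem_frattini_of_isPGroup P.isPGroup' ⟨x, hx⟩, rfl⟩

/-- A normal subgroup of `G` inside `P` is elementary abelian when `Φ(P)` has trivial core. -/
theorem elem_of_normal (P : Sylow p G)
    (hfrat : ((frattini ↥(P : Subgroup G)).map (P : Subgroup G).subtype).normalCore = ⊥)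
    (R : Subgroup G) [hR : R.Normal] (hRP : R ≤ (P : Subgroup G)) :
    (∀ a ∈ R, ∀ b ∈ R, a * b = b * a) ∧ ∀ r ∈ R, r ^ p = 1 := by
  have hp : p.Prime := Fact.out
  set Φ := (frattini ↥(P : Subgroup G)).map (P : Subgroup G).subtype with hΦ
  have hRp : IsPGroup p R := P.isPGroup'.to_le hRP
  have h1 : frattini ↥R ≤ Φ.subgroupOf R := by
    apply frattini_le_of_commutator_le_of_pow_mem hp
    · rw [commutator_def, Subgroup.commutator_le]
      rintro ⟨a, ha⟩ - ⟨b, hb⟩ -
      rw [mem_subgroupOf]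
      exact comm_mem_phi P a b (hRP ha) (hRP hb)
    · rintro ⟨a, ha⟩
      rw [mem_subgroupOf]
      exact pow_mem_phi P a (hRP ha)
  have h2 : (frattini ↥R).map R.subtype ≤ Φ := by
    rintro _ ⟨y, hy, rfl⟩
    exact mem_subgroupOf.mp (h1 hy)
  haveI h3 : ((frattini ↥R).map R.subtype).Normal := frattini_map_normal R
  have h4 := Subgroup.normal_le_normalCore.mpr h2
  rw [hfrat, le_bot_iff] at h4
  have h5 : frattini ↥R = ⊥ := by
    rw [eq_bot_iff]
    intro y hy
    have : (y : G) ∈ (frattini ↥R).map R.subtype := ⟨y, hy, rfl⟩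
    rw [h4, mem_bot] at this
    exact Subtype.ext this
  haveI : Group.IsNilpotent ↥R := hRp.isNilpotent
  constructor
  · intro a ha b hb
    have h6 : ⁅(⟨a, ha⟩ : ↥R), (⟨b, hb⟩ : ↥R)⁆ ∈ frattini ↥R := by
      apply commutator_le_frattini_of_isNilpotent
      rw [commutator_def]
      exact commutator_mem_commutator (mem_top _) (mem_top _)
    rw [h5, mem_bot, commutatorElement_eq_one_iff_mul_comm] at h6
    exact congrArg Subtype.val h6
  · intro r hr
    have h6 := pow_mem_frattini_of_isPGroup hRp ⟨r, hr⟩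
    rw [h5, mem_bot] at h6
    exact congrArg Subtype.val h6


theorem mem_of_pow_mem {Q : Type*} [Group Q] (M : Subgroup Q) (x : Q) {n m : ℕ} (h : n.Coprime m)
    (hm : x ^ m = 1) (hn : x ^ n ∈ M) : x ∈ M := by
  have hb := Nat.gcd_eq_gcd_ab n m
  rw [h] at hb
  have h2 : x ^ (1 : ℤ) = x ^ ((n : ℤ) * Nat.gcdA n m + (m : ℤ) * Nat.gcdB n m) := by
    rw [← hb]
    rfl
  rw [zpow_add, zpow_mul, zpow_mul, zpow_natCast, zpow_natCast, hm, one_zpow, mul_one, zpow_one] at h2
  rw [h2]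
  exact zpow_mem hn _

/-- Index of the intersection of a Sylow subgroup with a normal subgroup is prime to `p`. -/
theorem not_dvd_relIndex (P : Sylow p G) (E : Subgroup G) [hE : E.Normal] :
    ¬ p ∣ (P : Subgroup G).relIndex E := by
  intro hd
  apply P.not_dvd_index
  have h1 := Cfsg.Agent.Lib.OddLocal.card_sup_mul_card_inf_of_normal E (P : Subgroup G) hE
  have h2 : Nat.card ↥(E ⊓ (P : Subgroup G)) * (P : Subgroup G).relIndex E = Nat.card E := by
    have := Cfsg.Agent.Lib.OddLocal.card_mul_relIndex (inf_le_right : (P : Subgroup G) ⊓ E ≤ E)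
    rw [Subgroup.inf_relIndex_right] at this
    rw [inf_comm]
    exact this
  have h3 : Nat.card ↥(E ⊔ (P : Subgroup G)) = (P : Subgroup G).relIndex E * Nat.card (P : Subgroup G) := by
    rw [← h2, mul_comm (Nat.card ↥(E ⊓ (P : Subgroup G))), mul_assoc, mul_comm (Nat.card ↥(E ⊓ (P : Subgroup G)))] at h1
    have h4 : 0 < Nat.card ↥(E ⊓ (P : Subgroup G)) := Nat.card_pos
    have h5 : Nat.card ↥(E ⊔ (P : Subgroup G)) * Nat.card ↥(E ⊓ (P : Subgroup G)) =
        ((P : Subgroup G).relIndex E * Nat.card (P : Subgroup G)) * Nat.card ↥(E ⊓ (P : Subgroup G)) := by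
      rw [h1]
      ring
    exact Nat.eq_of_mul_eq_mul_right h4 h5
  have h6 : Nat.card ↥(E ⊔ (P : Subgroup G)) ∣ Nat.card G := Subgroup.card_subgroup_dvd_card _
  have h7 := Subgroup.card_mul_index (P : Subgroup G)
  rw [h3, ← h7, mul_comm (Nat.card _) (P : Subgroup G).index] at h6
  have h8 := Nat.dvd_of_mul_dvd_mul_right Nat.card_pos h6
  exact hd.trans h8

/-- Gaschütz: an element of `Z(E) ∩ E'` in `P` lies in every maximal subgroup of `P`. -/
theorem mem_coatom_of_central_commutator (P : Sylow p G) (E : Subgroup G) [hE : E.Normal]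
    (M₀ : Subgroup ↥(P : Subgroup G)) (hM : IsCoatom M₀) (z : G) (hzP : z ∈ (P : Subgroup G))
    (hzE : z ∈ E) (hcent : ∀ y ∈ E, z * y = y * z) (hcomm : z ∈ ⁅E, E⁆) :
    (⟨z, hzP⟩ : ↥(P : Subgroup G)) ∈ M₀ := by
  classical
  have hp : p.Prime := Fact.out
  haveI : Group.IsNilpotent ↥(P : Subgroup G) := P.isPGroup'.isNilpotent
  haveI hMn : M₀.Normal := isCoatom_normal_of_isNilpotent hM
  have hcomm' : commutator ↥(P : Subgroup G) ≤ M₀ := commutator_le_of_isCoatom_of_isNilpotent hM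
  letI : CommGroup (↥(P : Subgroup G) ⧸ M₀) :=
    { (inferInstance : Group (↥(P : Subgroup G) ⧸ M₀)) with
      mul_comm := by
        intro a b
        obtain ⟨x, rfl⟩ := QuotientGroup.mk'_surjective M₀ a
        obtain ⟨y, rfl⟩ := QuotientGroup.mk'_surjective M₀ b
        have h1 : x * y * x⁻¹ * y⁻¹ ∈ M₀ := by
          apply hcomm'
          rw [commutator_def, ← commutatorElement_def]
          exact commutator_mem_commutator (mem_top _) (mem_top _)
        have h2 := (QuotientGroup.eq_one_iff _).mpr h1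
        have h3 : QuotientGroup.mk' M₀ (x * y * x⁻¹ * y⁻¹) = 1 := h2
        rw [map_mul, map_mul, map_mul, map_inv, map_inv] at h3
        have h4 := eq_of_mul_inv_eq_one h3
        exact mul_inv_eq_iff_eq_mul.mp h4 }
  set A : Subgroup ↥E := (P : Subgroup G).subgroupOf E with hA
  let inc : ↥A →* ↥(P : Subgroup G) :=
    { toFun := fun a => ⟨a.1.1, mem_subgroupOf.mp a.2⟩
      map_one' := rfl
      map_mul' := fun _ _ => rfl }
  let ϕ : ↥A →* (↥(P : Subgroup G) ⧸ M₀) := (QuotientGroup.mk' M₀).comp inc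
  haveI : A.FiniteIndex := inferInstance
  let V : ↥E →* (↥(P : Subgroup G) ⧸ M₀) := ϕ.transfer
  set zE : ↥E := ⟨z, hzE⟩ with hzEdef
  have hV1 : V zE = 1 := by
    have h1 : zE ∈ commutator ↥E := by
      rw [_root_.commutator_def]
      have h2 : z ∈ (⁅(⊤ : Subgroup ↥E), (⊤ : Subgroup ↥E)⁆).map E.subtype := by
        rw [Subgroup.map_commutator]
        have h3 : (⊤ : Subgroup ↥E).map E.subtype = E := by
          rw [← MonoidHom.range_eq_map]
          exact Subgroup.range_subtype E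
        rw [h3]
        exact hcomm
      obtain ⟨y, hy, hye⟩ := h2
      have : y = zE := Subtype.ext hye
      exact this ▸ hy
    exact Abelianization.commutator_subset_ker V h1
  have hcentE : ∀ y : ↥E, zE * y = y * zE := fun y => Subtype.ext (hcent y.1 y.2)
  have hkey : ∀ (k : ℕ) (g₀ : ↥E), g₀⁻¹ * zE ^ k * g₀ ∈ A → g₀⁻¹ * zE ^ k * g₀ = zE ^ k := by
    intro k g₀ _
    have : Commute zE g₀ := hcentE g₀
    rw [mul_assoc, ((this.pow_left k).eq), ← mul_assoc, inv_mul_cancel, one_mul]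
  have hV2 := MonoidHom.transfer_eq_pow ϕ zE hkey
  have hV3 : ϕ ⟨zE ^ A.index, MonoidHom.transfer_eq_pow_aux zE hkey⟩ = 1 := hV2.symm.trans hV1
  have hV4 : inc ⟨zE ^ A.index, MonoidHom.transfer_eq_pow_aux zE hkey⟩ ∈ M₀ :=
    (QuotientGroup.eq_one_iff _).mp hV3
  have hV5 : (⟨z, hzP⟩ : ↥(P : Subgroup G)) ^ A.index ∈ M₀ := by
    have h0 : (⟨z, hzP⟩ : ↥(P : Subgroup G)) ^ A.index = inc ⟨zE ^ A.index, MonoidHom.transfer_eq_pow_aux zE hkey⟩ := by
      apply Subtype.ext
      simp [inc, hzEdef]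
    rw [h0]
    exact hV4
  obtain ⟨k, hk⟩ := P.isPGroup' ⟨z, hzP⟩
  have hcop : Nat.Coprime (A.index) (p ^ k) := by
    apply Nat.Coprime.pow_right
    exact ((Nat.Prime.coprime_iff_not_dvd hp).mpr (not_dvd_relIndex P E)).symm
  exact mem_of_pow_mem M₀ _ hcop hk hV5


theorem commutative_of_comm (P : Subgroup G) (h : ∀ x ∈ P, ∀ y ∈ P, x * y * x⁻¹ * y⁻¹ = 1) :
    IsMulCommutative P := by
  refine ⟨⟨fun a b => Subtype.ext ?_⟩⟩
  have h1 := h a.1 a.2 b.1 b.2
  have h2 := eq_of_mul_inv_eq_one h1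
  exact mul_inv_eq_iff_eq_mul.mp h2

/-- There is a least nontrivial normal subgroup. -/
theorem exists_min_normal (P : Sylow p G) (hna : ¬ IsMulCommutative (P : Subgroup G))
    (hgen : (frattini ↥(P : Subgroup G)).index = p ^ 2) (hcore : pPrimeCore p G = ⊥)
    (hfrat : ((frattini ↥(P : Subgroup G)).map (P : Subgroup G).subtype).normalCore = ⊥) :
    ∃ N : Subgroup G, N.Normal ∧ N ≠ ⊥ ∧ ∀ K : Subgroup G, K.Normal → K ≠ ⊥ → N ≤ K := by
  let 𝓝 : Set (Subgroup G) := {K | K.Normal ∧ K ≠ ⊥}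
  have htop : (⊤ : Subgroup G) ∈ 𝓝 := by
    refine ⟨inferInstance, ?_⟩
    intro h
    apply hna
    refine ⟨⟨fun a b => Subtype.ext ?_⟩⟩
    have h1 : ∀ x : G, x = 1 := fun x => by
      have : x ∈ (⊤ : Subgroup G) := mem_top x
      rw [h] at this
      exact this
    exact (h1 _).trans (h1 _).symm
  obtain ⟨N, -, hmin⟩ := (Set.toFinite 𝓝).exists_le_minimal htop
  obtain ⟨hNn, hN1⟩ := hmin.prop
  refine ⟨N, hNn, hN1, ?_⟩
  intro K hKn hK1
  haveI := hNn
  haveI := hKn
  have hinf : N ⊓ K ≠ ⊥ := by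
    intro h
    apply hna
    apply commutative_of_comm
    intro x hx y hy
    have h1 := commutator_mem P hgen N (fun x _ a ha => hNn.conj_mem a ha x) (not_le_phi P hcore hfrat N hN1) x y hx hy
    have h2 := commutator_mem P hgen K (fun x _ a ha => hKn.conj_mem a ha x) (not_le_phi P hcore hfrat K hK1) x y hx hy
    have h3 : x * y * x⁻¹ * y⁻¹ ∈ N ⊓ K := Subgroup.mem_inf.mpr ⟨h1, h2⟩
    rw [h] at h3
    exact h3
  have h1 : N ⊓ K ∈ 𝓝 := ⟨inferInstance, hinf⟩
  have h2 := hmin.le_of_le h1 inf_le_left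
  exact h2.trans inf_le_right

/-- `F*(G)` is the least nontrivial normal subgroup. -/
theorem gfit_eq (P : Sylow p G) (hgen : (frattini ↥(P : Subgroup G)).index = p ^ 2)
    (hcore : pPrimeCore p G = ⊥)
    (hfrat : ((frattini ↥(P : Subgroup G)).map (P : Subgroup G).subtype).normalCore = ⊥)
    (N : Subgroup G) (hNn : N.Normal) (hN1 : N ≠ ⊥) (hmin : ∀ K : Subgroup G, K.Normal → K ≠ ⊥ → N ≤ K) :
    generalizedFittingSubgroup G = N := by
  haveI := hNn
  have hnot := not_le_phi P hcore hfrat N hN1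
  have hFne : generalizedFittingSubgroup G ≠ ⊥ := by
    intro h
    have h1 := centralizer_gfit_le (G := G)
    rw [h] at h1
    have h2 : centralizer ((⊥ : Subgroup G) : Set G) = ⊤ := by
      rw [eq_top_iff]
      intro x _
      rw [mem_centralizer_iff]
      intro y hy
      have hy' : y = 1 := hy
      rw [hy', one_mul, mul_one]
    rw [h2] at h1
    exact hN1 (le_bot_iff.mp (le_top.trans h1))
  have hNF := hmin _ inferInstance hFne
  have hfitR : fittingSubgroup G = pCore p G := fitting_eq_pCore hcore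
  have hRP : pCore p G ≤ (P : Subgroup G) := pCore_isPGroup.le_sylow_of_normal P
  obtain ⟨hRc, hRe⟩ := elem_of_normal P hfrat (pCore p G) hRP
  by_cases hNab : ∀ a ∈ N, ∀ b ∈ N, a * b = b * a
  · have hNR : N ≤ pCore p G := by
      rw [← hfitR]
      apply le_fitting hNn
      letI : CommGroup N := { (inferInstance : Group N) with mul_comm := fun a b => Subtype.ext (hNab _ a.2 _ b.2) }
      infer_instance
    have hReq : pCore p G = N := eq_of_min P hgen (pCore p G) N hNR hRP hRc hRe hN1 hmin hnot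
    have hE : layer G = ⊥ := by
      by_contra hE
      have hNE := hmin _ inferInstance hE
      have h1 : ∃ z ∈ N ⊓ (P : Subgroup G), z ∉ (frattini ↥(P : Subgroup G)).map (P : Subgroup G).subtype := by
        by_contra hcon
        push Not at hcon
        exact hnot hcon
      obtain ⟨z, ⟨hzN, hzP⟩, hzΦ⟩ := h1
      have hz' : (⟨z, hzP⟩ : ↥(P : Subgroup G)) ∉ frattini ↥(P : Subgroup G) := fun h => hzΦ ⟨_, h, rfl⟩
      rw [mem_frattini_iff] at hz'
      push Not at hz'
      obtain ⟨M₀, hM₀, hzM⟩ := hz'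
      apply hzM
      apply mem_coatom_of_central_commutator P (layer G) M₀ hM₀ z hzP (hNE hzN)
      · intro y hy
        have h2 := layer_le_centralizer_fitting (G := G) hy
        rw [mem_centralizer_iff] at h2
        have h3 : z ∈ (fittingSubgroup G : Set G) := by
          rw [hfitR]
          exact hNR hzN
        exact h2 z h3
      · rw [layer_commutator]
        exact hNE hzN
    unfold generalizedFittingSubgroup
    rw [hE, hfitR, hReq, bot_sup_eq]
  · have hR1 : pCore p G = ⊥ := by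
      by_contra h
      have hNR := hmin _ inferInstance h
      exact hNab fun a ha b hb => hRc a (hNR ha) b (hNR hb)
    have hcent : centralizer (N : Set G) = ⊥ := by
      by_contra h
      have h1 := hmin _ inferInstance h
      apply hNab
      intro a ha b hb
      exact (mem_centralizer_iff.mp (h1 hb) a ha)
    apply le_antisymm _ hNF
    unfold generalizedFittingSubgroup
    rw [hfitR, hR1, sup_bot_eq]
    apply layer_le
    intro L hL
    rcases component_le_or_commute hL hNn.isSubnormal with h | h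
    · exact h
    · exfalso
      have h1 : L ≤ centralizer (N : Set G) := commutator_eq_bot_iff_le_centralizer.mp h
      rw [hcent] at h1
      exact component_ne_bot hL (le_bot_iff.mp h1)


/-- A subgroup normalized by `P` containing a component is not inside `Φ(P)`. -/
theorem not_le_phi_of_component (P : Sylow p G) (hcore : pPrimeCore p G = ⊥) (M : Subgroup G)
    (hMn : ∀ x ∈ (P : Subgroup G), ∀ a ∈ M, x * a * x⁻¹ ∈ M) (K₀ : Subgroup G) (hK₀ : IsComponent K₀)
    (hK₀M : K₀ ≤ M) :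
    ¬ M ⊓ (P : Subgroup G) ≤ (frattini ↥(P : Subgroup G)).map (P : Subgroup G).subtype := by
  intro h
  have hp : p.Prime := Fact.out
  set X := M ⊔ (P : Subgroup G) with hX
  have hMX : M ≤ X := le_sup_left
  have hPX : (P : Subgroup G) ≤ X := le_sup_right
  have hPnorm : (P : Subgroup G) ≤ normalizer (M : Set G) := fun x hx =>
    Cfsg.Agent.Lib.PGroups.mem_normalizer_of_conj_le' M x (hMn x hx)
  haveI hMXn : (M.subgroupOf X).Normal :=
    (normal_subgroupOf_iff_le_normalizer hMX).mpr (sup_le le_normalizer hPnorm)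
  let PX : Sylow p X := P.subtype hPX
  have hPXe : (PX : Subgroup X) = (P : Subgroup G).subgroupOf X := rfl
  let φ : ↥(P : Subgroup G) →* ↥(PX : Subgroup X) :=
    { toFun := fun y => ⟨⟨y.1, hPX y.2⟩, by
        rw [hPXe]
        exact mem_subgroupOf.mpr y.2⟩
      map_one' := rfl
      map_mul' := fun _ _ => rfl }
  have hφ : Function.Surjective φ := by
    rintro ⟨⟨w, hwX⟩, hw⟩
    have hw' : w ∈ (P : Subgroup G) := by
      rw [hPXe] at hw
      exact mem_subgroupOf.mp hw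
    exact ⟨⟨w, hw'⟩, rfl⟩
  have htate : M.subgroupOf X ⊓ (PX : Subgroup X) ≤ (frattini ↥(PX : Subgroup X)).map (PX : Subgroup X).subtype := by
    rintro x ⟨hxM, hxP⟩
    have hxP' : (x : G) ∈ (P : Subgroup G) := by
      have : x ∈ (PX : Subgroup X) := hxP
      rw [hPXe] at this
      exact mem_subgroupOf.mp this
    have h1 : (x : G) ∈ M ⊓ (P : Subgroup G) := Subgroup.mem_inf.mpr ⟨mem_subgroupOf.mp hxM, hxP'⟩
    obtain ⟨y, hy, hye⟩ := h h1
    refine ⟨φ y, frattini_le_comap_frattini_of_surjective hφ hy, ?_⟩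
    apply Subtype.ext
    exact hye
  have H1 : HasNormalPComplement p ↥(M.subgroupOf X) := tate_hasNormalPComplement PX _ htate
  let i : ↥K₀ →* ↥(M.subgroupOf X) :=
    { toFun := fun a => ⟨⟨a.1, hMX (hK₀M a.2)⟩, mem_subgroupOf.mpr (hK₀M a.2)⟩
      map_one' := rfl
      map_mul' := fun _ _ => rfl }
  have hi : Function.Injective i := by
    intro a b hab
    apply Subtype.ext
    exact congrArg (fun y : ↥(M.subgroupOf X) => ((y : ↥X) : G)) hab
  have H2 : HasNormalPComplement p ↥K₀ := hnpc_of_injective i hi H1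
  obtain ⟨T, hTn, hTc, k, hk⟩ := exists_hall_of_hasNormalPComplement H2
  haveI := hTn
  have hperf : commutator ↥K₀ = ⊤ := qs_commutator hK₀.2
  have hTtop : T = ⊤ := by
    have hQp : IsPGroup p (↥K₀ ⧸ T) := by
      apply IsPGroup.of_card (n := k)
      rw [← hk]
      rfl
    have hQn : Group.IsNilpotent (↥K₀ ⧸ T) := hQp.isNilpotent
    have hQs : Group.IsSolvable (↥K₀ ⧸ T) := inferInstance
    have hQc : commutator (↥K₀ ⧸ T) = ⊤ := by
      have hs := QuotientGroup.mk'_surjective T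
      rw [_root_.commutator_def, ← Subgroup.map_top_of_surjective _ hs, ← Subgroup.map_commutator,
        ← _root_.commutator_def, hperf]
    have hsub := subsingleton_of_perfect_of_solvable hQc hQs
    exact QuotientGroup.subgroup_eq_top_of_subsingleton T hsub
  have hcop : (Nat.card K₀).Coprime p := by
    rw [hTtop, Subgroup.card_top] at hTc
    exact hTc
  have hle := subnormal_le_pPrimeCore hK₀.1 hcop
  rw [hcore] at hle
  exact component_ne_bot hK₀ (le_bot_iff.mp hle)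

/-- `P` is transitive on the components in the nonabelian case. -/
theorem transitive_of_nonabelian (P : Sylow p G) (hna : ¬ IsMulCommutative (P : Subgroup G))
    (hgen : (frattini ↥(P : Subgroup G)).index = p ^ 2) (hcore : pPrimeCore p G = ⊥)
    (N : Subgroup G) (hNn : N.Normal)
    (hmin : ∀ K : Subgroup G, K.Normal → K ≠ ⊥ → N ≤ K) (hNab : ¬ ∀ a ∈ N, ∀ b ∈ N, a * b = b * a)
    (K L : Subgroup G) (hK : IsComponent K) (hL : IsComponent L) :
    ∃ x ∈ (P : Subgroup G), L = K.map (MulAut.conj x).toMonoidHom := by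
  by_contra hno
  push Not at hno
  have hZ : ∀ x ∈ layer G, (∀ y ∈ layer G, x * y = y * x) → x = 1 := by
    intro x hxE hx
    have hCn : (layer G ⊓ centralizer (layer G : Set G)).Normal := inferInstance
    have hC : layer G ⊓ centralizer (layer G : Set G) = ⊥ := by
      by_contra hC
      have h1 := hmin _ hCn hC
      apply hNab
      intro a ha b hb
      have h2 := h1 ha
      have h3 := h1 hb
      exact mem_centralizer_iff.mp h3.2 a h2.1
    have h1 : x ∈ layer G ⊓ centralizer (layer G : Set G) := by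
      refine Subgroup.mem_inf.mpr ⟨hxE, ?_⟩
      rw [mem_centralizer_iff]
      intro y hy
      exact (hx y hy).symm
    rw [hC] at h1
    exact h1
  let O : Set (Subgroup G) := {M | ∃ x ∈ (P : Subgroup G), M = K.map (MulAut.conj x).toMonoidHom}
  let Ω' : Set (Subgroup G) := {M | IsComponent M ∧ M ∉ O}
  set N₁ := sSup O with hN₁
  set N₂ := sSup Ω' with hN₂
  have hOcomp : ∀ M ∈ O, IsComponent M := by
    rintro M ⟨x, -, rfl⟩
    exact component_conj hK x
  have hconjO : ∀ x ∈ (P : Subgroup G), ∀ M, M ∈ O → M.map (MulAut.conj x).toMonoidHom ∈ O := by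
    rintro x hx M ⟨y, hy, rfl⟩
    refine ⟨x * y, mul_mem hx hy, ?_⟩
    rw [Subgroup.map_map]
    congr 1
    ext z
    simp [mul_assoc]
  have hconjΩ : ∀ x ∈ (P : Subgroup G), ∀ M, M ∈ Ω' → M.map (MulAut.conj x).toMonoidHom ∈ Ω' := by
    rintro x hx M ⟨hMc, hMO⟩
    refine ⟨component_conj hMc x, ?_⟩
    intro h
    apply hMO
    have h1 := hconjO x⁻¹ (inv_mem hx) _ h
    have h2 : (M.map (MulAut.conj x).toMonoidHom).map (MulAut.conj x⁻¹).toMonoidHom = M := by
      rw [Subgroup.map_map]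
      have e : (MulAut.conj x⁻¹).toMonoidHom.comp (MulAut.conj x).toMonoidHom = MonoidHom.id G := by
        ext w
        simp [mul_assoc]
      rw [e, Subgroup.map_id]
    rwa [h2] at h1
  have hinv : ∀ (S : Set (Subgroup G)), (∀ x ∈ (P : Subgroup G), ∀ M, M ∈ S → M.map (MulAut.conj x).toMonoidHom ∈ S) →
      ∀ x ∈ (P : Subgroup G), ∀ a ∈ sSup S, x * a * x⁻¹ ∈ sSup S := by
    intro S hS x hx a ha
    have h1 : sSup S ≤ (sSup S).comap (MulAut.conj x).toMonoidHom := by
      refine sSup_le fun M hM => ?_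
      rw [← Subgroup.map_le_iff_le_comap]
      exact le_sSup (hS x hx M hM)
    exact h1 ha
  have hN₁n := hinv O hconjO
  have hN₂n := hinv Ω' hconjΩ
  have hKO : K ∈ O := by
    refine ⟨1, one_mem _, ?_⟩
    ext z
    simp
  have hLΩ : L ∈ Ω' := ⟨hL, fun ⟨x, hx, he⟩ => hno x hx he⟩
  have hcomm12 : ∀ M ∈ O, ∀ M' ∈ Ω', ∀ a ∈ M, ∀ b ∈ M', a * b = b * a := by
    intro M hM M' hM'
    apply component_commutes (hOcomp M hM) hM'.1
    rintro rfl
    exact hM'.2 hM
  have hcomm : N₂ ≤ centralizer (N₁ : Set G) := by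
    refine sSup_le fun M' hM' => ?_
    rw [le_centralizer_iff]
    refine sSup_le fun M hM => ?_
    intro a ha
    rw [mem_centralizer_iff]
    intro b hb
    exact (hcomm12 M hM M' hM' a ha b hb).symm
  have hN₁E : N₁ ≤ layer G := sSup_le fun M hM => component_le_layer (hOcomp M hM)
  have hinf : ∀ x ∈ N₁, x ∈ N₂ → x = 1 := by
    intro x hx1 hx2
    apply hZ x (hN₁E hx1)
    intro y hy
    have hle : layer G ≤ centralizer ({x} : Set G) := by
      apply layer_le
      intro M hM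
      by_cases hMO : M ∈ O
      · intro a ha
        rw [mem_centralizer_singleton_iff]
        have h1 : a ∈ N₁ := le_sSup (show M ∈ O from hMO) ha
        exact mem_centralizer_iff.mp (hcomm hx2) a h1
      · intro a ha
        rw [mem_centralizer_singleton_iff]
        have h1 : a ∈ N₂ := le_sSup (show M ∈ Ω' from ⟨hM, hMO⟩) ha
        exact (mem_centralizer_iff.mp (hcomm h1) x hx1).symm
    exact (mem_centralizer_singleton_iff.mp (hle hy)).symm
  apply hna
  apply commutative_of_comm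
  intro x hx y hy
  have h1 := commutator_mem P hgen N₁ hN₁n
    (not_le_phi_of_component P hcore N₁ hN₁n K hK (le_sSup hKO)) x y hx hy
  have h2 := commutator_mem P hgen N₂ hN₂n
    (not_le_phi_of_component P hcore N₂ hN₂n L hL (le_sSup hLΩ)) x y hx hy
  exact hinf _ h1 h2

end Cfsg.Agent.Lib.PGroups.TwoGen
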