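import Mathlib
import Cfsg.Agent.Lib.Coprime.Action
import Cfsg.Agent.Lib.Coprime.Abelian
import Cfsg.Agent.Lib.OddLocal.Sup
import Cfsg.Agent.Lib.PGroups.CycSub2
import Cfsg.Agent.Lib.PGroups.Parts

/-!
# Coprime action on a group with cyclic Sylow subgroups

If `Q` acts coprimely on a `Z`-group `H` then `[H, Q] ∩ C_H(Q) = 1` and the two subgroups have
coprime orders.
-/

set_option autoImplicit false
set_option linter.unusedSectionVars false
set_option linter.style.haveILetI false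

namespace Cfsg.Agent.Lib.PGroups

open Subgroup Cfsg.Agent.Lib.Coprime Cfsg.Agent.Lib.OddLocal
open scoped commutatorElement

variable {G : Type*} [Group G] [Finite G]

/-- Elements of `[H, Q] ∩ C_H(Q)` lie in `H'`, via the norm map into the abelianization. -/
theorem mem_commutator_of_mem_inf {H Q : Subgroup G} (hQ : Q ≤ normalizer (H : Set G))
    (hcop : Nat.Coprime (Nat.card Q) (Nat.card H)) {x : G} (hxW : x ∈ ⁅H, Q⁆) (hxH : x ∈ H)
    (hxC : x ∈ centralizer (Q : Set G)) : (⟨x, hxH⟩ : ↥H) ∈ _root_.commutator ↥H := by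
  classical
  letI : Fintype Q := Fintype.ofFinite Q
  let c : Q → (↥H →* ↥H) := fun q =>
    { toFun := fun h => ⟨(q : G) * h * (q : G)⁻¹, (mem_normalizer_iff.mp (hQ q.2) h).mp h.2⟩
      map_one' := by ext; simp
      map_mul' := by intro a b; ext; simp only [Subgroup.coe_mul]; group }
  have hcapp : ∀ (q : Q) (h : ↥H), ((c q h : ↥H) : G) = (q : G) * h * (q : G)⁻¹ := fun _ _ => rfl
  let ν : ↥H →* Abelianization ↥H := ∏ q : Q, (Abelianization.of).comp (c q)
  have hνapp : ∀ h : ↥H, ν h = ∏ q : Q, Abelianization.of (c q h) := by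
    intro h
    simp [ν, MonoidHom.finsetProd_apply]
  have hcc : ∀ (q q₀ : Q) (h : ↥H), c q (c q₀ h) = c (q * q₀) h := by
    intro q q₀ h
    ext
    simp only [hcapp, Subgroup.coe_mul]
    group
  have hν1 : ∀ (q₀ : Q) (h : ↥H), ν (c q₀ h) = ν h := by
    intro q₀ h
    rw [hνapp, hνapp]
    simp only [hcc]
    exact Fintype.prod_equiv (Equiv.mulRight q₀) _ _ (fun _ => rfl)
  -- `[H, Q]` is in the kernel.
  have hW : ⁅H, Q⁆ ≤ (ν.ker).map H.subtype := by
    rw [Subgroup.commutator_le]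
    intro h hh q hq
    refine ⟨(⟨h, hh⟩ : ↥H) * c ⟨q, hq⟩ (⟨h, hh⟩ : ↥H)⁻¹, ?_, ?_⟩
    · rw [SetLike.mem_coe, MonoidHom.mem_ker, map_mul, hν1, map_inv, mul_inv_cancel]
    · simp only [Subgroup.coe_subtype, Subgroup.coe_mul, hcapp, Subgroup.coe_inv,
        commutatorElement_def]
      group
  obtain ⟨y, hy, hyx⟩ := hW hxW
  have hyx' : y = ⟨x, hxH⟩ := Subtype.ext hyx
  subst hyx'
  -- On `C_H(Q)` the map is a power.
  have h1 : ∀ q : Q, c q ⟨x, hxH⟩ = ⟨x, hxH⟩ := by
    intro q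
    ext
    simp only [hcapp]
    have := mem_centralizer_iff.mp hxC (q : G) q.2
    rw [this]
    group
  have h2 : ν ⟨x, hxH⟩ = (Abelianization.of ⟨x, hxH⟩) ^ Nat.card Q := by
    rw [hνapp]
    simp only [h1]
    rw [Finset.prod_const, Finset.card_univ, Nat.card_eq_fintype_card]
  have h3 : (Abelianization.of (⟨x, hxH⟩ : ↥H)) ^ Nat.card Q = 1 := by
    rw [← h2]
    exact hy
  have h4 : (Abelianization.of (⟨x, hxH⟩ : ↥H)) ^ Nat.card H = 1 := by
    rw [← map_pow, pow_card_eq_one', map_one]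
  have h5 : Abelianization.of (⟨x, hxH⟩ : ↥H) = 1 := by
    have := pow_gcd_eq_one.mpr ⟨h3, h4⟩
    rwa [hcop, pow_one] at this
  have h6 : (⟨x, hxH⟩ : ↥H) ∈ (Abelianization.of (G := ↥H)).ker := h5
  rwa [Abelianization.ker_of] at h6

/-- Subgroups of a cyclic subgroup with the same order agree. -/
theorem eq_of_card_eq_of_le_cyclic {A B C : Subgroup G} (hA : IsCyclic ↥A) (hB : B ≤ A) (hC : C ≤ A)
    (h : Nat.card B = Nat.card C) : B = C := by
  have h1 : B.subgroupOf A = C.subgroupOf A := by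
    apply eq_of_card_eq_of_isCyclic
    rw [card_subgroupOf_of_le hB, card_subgroupOf_of_le hC, h]
  have h2 := congrArg (Subgroup.map A.subtype) h1
  rwa [Subgroup.map_subgroupOf_eq_of_le hB, Subgroup.map_subgroupOf_eq_of_le hC] at h2

/-- Subgroups of a cyclic subgroup meeting trivially have coprime orders. -/
theorem coprime_of_inf_eq_bot_of_cyclic {A B C : Subgroup G} (hA : IsCyclic ↥A) (hB : B ≤ A) (hC : C ≤ A)
    (h : B ⊓ C = ⊥) : Nat.Coprime (Nat.card B) (Nat.card C) := by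
  by_contra hn
  obtain ⟨r, hr, hrB, hrC⟩ := Nat.Prime.not_coprime_iff_dvd.mp hn
  haveI : Fact r.Prime := ⟨hr⟩
  obtain ⟨b, hb⟩ := exists_prime_orderOf_dvd_card' r hrB
  obtain ⟨c, hc⟩ := exists_prime_orderOf_dvd_card' r hrC
  have hb' : orderOf (b : G) = r := by rwa [Subgroup.orderOf_coe]
  have hc' : orderOf (c : G) = r := by rwa [Subgroup.orderOf_coe]
  have hbA : zpowers (b : G) ≤ A := (zpowers_le).mpr (hB b.2)
  have hcA : zpowers (c : G) ≤ A := (zpowers_le).mpr (hC c.2)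
  have he : zpowers (b : G) = zpowers (c : G) :=
    eq_of_card_eq_of_le_cyclic hA hbA hcA (by rw [Nat.card_zpowers, Nat.card_zpowers, hb', hc'])
  have hbc : (b : G) ∈ C := by
    have : (b : G) ∈ zpowers (c : G) := he ▸ mem_zpowers _
    exact (zpowers_le).mpr c.2 this
  have hbot : (b : G) ∈ B ⊓ C := mem_inf.mpr ⟨b.2, hbc⟩
  rw [h, mem_bot] at hbot
  rw [hbot, orderOf_one] at hb'
  exact hr.one_lt.ne hb'

/-- A power homomorphism from the index of a central subgroup. -/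
theorem mul_pow_index_of_le_center {W : Type*} [Group W] [Finite W] {Z : Subgroup W}
    (hZ : Z ≤ center W) (a b : W) : (a * b) ^ Z.index = a ^ Z.index * b ^ Z.index := by
  have h1 : Z.relIndex (center W) * (center W).index = Z.index := Subgroup.relIndex_mul_index hZ
  rw [← h1, mul_comm _ (center W).index, pow_mul, pow_mul, pow_mul]
  have h2 : (a * b) ^ (center W).index = a ^ (center W).index * b ^ (center W).index := by
    have := map_mul (MonoidHom.transferCenterPow W) a b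
    have h3 := congrArg Subtype.val this
    simpa only [MonoidHom.transferCenterPow_apply, Subgroup.coe_mul] using h3
  rw [h2]
  apply Commute.mul_pow
  have h4 : a ^ (center W).index ∈ center W := Subgroup.pow_index_mem _ _
  exact (mem_center_iff.mp h4 _).symm

/-- `[H, Q] ∩ C_H(Q) = 1` for a `Z`-group `H`. -/
theorem zgroup_commutator_inf_centralizer {H Q : Subgroup G} [IsZGroup ↥H] (h : CoprimeAction Q H) :
    ⁅H, Q⁆ ⊓ (H ⊓ centralizer (Q : Set G)) = ⊥ := by
  classical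
  set W : Subgroup G := ⁅H, Q⁆ with hWdef
  set A : Subgroup G := (_root_.commutator ↥H).map H.subtype with hAdef
  have hAH : A ≤ H := map_subtype_le _
  haveI hAc' : IsCyclic (_root_.commutator ↥H) := IsZGroup.isCyclic_commutator ↥H
  have hAc : IsCyclic ↥A :=
    isCyclic_of_surjective
      (equivMapOfInjective (_root_.commutator ↥H) H.subtype H.subtype_injective).toMonoidHom
      (equivMapOfInjective (_root_.commutator ↥H) H.subtype H.subtype_injective).surjective
  have hAsub : A.subgroupOf H = _root_.commutator ↥H := by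
    rw [hAdef]
    exact Subgroup.comap_map_eq_self_of_injective H.subtype_injective _
  have hAcop : Nat.Coprime (Nat.card A) (A.relIndex H) := by
    have h1 := IsZGroup.coprime_commutator_index ↥H
    have h2 : Nat.card A = Nat.card (_root_.commutator ↥H) := by
      rw [← hAsub]
      exact (card_subgroupOf_of_le hAH).symm
    rw [h2, relIndex, hAsub]
    exact h1
  -- `H` and `Q` normalize `A`.
  have hconjA : ∀ g : G, g ∈ normalizer (H : Set G) → ∀ a ∈ A, g * a * g⁻¹ ∈ A := by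
    intro g hg a ha
    have hA' : A = ⁅H, H⁆ := by
      rw [hAdef, _root_.commutator_def, Subgroup.map_commutator, ← MonoidHom.range_eq_map,
        Subgroup.range_subtype]
    rw [hA'] at ha ⊢
    have hle : ⁅H, H⁆ ≤ ⁅H, H⁆.comap (MulAut.conj g).toMonoidHom := by
      rw [Subgroup.commutator_le]
      intro x hx y hy
      rw [Subgroup.mem_comap]
      have h1 : (MulAut.conj g).toMonoidHom ⁅x, y⁆ = ⁅g * x * g⁻¹, g * y * g⁻¹⁆ := by
        simp [MulAut.conj_apply, commutatorElement_def]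
        group
      rw [h1]
      exact Subgroup.commutator_mem_commutator
        ((Subgroup.mem_normalizer_iff.mp hg x).mp hx) ((Subgroup.mem_normalizer_iff.mp hg y).mp hy)
    have := hle ha
    simpa [MulAut.conj_apply] using this
  have hHA : ∀ g ∈ H, ∀ a ∈ A, g * a * g⁻¹ ∈ A := fun g hg => hconjA g (le_normalizer hg)
  have hQA : Q ≤ normalizer (A : Set G) := fun q hq =>
    mem_normalizer_of_conj_le' A q (hconjA q (h.normalizes hq))
  have hAct : CoprimeAction Q A := h.mono hAH hQA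
  have hAab : IsMulCommutative A := by
    haveI := hAc
    exact ⟨⟨fun a b => mul_comm' a b⟩⟩
  set A₁ : Subgroup G := A ⊓ centralizer (Q : Set G) with hA₁def
  have hA₁A : A₁ ≤ A := inf_le_left
  have h12 : ⁅A, Q⁆ ⊓ A₁ = ⊥ := hAct.commutator_inf_centralizer_eq_bot hAab
  have hsup : ⁅A, Q⁆ ⊔ A₁ = A := hAct.commutator_sup_centralizer
  have hA₂A : ⁅A, Q⁆ ≤ A := hAct.commutator_le_self
  have hc12 : Nat.Coprime (Nat.card ↥⁅A, Q⁆) (Nat.card A₁) :=
    coprime_of_inf_eq_bot_of_cyclic hAc hA₂A hA₁A h12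
  -- `H` normalizes `A₁`.
  have hHA₁ : ∀ g ∈ H, ∀ a ∈ A₁, g * a * g⁻¹ ∈ A₁ := by
    intro g hg a ha
    have hle : A₁.map (MulAut.conj g).toMonoidHom ≤ A := by
      rintro _ ⟨b, hb, rfl⟩
      exact hHA g hg b (hA₁A hb)
    have hcard : Nat.card (A₁.map (MulAut.conj g).toMonoidHom) = Nat.card A₁ :=
      Nat.card_congr (equivMapOfInjective _ _ (MulAut.conj g).injective).toEquiv.symm
    have he := eq_of_card_eq_of_le_cyclic hAc hle hA₁A hcard
    rw [← he]
    exact ⟨a, ha, by simp [MulAut.conj_apply]⟩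
  have hHA₁' : ∀ g ∈ H, ∀ a ∈ A₁, g⁻¹ * a * g ∈ A₁ := by
    intro g hg a ha
    have := hHA₁ g⁻¹ (H.inv_mem hg) a ha
    simpa using this
  have hA₁Q : ∀ a ∈ A₁, ∀ q ∈ Q, q * a = a * q := fun a ha q hq =>
    (mem_centralizer_iff.mp (mem_inf.mp ha).2 q hq)
  -- `W` centralizes `A₁`.
  have hWA₁ : W ≤ centralizer (A₁ : Set G) := by
    rw [hWdef, Subgroup.commutator_le]
    intro x hx q hq
    rw [mem_centralizer_iff]
    intro a ha
    have ha' : a ∈ A₁ := ha
    have hb := hHA₁' x hx a ha'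
    have h1 := hA₁Q a ha' q hq
    have h2 := hA₁Q _ hb q hq
    have h3 : q⁻¹ * a = a * q⁻¹ := by
      rw [eq_mul_inv_iff_mul_eq, mul_assoc, ← h1]; group
    rw [commutatorElement_def]
    have h4 : a * (x * q * x⁻¹ * q⁻¹) * (x * q * x⁻¹ * q⁻¹)⁻¹ * a⁻¹ = 1 := by group
    calc a * (x * q * x⁻¹ * q⁻¹)
        = x * (x⁻¹ * a * x) * q * x⁻¹ * q⁻¹ := by group
      _ = x * q * (x⁻¹ * a * x) * x⁻¹ * q⁻¹ := by
          rw [mul_assoc x, h2.symm]; group
      _ = x * q * x⁻¹ * (a * q⁻¹) := by group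
      _ = x * q * x⁻¹ * q⁻¹ * a := by rw [← h3]; group
  -- The index.
  set e : ℕ := A₁.relIndex W with hedef
  have hWH : W ≤ H := h.commutator_le_self
  have hecop : Nat.Coprime (Nat.card A₁) e := by
    have hWN : W ≤ normalizer (A₁ : Set G) := fun w hw =>
      mem_normalizer_of_forall_commute (fun z hz => (mem_centralizer_iff.mp (hWA₁ hw) z hz).symm)
    have h1 : A₁.relIndex (A₁ ⊔ W) = e := relIndex_sup_of_le_normalizer A₁ W hWN
    have h2 : A₁.relIndex (A₁ ⊔ W) * (A₁ ⊔ W).relIndex H = A₁.relIndex H :=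
      relIndex_mul_relIndex _ _ _ le_sup_left (sup_le (hA₁A.trans hAH) hWH)
    have h3 : A₁.relIndex A * A.relIndex H = A₁.relIndex H :=
      relIndex_mul_relIndex _ _ _ hA₁A hAH
    have h4 : Nat.card A₁ * A₁.relIndex A = Nat.card A := OddLocal.card_mul_relIndex hA₁A
    have h5 : Nat.card ↥(⁅A, Q⁆ ⊔ A₁) * Nat.card ↥(⁅A, Q⁆ ⊓ A₁) = Nat.card ↥⁅A, Q⁆ * Nat.card A₁ := by
      apply card_sup_mul_card_inf
      exact fun a ha => mem_normalizer_of_forall_commute (fun z hz => by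
        have hza : z ∈ A := hA₂A hz
        have haa : a ∈ A := hA₁A ha
        exact congrArg Subtype.val (hAab.is_comm.comm (⟨a, haa⟩ : A) ⟨z, hza⟩))
    rw [hsup, h12, Subgroup.card_bot, mul_one] at h5
    have h6 : A₁.relIndex A = Nat.card ↥⁅A, Q⁆ := by
      have hpos : 0 < Nat.card A₁ := Nat.card_pos
      apply Nat.eq_of_mul_eq_mul_left hpos
      rw [h4, h5, mul_comm]
    have h7 : Nat.Coprime (Nat.card A₁) (A₁.relIndex H) := by
      rw [← h3, h6]
      apply Nat.Coprime.mul_right hc12.symm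
      exact hAcop.coprime_dvd_left (Subgroup.card_dvd_of_le hA₁A)
    rw [← h2, h1] at h7
    exact Nat.Coprime.coprime_dvd_right (dvd_mul_right _ _) h7
  -- `w ↦ w ^ e` is a homomorphism on `W`.
  let Z' : Subgroup ↥W := A₁.subgroupOf W
  have hZ'e : Z'.index = e := rfl
  have hZ'c : Z' ≤ center ↥W := by
    intro z hz
    rw [mem_center_iff]
    intro w
    have h1 : (z : G) ∈ A₁ := mem_subgroupOf.mp hz
    have h2 := mem_centralizer_iff.mp (hWA₁ w.2) (z : G) h1
    exact Subtype.ext h2.symm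
  haveI hZ'n : Z'.Normal := by
    refine ⟨fun n hn g => ?_⟩
    have := mem_center_iff.mp (hZ'c hn) g
    rw [this, mul_assoc, mul_inv_cancel, mul_one]
    exact hn
  let f : ↥W →* ↥W :=
    { toFun := fun w => w ^ e
      map_one' := one_pow _
      map_mul' := fun a b => by
        have := mul_pow_index_of_le_center hZ'c a b
        rwa [hZ'e] at this }
  have hfapp : ∀ w : ↥W, f w = w ^ e := fun _ => rfl
  have hpowZ : ∀ w : ↥W, ((w ^ e : ↥W) : G) ∈ A₁ := by
    intro w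
    have := Subgroup.pow_index_mem Z' w
    rw [hZ'e] at this
    exact mem_subgroupOf.mp this
  have hWker : ⁅W, Q⁆ ≤ (f.ker).map W.subtype := by
    rw [Subgroup.commutator_le]
    intro u hu q hq
    have hv : q * u⁻¹ * q⁻¹ ∈ W :=
      (mem_normalizer_iff.mp (h.le_normalizer_commutator hq) u⁻¹).mp (W.inv_mem hu)
    refine ⟨(⟨u, hu⟩ : ↥W) * ⟨_, hv⟩, ?_, ?_⟩
    · rw [SetLike.mem_coe, MonoidHom.mem_ker, map_mul, hfapp, hfapp]
      have h1 : ((⟨q * u⁻¹ * q⁻¹, hv⟩ : ↥W) ^ e : ↥W) = (⟨u, hu⟩ : ↥W)⁻¹ ^ e := by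
        ext
        simp only [SubmonoidClass.coe_pow, Subgroup.coe_inv]
        rw [conj_pow]
        have h2 := hpowZ (⟨u, hu⟩ : ↥W)⁻¹
        simp only [SubmonoidClass.coe_pow, Subgroup.coe_inv] at h2
        have h3 := hA₁Q _ h2 q hq
        rw [h3]
        group
      rw [h1, inv_pow, mul_inv_cancel]
    · simp only [Subgroup.coe_subtype, Subgroup.coe_mul, commutatorElement_def]
      group
  have hWW : ⁅W, Q⁆ = W := h.commutator_commutator_eq
  rw [hWW] at hWker
  have hpow1 : ∀ w ∈ W, w ^ e = 1 := by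
    intro w hw
    obtain ⟨y, hy, hyw⟩ := hWker hw
    have h1 : y ^ e = 1 := hy
    have h2 := congrArg (fun z : ↥W => (z : G)) h1
    simp only [SubmonoidClass.coe_pow, Subgroup.coe_one] at h2
    have h3 : (y : G) = w := hyw
    rwa [h3] at h2
  -- Conclusion.
  rw [eq_bot_iff]
  intro x hx
  obtain ⟨hxW, hxH, hxC⟩ : x ∈ W ∧ x ∈ H ∧ x ∈ centralizer (Q : Set G) :=
    ⟨(mem_inf.mp hx).1, (mem_inf.mp (mem_inf.mp hx).2).1, (mem_inf.mp (mem_inf.mp hx).2).2⟩
  have hxA : x ∈ A := by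
    have := mem_commutator_of_mem_inf h.normalizes h.coprime hxW hxH hxC
    exact ⟨⟨x, hxH⟩, this, rfl⟩
  have hxA₁ : x ∈ A₁ := mem_inf.mpr ⟨hxA, hxC⟩
  have h1 : x ^ e = 1 := hpow1 x hxW
  have h2 : x ^ Nat.card A₁ = 1 := by
    have := pow_card_eq_one' (G := A₁) (x := ⟨x, hxA₁⟩)
    have h3 := congrArg (fun z : ↥A₁ => (z : G)) this
    simpa only [SubmonoidClass.coe_pow, Subgroup.coe_one] using h3
  have h3 := pow_gcd_eq_one.mpr ⟨h2, h1⟩
  rw [hecop, pow_one] at h3
  rw [mem_bot, h3]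

/-- The orders of `[H, Q]` and `C_H(Q)` are coprime for a `Z`-group `H`. -/
theorem zgroup_coprime_commutator_centralizer {H Q : Subgroup G} [IsZGroup ↥H]
    (h : CoprimeAction Q H) :
    Nat.Coprime (Nat.card ↥⁅H, Q⁆) (Nat.card ↥(H ⊓ centralizer (Q : Set G))) := by
  classical
  by_contra hn
  obtain ⟨r, hr, hrW, hrC⟩ := Nat.Prime.not_coprime_iff_dvd.mp hn
  haveI : Fact r.Prime := ⟨hr⟩
  obtain ⟨y, hy⟩ := exists_prime_orderOf_dvd_card' r hrW
  obtain ⟨x, hx⟩ := exists_prime_orderOf_dvd_card' r hrC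
  have hy' : orderOf (y : G) = r := by rwa [Subgroup.orderOf_coe]
  have hx' : orderOf (x : G) = r := by rwa [Subgroup.orderOf_coe]
  have hWH : ⁅H, Q⁆ ≤ H := h.commutator_le_self
  have hxH : (x : G) ∈ H := (mem_inf.mp x.2).1
  have hyH : (y : G) ∈ H := hWH y.2
  let y' : ↥H := ⟨y, hyH⟩
  let x' : ↥H := ⟨x, hxH⟩
  have hoy : orderOf y' = r := by rw [← Subgroup.orderOf_coe]; exact hy'
  have hox : orderOf x' = r := by rw [← Subgroup.orderOf_coe]; exact hx'
  have hpy : IsPGroup r (zpowers y') := isPGroup_zpowers_iff.mpr ⟨1, by rw [hoy, pow_one]⟩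
  have hpx : IsPGroup r (zpowers x') := isPGroup_zpowers_iff.mpr ⟨1, by rw [hox, pow_one]⟩
  obtain ⟨P, hP⟩ := hpy.exists_le_sylow
  obtain ⟨g, hg⟩ := sylow_conj' P hpx
  have hgx := hg x' (mem_zpowers _)
  have hPc : IsCyclic ↥(P : Subgroup ↥H) := inferInstance
  have he : zpowers (g⁻¹ * x' * g) = zpowers y' := by
    apply eq_of_card_eq_of_le_cyclic hPc ((zpowers_le).mpr hgx) hP
    rw [Nat.card_zpowers, Nat.card_zpowers, hoy]
    have : orderOf (g⁻¹ * x' * g) = orderOf x' := by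
      have h1 : g⁻¹ * x' * g = g⁻¹ * x' * g⁻¹⁻¹ := by group
      rw [h1, orderOf_conj]
    rw [this, hox]
  have hm : g⁻¹ * x' * g ∈ zpowers y' := he ▸ mem_zpowers _
  have hm' : ((g⁻¹ * x' * g : ↥H) : G) ∈ ⁅H, Q⁆ := by
    have hle : zpowers y' ≤ (⁅H, Q⁆).subgroupOf H := (zpowers_le).mpr (mem_subgroupOf.mpr y.2)
    exact mem_subgroupOf.mp (hle hm)
  have hxW : (x : G) ∈ ⁅H, Q⁆ := by
    have h1 := (mem_normalizer_iff.mp (h.le_normalizer_commutator' g.2) _).mp hm'
    have h2 : (g : G) * ((g⁻¹ * x' * g : ↥H) : G) * (g : G)⁻¹ = x := by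
      simp only [Subgroup.coe_mul, Subgroup.coe_inv, x']
      group
    rwa [h2] at h1
  have hbot := zgroup_commutator_inf_centralizer h
  have hmem : (x : G) ∈ ⁅H, Q⁆ ⊓ (H ⊓ centralizer (Q : Set G)) := mem_inf.mpr ⟨hxW, x.2⟩
  rw [hbot, mem_bot] at hmem
  rw [hmem, orderOf_one] at hx'
  exact hr.one_lt.ne hx'

end Cfsg.Agent.Lib.PGroups
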